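import Cfsg.Agent.Lib.Cores.PCore

/-!
# Cores of centralisers of outer automorphisms of prime order

Let `K` have trivial centre, `A` a group of automorphisms containing the inner ones and `x ∈ A` an
outer automorphism of prime order `p` with nontrivial fixed point group `C`.  Under two hypotheses
on `C` (no nontrivial normal `p'`-subgroup in a large piece `S` of `C`, and only powers of `x`
commute with `x` and centralise `C`), the `p'`-core of `C_A(x)` is nontrivial iff `p ∤ |C|`.
-/

set_option autoImplicit false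
set_option linter.unusedSectionVars false
set_option linter.style.haveILetI false

namespace CfsgLib.LocalBalanceAut

universe u

variable {K : Type u} [Group K]

/-- The fixed points of an automorphism. -/
abbrev fixedPts (x : MulAut K) : Subgroup K := MonoidHom.eqLocus x.toMonoidHom (MonoidHom.id K)

theorem mem_fixedPts {x : MulAut K} {k : K} : k ∈ fixedPts x ↔ x k = k := Iff.rfl

theorem mul_conj_mul_inv (a : MulAut K) (k : K) : a * MulAut.conj k * a⁻¹ = MulAut.conj (a k) := by
  refine MulEquiv.ext fun z => ?_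
  simp [MulAut.conj_apply]

theorem conj_injective (hZ : Subgroup.center K = ⊥) :
    Function.Injective (MulAut.conj : K →* MulAut K) := by
  refine (injective_iff_map_eq_one _).2 fun k hk => Subgroup.mem_bot.1 (hZ ▸ ?_)
  refine Subgroup.mem_center_iff.2 fun z => ?_
  have := congrArg (fun f : MulAut K => f z) hk
  simp only [MulAut.conj_apply, MulAut.one_apply] at this
  exact (mul_inv_eq_iff_eq_mul.1 this).symm

theorem commute_conj_iff (hZ : Subgroup.center K = ⊥) {x : MulAut K} {k : K} :
    Commute (MulAut.conj k) x ↔ x k = k := by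
  constructor
  · intro h
    refine conj_injective hZ ?_
    rw [← mul_conj_mul_inv, ← h.eq, mul_inv_cancel_right]
  · intro h
    have := mul_conj_mul_inv x k
    rw [h, mul_inv_eq_iff_eq_mul] at this
    exact this.symm

theorem center_eq_bot_of_isSimpleGroup [IsSimpleGroup K] {a b : K} (hab : a * b ≠ b * a) :
    Subgroup.center K = ⊥ := by
  rcases IsSimpleGroup.eq_bot_or_eq_top_of_normal (Subgroup.center K) inferInstance with h | h
  · exact h
  · exact absurd (Subgroup.mem_center_iff.1 (h ▸ Subgroup.mem_top a) b).symm hab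

theorem center_eq_bot_of_perfect [IsSimpleGroup K] (hp : commutator K = ⊤) :
    Subgroup.center K = ⊥ := by
  rcases IsSimpleGroup.eq_bot_or_eq_top_of_normal (Subgroup.center K) inferInstance with h | h
  · exact h
  · exfalso
    have : commutator K = ⊥ := by
      rw [commutator_def, Subgroup.commutator_eq_bot_iff_le_centralizer]
      intro a _
      rw [Subgroup.mem_centralizer_iff]
      exact fun b _ => Subgroup.mem_center_iff.1 (h ▸ Subgroup.mem_top a) b
    exact top_ne_bot (hp.symm.trans this)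

variable [Finite K]

theorem eq_one_of_mem_zpowers_of_not_mem {x : MulAut K} {p : ℕ} [Fact p.Prime] (hord : orderOf x = p)
    {I : Subgroup (MulAut K)} (hx : x ∉ I) {a : MulAut K} (ha : a ∈ I)
    (hax : a ∈ Subgroup.zpowers x) : a = 1 := by
  by_contra h
  haveI : Finite (Subgroup.zpowers x) :=
    Nat.finite_of_card_ne_zero (by rw [Nat.card_zpowers, hord]; exact (Fact.out : p.Prime).ne_zero)
  have hle : Subgroup.zpowers a ≤ Subgroup.zpowers x := Subgroup.zpowers_le.2 hax
  have hd := Subgroup.card_dvd_of_le hle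
  rw [Nat.card_zpowers, Nat.card_zpowers, hord] at hd
  rcases (Fact.out : p.Prime).eq_one_or_self_of_dvd _ hd with h1 | h1
  · exact h (orderOf_eq_one_iff.1 h1)
  · have he : Subgroup.zpowers a = Subgroup.zpowers x :=
      Subgroup.eq_of_le_of_card_ge hle (by rw [Nat.card_zpowers, Nat.card_zpowers, hord, h1])
    exact hx (Subgroup.zpowers_le.2 ha (he ▸ Subgroup.mem_zpowers x))

/-- The key step: a normal `p'`-subgroup of the centraliser is trivial. -/
theorem normal_eq_bot (hZ : Subgroup.center K = ⊥) {p : ℕ} [Fact p.Prime] {x : MulAut K}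
    (hord : orderOf x = p) (hx : x ∉ (MulAut.conj : K →* MulAut K).range)
    (cent : ∀ a, Commute a x → (∀ k, x k = k → a k = k) → a ∈ Subgroup.zpowers x)
    (S : Subgroup K) (hSx : ∀ s ∈ S, x s = s)
    (hcomm : ∀ k l, x k = k → x l = l → k * l * k⁻¹ * l⁻¹ ∈ S)
    (hS : ∀ M : Subgroup S, M.Normal → (Nat.card M).Coprime p → M = ⊥)
    (C : Subgroup (MulAut K)) (hC : ∀ a ∈ C, Commute a x)
    (hCI : ∀ k, x k = k → MulAut.conj k ∈ C)
    (N : Subgroup C) [hNn : N.Normal] (hN : (Nat.card N).Coprime p) : N = ⊥ := by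
  set N' : Subgroup (MulAut K) := N.map C.subtype with hN'
  have hcN' : (Nat.card N').Coprime p := by
    rwa [hN', Subgroup.card_map_of_injective C.subtype_injective]
  have hconj : ∀ a ∈ N', ∀ k, x k = k → MulAut.conj k * a * (MulAut.conj k)⁻¹ ∈ N' := by
    rintro _ ⟨n, hn, rfl⟩ k hk
    exact ⟨_, hNn.conj_mem n hn ⟨_, hCI k hk⟩, rfl⟩
  have hN'C : ∀ a ∈ N', Commute a x := by
    rintro _ ⟨n, -, rfl⟩
    exact hC _ n.2
  set M : Subgroup K := N'.comap MulAut.conj with hM
  have hMx : ∀ k ∈ M, x k = k := fun k hk => (commute_conj_iff hZ).1 (hN'C _ hk)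
  have hMconj : ∀ k ∈ M, ∀ l, x l = l → l * k * l⁻¹ ∈ M := by
    intro k hk l hl
    rw [hM, Subgroup.mem_comap, map_mul, map_mul, map_inv]
    exact hconj _ hk l hl
  have hMS : M.subgroupOf S = ⊥ := by
    refine hS _ ⟨fun s hs g => ?_⟩ ?_
    · exact hMconj _ hs g (hSx _ g.2)
    · refine Nat.Coprime.coprime_dvd_left ?_ hcN'
      exact Subgroup.card_dvd_of_injective
        ((MulAut.conj.comp (S.subtype.comp (M.subgroupOf S).subtype)).codRestrict N' fun s => s.2)
        fun s t h => Subtype.ext (Subtype.ext (conj_injective hZ (congrArg Subtype.val h)))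
  have hM1 : ∀ k ∈ M, k = 1 := by
    intro k hk
    have hfix : ∀ l, x l = l → MulAut.conj k l = l := by
      intro l hl
      have h1 : k * l * k⁻¹ * l⁻¹ ∈ M := by
        have e : k * l * k⁻¹ * l⁻¹ = k * (l * k⁻¹ * l⁻¹) := by group
        rw [e]
        exact M.mul_mem hk (hMconj _ (M.inv_mem hk) l hl)
      have h2 : (⟨_, hcomm k l (hMx k hk) hl⟩ : S) ∈ M.subgroupOf S := h1
      rw [hMS, Subgroup.mem_bot] at h2
      rw [MulAut.conj_apply]
      exact mul_inv_eq_one.1 (congrArg Subtype.val h2)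
    refine conj_injective hZ ?_
    rw [map_one]
    exact eq_one_of_mem_zpowers_of_not_mem hord hx ⟨k, rfl⟩ (cent _ (hN'C _ hk) hfix)
  refine (Subgroup.map_eq_bot_iff_of_injective _ C.subtype_injective).1 ?_
  rw [← hN', Subgroup.eq_bot_iff_forall]
  intro a ha
  have hfix : ∀ l, x l = l → a l = l := by
    intro l hl
    have h1 : a l * l⁻¹ ∈ M := by
      rw [hM, Subgroup.mem_comap, map_mul, map_inv, ← mul_conj_mul_inv]
      have e : a * MulAut.conj l * a⁻¹ * (MulAut.conj l)⁻¹ =
          a * (MulAut.conj l * a⁻¹ * (MulAut.conj l)⁻¹) := by group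
      rw [e]
      exact N'.mul_mem ha (hconj _ (N'.inv_mem ha) l hl)
    exact mul_inv_eq_one.1 (hM1 _ h1)
  have hax := cent a (hN'C a ha) hfix
  haveI : Finite (MulAut K) := inferInstance
  have h1 : orderOf a ∣ p := by
    rw [← hord, ← Nat.card_zpowers x]
    exact Subgroup.orderOf_dvd_natCard _ hax
  rcases (Fact.out : p.Prime).eq_one_or_self_of_dvd _ h1 with h2 | h2
  · exact orderOf_eq_one_iff.1 h2
  · exfalso
    have h3 : p ∣ Nat.card N' := h2 ▸ Subgroup.orderOf_dvd_natCard _ ha
    exact (Nat.Prime.coprime_iff_not_dvd (Fact.out : p.Prime)).1 hcN'.symm h3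

/-- Failure of local balance at an outer automorphism of prime order. -/
theorem core_ne_bot_iff (hZ : Subgroup.center K = ⊥) (A : Subgroup (MulAut K))
    (hinn : ∀ k : K, MulAut.conj k ∈ A) {p : ℕ} [Fact p.Prime] {x : MulAut K}
    (hord : orderOf x = p) (hx : x ∉ (MulAut.conj : K →* MulAut K).range)
    (hne : ∃ k : K, k ≠ 1 ∧ x k = k)
    (cent : ∀ a, Commute a x → (∀ k, x k = k → a k = k) → a ∈ Subgroup.zpowers x)
    (S : Subgroup K) (hSx : ∀ s ∈ S, x s = s)
    (hcomm : ∀ k l, x k = k → x l = l → k * l * k⁻¹ * l⁻¹ ∈ S)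
    (hS : p ∣ Nat.card (fixedPts x) → ∀ M : Subgroup S, M.Normal → (Nat.card M).Coprime p → M = ⊥) :
    Cfsg.pPrimeCore p ↥(A ⊓ Subgroup.centralizer {x}) ≠ ⊥ ↔
      Nat.Coprime p (Nat.card (fixedPts x)) := by
  set C := A ⊓ Subgroup.centralizer {x} with hC
  have hCx : ∀ a ∈ C, Commute a x := fun a ha =>
    Subgroup.mem_centralizer_singleton_iff.1 ha.2
  have hCI : ∀ k, x k = k → MulAut.conj k ∈ C := fun k hk =>
    ⟨hinn k, Subgroup.mem_centralizer_singleton_iff.2 ((commute_conj_iff hZ).2 hk).eq⟩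
  constructor
  · intro h
    by_contra hnc
    have hpd : p ∣ Nat.card (fixedPts x) := by
      by_contra hnd
      exact hnc ((Nat.Prime.coprime_iff_not_dvd Fact.out).2 hnd)
    refine h (CfsgLib.Cores.pPrimeCore_eq_bot_iff.2 fun N hNn hN => ?_)
    exact normal_eq_bot hZ hord hx cent S hSx hcomm (hS hpd) C hCx hCI N hN
  · intro hcop
    let f : fixedPts x →* C :=
      (MulAut.conj.comp (fixedPts x).subtype).codRestrict C fun k => hCI _ k.2
    have hf : Function.Injective f := fun a b h =>
      Subtype.ext (conj_injective hZ (congrArg Subtype.val h))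
    haveI : f.range.Normal := ⟨by
      rintro _ ⟨k, rfl⟩ a
      have hak : x (a.1 k.1) = a.1 k.1 := by
        rw [← MulAut.mul_apply, ← (hCx _ a.2).eq, MulAut.mul_apply, show x k.1 = k.1 from k.2]
      exact ⟨⟨_, hak⟩, Subtype.ext (mul_conj_mul_inv a.1 k.1).symm⟩⟩
    have hle : f.range ≤ Cfsg.pPrimeCore p C := CfsgLib.Cores.le_pPrimeCore (by
      rw [← Nat.card_congr (MonoidHom.ofInjective hf).toEquiv]
      exact hcop.symm)
    intro hbot
    rw [hbot, le_bot_iff] at hle
    obtain ⟨k, hk1, hk⟩ := hne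
    have hk' : f ⟨k, hk⟩ = 1 := by
      rw [← Subgroup.mem_bot, ← hle]
      exact ⟨_, rfl⟩
    exact hk1 (congrArg Subtype.val (hf (hk'.trans (map_one f).symm)))

/-- The same criterion, read through a conjugate `y = α x α⁻¹`. -/
theorem core_ne_bot_iff_of_conj (hZ : Subgroup.center K = ⊥) (A : Subgroup (MulAut K))
    (hinn : ∀ k : K, MulAut.conj k ∈ A) {p : ℕ} [Fact p.Prime] {x y α : MulAut K}
    (he : α * x * α⁻¹ = y) (hord : orderOf x = p)
    (hy : y ∉ (MulAut.conj : K →* MulAut K).range)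
    (hne : ∃ k : K, k ≠ 1 ∧ y k = k)
    (cent : ∀ a, Commute a y → (∀ k, y k = k → a k = k) → a ∈ Subgroup.zpowers y)
    (S : Subgroup K) (hSy : ∀ s ∈ S, y s = s)
    (hcomm : ∀ k l, y k = k → y l = l → k * l * k⁻¹ * l⁻¹ ∈ S)
    (hS : p ∣ Nat.card (fixedPts y) → ∀ M : Subgroup S, M.Normal → (Nat.card M).Coprime p → M = ⊥) :
    Cfsg.pPrimeCore p ↥(A ⊓ Subgroup.centralizer {x}) ≠ ⊥ ↔
      Nat.Coprime p (Nat.card (fixedPts x)) := by
  set c : MulAut K ≃* MulAut K := MulAut.conj α with hc
  have hordy : orderOf y = p := by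
    rw [← he, ← hord]
    exact c.orderOf_eq x
  have hinn' : ∀ k : K, MulAut.conj k ∈ A.map c.toMonoidHom := fun k =>
    ⟨MulAut.conj (α⁻¹ k), hinn _, by
      show α * MulAut.conj (α⁻¹ k) * α⁻¹ = _
      rw [mul_conj_mul_inv, MulAut.apply_inv_self]⟩
  have hmap : (A ⊓ Subgroup.centralizer {x}).map c.toMonoidHom =
      A.map c.toMonoidHom ⊓ Subgroup.centralizer {y} := by
    rw [Subgroup.map_inf _ _ _ c.injective]
    congr 1
    ext a
    rw [Subgroup.mem_map_equiv, Subgroup.mem_centralizer_singleton_iff,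
      Subgroup.mem_centralizer_singleton_iff]
    conv_lhs => rw [← c.injective.eq_iff, map_mul, map_mul, MulEquiv.apply_symm_apply]
    rw [show c x = y from he]
  have e : ↥(A ⊓ Subgroup.centralizer {x}) ≃* ↥(A.map c.toMonoidHom ⊓ Subgroup.centralizer {y}) :=
    ((A ⊓ Subgroup.centralizer {x}).equivMapOfInjective c.toMonoidHom c.injective).trans
      (MulEquiv.subgroupCongr hmap)
  have hfix : Nat.card (fixedPts x) = Nat.card (fixedPts y) :=
    Nat.card_congr (α.toEquiv.subtypeEquiv fun k => by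
      show x k = k ↔ y (α k) = α k
      rw [← he, MulAut.mul_apply, MulAut.mul_apply, MulAut.inv_apply_self, α.injective.eq_iff])
  rw [hfix, ← core_ne_bot_iff hZ (A.map c.toMonoidHom) hinn' hordy hy hne cent S hSy hcomm hS]
  refine not_congr ?_
  rw [← CfsgLib.Cores.map_pPrimeCore_equiv e,
    Subgroup.map_eq_bot_iff_of_injective _ e.injective]

end CfsgLib.LocalBalanceAut
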