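import Cfsg.Agent.Lib.LocalBalanceAut.Core

/-!
# Cores of centralisers of outer automorphisms, through a normal piece of the fixed points

A variant of `core_ne_bot_iff` in which the piece `S` of the fixed point group is only normal in it,
and only powers of `x` commute with `x` and centralise `S`.
-/

set_option autoImplicit false
set_option linter.unusedSectionVars false
set_option linter.style.haveILetI false

namespace CfsgLib.LocalBalanceAut

universe u

variable {K : Type u} [Group K] [Finite K]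

/-- A normal `p'`-subgroup of the centraliser is trivial. -/
theorem normal_eq_bot_of_normalized (hZ : Subgroup.center K = ⊥) {p : ℕ} [Fact p.Prime] {x : MulAut K}
    (hord : orderOf x = p) (hx : x ∉ (MulAut.conj : K →* MulAut K).range)
    (S : Subgroup K) (hSx : ∀ s ∈ S, x s = s)
    (hnorm : ∀ k, x k = k → ∀ s ∈ S, k * s * k⁻¹ ∈ S)
    (cent : ∀ a, Commute a x → (∀ s ∈ S, a s = s) → a ∈ Subgroup.zpowers x)
    (hS : ∀ M : Subgroup S, M.Normal → (Nat.card M).Coprime p → M = ⊥)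
    (C : Subgroup (MulAut K)) (hC : ∀ a ∈ C, Commute a x)
    (hCI : ∀ k, x k = k → MulAut.conj k ∈ C)
    (N : Subgroup C) [hNn : N.Normal] (hN : (Nat.card N).Coprime p) : N = ⊥ := by
  set N' : Subgroup (MulAut K) := N.map C.subtype with hN'
  have hcN' : (Nat.card N').Coprime p := by
    rwa [hN', Subgroup.card_map_of_injective C.subtype_injective]
  have hconj : ∀ a ∈ N', ∀ k, x k = k → MulAut.conj k * a * (MulAut.conj k)⁻¹ ∈ N' := by
    rintro _ ⟨n, hn, rfl⟩ k hk
    exact ⟨_, hNn.conj_mem n hn ⟨_, hCI k hk⟩, rfl⟩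
  have hN'C : ∀ a ∈ N', Commute a x := by
    rintro _ ⟨n, -, rfl⟩
    exact hC _ n.2
  set M : Subgroup K := N'.comap MulAut.conj with hM
  have hMx : ∀ k ∈ M, x k = k := fun k hk => (commute_conj_iff hZ).1 (hN'C _ hk)
  have hMconj : ∀ k ∈ M, ∀ l, x l = l → l * k * l⁻¹ ∈ M := by
    intro k hk l hl
    rw [hM, Subgroup.mem_comap, map_mul, map_mul, map_inv]
    exact hconj _ hk l hl
  have hMS : M.subgroupOf S = ⊥ := by
    refine hS _ ⟨fun s hs g => ?_⟩ ?_
    · exact hMconj _ hs g (hSx _ g.2)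
    · refine Nat.Coprime.coprime_dvd_left ?_ hcN'
      exact Subgroup.card_dvd_of_injective
        ((MulAut.conj.comp (S.subtype.comp (M.subgroupOf S).subtype)).codRestrict N' fun s => s.2)
        fun s t h => Subtype.ext (Subtype.ext (conj_injective hZ (congrArg Subtype.val h)))
  have hM1 : ∀ k ∈ M, k = 1 := by
    intro k hk
    have hfix : ∀ l ∈ S, MulAut.conj k l = l := by
      intro l hl
      have h1 : k * l * k⁻¹ * l⁻¹ ∈ M := by
        have e : k * l * k⁻¹ * l⁻¹ = k * (l * k⁻¹ * l⁻¹) := by group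
        rw [e]
        exact M.mul_mem hk (hMconj _ (M.inv_mem hk) l (hSx l hl))
      have hS' : k * l * k⁻¹ * l⁻¹ ∈ S := S.mul_mem (hnorm k (hMx k hk) l hl) (S.inv_mem hl)
      have h2 : (⟨_, hS'⟩ : S) ∈ M.subgroupOf S := h1
      rw [hMS, Subgroup.mem_bot] at h2
      rw [MulAut.conj_apply]
      exact mul_inv_eq_one.1 (congrArg Subtype.val h2)
    refine conj_injective hZ ?_
    rw [map_one]
    exact eq_one_of_mem_zpowers_of_not_mem hord hx ⟨k, rfl⟩ (cent _ (hN'C _ hk) hfix)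
  refine (Subgroup.map_eq_bot_iff_of_injective _ C.subtype_injective).1 ?_
  rw [← hN', Subgroup.eq_bot_iff_forall]
  intro a ha
  have hfix : ∀ l ∈ S, a l = l := by
    intro l hl
    have hl' := hSx l hl
    have h1 : a l * l⁻¹ ∈ M := by
      rw [hM, Subgroup.mem_comap, map_mul, map_inv, ← mul_conj_mul_inv]
      have e : a * MulAut.conj l * a⁻¹ * (MulAut.conj l)⁻¹ =
          a * (MulAut.conj l * a⁻¹ * (MulAut.conj l)⁻¹) := by group
      rw [e]
      exact N'.mul_mem ha (hconj _ (N'.inv_mem ha) l hl')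
    exact mul_inv_eq_one.1 (hM1 _ h1)
  have hax := cent a (hN'C a ha) hfix
  have h1 : orderOf a ∣ p := by
    rw [← hord, ← Nat.card_zpowers x]
    exact Subgroup.orderOf_dvd_natCard _ hax
  rcases (Fact.out : p.Prime).eq_one_or_self_of_dvd _ h1 with h2 | h2
  · exact orderOf_eq_one_iff.1 h2
  · exfalso
    have h3 : p ∣ Nat.card N' := h2 ▸ Subgroup.orderOf_dvd_natCard _ ha
    exact (Nat.Prime.coprime_iff_not_dvd (Fact.out : p.Prime)).1 hcN'.symm h3

/-- If the fixed points have order prime to `p` the core is nontrivial. -/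
theorem core_ne_bot_of_coprime (hZ : Subgroup.center K = ⊥) (A : Subgroup (MulAut K))
    (hinn : ∀ k : K, MulAut.conj k ∈ A) {p : ℕ} {x : MulAut K}
    (hne : ∃ k : K, k ≠ 1 ∧ x k = k) (hcop : Nat.Coprime p (Nat.card (fixedPts x))) :
    Cfsg.pPrimeCore p ↥(A ⊓ Subgroup.centralizer {x}) ≠ ⊥ := by
  set C := A ⊓ Subgroup.centralizer {x} with hC
  have hCx : ∀ a ∈ C, Commute a x := fun a ha =>
    Subgroup.mem_centralizer_singleton_iff.1 ha.2
  have hCI : ∀ k, x k = k → MulAut.conj k ∈ C := fun k hk =>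
    ⟨hinn k, Subgroup.mem_centralizer_singleton_iff.2 ((commute_conj_iff hZ).2 hk).eq⟩
  let f : fixedPts x →* C :=
    (MulAut.conj.comp (fixedPts x).subtype).codRestrict C fun k => hCI _ k.2
  have hf : Function.Injective f := fun a b h =>
    Subtype.ext (conj_injective hZ (congrArg Subtype.val h))
  haveI : f.range.Normal := ⟨by
    rintro _ ⟨k, rfl⟩ a
    have hak : x (a.1 k.1) = a.1 k.1 := by
      rw [← MulAut.mul_apply, ← (hCx _ a.2).eq, MulAut.mul_apply, show x k.1 = k.1 from k.2]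
    exact ⟨⟨_, hak⟩, Subtype.ext (mul_conj_mul_inv a.1 k.1).symm⟩⟩
  have hle : f.range ≤ Cfsg.pPrimeCore p C := CfsgLib.Cores.le_pPrimeCore (by
    rw [← Nat.card_congr (MonoidHom.ofInjective hf).toEquiv]
    exact hcop.symm)
  intro hbot
  rw [hbot, le_bot_iff] at hle
  obtain ⟨k, hk1, hk⟩ := hne
  have hk' : f ⟨k, hk⟩ = 1 := by
    rw [← Subgroup.mem_bot, ← hle]
    exact ⟨_, rfl⟩
  exact hk1 (congrArg Subtype.val (hf (hk'.trans (map_one f).symm)))

/-- The core is trivial when the fixed points have a piece without normal `p'`-subgroups. -/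
theorem core_eq_bot_of_normalized (hZ : Subgroup.center K = ⊥) (A : Subgroup (MulAut K))
    (hinn : ∀ k : K, MulAut.conj k ∈ A) {p : ℕ} [Fact p.Prime] {x : MulAut K}
    (hord : orderOf x = p) (hx : x ∉ (MulAut.conj : K →* MulAut K).range)
    (S : Subgroup K) (hSx : ∀ s ∈ S, x s = s)
    (hnorm : ∀ k, x k = k → ∀ s ∈ S, k * s * k⁻¹ ∈ S)
    (cent : ∀ a, Commute a x → (∀ s ∈ S, a s = s) → a ∈ Subgroup.zpowers x)
    (hS : ∀ M : Subgroup S, M.Normal → (Nat.card M).Coprime p → M = ⊥) :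
    Cfsg.pPrimeCore p ↥(A ⊓ Subgroup.centralizer {x}) = ⊥ :=
  CfsgLib.Cores.pPrimeCore_eq_bot_iff.2 fun N _ hN =>
    normal_eq_bot_of_normalized hZ hord hx S hSx hnorm cent hS (A ⊓ Subgroup.centralizer {x})
      (fun _ ha => Subgroup.mem_centralizer_singleton_iff.1 ha.2)
      (fun k hk => ⟨hinn k, Subgroup.mem_centralizer_singleton_iff.2 ((commute_conj_iff hZ).2 hk).eq⟩)
      N hN

/-- Failure of local balance at an outer automorphism of prime order, through a normal piece. -/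
theorem core_ne_bot_iff_of_normalized (hZ : Subgroup.center K = ⊥) (A : Subgroup (MulAut K))
    (hinn : ∀ k : K, MulAut.conj k ∈ A) {p : ℕ} [Fact p.Prime] {x : MulAut K}
    (hord : orderOf x = p) (hx : x ∉ (MulAut.conj : K →* MulAut K).range)
    (hne : ∃ k : K, k ≠ 1 ∧ x k = k)
    (S : Subgroup K) (hSx : ∀ s ∈ S, x s = s)
    (hnorm : ∀ k, x k = k → ∀ s ∈ S, k * s * k⁻¹ ∈ S)
    (cent : ∀ a, Commute a x → (∀ s ∈ S, a s = s) → a ∈ Subgroup.zpowers x)
    (hS : p ∣ Nat.card (fixedPts x) → ∀ M : Subgroup S, M.Normal → (Nat.card M).Coprime p → M = ⊥) :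
    Cfsg.pPrimeCore p ↥(A ⊓ Subgroup.centralizer {x}) ≠ ⊥ ↔
      Nat.Coprime p (Nat.card (fixedPts x)) := by
  refine ⟨fun h => ?_, core_ne_bot_of_coprime hZ A hinn hne⟩
  by_contra hnc
  have hpd : p ∣ Nat.card (fixedPts x) := by
    by_contra hnd
    exact hnc ((Nat.Prime.coprime_iff_not_dvd Fact.out).2 hnd)
  exact h (core_eq_bot_of_normalized hZ A hinn hord hx S hSx hnorm cent (hS hpd))

end CfsgLib.LocalBalanceAut
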