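import Cfsg.Agent.Lib.ReflectionsSpinor.POmegaDescent
import Cfsg.Agent.Lib.ClassicalForms.Ortho.Index

/-!
# Semilinear maps centralising the orthogonal group over a subfield

A semilinear automorphism of `PΩ(Q)` that fixes the image of `Ω(Q₀)`, for a datum expressing `Q` as
a multiple of the extension of `Q₀`, is the twisted field automorphism of its field part.
-/

set_option autoImplicit false
set_option linter.unusedSectionVars false
set_option linter.style.haveILetI false
set_option maxHeartbeats 1000000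

open Matrix CfsgLib.OrthGen QuadraticMap
open CfsgLib.ReflectionsSpinor CfsgLib.ReflectionsSpinor.POmegaAut CfsgLib.ReflectionsSpinor.POmegaQuot
  CfsgLib.ReflectionsSpinor.POmegaField

namespace CfsgLib.LocalBalanceAut.DatumField

universe u v

variable {F : Type u} [Field F] {F₀ : Type v} [Field F₀]
  {ι κ : Type} [Fintype ι] [DecidableEq ι] [Fintype κ] [DecidableEq κ]
  {Q : QuadraticForm F (ι → F)} {i : F₀ →+* F} {e : κ ≃ ι} {Q₀ : QuadraticForm F₀ (κ → F₀)}
  (D : Datum Q i e Q₀)

/-- Two independent vectors of the small space stay independent. -/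
theorem emb_indep {u w : κ → F₀} (hu : u ≠ 0) (hind : ∀ d : F₀, w ≠ d • u) {x y : F}
    (h : x • D.emb u + y • D.emb w = 0) : x = 0 ∧ y = 0 := by
  have h1 : x • (i ∘ u ∘ e.symm) + y • (i ∘ w ∘ e.symm) = (0 : ι → F) := by
    have h2 := congrArg ((Units.val D.H⁻¹ : Matrix ι ι F) *ᵥ ·) h
    simpa [Datum.emb, Matrix.mulVec_add, Matrix.mulVec_smul, Matrix.mulVec_mulVec] using h2
  have h3 : ∀ k, x * i (u k) + y * i (w k) = 0 := fun k => by
    simpa using congrFun h1 (e k)
  obtain ⟨k, hk⟩ : ∃ k, u k ≠ 0 := Function.ne_iff.1 hu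
  have hik : i (u k) ≠ 0 := (map_ne_zero i).2 hk
  have hy : y = 0 := by
    by_contra hy
    refine hind (w k / u k) (funext fun j => i.injective ?_)
    rw [Pi.smul_apply, smul_eq_mul, map_mul, map_div₀]
    field_simp
    refine mul_left_cancel₀ hy ?_
    linear_combination i (u k) * h3 j - i (u j) * h3 k
  exact ⟨(mul_eq_zero.1 (by simpa [hy] using h3 k)).resolve_right hik, hy⟩

theorem emb_eq_zero {v : κ → F₀} (h : D.emb v = 0) : v = 0 := by
  have h2 := congrArg ((Units.val D.H⁻¹ : Matrix ι ι F) *ᵥ ·) h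
  simp only [Datum.emb, Matrix.mulVec_mulVec, Units.inv_mul, Matrix.one_mulVec, Matrix.mulVec_zero] at h2
  exact funext fun k => i.injective (by simpa using congrFun h2 (e k))

theorem twist_mul (σ τ : F ≃+* F) : D.twist σ * gmap σ (D.twist τ) = D.twist (σ * τ) := by
  rw [Datum.twist, Datum.twist, Datum.twist, map_mul, map_inv, gmap_gmap]
  group

theorem twist_one : D.twist 1 = 1 := by
  rw [Datum.twist, gmap_one, mul_inv_cancel]

theorem fieldAut_mul {σ τ : F ≃+* F} (hσ : ∀ x, σ (i x) = i x) (hτ : ∀ x, τ (i x) = i x)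
    (hστ : ∀ x, (σ * τ) (i x) = i x) :
    D.fieldAut σ hσ * D.fieldAut τ hτ = D.fieldAut (σ * τ) hστ := by
  rw [Datum.fieldAut, Datum.fieldAut, semiAut_mul]
  exact semiAut_congr (twist_mul D σ τ) rfl

theorem fieldAut_one (h : ∀ x, (1 : F ≃+* F) (i x) = i x) : D.fieldAut 1 h = 1 := by
  rw [Datum.fieldAut, semiAut_congr (h' := semi_of_sim (one_mem _)) (twist_one D) rfl, semiAut_one]

theorem pow_fix {σ : F ≃+* F} (hi : ∀ x, σ (i x) = i x) : ∀ (k : ℕ) (x : F₀), (σ ^ k) (i x) = i x
  | 0, _ => rfl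
  | k + 1, x => by
    rw [pow_succ, RingAut.mul_apply, hi, pow_fix hi k]

theorem fieldAut_congr {σ τ : F ≃+* F} (hστ : σ = τ) (hσ : ∀ x, σ (i x) = i x)
    (hτ : ∀ x, τ (i x) = i x) : D.fieldAut σ hσ = D.fieldAut τ hτ := by
  subst hστ; rfl

theorem fieldAut_pow {σ : F ≃+* F} (hi : ∀ x, σ (i x) = i x) :
    ∀ k, D.fieldAut (σ ^ k) (pow_fix hi k) = D.fieldAut σ hi ^ k
  | 0 => (fieldAut_congr D (pow_zero σ) (pow_fix hi 0) fun _ => rfl).trans
      ((fieldAut_one D _).trans (pow_zero _).symm)
  | k + 1 => by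
    rw [pow_succ' (D.fieldAut σ hi), ← fieldAut_pow hi k,
      fieldAut_mul D hi (pow_fix hi k) fun x => by rw [← pow_succ']; exact pow_fix hi _ x]
    exact fieldAut_congr D (pow_succ' σ k) _ _

/-- The image of the small commutator subgroup. -/
theorem bcIso_mem_omega {t : ↥(Cfsg.isometryGroup F₀ (⇑Q₀))} (ht : t ∈ Cfsg.Omega F₀ (⇑Q₀)) :
    D.bcIso t ∈ Cfsg.Omega F (⇑Q) := by
  have h : (Cfsg.Omega F₀ (⇑Q₀)).map D.bcIso ≤ Cfsg.Omega F (⇑Q) := by
    rw [Cfsg.Omega, commutator_def, Subgroup.map_commutator]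
    exact Subgroup.commutator_mono le_top le_top
  exact h ⟨t, ht, rfl⟩

/-- `Ω(Q₀) → Ω(Q)`. -/
def subOmega : ↥(Cfsg.Omega F₀ (⇑Q₀)) →* ↥(Cfsg.Omega F (⇑Q)) :=
  (D.bcIso.comp (Cfsg.Omega F₀ (⇑Q₀)).subtype).codRestrict (Cfsg.Omega F (⇑Q))
    fun t => bcIso_mem_omega D t.2

theorem coe_subOmega (t : ↥(Cfsg.Omega F₀ (⇑Q₀))) : (subOmega D t).1.1 = D.bc t.1.1 := rfl

/-- `Ω(Q₀) → PΩ(Q)`. -/
def subHom : ↥(Cfsg.Omega F₀ (⇑Q₀)) →* Cfsg.POmega F (⇑Q) :=
  (QuotientGroup.mk' _).comp (subOmega D)

theorem subHom_apply (t : ↥(Cfsg.Omega F₀ (⇑Q₀))) : subHom D t = cl (⇑Q) (subOmega D t) := rfl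

variable [Finite F] [Finite F₀]

/-- A semilinear map commuting with `Ω` of the small form is a scalar times the twist. -/
theorem scalar_twist_of_centralizes (N : Nd Q) (N₀ : Nd Q₀) (g : GL ι F) (τ : F ≃+* F)
    (hc : ∀ t ∈ Cfsg.Omega F₀ (⇑Q₀), g * gmap τ (D.bc t.1) * g⁻¹ = D.bc t.1) :
    (∀ x, τ (i x) = i x) ∧
      ∃ c : Fˣ, g = scalarGL c * D.twist τ := by
  classical
  obtain ⟨q, hq, hQ0, hg0, hcard⟩ := N₀.good
  obtain rfl : q = Q₀ := QuadraticMap.ext hq
  have hn : 7 ≤ Module.finrank F₀ (κ → F₀) := by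
    rwa [Module.finrank_fintype_fun_eq_card]
  have hai : (D.a : F) ≠ 0 := D.a.ne_zero
  let Q' : QuadraticForm F (ι → F) := (D.a : F)⁻¹ • Q
  have hQemb : ∀ v, Q' (D.emb v) = i (q v) := fun v => by
    show (D.a : F)⁻¹ * Q (D.emb v) = _
    rw [D.Q_emb, inv_mul_cancel_left₀ hai]
  have hpol : ∀ v w, polar Q' (D.emb v) (D.emb w) = i (polar q v w) := fun v w => by
    simp only [polar, ← D.emb_add, hQemb, map_sub]
  have hnd' : ∀ x, (∀ y, polar Q' x y = 0) → x = 0 := fun x hx => N.nondeg.1 x fun y => by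
    have h := hx y
    rw [show ⇑Q' = (D.a : F)⁻¹ • ⇑Q from rfl, QuadraticMap.polar_smul, smul_eq_mul,
      mul_eq_zero] at h
    exact h.resolve_left (inv_ne_zero hai)
  set T : (ι → F) → (ι → F) := semiVec g τ with hT
  have Tadd : ∀ x y, T (x + y) = T x + T y := fun x y => by
    rw [hT, semiVec, semiVec, semiVec, show τ ∘ (x + y) = τ ∘ x + τ ∘ y from
      funext fun i => map_add τ _ _, Matrix.mulVec_add]
  have Tsmul : ∀ (d : F) x, T (d • x) = τ d • T x := fun d x => by
    rw [hT, semiVec, semiVec, show τ ∘ (d • x) = τ d • (τ ∘ x) from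
      funext fun i => map_mul τ _ _, Matrix.mulVec_smul]
  have Tinj : ∀ x, T x = 0 → x = 0 := fun x hx => by
    have h := congrArg ((Units.val g⁻¹ : Matrix ι ι F).mulVec) hx
    rw [hT, semiVec, Matrix.mulVec_mulVec, Units.inv_mul, Matrix.one_mulVec, Matrix.mulVec_zero] at h
    exact funext fun i => τ.injective ((congrFun h i).trans (map_zero τ).symm)
  have line : ∀ u : κ → F₀, q u = 0 → u ≠ 0 → ∃ c : F, T (D.emb u) = c • D.emb u := by
    intro u hu hu0
    obtain ⟨z, hz, hp⟩ := (CfsgLib.ClassicalForms.Sec.top q).exists_partner hQ0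
      (CfsgLib.ClassicalForms.Sec.mem_top u) hu hu0
    obtain ⟨-, hQz, huz⟩ := hp
    have hzu : polar q z u = 1 := by rw [polar_comm]; exact huz
    set x := T (D.emb u) with hx
    have hfix : ∀ w, polar q u w = 0 →
        polar Q' x (D.emb u) • D.emb w -
          (polar Q' x (D.emb w) + i (q w) * polar Q' x (D.emb u)) • D.emb u = 0 := by
      intro w hw
      obtain ⟨t, ht, hts⟩ : ∃ t ∈ Cfsg.Omega F₀ (⇑q), ∀ y,
          (Units.val t.1 : Matrix κ κ F₀) *ᵥ y =
            y + polar q y u • w - (polar q y w + q w * polar q y u) • u := by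
        have hs := CfsgLib.ClassicalForms.siegel_mem_siegelGroup hu hw
        rw [← CfsgLib.ClassicalForms.commutator_eq_siegelGroup hQ0 (by omega) hg0] at hs
        let e' := CfsgLib.ClassicalForms.commutatorCongr
          (CfsgLib.ClassicalForms.isoMat q fun _ => rfl)
        refine ⟨(e'.symm ⟨_, hs⟩).1, (e'.symm ⟨_, hs⟩).2, fun y => ?_⟩
        have hts : CfsgLib.ClassicalForms.isoMat q (fun _ => rfl) (e'.symm ⟨_, hs⟩).1 = _ :=
          congrArg Subtype.val (e'.apply_symm_apply _)
        rw [← CfsgLib.ClassicalForms.isoMat_apply q (fun _ => rfl), hts]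
        exact CfsgLib.ClassicalForms.siegel_apply u w hu hw y
      have hlin : ∀ y : ι → F, (Units.val (D.bc t.1) : Matrix ι ι F) *ᵥ y =
          y + polar Q' y (D.emb u) • D.emb w -
            (polar Q' y (D.emb w) + i (q w) * polar Q' y (D.emb u)) • D.emb u := by
        intro y
        have hy : y ∈ Submodule.span F (Set.range D.emb) := by rw [D.span_emb]; trivial
        induction hy using Submodule.span_induction with
        | mem y hy =>
          obtain ⟨y, rfl⟩ := hy
          rw [D.bc_emb, hts, hpol, hpol, ← map_mul, ← map_add, sub_eq_add_neg, D.emb_add, D.emb_add,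
            D.emb_smul, ← neg_smul, D.emb_smul, map_neg, neg_smul, ← sub_eq_add_neg]
        | zero => simp
        | add a b _ _ ha hb =>
          rw [Matrix.mulVec_add, ha, hb, polar_add_left, polar_add_left]
          module
        | smul c a _ ha =>
          rw [Matrix.mulVec_smul, ha, polar_smul_left, polar_smul_left, smul_eq_mul, smul_eq_mul]
          module
      have hfixu : (Units.val t.1 : Matrix κ κ F₀) *ᵥ u = u := by
        rw [hts]; simp [hu, hw]
      have h1 : (Units.val (D.bc t.1) : Matrix ι ι F) *ᵥ x = x := by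
        conv_lhs => rw [← hc t ht]
        rw [hx, hT, semiVec, Units.val_mul, Units.val_mul, Matrix.mulVec_mulVec, Matrix.mul_assoc,
          Units.inv_mul, Matrix.mul_one, ← Matrix.mulVec_mulVec, coe_gmap, gmap_mulVec, D.bc_emb, hfixu]
      rw [hlin] at h1
      linear_combination (norm := module) h1
    obtain ⟨w₀, hw0, hw₀⟩ := CfsgLib.ClassicalForms.exists_ne_zero_ker
      ![QuadraticMap.polarBilin q u, QuadraticMap.polarBilin q z] (by omega)
    have hu_w0 : polar q u w₀ = 0 := by simpa using hw₀ 0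
    have hz_w0 : polar q z w₀ = 0 := by simpa using hw₀ 1
    have hα : polar Q' x (D.emb u) = 0 := by
      by_contra hne
      have h1 := hfix w₀ hu_w0
      have h2' := congrArg (polar Q' (D.emb z)) h1
      simp only [polar_sub_right, polar_smul_right, polar_zero_right, smul_eq_mul, hpol, hz_w0, hzu,
        map_zero, map_one, mul_zero, zero_sub, mul_one, neg_eq_zero] at h2'
      rw [h2', zero_smul, sub_zero, smul_eq_zero] at h1
      exact hw0 (emb_eq_zero D (h1.resolve_left hne))
    have hβ : ∀ w, polar q u w = 0 → polar Q' x (D.emb w) = 0 := fun w hw => by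
      have h1 := hfix w hw
      rw [hα, zero_smul, zero_sub, mul_zero, add_zero, neg_eq_zero, smul_eq_zero] at h1
      exact h1.resolve_right fun h => hu0 (emb_eq_zero D h)
    refine ⟨polar Q' x (D.emb z), sub_eq_zero.1 (hnd' _ fun y => ?_)⟩
    have hy : y ∈ Submodule.span F (Set.range D.emb) := by rw [D.span_emb]; trivial
    induction hy using Submodule.span_induction with
    | mem y hy =>
      obtain ⟨y, rfl⟩ := hy
      have h := hβ (y + (-polar q u y) • z) (by simp [polar_add_right, polar_smul_right, huz])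
      rw [D.emb_add, D.emb_smul, polar_add_right, polar_smul_right, map_neg, smul_eq_mul] at h
      rw [polar_sub_left, polar_smul_left, hpol, smul_eq_mul]
      linear_combination h
    | zero => rw [polar_zero_right]
    | add a b _ _ ha hb => rw [polar_add_right, ha, hb, add_zero]
    | smul c a _ ha => rw [polar_smul_right, ha, smul_zero]
  have key : ∀ u w, q u = 0 → q w = 0 → u ≠ 0 → polar q u w = 0 → (∀ d : F₀, w ≠ d • u) →
      ∀ c c' : F, T (D.emb u) = c • D.emb u → T (D.emb w) = c' • D.emb w → c = c' := by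
    intro u w hu hw hu0 huw hind c c' hc' hc''
    have hsum : u + w ≠ 0 := fun h =>
      hind (-1) (by rw [neg_one_smul]; exact eq_neg_of_add_eq_zero_right h)
    obtain ⟨d, hd⟩ := line (u + w) (by simp [QuadraticMap.map_add ⇑q, hu, hw, huw]) hsum
    rw [D.emb_add, Tadd, hc', hc''] at hd
    obtain ⟨h1, h2⟩ := emb_indep D hu0 hind (x := c - d) (y := c' - d)
      (by linear_combination (norm := module) hd)
    rw [sub_eq_zero.1 h1, sub_eq_zero.1 h2]
  obtain ⟨u₀, f, he, hf, hef⟩ := CfsgLib.ClassicalForms.exists_hypPair hQ0 (by omega)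
  have hu₀ : u₀ ≠ 0 :=
    CfsgLib.ClassicalForms.IsHypPair.fst_ne_zero (Q := q) (p := (u₀, f)) ⟨he, hf, hef⟩
  obtain ⟨c, hcu⟩ := line u₀ he hu₀
  have hc0 : c ≠ 0 := fun h =>
    hu₀ (emb_eq_zero D (Tinj _ (by rw [hcu, h, zero_smul])))
  have hτ : ∀ d, τ (i d) = i d := by
    intro d
    by_cases hd : d = 0
    · rw [hd, map_zero, map_zero]
    obtain ⟨x, hx0, hQx, hx⟩ := CfsgLib.ClassicalForms.exists_singular_ker q
      ![QuadraticMap.polarBilin q u₀, QuadraticMap.polarBilin q f] (by omega)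
    have hex : polar q u₀ x = 0 := by simpa using hx 0
    have hfx : polar q f x = 0 := by simpa using hx 1
    have hind : ∀ t : F₀, x ≠ t • u₀ := fun t ht => by
      rw [ht, polar_smul_right, polar_comm, hef, smul_eq_mul, mul_one] at hfx
      exact hx0 (by rw [ht, hfx, zero_smul])
    obtain ⟨cx, hcx⟩ := line x hQx hx0
    have h1 := key u₀ x he hQx hu₀ hex hind c cx hcu hcx
    have hid : i d ≠ 0 := (map_ne_zero i).2 hd
    have h2 := key (d • u₀) x (by rw [QuadraticMap.map_smul, he, smul_zero]) hQx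
      (smul_ne_zero hd hu₀) (by rw [polar_smul_left, hex, smul_zero])
      (fun t ht => hind (t * d) (by rw [ht, smul_smul])) (τ (i d) * c * (i d)⁻¹) cx
      (by rw [D.emb_smul, Tsmul, hcu, smul_smul, smul_smul, inv_mul_cancel_right₀ hid]) hcx
    rw [← h1] at h2
    field_simp at h2
    exact h2
  refine ⟨hτ, ⟨Units.mk0 c hc0, ?_⟩⟩
  have hall : ∀ w, q w = 0 → T (D.emb w) = c • D.emb w := by
    intro w hw
    by_cases hw0 : w = 0
    · rw [hw0, ← zero_smul F₀ (0 : κ → F₀), D.emb_smul, Tsmul, map_zero i, map_zero τ, zero_smul,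
        zero_smul, smul_zero]
    obtain ⟨c', hc'⟩ := line w hw hw0
    by_cases hind : ∀ d : F₀, w ≠ d • u₀
    · by_cases hew : polar q u₀ w = 0
      · rw [key u₀ w he hw hu₀ hew hind c c' hcu hc', hc']
      · obtain ⟨x, hx0, hQx, hx⟩ := CfsgLib.ClassicalForms.exists_singular_ker q
          ![QuadraticMap.polarBilin q u₀, QuadraticMap.polarBilin q w] (by omega)
        have hex : polar q u₀ x = 0 := by simpa using hx 0
        have hwx : polar q w x = 0 := by simpa using hx 1
        obtain ⟨d, hd⟩ := line x hQx hx0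
        have h1 := key u₀ x he hQx hu₀ hex (fun t ht => by
          rw [ht, polar_smul_right, polar_comm (⇑q) w u₀, smul_eq_mul] at hwx
          rcases mul_eq_zero.1 hwx with h | h
          · exact hx0 (by rw [ht, h, zero_smul])
          · exact hew h) c d hcu hd
        have h2 := key w x hw hQx hw0 hwx (fun t ht => by
          rw [ht, polar_smul_right, smul_eq_mul] at hex
          rcases mul_eq_zero.1 hex with h | h
          · exact hx0 (by rw [ht, h, zero_smul])
          · exact hew h) c' d hc' hd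
        rw [hc', h2, ← h1]
    · simp only [not_forall, not_not] at hind
      obtain ⟨d, rfl⟩ := hind
      rw [D.emb_smul, Tsmul, hcu, hτ, smul_comm]
  have hlin : ∀ v, T (D.emb v) = c • D.emb v := by
    intro v
    by_cases hv : v = 0
    · rw [hv]; exact hall 0 (QuadraticMap.map_zero q)
    obtain ⟨u, -, hQu, huv⟩ := (CfsgLib.ClassicalForms.Sec.top q).exists_singular_polar_one hQ0
      (by omega) (CfsgLib.ClassicalForms.Sec.mem_top v) hv
    have hs : q (v + (-q v) • u) = 0 := by
      simp [QuadraticMap.map_add ⇑q, QuadraticMap.map_smul, hQu, polar_smul_right,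
        polar_comm (⇑q) v u, huv]
    have hv' : D.emb v = D.emb (v + (-q v) • u) + i (q v) • D.emb u := by
      rw [D.emb_add, D.emb_smul, map_neg, neg_smul, neg_add_cancel_right]
    rw [hv', Tadd, Tsmul, hall _ hs, hall _ hQu, hτ, smul_add, smul_comm c]
  refine Units.ext (Matrix.ext_of_mulVec_single fun j => ?_)
  rw [Units.val_mul, coe_scalarGL, Matrix.smul_mul, Matrix.one_mul, Matrix.smul_mulVec, Units.val_mk0]
  have hspan : Submodule.span F (Set.range fun v => τ ∘ D.emb v) = ⊤ := by
    rw [eq_top_iff]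
    intro y _
    have hy : (τ.symm ∘ y) ∈ Submodule.span F (Set.range D.emb) := by rw [D.span_emb]; trivial
    have key2 : ∀ z ∈ Submodule.span F (Set.range D.emb),
        τ ∘ z ∈ Submodule.span F (Set.range fun v => τ ∘ D.emb v) := by
      intro z hz
      induction hz using Submodule.span_induction with
      | mem z hz =>
        obtain ⟨v, rfl⟩ := hz
        exact Submodule.subset_span ⟨v, rfl⟩
      | zero =>
        rw [show τ ∘ (0 : ι → F) = 0 from funext fun _ => map_zero τ]
        exact Submodule.zero_mem _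
      | add a b _ _ ha hb =>
        rw [show τ ∘ (a + b) = τ ∘ a + τ ∘ b from funext fun _ => map_add τ _ _]
        exact Submodule.add_mem _ ha hb
      | smul r a _ ha =>
        rw [show τ ∘ (r • a) = τ r • (τ ∘ a) from funext fun _ => map_mul τ _ _]
        exact Submodule.smul_mem _ _ ha
    have := key2 _ hy
    rwa [show τ ∘ τ.symm ∘ y = y from funext fun k => τ.apply_symm_apply (y k)] at this
  have heq : Matrix.toLin' (Units.val g : Matrix ι ι F) =
      c • Matrix.toLin' (Units.val (D.twist τ) : Matrix ι ι F) :=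
    LinearMap.ext_on hspan (by
      rintro _ ⟨v, rfl⟩
      rw [Matrix.toLin'_apply, LinearMap.smul_apply, Matrix.toLin'_apply]
      show T (D.emb v) = c • semiVec (D.twist τ) τ (D.emb v)
      rw [D.twist_emb hτ, hlin])
  simpa using congrArg (fun L : (ι → F) →ₗ[F] (ι → F) => L (Pi.single j 1)) heq

/-- A semilinear automorphism fixing the image of `Ω(Q₀)` is a twisted field automorphism. -/
theorem exists_fieldAut_of_fix (N : Nd Q) (N₀ : Nd Q₀) {g : GL ι F} {τ : F ≃+* F}
    (h : Cfsg.IsSemisimilarityPair (⇑Q) g τ)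
    (hfix : ∀ t, semiAut g τ h (subHom D t) = subHom D t) :
    ∃ hτ : ∀ x, τ (i x) = i x, semiAut g τ h = D.fieldAut τ hτ := by
  have hz : ∀ t, (subOmega D t)⁻¹ * semiOmega g τ h (subOmega D t) ∈
      Subgroup.center ↥(Cfsg.Omega F (⇑Q)) := fun t => QuotientGroup.eq.1 (hfix t).symm
  let z : ↥(Cfsg.Omega F₀ (⇑Q₀)) →* ↥(Subgroup.center ↥(Cfsg.Omega F (⇑Q))) :=
    { toFun := fun t => ⟨(subOmega D t)⁻¹ * semiOmega g τ h (subOmega D t), hz t⟩
      map_one' := Subtype.ext (by simp)
      map_mul' := fun s t => Subtype.ext (by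
        show (subOmega D (s * t))⁻¹ * semiOmega g τ h (subOmega D (s * t)) =
          (subOmega D s)⁻¹ * semiOmega g τ h (subOmega D s) *
            ((subOmega D t)⁻¹ * semiOmega g τ h (subOmega D t))
        have hc := Subgroup.mem_center_iff.1 (hz s) (subOmega D t)⁻¹
        calc (subOmega D (s * t))⁻¹ * semiOmega g τ h (subOmega D (s * t))
            = (subOmega D t)⁻¹ * ((subOmega D s)⁻¹ * semiOmega g τ h (subOmega D s)) *
              semiOmega g τ h (subOmega D t) := by rw [map_mul, map_mul]; group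
          _ = (subOmega D s)⁻¹ * semiOmega g τ h (subOmega D s) *
              ((subOmega D t)⁻¹ * semiOmega g τ h (subOmega D t)) := by rw [hc]; group) }
  have hker : z.ker = ⊤ := by
    rw [eq_top_iff, ← N₀.good.omega_perfect, commutator_def, Subgroup.commutator_le]
    intro a _ b _
    rw [MonoidHom.mem_ker, map_commutatorElement, commutatorElement_eq_one_iff_mul_comm]
    exact Subtype.ext (Subgroup.mem_center_iff.1 (z b).2 (z a))
  obtain ⟨hτ, c, hg⟩ := scalar_twist_of_centralizes D N N₀ g τ fun t ht => by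
    have hm : z ⟨t, ht⟩ = 1 := MonoidHom.mem_ker.1 (hker ▸ Subgroup.mem_top _)
    have hm' : subOmega D ⟨t, ht⟩ = semiOmega g τ h (subOmega D ⟨t, ht⟩) :=
      inv_mul_eq_one.1 (congrArg Subtype.val hm)
    have h3 := congrArg (fun z : ↥(Cfsg.Omega F (⇑Q)) => z.1.1) hm'
    simp only [coe_semiOmega, coe_subOmega] at h3
    exact h3.symm
  refine ⟨hτ, ?_⟩
  have e : simAut (⇑Q) (scalarSim c) * D.fieldAut τ hτ = semiAut g τ h := by
    rw [simAut_apply, Datum.fieldAut, semiAut_mul]
    refine semiAut_congr ?_ (one_mul τ)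
    rw [gmap_one, hg]
    rfl
  rw [← e, simAut_scalarSim N, one_mul]

end CfsgLib.LocalBalanceAut.DatumField
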