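import Cfsg.Agent.Lib.ReflectionsSpinor.FixedField
import Mathlib.FieldTheory.Fixed

/-!
# Automorphisms fixing the fixed field of an automorphism of a finite field
-/

set_option autoImplicit false
set_option linter.style.haveILetI false

namespace CfsgLib.LocalBalanceAut

open CfsgLib.ReflectionsSpinor

/-- An automorphism of a finite field fixing the fixed field of `σ` is a power of `σ`. -/
theorem mem_zpowers_of_fix {F : Type*} [Field F] [Finite F] (σ τ : F ≃+* F)
    (h : ∀ c, σ c = c → τ c = c) : τ ∈ Subgroup.zpowers σ := by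
  classical
  set K : Subfield F := fixedField σ with hK
  have hfin : Finite (F ≃+* F) := Finite.of_injective _ DFunLike.coe_injective
  have hcard : Nat.card F = Nat.card K ^ orderOf σ := card_eq_fixedField_pow σ rfl
  have hfr : Module.finrank K F = orderOf σ := by
    have h1 := Module.natCard_eq_pow_finrank (K := K) (V := F)
    rw [hcard] at h1
    exact (Nat.pow_right_injective Finite.one_lt_card h1).symm
  have hfix : ∀ g ∈ Subgroup.zpowers σ, ∀ c : K, g (c : F) = c := by
    intro g hg c
    have hle : Subgroup.zpowers σ ≤ MulAction.stabilizer (F ≃+* F) (c : F) := by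
      rw [Subgroup.zpowers_le, MulAction.mem_stabilizer_iff]
      exact mem_fixedField.1 c.2
    exact MulAction.mem_stabilizer_iff.1 (hle hg)
  let Φ : Subgroup.zpowers σ → (F ≃ₐ[K] F) := fun g =>
    AlgEquiv.ofRingEquiv (f := g.1) fun c => hfix g.1 g.2 c
  have hinj : Function.Injective Φ := fun g g' e => Subtype.ext (RingEquiv.ext fun c => by
    exact congrArg (fun f : F ≃ₐ[K] F => f c) e)
  letI : Fintype (F ≃ₐ[K] F) := AlgEquiv.fintype K F
  have hle : Nat.card (F ≃ₐ[K] F) ≤ Nat.card (Subgroup.zpowers σ) := by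
    rw [Nat.card_eq_fintype_card, Nat.card_zpowers, ← hfr]
    exact AlgEquiv.card_le (F := K) (K := F)
  have hbij : Function.Bijective Φ :=
    (Nat.bijective_iff_injective_and_card Φ).2
      ⟨hinj, le_antisymm (Nat.card_le_card_of_injective Φ hinj) hle⟩
  obtain ⟨g, hg⟩ := hbij.2 (AlgEquiv.ofRingEquiv (f := τ) fun c => h _ (mem_fixedField.1 c.2))
  have : g.1 = τ := RingEquiv.ext fun c => congrArg (fun f : F ≃ₐ[K] F => f c) hg
  exact this ▸ g.2

end CfsgLib.LocalBalanceAut
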