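import Cfsg.Agent.Lib.LocalBalanceAut.CoreNormal
import Cfsg.Agent.Lib.LocalBalanceAut.DatumCent
import Cfsg.Agent.Lib.LocalBalanceAut.Galois

/-!
# Local balance at a twisted field automorphism of `PΩ(Q)`
-/

set_option autoImplicit false
set_option linter.unusedSectionVars false
set_option linter.style.haveILetI false

open Matrix CfsgLib.OrthGen CfsgLib.Forms
open scoped commutatorElement
open CfsgLib.ReflectionsSpinor CfsgLib.ReflectionsSpinor.POmegaAut CfsgLib.ReflectionsSpinor.POmegaQuot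
  CfsgLib.ReflectionsSpinor.POmegaField

namespace CfsgLib.LocalBalanceAut.DatumField

universe u v

variable {F : Type u} [Field F] [Finite F] {F₀ : Type v} [Field F₀] [Finite F₀]
  {ι κ : Type} [Fintype ι] [DecidableEq ι] [Fintype κ] [DecidableEq κ]
  {Q : QuadraticForm F (ι → F)} {i : F₀ →+* F} {e : κ ≃ ι} {Q₀ : QuadraticForm F₀ (κ → F₀)}
  (D : Datum Q i e Q₀)

set_option quotPrecheck false in
local notation "PO" => Cfsg.POmega F (⇑Q)

theorem center_pOmega_of_simple (N : Nd Q) (hK : IsSimpleGroup PO) : Subgroup.center PO = ⊥ := by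
  refine center_eq_bot_of_perfect ?_
  have h := congrArg (Subgroup.map (QuotientGroup.mk' (Subgroup.center ↥(Cfsg.Omega F (⇑Q)))))
    N.good.omega_perfect
  rw [commutator_def, Subgroup.map_commutator,
    Subgroup.map_top_of_surjective _ (QuotientGroup.mk'_surjective _)] at h
  exact h

/-- Squares of isometries lie in the commutator subgroup. -/
theorem sq_mem_omega (N : Nd Q) (h : ↥(Cfsg.isometryGroup F (⇑Q))) :
    h ^ 2 ∈ Cfsg.Omega F (⇑Q) := by
  let χ : ↥(Cfsg.isometryGroup F (⇑Q)) →* Abelianization ↥(Cfsg.isometryGroup F (⇑Q)) :=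
    (powMonoidHom 2).comp Abelianization.of
  have hker : χ.ker = ⊤ := by
    rw [eq_top_iff, ← N.gen, reflClosure, Subgroup.closure_le]
    rintro _ ⟨v, hv, rfl⟩
    show Abelianization.of (refl Q hv) ^ 2 = 1
    rw [← map_pow, pow_two, refl_mul_self, map_one]
  have h' : Abelianization.of (h ^ 2) = 1 := by
    rw [map_pow]
    exact (MonoidHom.mem_ker (f := χ)).1 (hker ▸ Subgroup.mem_top h)
  exact (Abelianization.ker_of ↥(Cfsg.isometryGroup F (⇑Q))).le h'

theorem subOmega_injective : Function.Injective (subOmega D) := by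
  refine (injective_iff_map_eq_one _).2 fun t ht => ?_
  have h : D.bc t.1.1 = 1 := congrArg (fun z : ↥(Cfsg.Omega F (⇑Q)) => z.1.1) ht
  refine Subtype.ext (Subtype.ext (Units.ext (Matrix.ext_of_mulVec_single fun j => ?_)))
  show (Units.val t.1.1 : Matrix κ κ F₀) *ᵥ _ = (1 : Matrix κ κ F₀) *ᵥ _
  rw [Matrix.one_mulVec, ← sub_eq_zero]
  refine emb_eq_zero D ?_
  rw [sub_eq_add_neg, D.emb_add, ← neg_one_smul F₀, D.emb_smul, map_neg, map_one, neg_one_smul,
    ← D.bc_emb, h, Units.val_one, Matrix.one_mulVec, add_neg_cancel]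

theorem exists_subHom_ne_one (N₀ : Nd Q₀) (hK₀ : IsSimpleGroup (Cfsg.POmega F₀ (⇑Q₀))) :
    ∃ t, subHom D t ≠ 1 := by
  by_contra hno
  push Not at hno
  have hcen : ∀ t, subOmega D t ∈ Subgroup.center ↥(Cfsg.Omega F (⇑Q)) := fun t =>
    (QuotientGroup.eq_one_iff _).1 (hno t)
  have hab : commutator ↥(Cfsg.Omega F₀ (⇑Q₀)) = ⊥ := by
    rw [commutator_def, Subgroup.commutator_eq_bot_iff_le_centralizer]
    intro a _
    rw [Subgroup.mem_centralizer_iff]
    intro b _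
    refine subOmega_injective D ?_
    rw [map_mul, map_mul]
    exact Subgroup.mem_center_iff.1 (hcen a) (subOmega D b)
  rw [N₀.good.omega_perfect] at hab
  obtain ⟨k, hk⟩ := exists_ne (1 : Cfsg.POmega F₀ (⇑Q₀))
  obtain ⟨s, rfl⟩ := cl_surjective k
  have hs : s = 1 := Subgroup.mem_bot.1 (hab ▸ Subgroup.mem_top s)
  exact hk (by rw [hs]; rfl)

/-- The image of `Ω(Q₀)` has no proper nontrivial normal subgroup. -/
theorem range_eq_bot_or_top (N : Nd Q) (N₀ : Nd Q₀) (hK₀ : IsSimpleGroup (Cfsg.POmega F₀ (⇑Q₀)))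
    (M : Subgroup ↥(subHom D).range) (hM : M.Normal) : M = ⊥ ∨ M = ⊤ := by
  set f := (subHom D).rangeRestrict with hf
  have hfs : Function.Surjective f := (subHom D).rangeRestrict_surjective
  set N₁ := M.comap f with hN₁
  have hN₁n : N₁.Normal := hM.comap f
  let π : ↥(Cfsg.Omega F₀ (⇑Q₀)) →* Cfsg.POmega F₀ (⇑Q₀) := QuotientGroup.mk' _
  have hπn : (N₁.map π).Normal := hN₁n.map π (QuotientGroup.mk'_surjective _)
  rcases IsSimpleGroup.eq_bot_or_eq_top_of_normal (N₁.map π) hπn with h | h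
  · left
    rw [Subgroup.eq_bot_iff_forall]
    intro a ha
    obtain ⟨n, rfl⟩ := hfs a
    have hn : π n = 1 := Subgroup.mem_bot.1 (h ▸ ⟨n, ha, rfl⟩)
    have hnc : n ∈ Subgroup.center ↥(Cfsg.Omega F₀ (⇑Q₀)) := (QuotientGroup.eq_one_iff n).1 hn
    obtain ⟨-, c, hc⟩ := scalar_twist_of_centralizes D N N₀ (D.bc n.1.1) 1 fun t ht => by
      rw [gmap_one, ← map_inv, ← map_mul, ← map_mul]
      refine congrArg D.bc ?_
      have := congrArg (fun z : ↥(Cfsg.Omega F₀ (⇑Q₀)) => z.1.1)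
        (mul_inv_eq_iff_eq_mul.2 ((Subgroup.mem_center_iff.1 hnc ⟨t, ht⟩).symm) : n * ⟨t, ht⟩ * n⁻¹ = ⟨t, ht⟩)
      exact this
    rw [twist_one, mul_one] at hc
    refine Subtype.ext ((QuotientGroup.eq_one_iff _).2 (Subgroup.mem_center_iff.2 fun w => ?_))
    refine Subtype.ext (Subtype.ext ?_)
    show w.1.1 * D.bc n.1.1 = D.bc n.1.1 * w.1.1
    rw [hc]
    refine Units.ext ?_
    rw [Units.val_mul, Units.val_mul, coe_scalarGL, Matrix.mul_smul, Matrix.smul_mul, Matrix.mul_one,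
      Matrix.one_mul]
  · right
    have hle : commutator ↥(Cfsg.Omega F₀ (⇑Q₀)) ≤ N₁ := by
      rw [commutator_def, Subgroup.commutator_le]
      intro a _ b _
      have ha : π a ∈ N₁.map π := h ▸ Subgroup.mem_top _
      obtain ⟨n, hn, hna⟩ := ha
      have hz : n⁻¹ * a ∈ Subgroup.center ↥(Cfsg.Omega F₀ (⇑Q₀)) := QuotientGroup.eq.1 hna
      have e1 : a = n * (n⁻¹ * a) := by group
      have e2 : ⁅a, b⁆ = n * (b * n⁻¹ * b⁻¹) := by
        rw [commutatorElement_def]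
        have hcc := Subgroup.mem_center_iff.1 hz b
        calc a * b * a⁻¹ * b⁻¹ = n * ((n⁻¹ * a) * b) * (n⁻¹ * a)⁻¹ * n⁻¹ * b⁻¹ := by group
          _ = n * (b * n⁻¹ * b⁻¹) := by rw [← hcc]; group
      rw [e2]
      exact N₁.mul_mem hn (hN₁n.conj_mem _ (N₁.inv_mem hn) b)
    rw [N₀.good.omega_perfect] at hle
    rw [eq_top_iff]
    intro a _
    obtain ⟨n, rfl⟩ := hfs a
    exact hle (Subgroup.mem_top n)

variable {σ : F ≃+* F} (hi : ∀ x, σ (i x) = i x) (hi' : ∀ y, σ y = y → ∃ x, i x = y)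

theorem fieldAut_subHom (t : ↥(Cfsg.Omega F₀ (⇑Q₀))) :
    D.fieldAut σ hi (subHom D t) = subHom D t := by
  rw [subHom_apply, Datum.fieldAut, semiAut_cl]
  refine congrArg (cl (⇑Q)) (Subtype.ext (Subtype.ext ?_))
  rw [coe_semiOmega, coe_subOmega, D.twist_comm hi, mul_inv_cancel_right]

include hi' in
/-- Fixed points act through similarities of the small form. -/
theorem exists_small_of_fixed (N : Nd Q) (N₀ : Nd Q₀) (hK : IsSimpleGroup PO) {k : PO}
    (hk : D.fieldAut σ hi k = k) :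
    ∃ k₀ : ↥(Cfsg.Geo.quadSimilarityGroup (F := F₀) (⇑Q₀)),
      MulAut.conj k = simAut (⇑Q) (D.bcSim k₀) := by
  obtain ⟨s, rfl⟩ := cl_surjective k
  have hcom := ((commute_conj_iff (center_pOmega_of_simple N hK)).2 hk).eq
  let χ : ↥(Cfsg.Geo.quadSimilarityGroup (F := F) (⇑Q)) →* ℤˣ := 1
  have hmem : MulAut.conj (cl (⇑Q) s) ∈
      χ.ker.map (simAut (⇑Q)) ⊓ Subgroup.centralizer {D.fieldAut σ hi} :=
    ⟨⟨omegaSim (⇑Q) s, MonoidHom.mem_ker.2 rfl, (inner_eq_simAut s).symm⟩,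
      Subgroup.mem_centralizer_singleton_iff.2 hcom⟩
  rw [inf_centralizer_eq χ N N₀ (fun _ => rfl) D hi hi'] at hmem
  obtain ⟨k₀, -, hk₀⟩ := hmem
  exact ⟨k₀, hk₀.symm⟩

theorem conj_subHom (t : ↥(Cfsg.Omega F₀ (⇑Q₀))) :
    MulAut.conj (subHom D t) = simAut (⇑Q) (isoSim (D.bcIso t.1)) := by
  rw [subHom_apply, inner_eq_simAut]
  rfl

include hi' in
theorem normalizes (N : Nd Q) (N₀ : Nd Q₀) (hK : IsSimpleGroup PO) {k : PO}
    (hk : D.fieldAut σ hi k = k) {s : PO} (hs : s ∈ (subHom D).range) :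
    k * s * k⁻¹ ∈ (subHom D).range := by
  obtain ⟨k₀, hk₀⟩ := exists_small_of_fixed D hi hi' N N₀ hK hk
  obtain ⟨t, rfl⟩ := hs
  refine ⟨semiOmega k₀.1 1 (semi_of_sim k₀.2) t, ?_⟩
  rw [← MulAut.conj_apply, hk₀, subHom_apply, subHom_apply, simAut_apply, semiAut_cl]
  refine congrArg (cl (⇑Q)) (Subtype.ext (Subtype.ext ?_))
  rw [coe_semiOmega, coe_subOmega, coe_subOmega, coe_semiOmega, gmap_one, gmap_one, map_mul, map_mul,
    map_inv, D.coe_bcSim]

include hi' in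
theorem dvd_card_range (N : Nd Q) (N₀ : Nd Q₀) (hK : IsSimpleGroup PO) {p : ℕ} [Fact p.Prime]
    (hodd : Odd p) (hp : p ∣ Nat.card (fixedPts (D.fieldAut σ hi))) :
    p ∣ Nat.card ↥(subHom D).range := by
  haveI : Finite PO := inferInstance
  obtain ⟨⟨k, hk⟩, hko⟩ := exists_prime_orderOf_dvd_card' p hp
  have hkp : orderOf k = p := (Subgroup.orderOf_coe (⟨k, hk⟩ : fixedPts (D.fieldAut σ hi))).trans hko
  obtain ⟨k₀, hk₀⟩ := exists_small_of_fixed D hi hi' N N₀ hK hk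
  obtain ⟨h, hh⟩ := exists_scalar_mul_iso N₀ (k₀ ^ 2) (l := mu N₀ k₀) (by rw [map_pow, pow_two])
  have h2 : MulAut.conj (k ^ 2) = simAut (⇑Q) (isoSim (D.bcIso h)) := by
    rw [map_pow, hk₀, ← map_pow, ← map_pow, hh, map_mul, map_mul,
      show D.bcSim (scalarSim (mu N₀ k₀)) = scalarSim (Units.map (i : F₀ →* F) (mu N₀ k₀)) from
        Subtype.ext (D.bc_scalar _), simAut_scalarSim N, one_mul, D.bcSim_isoSim]
  have h4 : k ^ 4 = subHom D ⟨h ^ 2, sq_mem_omega N₀ h⟩ := by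
    refine conj_injective (center_pOmega_of_simple N hK) ?_
    rw [conj_subHom, map_pow D.bcIso, map_pow isoSim, map_pow (simAut (⇑Q)), ← h2, ← map_pow,
      ← pow_mul]
  have h4p : orderOf (k ^ 4) = p := by
    rw [Nat.Coprime.orderOf_pow, hkp]
    rw [hkp]
    exact Nat.Coprime.pow_right 2 hodd.coprime_two_right
  rw [← h4p, ← Subgroup.orderOf_mk (H := (subHom D).range) (k ^ 4) ⟨_, h4.symm⟩]
  exact orderOf_dvd_natCard _

include hi' in
/-- The criterion at a twisted field automorphism of prime order. -/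
theorem main (N : Nd Q) (N₀ : Nd Q₀) (hK : IsSimpleGroup PO)
    (hK₀ : IsSimpleGroup (Cfsg.POmega F₀ (⇑Q₀))) {p : ℕ} [Fact p.Prime] (hσ : orderOf σ = p)
    (hgam : ∀ a : MulAut PO, Commute a (D.fieldAut σ hi) →
      (∀ t, a (subHom D t) = subHom D t) → a ∈ Cfsg.gammaPOmega F (⇑Q))
    (hp2 : p = 2 → 2 ∣ Nat.card ↥(subHom D).range)
    (A : Subgroup (MulAut PO)) (hinn : ∀ k : PO, MulAut.conj k ∈ A) :
    Cfsg.pPrimeCore p ↥(A ⊓ Subgroup.centralizer {D.fieldAut σ hi}) ≠ ⊥ ↔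
      Nat.Coprime p (Nat.card (fixedPts (D.fieldAut σ hi))) := by
  have hp : p.Prime := Fact.out
  have hσ1 : σ ≠ 1 := fun h => hp.one_lt.ne' (by rw [← hσ, h, orderOf_one])
  have hZ := center_pOmega_of_simple N hK
  have hord : orderOf (D.fieldAut σ hi) = p := by
    refine orderOf_eq_prime ?_ fun h => hσ1 ((semiAut_eq_one_iff N.good _).1 h).1
    rw [← fieldAut_pow D hi p]
    exact (fieldAut_congr D (τ := 1) (by rw [← hσ, pow_orderOf_eq_one]) _ (fun _ => rfl)).trans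
      (fieldAut_one D _)
  refine core_ne_bot_iff_of_normalized hZ A hinn hord ?_ ?_ (subHom D).range ?_
    (fun k hk s hs => normalizes D hi hi' N N₀ hK hk hs) ?_ ?_
  · rintro ⟨k, hk⟩
    obtain ⟨s, rfl⟩ := cl_surjective k
    rw [inner_eq_simAut, simAut_apply, Datum.fieldAut] at hk
    have h1 := congrArg (fun z => semiAut _ σ (D.semi_twist hi) * z⁻¹) hk
    simp only [mul_inv_cancel] at h1
    rw [semiAut_inv, semiAut_mul, semiAut_eq_one_iff N.good] at h1
    exact hσ1 (by simpa using h1.1)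
  · obtain ⟨t, ht⟩ := exists_subHom_ne_one D N₀ hK₀
    exact ⟨_, ht, fieldAut_subHom D hi t⟩
  · rintro _ ⟨t, rfl⟩
    exact fieldAut_subHom D hi t
  · intro a hax hfix
    have hfix' : ∀ t, a (subHom D t) = subHom D t := fun t => hfix _ ⟨t, rfl⟩
    obtain ⟨g, τ, h, rfl⟩ := mem_gamma_iff.1 (hgam a hax hfix')
    obtain ⟨hτ, he⟩ := exists_fieldAut_of_fix D N N₀ h hfix'
    have hmem := mem_zpowers_of_fix σ τ fun c hc => by
      obtain ⟨w, rfl⟩ := hi' c hc
      exact hτ w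
    haveI : Finite (F ≃+* F) := Finite.of_injective _ DFunLike.coe_injective
    obtain ⟨k, hk⟩ := mem_powers_iff_mem_zpowers.2 hmem
    rw [he, ← fieldAut_congr D hk (pow_fix hi k) hτ, fieldAut_pow]
    exact Subgroup.pow_mem _ (Subgroup.mem_zpowers _) k
  · intro hpd M hM hcop
    refine (range_eq_bot_or_top D N N₀ hK₀ M hM).resolve_right fun hMt => ?_
    rw [hMt, Subgroup.card_top] at hcop
    refine (Nat.Prime.coprime_iff_not_dvd hp).1 hcop.symm ?_
    rcases hp.eq_two_or_odd' with h | h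
    · subst h; exact hp2 rfl
    · exact dvd_card_range D hi hi' N N₀ hK h hpd

end CfsgLib.LocalBalanceAut.DatumField
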