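import Cfsg.Agent.Lib.LocalBalanceAut.OrthCoord
import Cfsg.Agent.Lib.LocalBalanceAut.CoreNormal
import Cfsg.Agent.Lib.ReflectionsSpinor.POmegaSgn

/-!
# Centralisers of involutory similarities: a coordinate model

An involutory similarity `g` is given coordinates over a field `L` in which it is multiplication by
class-constant coordinates `ζ` and the form is the `F`-part of a diagonal form. From this the fixed
points of the automorphism induced by `g` have trivial `2'`-core and only class-constant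
multiplications centralise them.
-/

set_option autoImplicit false
set_option linter.unusedSectionVars false
set_option linter.style.haveILetI false
set_option maxHeartbeats 400000

open Matrix CfsgLib.OrthGen CfsgLib.LocalBalance
open CfsgLib.ReflectionsSpinor.POmegaAut CfsgLib.ReflectionsSpinor.POmegaQuot
  CfsgLib.ReflectionsSpinor.POmegaField
open CfsgLib.LocalBalanceAut.OrthCoord

namespace CfsgLib.LocalBalanceAut.Graph

universe u

variable {F : Type u} [Field F] {ι : Type} [Fintype ι] [DecidableEq ι]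

/-- The coordinates sharing the value `z`. -/
noncomputable def cls {L : Type u} {J : Type} [Fintype J] (ζ : J → L) (z : L) : Finset J :=
  letI := Classical.decEq L
  Finset.univ.filter fun k => ζ k = z

theorem mem_cls {L : Type u} {J : Type} [Fintype J] {ζ : J → L} {z : L} {k : J} :
    k ∈ cls ζ z ↔ ζ k = z := by
  simp [cls]

/-- Coordinates for an involutory similarity. -/
structure Model (Q : QuadraticForm F (ι → F)) (g : GL ι F) (L : Type u) [Field L] (J : Type)
    [Fintype J] [DecidableEq J] where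
  /-- the scalars -/
  κ : F →+* L
  /-- the coordinates -/
  φ : (J → L) ≃+ (ι → F)
  φ_smul : ∀ (a : F) v, φ (κ a • v) = a • φ v
  /-- the diagonal form -/
  d : J → L
  d_ne : ∀ k, d k ≠ 0
  /-- the part giving `Q` -/
  ℓ : L →+ F
  Q_φ : ∀ v, Q (φ v) = ℓ (dotD d v v)
  /-- the action of `g` -/
  ζ : J → L
  g_φ : ∀ v, (Units.val g : Matrix ι ι F) *ᵥ φ v = φ (ζ * v)
  two : (2 : L) ≠ 0
  classes : ∀ j, (∀ k, ζ k = ζ j → k = j) ∨ 3 ≤ (cls ζ (ζ j)).card
  single : ∀ j, (∀ k, ζ k = ζ j → k = j) →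
    Function.Surjective κ ∧ ∀ k, k ≠ j → 3 ≤ (cls ζ (ζ k)).card
  big : ∃ z, 5 ≤ (cls ζ z).card
  lift : ∀ k : ↥(Cfsg.isometryGroup F (⇑Q)),
    (∀ y, act Q k ((Units.val g : Matrix ι ι F) *ᵥ y) = (Units.val g : Matrix ι ι F) *ᵥ act Q k y) →
      ∃ X : Matrix J J L, (∀ v, act Q k (φ v) = φ (X *ᵥ v)) ∧
        ∀ v w, dotD d (X *ᵥ v) (X *ᵥ w) = dotD d v w
  pair : ∀ (u v : J → L) (i j : J) (k : ↥(Cfsg.isometryGroup F (⇑Q))),
    (∀ m, ζ m ≠ ζ i → u m = 0) → (∀ m, ζ m ≠ ζ j → v m = 0) →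
    dotD d u u ≠ 0 → dotD d v v = dotD d u u → dotD d u v = 0 →
    (∀ w, act Q k (φ w) = φ ((refl d u * refl d v) *ᵥ w)) → k ∈ Cfsg.Omega F (⇑Q)

/-- A dot preserving matrix as an isometry. -/
theorem exists_iso_of_coords {L : Type u} [Field L] {J : Type} [Fintype J] [DecidableEq J]
    {Q : QuadraticForm F (ι → F)} (κ : F →+* L) (φ : (J → L) ≃+ (ι → F))
    (φ_smul : ∀ (a : F) v, φ (κ a • v) = a • φ v) (d : J → L) (d_ne : ∀ k, d k ≠ 0) (ℓ : L →+ F)
    (Q_φ : ∀ v, Q (φ v) = ℓ (dotD d v v)) (X : Matrix J J L) (hX : ∀ v w, dotD d (X *ᵥ v) (X *ᵥ w) = dotD d v w) :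
    ∃ k : ↥(Cfsg.isometryGroup F (⇑Q)), ∀ v, act Q k (φ v) = φ (X *ᵥ v) := by
  let f : (ι → F) →ₗ[F] (ι → F) :=
    { toFun := fun y => φ (X *ᵥ φ.symm y)
      map_add' := fun a b => by rw [map_add, Matrix.mulVec_add, map_add]
      map_smul' := fun a y => by
        rw [show φ.symm (a • y) = κ a • φ.symm y from φ.injective (by
          rw [AddEquiv.apply_symm_apply, φ_smul, AddEquiv.apply_symm_apply]),
          Matrix.mulVec_smul, φ_smul, RingHom.id_apply] }
  have hinj : ∀ y, f y = 0 → y = 0 := by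
    intro y hy
    have h1 : X *ᵥ φ.symm y = 0 := φ.injective (hy.trans (map_zero φ).symm)
    have h2 : φ.symm y = 0 := funext fun k => by
      have h3 := hX (φ.symm y) (Pi.single k 1)
      rw [h1, dotD_comm d (φ.symm y), dotD_single, one_mul] at h3
      simp only [dotD, zero_dotProduct] at h3
      exact (mul_eq_zero.1 h3.symm).resolve_left (d_ne k)
    rw [← φ.apply_symm_apply y, h2, map_zero]
  set A : Matrix ι ι F := LinearMap.toMatrix' f with hA
  have hAf : ∀ y, A *ᵥ y = f y := fun y => LinearMap.toMatrix'_mulVec f y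
  have hu : IsUnit A := Matrix.mulVec_injective_iff_isUnit.1 fun a b hab => by
    rw [hAf, hAf, ← sub_eq_zero, ← map_sub] at hab
    exact sub_eq_zero.1 (hinj _ hab)
  have hd := (Matrix.isUnit_iff_isUnit_det A).1 hu
  refine ⟨mkIso Q A A⁻¹ (Matrix.mul_nonsing_inv A hd) (Matrix.nonsing_inv_mul A hd) fun y => ?_,
    fun v => ?_⟩
  · rw [hAf]
    show Q (φ (X *ᵥ φ.symm y)) = Q y
    rw [Q_φ, hX, ← Q_φ, AddEquiv.apply_symm_apply]
  · show A *ᵥ φ v = _
    rw [hAf]
    show φ (X *ᵥ φ.symm (φ v)) = _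
    rw [AddEquiv.symm_apply_apply]

variable {Q : QuadraticForm F (ι → F)} {g : GL ι F} {L : Type u} [Field L] {J : Type} [Fintype J]
  [DecidableEq J] (M : Model Q g L J)

namespace Model

/-- A vector supported in the class of `j`. -/
def GoodAt (j : J) (u : J → L) : Prop := ∀ m, M.ζ m ≠ M.ζ j → u m = 0

include M in
theorem three_le : 3 ≤ Fintype.card J := by
  obtain ⟨z, hz⟩ := M.big
  have := Finset.card_le_univ (cls M.ζ z)
  omega

/-- A dot preserving matrix as an isometry. -/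
theorem exists_iso (X : Matrix J J L) (hX : ∀ v w, dotD M.d (X *ᵥ v) (X *ᵥ w) = dotD M.d v w) :
    ∃ k : ↥(Cfsg.isometryGroup F (⇑Q)), ∀ v, act Q k (M.φ v) = M.φ (X *ᵥ v) :=
  exists_iso_of_coords M.κ M.φ M.φ_smul M.d M.d_ne M.ℓ M.Q_φ X hX

theorem ext_φ {k k' : ↥(Cfsg.isometryGroup F (⇑Q))}
    (h : ∀ v, act Q k (M.φ v) = act Q k' (M.φ v)) : k = k' :=
  ext_act fun y => by rw [← M.φ.apply_symm_apply y]; exact h _

/-- Commuting with `g` in coordinates. -/
theorem comm_g {k : ↥(Cfsg.isometryGroup F (⇑Q))} {X : Matrix J J L}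
    (hk : ∀ v, act Q k (M.φ v) = M.φ (X *ᵥ v)) (hX : ∀ v, X *ᵥ (M.ζ * v) = M.ζ * (X *ᵥ v)) :
    g * k.1 = k.1 * g := by
  refine Units.ext (Matrix.ext_of_mulVec_single fun m => ?_)
  rw [Units.val_mul, Units.val_mul, ← Matrix.mulVec_mulVec, ← Matrix.mulVec_mulVec]
  obtain ⟨v, hv⟩ := M.φ.surjective (Pi.single m 1)
  rw [← hv, M.g_φ]
  show (Units.val g : Matrix ι ι F) *ᵥ act Q k (M.φ v) = act Q k (M.φ (M.ζ * v))
  rw [hk, hk, M.g_φ, hX]

theorem polar_φ (a b : J → L) :
    QuadraticMap.polar Q (M.φ a) (M.φ b) = M.ℓ (2 * dotD M.d a b) := by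
  rw [QuadraticMap.polar, ← map_add, M.Q_φ, M.Q_φ, M.Q_φ, ← map_sub, ← map_sub, dotD_add_left,
    dotD_add_right, dotD_add_right, dotD_comm M.d b a]
  congr 1
  ring

/-- A vector negated by a product of two orthogonal reflections lies in their span. -/
theorem eq_span_of_neg {u v a : J → L} (hu : dotD M.d u u ≠ 0) (hv : dotD M.d v v = dotD M.d u u)
    (huv : dotD M.d u v = 0) (h : (refl M.d u * refl M.d v) *ᵥ a = -a) :
    a = (dotD M.d a u / dotD M.d u u) • u + (dotD M.d a v / dotD M.d u u) • v := by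
  rw [← Matrix.mulVec_mulVec, refl_mulVec, refl_mulVec, dotD_sub_left, dotD_smul_left,
    dotD_comm M.d v u, huv, mul_zero, sub_zero, hv] at h
  funext k
  have h' := congrFun h k
  simp only [Pi.sub_apply, Pi.neg_apply, Pi.smul_apply, smul_eq_mul] at h'
  simp only [Pi.add_apply, Pi.smul_apply, smul_eq_mul]
  have h2 := M.two
  field_simp at h' ⊢
  refine mul_left_cancel₀ h2 ?_
  linear_combination h'

variable [Finite F] (N : Nd Q)

include N in
theorem exists_scalar_of_central {s : ↥(Cfsg.Omega F (⇑Q))} (hs : cl (⇑Q) s = 1) :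
    ∃ c : F, c * c = 1 ∧ (Units.val s.1.1 : Matrix ι ι F) = c • 1 := by
  have h1 : simAut (⇑Q) (omegaSim (⇑Q) s) = 1 := by rw [← inner_eq_simAut, hs, map_one]
  obtain ⟨c, -, hc⟩ := (simAut_eq_one_iff N.good _).1 h1
  have hc' : (Units.val s.1.1 : Matrix ι ι F) = c • 1 := hc
  refine ⟨c, ?_, hc'⟩
  obtain ⟨v, hv⟩ := N.exists_ne
  have h2 := s.1.2 v v
  change Q ((Units.val s.1.1 : Matrix ι ι F) *ᵥ v) = Q v at h2
  rw [hc', Matrix.smul_mulVec, Matrix.one_mulVec, QuadraticMap.map_smul, smul_eq_mul] at h2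
  exact mul_right_cancel₀ hv (h2.trans (one_mul _).symm)

variable {gs : ↥(Cfsg.Geo.quadSimilarityGroup (F := F) (⇑Q))}

theorem fixed_of_comm {k : ↥(Cfsg.isometryGroup F (⇑Q))} (hk : k ∈ Cfsg.Omega F (⇑Q))
    (hc : gs.1 * k.1 = k.1 * gs.1) : simAut (⇑Q) gs (cl (⇑Q) ⟨k, hk⟩) = cl (⇑Q) ⟨k, hk⟩ := by
  rw [simAut_apply, semiAut_cl]
  refine congrArg (cl (⇑Q)) (Subtype.ext (Subtype.ext ?_))
  rw [coe_semiOmega, gmap_one, hc, mul_inv_cancel_right]

include N in
theorem semi_of_fixed {γ : GL ι F} {τ : F ≃+* F} (h : Cfsg.IsSemisimilarityPair (⇑Q) γ τ)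
    {s : ↥(Cfsg.Omega F (⇑Q))} (hs : semiAut γ τ h (cl (⇑Q) s) = cl (⇑Q) s) :
    ∃ c : F, c * c = 1 ∧
      ∀ y, semiVec γ τ (act Q s.1 y) = c • act Q s.1 (semiVec γ τ y) := by
  rw [semiAut_cl] at hs
  have hz : cl (⇑Q) (s⁻¹ * semiOmega γ τ h s) = 1 := by
    show QuotientGroup.mk' _ (s⁻¹ * semiOmega γ τ h s) = 1
    rw [map_mul, map_inv]
    exact inv_mul_eq_one.2 hs.symm
  obtain ⟨c, hc2, hc⟩ := exists_scalar_of_central N hz
  refine ⟨c, hc2, fun y => ?_⟩
  have e1 : (semiOmega γ τ h s).1.1 = s.1.1 * (s⁻¹ * semiOmega γ τ h s).1.1 :=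
    congrArg (fun z : ↥(Cfsg.Omega F (⇑Q)) => z.1.1) (mul_inv_cancel_left s (semiOmega γ τ h s)).symm
  rw [coe_semiOmega] at e1
  have e2 : γ * gmap τ s.1.1 = s.1.1 * (s⁻¹ * semiOmega γ τ h s).1.1 * γ :=
    mul_inv_eq_iff_eq_mul.1 e1
  show (Units.val γ : Matrix ι ι F) *ᵥ (τ ∘ ((Units.val s.1.1 : Matrix ι ι F) *ᵥ y)) =
    c • ((Units.val s.1.1 : Matrix ι ι F) *ᵥ semiVec γ τ y)
  rw [← gmap_mulVec, ← coe_gmap, Matrix.mulVec_mulVec, ← Units.val_mul, e2, Units.val_mul, Units.val_mul,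
    hc, Matrix.mul_smul, Matrix.mul_one, Matrix.smul_mul, Matrix.smul_mulVec, ← Matrix.mulVec_mulVec]
  rfl

variable [Finite L]

include N M in
/-- The fixed points have trivial `2'`-core. -/
theorem core_fixedPts (hg : gs.1 = g) (hord : orderOf (simAut (⇑Q) gs) = 2) :
    Cfsg.pPrimeCore 2 ↥(fixedPts (simAut (⇑Q) gs)) = ⊥ := by
  classical
  set x := simAut (⇑Q) gs with hx
  set C₀ := Cfsg.pPrimeCore 2 ↥(fixedPts x) with hC₀
  set C : Subgroup (Cfsg.POmega F (⇑Q)) := C₀.map (fixedPts x).subtype with hC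
  have hCodd : (Nat.card C).Coprime 2 := by
    rw [hC, Subgroup.card_map_of_injective (fixedPts x).subtype_injective]
    exact CfsgLib.Cores.card_pPrimeCore_coprime 2
  have hCx : ∀ a ∈ C, x a = a := by
    rintro _ ⟨a, -, rfl⟩
    exact a.2
  have hinvol : ∀ a ∈ C, a * a = 1 → a = 1 := by
    intro a ha haa
    rw [← orderOf_eq_one_iff]
    have h3 := Subgroup.orderOf_dvd_natCard C ha
    have h4 : orderOf a ∣ 2 := orderOf_dvd_of_pow_eq_one (by rw [pow_two, haa])
    have h5 := Nat.dvd_gcd h3 h4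
    rwa [hCodd.gcd_eq_one, Nat.dvd_one] at h5
  have hCinv : ∀ ρ : ↥(Cfsg.isometryGroup F (⇑Q)), gs.1 * ρ.1 = ρ.1 * gs.1 → ∀ a ∈ C,
      simAut (⇑Q) (isoSim ρ) a ∈ C := by
    intro ρ hρ a ha
    set R := simAut (⇑Q) (isoSim ρ) with hR
    have hRx : R * x = x * R := by
      rw [hR, hx, ← map_mul, ← map_mul]
      exact congrArg _ (Subtype.ext hρ.symm)
    have hiff : ∀ k, x k = k ↔ x (R k) = R k := fun k => by
      have h1 : x (R k) = R (x k) := (DFunLike.congr_fun hRx k).symm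
      rw [h1]
      exact R.injective.eq_iff.symm
    let e : ↥(fixedPts x) ≃* ↥(fixedPts x) :=
      { toFun := fun k => ⟨R k.1, (hiff k.1).1 k.2⟩
        invFun := fun k => ⟨R.symm k.1, (hiff (R.symm k.1)).2 (by
          rw [R.apply_symm_apply]; exact k.2)⟩
        left_inv := fun k => Subtype.ext (R.symm_apply_apply k.1)
        right_inv := fun k => Subtype.ext (R.apply_symm_apply k.1)
        map_mul' := fun k k' => Subtype.ext (map_mul R k.1 k'.1) }
    obtain ⟨a₀, ha₀, rfl⟩ := ha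
    refine ⟨e a₀, ?_, rfl⟩
    rw [SetLike.mem_coe, hC₀, ← CfsgLib.Cores.map_pPrimeCore_equiv e]
    exact ⟨a₀, ha₀, rfl⟩
  let P : ↥(Cfsg.isometryGroup F (⇑Q)) → Prop :=
    fun s => ∃ hs : s ∈ Cfsg.Omega F (⇑Q), cl (⇑Q) ⟨s, hs⟩ ∈ C
  -- the commutator with a reflection of a vector supported in one class
  have step : ∀ (s : ↥(Cfsg.isometryGroup F (⇑Q))), P s → ∀ (X : Matrix J J L),
      (∀ v, act Q s (M.φ v) = M.φ (X *ᵥ v)) → (∀ v w, dotD M.d (X *ᵥ v) (X *ᵥ w) = dotD M.d v w) →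
      ∀ (j : J) (u : J → L), M.GoodAt j u → dotD M.d u u ≠ 0 →
      ∃ t : ↥(Cfsg.isometryGroup F (⇑Q)), P t ∧
        ∀ v, act Q t (M.φ v) = M.φ ((refl M.d (X *ᵥ u) * refl M.d u) *ᵥ v) := by
    rintro s ⟨hs, hsC⟩ X hsX hX j u hu hu0
    obtain ⟨ρ, hρ⟩ := M.exists_iso _ (refl_dotD hu0)
    have hρρ : ρ * ρ = 1 := M.ext_φ fun v => by
      rw [act_mul, hρ, hρ, act_one, Matrix.mulVec_mulVec, refl_mul_self hu0, Matrix.one_mulVec]
    have hρg : gs.1 * ρ.1 = ρ.1 * gs.1 := hg ▸ M.comm_g hρ (refl_mulVec_mul hu)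
    let S : ↥(Cfsg.Omega F (⇑Q)) := ⟨s, hs⟩
    let S' := semiOmega (isoSim ρ).1 1 (semi_of_sim (isoSim ρ).2) S⁻¹
    have hS' : cl (⇑Q) S' ∈ C := hCinv ρ hρg _ (C.inv_mem hsC)
    refine ⟨s * S'.1, ⟨(Cfsg.Omega F (⇑Q)).mul_mem hs S'.2, C.mul_mem hsC hS'⟩, fun v => ?_⟩
    have hS'1 : S'.1 = ρ * s⁻¹ * ρ := by
      refine Subtype.ext ?_
      rw [coe_semiOmega, gmap_one]
      show ρ.1 * s.1⁻¹ * ρ.1⁻¹ = ρ.1 * s.1⁻¹ * ρ.1
      congr 1
      exact congrArg Subtype.val (inv_eq_of_mul_eq_one_right hρρ)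
    have hu' : dotD M.d (X *ᵥ u) (X *ᵥ u) ≠ 0 := by rw [hX]; exact hu0
    obtain ⟨ρ', hρ'⟩ := M.exists_iso _ (refl_dotD hu')
    have hconj : s * ρ * s⁻¹ = ρ' := by
      rw [mul_inv_eq_iff_eq_mul]
      refine M.ext_φ fun w => ?_
      rw [act_mul, act_mul, hρ, hsX, hsX, hρ', Matrix.mulVec_mulVec, Matrix.mulVec_mulVec,
        mul_refl hX]
    rw [hS'1, show s * (ρ * s⁻¹ * ρ) = s * ρ * s⁻¹ * ρ by group, hconj, act_mul, hρ, hρ',
      Matrix.mulVec_mulVec]
  -- elements commuting with `g`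
  have key : ∀ s, P s →
      (∀ y, act Q s ((Units.val g : Matrix ι ι F) *ᵥ y) = (Units.val g : Matrix ι ι F) *ᵥ act Q s y) →
      s * s = 1 := by
    intro s hs hsg
    obtain ⟨X, hsX, hX⟩ := M.lift s hsg
    have hXζ : ∀ v, X *ᵥ (M.ζ * v) = M.ζ * (X *ᵥ v) := fun v => M.φ.injective (by
      rw [← hsX, ← M.g_φ, hsg, hsX, M.g_φ])
    have hgood : ∀ j u, M.GoodAt j u → M.GoodAt j (X *ᵥ u) := by
      intro j u hu m hm
      have h1 : M.ζ * u = M.ζ j • u := funext fun k => by
        by_cases hk : M.ζ k = M.ζ j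
        · simp [hk]
        · simp [hu k hk]
      have h2 := congrFun (hXζ u) m
      rw [h1, Matrix.mulVec_smul, Pi.smul_apply, smul_eq_mul, Pi.mul_apply] at h2
      have h3 : (M.ζ j - M.ζ m) * (X *ᵥ u) m = 0 := by rw [sub_mul, h2, sub_self]
      exact (mul_eq_zero.1 h3).resolve_left (sub_ne_zero.2 (Ne.symm hm))
    have heig : ∀ j, ∃ c : L, c * c = 1 ∧ X *ᵥ Pi.single j 1 = c • Pi.single j 1 := by
      intro j
      set u : J → L := Pi.single j 1 with hu
      have hug : M.GoodAt j u := fun m hm => by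
        rw [hu, Pi.single_apply, if_neg]
        intro h; exact hm (congrArg M.ζ h)
      have hu0 : dotD M.d u u ≠ 0 := by
        rw [hu, dotD_single, Pi.single_eq_same]; simpa using M.d_ne j
      set u' := X *ᵥ u with hu'
      have hq : dotD M.d u' u' = dotD M.d u u := hX u u
      suffices h : ∃ c : L, u' = c • u by
        obtain ⟨c, hc⟩ := h
        refine ⟨c, ?_, hc⟩
        rw [hc, dotD_smul_left, dotD_smul_right, ← mul_assoc] at hq
        exact mul_right_cancel₀ hu0 (hq.trans (one_mul _).symm)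
      rcases M.classes j with hone | hthree
      · refine ⟨u' j, funext fun m => ?_⟩
        by_cases hm : m = j
        · subst hm; simp [hu]
        · rw [show u' m = 0 from hgood j u hug m fun h => hm (hone m h)]; simp [hu, hm]
      obtain ⟨t, htP, ht⟩ := step s hs X hsX hX j u hug hu0
      by_cases hne : refl M.d u' * refl M.d u = 1
      · have h1 := congrArg (· *ᵥ u) hne
        simp only [← Matrix.mulVec_mulVec, refl_self hu0, Matrix.one_mulVec, Matrix.mulVec_neg] at h1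
        rw [refl_mulVec, hq, neg_sub] at h1
        set gc := dotD M.d u u' / dotD M.d u u with hgc
        have h4 : u = gc • u' := by
          refine smul_right_injective _ M.two (?_ : (2 : L) • u = (2 : L) • (gc • u'))
          rw [smul_smul, two_smul]
          nth_rw 1 [← h1]
          rw [sub_add_cancel]
          congr 1
          rw [hgc]
          field_simp
        have hgc0 : gc ≠ 0 := fun h => hu0 (by rw [h4, h]; simp [dotD])
        exact ⟨gc⁻¹, by rw [h4, smul_smul, inv_mul_cancel₀ hgc0, one_smul]⟩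
      · exfalso
        have hu'0 : dotD M.d u' u' ≠ 0 := by rw [hq]; exact hu0
        have hmemS : ∀ a, M.GoodAt j a → ∀ k, k ∉ cls M.ζ (M.ζ j) → a k = 0 :=
          fun a ha k hk => ha k fun h => hk (mem_cls.2 h)
        obtain ⟨W, hWs, hW0, hWW⟩ := exists_anisotropic_orth_on M.two M.d_ne (cls M.ζ (M.ζ j)) hthree
          (hmemS _ (hgood j u hug)) (hmemS _ hug) hu'0 hq.symm hne
        have hWg : M.GoodAt j W := fun m hm => hWs m fun h => hm (mem_cls.1 h)
        set Y := refl M.d u' * refl M.d u with hY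
        have hYd : ∀ v w, dotD M.d (Y *ᵥ v) (Y *ᵥ w) = dotD M.d v w :=
          mul_dotD (refl_dotD hu'0) (refl_dotD hu0)
        obtain ⟨t', ⟨ht'Ω, ht'C⟩, ht'⟩ := step t htP Y ht hYd j W hWg hW0
        have hW'0 : dotD M.d (Y *ᵥ W) (Y *ᵥ W) ≠ 0 := by rw [hYd]; exact hW0
        have horth : dotD M.d (Y *ᵥ W) W = 0 := by rw [dotD_comm]; exact hWW
        have htt : t' * t' = 1 := M.ext_φ fun v => by
          rw [act_mul, ht', ht', act_one, Matrix.mulVec_mulVec, refl_mul_sq hW'0 hW0 horth,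
            Matrix.one_mulVec]
        have hcl : cl (⇑Q) ⟨t', ht'Ω⟩ = 1 := hinvol _ ht'C (by
          show QuotientGroup.mk' _ (⟨t', ht'Ω⟩ * ⟨t', ht'Ω⟩ : ↥(Cfsg.Omega F (⇑Q))) = 1
          rw [show (⟨t', ht'Ω⟩ * ⟨t', ht'Ω⟩ : ↥(Cfsg.Omega F (⇑Q))) = 1 from Subtype.ext htt, map_one])
        obtain ⟨c, -, hc⟩ := exists_scalar_of_central N hcl
        have hcv : ∀ v, (refl M.d (Y *ᵥ W) * refl M.d W) *ᵥ v = M.κ c • v := fun v => M.φ.injective (by
          rw [← ht', M.φ_smul, act, show (Units.val t'.1 : Matrix ι ι F) = c • 1 from hc,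
            Matrix.smul_mulVec, Matrix.one_mulVec])
        obtain ⟨y, hy0, hyW', hyW⟩ := exists_perp M.d (Y *ᵥ W) W M.three_le
        have h1 := hcv y
        rw [← Matrix.mulVec_mulVec, refl_fix hyW, refl_fix hyW'] at h1
        obtain ⟨m, hm⟩ : ∃ m, y m ≠ 0 := Function.ne_iff.1 hy0
        have hc1 : M.κ c = 1 := by
          have := congrFun h1 m
          rw [Pi.smul_apply, smul_eq_mul] at this
          exact mul_right_cancel₀ hm (by rw [one_mul, ← this])
        have h2 := hcv W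
        rw [← Matrix.mulVec_mulVec, refl_self hW0, Matrix.mulVec_neg,
          refl_fix (show dotD M.d W (Y *ᵥ W) = 0 from hWW), hc1, one_smul] at h2
        refine hW0 ?_
        have hWz : W = 0 := funext fun k => by
          have := congrFun h2 k
          simp only [Pi.neg_apply] at this
          exact (mul_eq_zero.1 (show (2 : L) * W k = 0 by linear_combination -this)).resolve_left M.two
        rw [hWz]; simp [dotD]
    choose c hc hXc using heig
    refine M.ext_φ fun v => ?_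
    rw [act_mul, hsX, hsX, act_one, Matrix.mulVec_mulVec]
    refine congrArg M.φ ?_
    rw [show X * X = 1 from Matrix.ext_of_mulVec_single fun j => by
      rw [← Matrix.mulVec_mulVec, Matrix.one_mulVec, hXc, Matrix.mulVec_smul, hXc, smul_smul, hc,
        one_smul], Matrix.one_mulVec]
  refine (Subgroup.map_eq_bot_iff_of_injective _ (fixedPts x).subtype_injective).1 ?_
  rw [← hC, Subgroup.eq_bot_iff_forall]
  intro a ha
  obtain ⟨s, rfl⟩ := cl_surjective a
  obtain ⟨c, hc, hcomm⟩ := semi_of_fixed N (γ := gs.1) (τ := 1) (semi_of_sim gs.2) (s := s) (hCx _ ha)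
  have hsv : ∀ y, semiVec gs.1 1 y = (Units.val g : Matrix ι ι F) *ᵥ y := fun y => by rw [hg]; rfl
  simp only [hsv] at hcomm
  have h2s : (s * s).1 * (s * s).1 = 1 := by
    refine key (s * s).1 ⟨(s * s).2, C.mul_mem ha ha⟩ fun y => ?_
    show act Q (s.1 * s.1) _ = _ *ᵥ act Q (s.1 * s.1) y
    rw [act_mul, act_mul, hcomm, hcomm, act_smul, smul_smul, hc, one_smul]
  refine hinvol _ ha (hinvol _ (C.mul_mem ha ha) ?_)
  show cl (⇑Q) ((s * s) * (s * s)) = 1
  rw [show (s * s) * (s * s) = 1 from Subtype.ext h2s]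
  rfl

include N M in
/-- Only class-constant multiplications centralise the fixed points. -/
theorem mul_of_fix (hg : gs.1 = g) {γ : GL ι F} {τ : F ≃+* F}
    (h : Cfsg.IsSemisimilarityPair (⇑Q) γ τ)
    (hfix : ∀ k, simAut (⇑Q) gs k = k → semiAut γ τ h k = k) :
    τ = 1 ∧ ∃ c : J → L, (∀ i j, M.ζ i = M.ζ j → c i = c j) ∧
      ∀ v, (Units.val γ : Matrix ι ι F) *ᵥ M.φ v = M.φ (c * v) := by
  classical
  set T : (ι → F) → (ι → F) := semiVec γ τ with hT
  have Tadd : ∀ a b, T (a + b) = T a + T b := fun a b => by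
    rw [hT, semiVec, semiVec, semiVec, show τ ∘ (a + b) = τ ∘ a + τ ∘ b from
      funext fun i => map_add τ _ _, Matrix.mulVec_add]
  have Tsmul : ∀ (r : F) a, T (r • a) = τ r • T a := fun r a => by
    rw [hT, semiVec, semiVec, show τ ∘ (r • a) = τ r • (τ ∘ a) from
      funext fun i => map_mul τ _ _, Matrix.mulVec_smul]
  have Tinj : ∀ a, T a = 0 → a = 0 := fun a ha => by
    have h1 := congrArg ((Units.val γ⁻¹ : Matrix ι ι F).mulVec) ha
    rw [hT, semiVec, Matrix.mulVec_mulVec, Units.inv_mul, Matrix.one_mulVec, Matrix.mulVec_zero] at h1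
    exact funext fun i => τ.injective ((congrFun h1 i).trans (map_zero τ).symm)
  let ψ : (J → L) →+ (J → L) := AddMonoidHom.mk' (fun v => M.φ.symm (T (M.φ v))) fun a b => by
    rw [map_add, Tadd, map_add]
  have hψ : ∀ v, M.φ (ψ v) = T (M.φ v) := fun v => M.φ.apply_symm_apply _
  have ψinj : Function.Injective ψ := (injective_iff_map_eq_zero ψ).2 fun a ha => M.φ.injective (by
    rw [map_zero]; exact Tinj _ (by rw [← hψ, ha, map_zero]))
  obtain ⟨z, hz⟩ := M.big
  have hJ : 5 ≤ Fintype.card J := hz.trans (Finset.card_le_univ _)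
  have hpair : ∀ (u v : J → L) (i j : J), M.GoodAt i u → M.GoodAt j v → dotD M.d u u ≠ 0 →
      dotD M.d v v = dotD M.d u u → dotD M.d u v = 0 →
      ψ u = (dotD M.d (ψ u) u / dotD M.d u u) • u + (dotD M.d (ψ u) v / dotD M.d u u) • v := by
    intro u v i j hu hv hu0 hvv huv
    set X := refl M.d u * refl M.d v with hX
    have hv0 : dotD M.d v v ≠ 0 := by rw [hvv]; exact hu0
    obtain ⟨k, hk⟩ := M.exists_iso X (mul_dotD (refl_dotD hu0) (refl_dotD hv0))
    have hkΩ := M.pair u v i j k hu hv hu0 hvv huv hk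
    have hkg : gs.1 * k.1 = k.1 * gs.1 := hg ▸ M.comm_g hk fun w => by
      rw [hX, ← Matrix.mulVec_mulVec, refl_mulVec_mul hv, refl_mulVec_mul hu, Matrix.mulVec_mulVec]
    obtain ⟨c, hc, hcomm⟩ := semi_of_fixed N h (hfix _ (fixed_of_comm hkΩ hkg))
    have hψX : ∀ w, ψ (X *ᵥ w) = M.κ c • (X *ᵥ ψ w) := fun w => M.φ.injective (by
      rw [hψ, M.φ_smul, ← hk, ← hk, hψ]
      exact hcomm (M.φ w))
    rcases mul_self_eq_one_iff.1 hc with hc1 | hc1
    · refine eq_span_of_neg M hu0 hvv huv ?_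
      have h1 := hψX u
      rw [hc1, map_one, one_smul] at h1
      rw [← hX, ← h1, hX, ← Matrix.mulVec_mulVec, refl_fix huv, refl_self hu0, map_neg]
    · exfalso
      let f : (J → L) →ₗ[L] (L × L) :=
        { toFun := fun w => (dotD M.d w u, dotD M.d w v)
          map_add' := fun a b => by ext <;> simp [dotD_add_left]
          map_smul' := fun r a => by ext <;> simp [dotD_smul_left] }
      have hrank : 3 ≤ Module.finrank L (LinearMap.ker f) := by
        have h1 := LinearMap.finrank_range_add_finrank_ker f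
        have h2 := Submodule.finrank_le (LinearMap.range f)
        rw [Module.finrank_prod, Module.finrank_self] at h2
        rw [Module.finrank_fintype_fun_eq_card] at h1
        omega
      let e : LinearMap.ker f → L × L := fun w => (dotD M.d (ψ w.1) u, dotD M.d (ψ w.1) v)
      have he : Function.Injective e := by
        intro a b hab
        have hspan : ∀ w : LinearMap.ker f, ψ w.1 =
            (dotD M.d (ψ w.1) u / dotD M.d u u) • u + (dotD M.d (ψ w.1) v / dotD M.d u u) • v := by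
          intro w
          refine eq_span_of_neg M hu0 hvv huv ?_
          have hw := LinearMap.mem_ker.1 w.2
          have h1 := hψX w.1
          rw [hc1, map_neg, map_one, neg_one_smul, hX, ← Matrix.mulVec_mulVec,
            refl_fix (show dotD M.d w.1 v = 0 from congrArg Prod.snd hw),
            refl_fix (show dotD M.d w.1 u = 0 from congrArg Prod.fst hw)] at h1
          exact neg_eq_iff_eq_neg.1 h1.symm
        refine Subtype.ext (ψinj ?_)
        rw [hspan a, hspan b, show dotD M.d (ψ a.1) u = dotD M.d (ψ b.1) u from congrArg Prod.fst hab,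
          show dotD M.d (ψ a.1) v = dotD M.d (ψ b.1) v from congrArg Prod.snd hab]
      have hcard := Nat.card_le_card_of_injective e he
      rw [Module.natCard_eq_pow_finrank (K := L), Nat.card_prod, ← pow_two] at hcard
      have h1 : 1 < Nat.card L := Finite.one_lt_card
      have := (Nat.pow_le_pow_iff_right h1).1 hcard
      omega
  have hline : ∀ i u, M.GoodAt i u → dotD M.d u u ≠ 0 → ∃ c : L, ψ u = c • u := by
    intro i u hu hu0
    obtain ⟨j, hj⟩ := Finset.card_pos.1 (show 0 < (cls M.ζ z).card by omega)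
    rw [mem_cls] at hj
    subst hj
    set S := cls M.ζ (M.ζ j) with hS
    have hgoodS : ∀ a : J → L, (∀ m, m ∉ S → a m = 0) → M.GoodAt j a :=
      fun a ha m hm => ha m fun h => hm (mem_cls.1 h)
    have hsu : (∀ m, m ∉ S → u m = 0) ∨ ∀ m ∈ S, u m = 0 := by
      by_cases hij : M.ζ i = M.ζ j
      · exact Or.inl fun m hm => hu m fun h => hm (mem_cls.2 (h.trans hij))
      · exact Or.inr fun m hm => hu m fun h => hij (h.symm.trans (mem_cls.1 hm))
    obtain ⟨v, hv, huv, -, hvv⟩ := exists_value_orth M.two M.d_ne S (by omega) u 0 hu0 (Or.inl rfl)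
      (by simp [dotD]) hsu (fun m _ => rfl) hu0
    have hv0 : dotD M.d v v ≠ 0 := by rw [hvv]; exact hu0
    obtain ⟨v', hv', huv', hvv', hv'v'⟩ := exists_value_orth M.two M.d_ne S (by omega) u v hu0
      (Or.inr hv0) huv hsu hv hu0
    have h1 := hpair u v i j hu (hgoodS v hv) hu0 hvv huv
    have h2 := hpair u v' i j hu (hgoodS v' hv') hu0 hv'v' huv'
    have h3 := congrArg (fun a => dotD M.d a v) h2
    simp only [dotD_add_left, dotD_smul_left, huv, dotD_comm M.d v' v, hvv', mul_zero, add_zero] at h3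
    exact ⟨dotD M.d (ψ u) u / dotD M.d u u, h1.trans (by rw [h3]; simp)⟩
  have hbig : ∀ j, 3 ≤ (cls M.ζ (M.ζ j)).card → ∃ c : L, ∀ u, M.GoodAt j u → ψ u = c • u := by
    intro j hj
    obtain ⟨c, hc⟩ := scalar_of_lines M.d_ne (cls M.ζ (M.ζ j)) hj ψ fun u hu hu0 =>
      hline j u (fun m hm => hu m fun h => hm (mem_cls.1 h)) hu0
    exact ⟨c, fun u hu => hc u fun m hm => hu m fun h => hm (mem_cls.2 h)⟩
  have hsingle : ∀ j (a : L), M.GoodAt j (Pi.single j a) := fun j a m hm => by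
    rw [Pi.single_apply, if_neg]
    intro h; exact hm (congrArg M.ζ h)
  have hτ : τ = 1 := by
    obtain ⟨j, hj⟩ := Finset.card_pos.1 (show 0 < (cls M.ζ z).card by omega)
    rw [mem_cls] at hj
    subst hj
    obtain ⟨c, hc⟩ := hbig j (by omega)
    have hc0 : c ≠ 0 := fun h0 => by
      have h1 := hc _ (hsingle j 1)
      rw [h0, zero_smul] at h1
      exact one_ne_zero (Pi.single_eq_zero_iff.1 (ψinj (h1.trans (map_zero ψ).symm)))
    refine RingEquiv.ext fun a => M.κ.injective (mul_right_cancel₀ hc0 ?_)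
    have hsm : M.κ a • (Pi.single j 1 : J → L) = Pi.single j (M.κ a) := by
      rw [← Pi.single_smul, smul_eq_mul, mul_one]
    have h1 := hψ (M.κ a • Pi.single j 1)
    rw [hsm, hc _ (hsingle j _), ← hsm, M.φ_smul, Tsmul, ← hψ, hc _ (hsingle j 1), ← M.φ_smul,
      smul_smul, smul_smul] at h1
    have h2 := congrFun (M.φ.injective h1) j
    simp at h2
    show M.κ (τ a) * c = M.κ a * c
    linear_combination -h2
  refine ⟨hτ, ?_⟩
  have Tγ : ∀ a, T a = (Units.val γ : Matrix ι ι F) *ᵥ a := fun a => by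
    rw [hT, semiVec, hτ]
    rfl
  have hall : ∀ j, ∃ c : L, ∀ u, M.GoodAt j u → ψ u = c • u := by
    intro j
    rcases M.classes j with hone | hthree
    swap
    · exact hbig j hthree
    obtain ⟨hsurj, hrest⟩ := M.single j hone
    obtain ⟨μ, hμ⟩ := h
    set e : J → L := Pi.single j 1 with he
    have hpolT : ∀ a b, QuadraticMap.polar Q (T a) (T b) = (μ : F) * QuadraticMap.polar Q a b := by
      have hQT : ∀ a, Q (T a) = (μ : F) * Q a := fun a => by
        have h1 : Q (T a) = (μ : F) * τ (Q a) := hμ a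
        rw [h1, hτ]
        rfl
      intro a b
      simp only [QuadraticMap.polar, ← Tadd, hQT]
      ring
    have hzero : ∀ m, m ≠ j → ψ e m = 0 := by
      intro m hm
      obtain ⟨c, hc⟩ := hbig m (hrest m hm)
      have hc0 : c ≠ 0 := fun h0 => by
        have h1 := hc _ (hsingle m 1)
        rw [h0, zero_smul] at h1
        exact one_ne_zero (Pi.single_eq_zero_iff.1 (ψinj (h1.trans (map_zero ψ).symm)))
      have hw : ∀ w : L, M.ℓ (2 * (M.d m * (ψ e m * w))) = 0 := by
        intro w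
        have h1 : ψ (Pi.single m (w / c)) = Pi.single m w := by
          rw [hc _ (hsingle m _), ← Pi.single_smul, smul_eq_mul, mul_div_cancel₀ _ hc0]
        have h2 := hpolT (M.φ e) (M.φ (Pi.single m (w / c)))
        rw [← hψ, ← hψ, h1, M.polar_φ, M.polar_φ, dotD_comm M.d (ψ e), dotD_single, he, dotD_single,
          Pi.single_eq_of_ne (Ne.symm hm)] at h2
        simpa [mul_comm, mul_left_comm] using h2
      have h0 : M.φ (Pi.single m (ψ e m)) = 0 := N.nondeg.1 _ fun y => by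
        obtain ⟨b, rfl⟩ := M.φ.surjective y
        show QuadraticMap.polar Q _ _ = 0
        rw [M.polar_φ, dotD_single]
        convert hw (b m) using 3
        ring
      exact Pi.single_eq_zero_iff.1 (M.φ.injective (h0.trans (map_zero M.φ).symm))
    refine ⟨ψ e j, fun u hu => ?_⟩
    obtain ⟨b, hb⟩ := hsurj (u j)
    have hu' : u = M.κ b • e := funext fun m => by
      by_cases hm : m = j
      · subst hm; simp [he, hb]
      · rw [hu m fun hh => hm (hone m hh)]; simp [he, hm]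
    have hψe : ψ e = ψ e j • e := funext fun m => by
      by_cases hm : m = j
      · subst hm; simp [he]
      · rw [hzero m hm]; simp [he, hm]
    have hψu : ψ u = M.κ b • ψ e := M.φ.injective (by
      rw [hψ, hu', M.φ_smul, M.φ_smul, Tsmul, hψ, hτ]
      rfl)
    rw [hψu, hψe, hu', smul_comm]
    simp [he]
  choose c hc using hall
  refine ⟨c, fun i j hij => ?_, fun v => ?_⟩
  · have h1 := hc i _ (hsingle i 1)
    have h2 := hc j (Pi.single i 1) fun m hm => hsingle i 1 m (hij ▸ hm)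
    have h3 := congrFun (h1.symm.trans h2) i
    simpa using h3
  · rw [← Tγ, ← hψ]
    refine congrArg M.φ ?_
    conv_lhs => rw [← Finset.univ_sum_single v, map_sum]
    funext m
    simp only [Finset.sum_apply, fun i => hc i _ (hsingle i (v i)), Pi.smul_apply, smul_eq_mul,
      Pi.mul_apply]
    rw [Finset.sum_eq_single m (fun i _ hi => by rw [Pi.single_eq_of_ne (Ne.symm hi), mul_zero])
      (by simp), Pi.single_eq_same]

include N M in
/-- The `2'`-core of the centraliser is trivial. -/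
theorem core_eq_bot (hg : gs.1 = g) (hord : orderOf (simAut (⇑Q) gs) = 2)
    (hx : simAut (⇑Q) gs ∉ (MulAut.conj : Cfsg.POmega F (⇑Q) →* _).range)
    (hgam : ∀ a : MulAut (Cfsg.POmega F (⇑Q)), Commute a (simAut (⇑Q) gs) →
      (∀ k, simAut (⇑Q) gs k = k → a k = k) → a ∈ Cfsg.gammaPOmega F (⇑Q))
    (hZ : Subgroup.center (Cfsg.POmega F (⇑Q)) = ⊥)
    (hfin : ∀ γ : ↥(Cfsg.Geo.quadSimilarityGroup (F := F) (⇑Q)), ∀ c : J → L,
      (∀ i j, M.ζ i = M.ζ j → c i = c j) →
      (∀ v, (Units.val γ.1 : Matrix ι ι F) *ᵥ M.φ v = M.φ (c * v)) →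
      simAut (⇑Q) γ ∈ Subgroup.zpowers (simAut (⇑Q) gs))
    (A : Subgroup (MulAut (Cfsg.POmega F (⇑Q)))) (hinn : ∀ k, MulAut.conj k ∈ A) :
    Cfsg.pPrimeCore 2 ↥(A ⊓ Subgroup.centralizer {simAut (⇑Q) gs}) = ⊥ := by
  haveI : Fact (Nat.Prime 2) := ⟨Nat.prime_two⟩
  refine core_eq_bot_of_normalized hZ A hinn hord hx (fixedPts (simAut (⇑Q) gs)) (fun s hs => hs)
    (fun k hk s hs => (fixedPts _).mul_mem ((fixedPts _).mul_mem hk hs) ((fixedPts _).inv_mem hk))
    ?_ ?_
  · intro a hax hfix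
    obtain ⟨γ, τ, h, rfl⟩ := mem_gamma_iff.1 (hgam a hax hfix)
    obtain ⟨hτ, c, hc, hγ⟩ := M.mul_of_fix N hg h hfix
    subst hτ
    exact hfin ⟨γ, sim_of_semi h⟩ c hc hγ
  · exact fun S hS hcop =>
      CfsgLib.Cores.pPrimeCore_eq_bot_iff.1 (M.core_fixedPts N hg hord) S hS hcop

end Model

end CfsgLib.LocalBalanceAut.Graph
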