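import Cfsg.Agent.Lib.LocalBalanceAut.GraphModel
import Cfsg.Agent.Lib.LocalBalanceAut.DatumField
import Cfsg.Agent.Lib.ReflectionsSpinor.POmegaGraphLocal
import Cfsg.Agent.Lib.ReflectionsSpinor.POmegaCoset
import Mathlib.Algebra.QuadraticAlgebra.Basic

/-!
# The two kinds of improper involutory similarities, in coordinates
-/

set_option autoImplicit false
set_option linter.unusedSectionVars false
set_option linter.style.haveILetI false
set_option maxHeartbeats 800000

open Matrix CfsgLib.OrthGen CfsgLib.LocalBalance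
open CfsgLib.ReflectionsSpinor CfsgLib.ReflectionsSpinor.POmegaAut CfsgLib.ReflectionsSpinor.POmegaQuot
  CfsgLib.ReflectionsSpinor.POmegaField
open CfsgLib.LocalBalanceAut.OrthCoord

namespace CfsgLib.LocalBalanceAut.Graph

universe u

variable {F : Type u} [Field F] [Finite F] {ι : Type} [Fintype ι] [DecidableEq ι]
  {Q : QuadraticForm F (ι → F)}

set_option quotPrecheck false in
local notation "PO" => Cfsg.POmega F (⇑Q)

theorem eight_le (E : Even2 Q) : 8 ≤ Fintype.card ι := by
  obtain ⟨-, -, -, -, hn⟩ := E.good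
  obtain ⟨j, hj⟩ := E.even
  omega

theorem even2_nd (E : Even2 Q) : Nd Q := ⟨E.nondeg, E.good⟩

theorem delta_scalarSim (E : Even2 Q) (c : Fˣ) : delta E (scalarSim c) = 1 :=
  congrArg Prod.snd (phi_scalar E c)

/-- An improper similarity is not inner. -/
theorem not_inn (E : Even2 Q) {gs : ↥(Cfsg.Geo.quadSimilarityGroup (F := F) (⇑Q))}
    (hd : delta E gs = -1) : simAut (⇑Q) gs ∉ (MulAut.conj : PO →* MulAut PO).range := by
  rintro ⟨k, hk⟩
  obtain ⟨s, rfl⟩ := cl_surjective k
  rw [inner_eq_simAut] at hk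
  have h1 := chi_eq_of_simAut_eq (even2_nd E) (delta E) (delta_scalarSim E) hk
  rw [hd, show omegaSim (⇑Q) s = isoSim s.1 from rfl] at h1
  have h2 : ((delta E).comp isoSim) s.1 = 1 := Abelianization.commutator_subset_ker _ s.2
  rw [MonoidHom.comp_apply, h1] at h2
  exact absurd h2 (by decide)

/-- A similarity whose square is a square scalar. -/
theorem split_core_eq_bot (E : Even2 Q) (h : ↥(Cfsg.isometryGroup F (⇑Q)))
    (hinv : ∀ y, act Q h (act Q h y) = y) (hdet : Classes.detHom Q h = -1)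
    (hord : orderOf (simAut (⇑Q) (isoSim h)) = 2)
    (hgam : ∀ a : MulAut PO, Commute a (simAut (⇑Q) (isoSim h)) →
      (∀ k, simAut (⇑Q) (isoSim h) k = k → a k = k) → a ∈ Cfsg.gammaPOmega F (⇑Q))
    (hZ : Subgroup.center PO = ⊥) (A : Subgroup (MulAut PO)) (hinn : ∀ k : PO, MulAut.conj k ∈ A) :
    Cfsg.pPrimeCore 2 ↥(A ⊓ Subgroup.centralizer {simAut (⇑Q) (isoSim h)}) = ⊥ := by
  classical
  haveI := E.nonempty
  have N := even2_nd E
  have h2 := E.two
  haveI : Invertible (2 : F) := invertibleOfNonzero h2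
  set f : (ι → F) →ₗ[F] (ι → F) := Matrix.toLin' (Units.val h.1 : Matrix ι ι F) with hf
  have hfa : ∀ y, f y = act Q h y := fun y => Matrix.toLin'_apply _ y
  obtain ⟨hcompl, hdetf⟩ := det_involution h2 f fun y => by rw [hfa, hfa]; exact hinv y
  set U := LinearMap.ker (f + LinearMap.id) with hU
  set W := LinearMap.ker (f - LinearMap.id) with hW
  have hUm : ∀ y ∈ U, act Q h y = -y := fun y hy => by
    rw [hU, LinearMap.mem_ker, LinearMap.add_apply, LinearMap.id_apply, add_eq_zero_iff_eq_neg, hfa] at hy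
    exact hy
  have hWm : ∀ y ∈ W, act Q h y = y := fun y hy => by
    rw [hW, LinearMap.mem_ker, LinearMap.sub_apply, LinearMap.id_apply, sub_eq_zero, hfa] at hy
    exact hy
  rw [hf, LinearMap.det_toLin',
    show (Units.val h.1 : Matrix ι ι F).det = -1 from hdet] at hdetf
  have hdU : Odd (Module.finrank F U) := Nat.not_even_iff_odd.1 fun he => neg_one_ne_one E (by
    rw [he.neg_one_pow] at hdetf; exact hdetf)
  have hsum := Submodule.finrank_add_eq_of_isCompl hcompl
  rw [Module.finrank_fintype_fun_eq_card] at hsum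
  have hdW : Odd (Module.finrank F W) := by
    obtain ⟨j, hj⟩ := E.even
    obtain ⟨k, hk⟩ := hdU
    exact ⟨j - k - 1, by have := eight_le E; omega⟩
  have hbig : 5 ≤ Module.finrank F U ∨ 5 ≤ Module.finrank F W := by
    have := eight_le E
    obtain ⟨k, hk⟩ := hdU
    obtain ⟨j, hj⟩ := hdW
    omega
  have hUW : ∀ y ∈ U, ∀ z ∈ W, pf Q y z = 0 := by
    intro y hy z hz
    have h1 := pf_act h y z
    rw [hUm y hy, hWm z hz, pf, QuadraticMap.polar_neg_left, ← pf] at h1
    exact (mul_eq_zero.1 (show (2 : F) * pf Q y z = 0 by linear_combination -h1)).resolve_left h2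
  have hsymm : ∀ X : Submodule F (ι → F),
      LinearMap.IsSymm (LinearMap.BilinForm.restrict (QuadraticMap.polarBilin Q) X) := fun X =>
    LinearMap.isSymm_def.2 fun a b => QuadraticMap.polar_comm (⇑Q) a.1 b.1
  obtain ⟨bU, hbU⟩ := LinearMap.BilinForm.exists_orthogonal_basis (hsymm U)
  obtain ⟨bW, hbW⟩ := LinearMap.BilinForm.exists_orthogonal_basis (hsymm W)
  let J := Fin (Module.finrank F U) ⊕ Fin (Module.finrank F W)
  let b : Module.Basis J F (ι → F) := (bU.prod bW).map (Submodule.prodEquivOfIsCompl U W hcompl)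
  have hbl : ∀ k, b (Sum.inl k) = (bU k : ι → F) := fun k => by
    simp [b, Submodule.coe_prodEquivOfIsCompl', J]
  have hbr : ∀ k, b (Sum.inr k) = (bW k : ι → F) := fun k => by
    simp [b, Submodule.coe_prodEquivOfIsCompl', J]
  have horth : ∀ j k : J, j ≠ k → pf Q (b j) (b k) = 0 := by
    rintro (j | j) (k | k) hjk
    · rw [hbl, hbl]
      exact LinearMap.isOrthoᵢ_def.1 hbU j k fun hh => hjk (congrArg Sum.inl hh)
    · rw [hbl, hbr]
      exact hUW _ (bU j).2 _ (bW k).2
    · rw [hbl, hbr, pf_comm]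
      exact hUW _ (bU k).2 _ (bW j).2
    · rw [hbr, hbr]
      exact LinearMap.isOrthoᵢ_def.1 hbW j k fun hh => hjk (congrArg Sum.inr hh)
  let d : J → F := fun j => Q (b j)
  let φ : (J → F) ≃+ (ι → F) := b.equivFun.symm.toAddEquiv
  have hφ : ∀ v, φ v = ∑ j, v j • b j := fun v => b.equivFun_symm_apply v
  have hpol : ∀ v w, QuadraticMap.polar Q (φ v) (φ w) = 2 * dotD d v w := by
    intro v w
    rw [← QuadraticMap.polarBilin_apply_apply, hφ, hφ, map_sum, dotD_eq_sum, Finset.mul_sum]
    simp only [LinearMap.sum_apply, map_sum, map_smul, LinearMap.smul_apply,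
      QuadraticMap.polarBilin_apply_apply, smul_eq_mul]
    refine Finset.sum_congr rfl fun j _ => ?_
    rw [Finset.sum_eq_single j]
    · rw [show QuadraticMap.polar (⇑Q) (b j) (b j) = 2 * Q (b j) from pf_self Q (b j)]
      simp only [d]
      ring
    · intro k _ hk
      rw [show QuadraticMap.polar (⇑Q) (b k) (b j) = 0 from horth k j hk]
      simp
    · simp
  have hQφ : ∀ v, Q (φ v) = dotD d v v := fun v => by
    refine mul_left_cancel₀ h2 ?_
    rw [← pf_self, pf, hpol]
  have hd : ∀ j, d j ≠ 0 := by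
    intro j hj
    have h0 : b j = 0 := E.nondeg.1 _ fun y => by
      obtain ⟨w, rfl⟩ := φ.surjective y
      show QuadraticMap.polar Q _ _ = 0
      rw [show b j = φ (Pi.single j 1) by
        rw [hφ, Finset.sum_eq_single j] <;> simp +contextual [Pi.single_apply], hpol, dotD_single,
        show d j = 0 from hj]
      ring
    exact b.ne_zero j h0
  let ζ : J → F := Sum.elim (fun _ => (-1 : F)) (fun _ => (1 : F))
  have hζ : ∀ v, (Units.val h.1 : Matrix ι ι F) *ᵥ φ v = φ (ζ * v) := by
    intro v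
    rw [hφ, hφ]
    simp only [Matrix.mulVec_sum, Matrix.mulVec_smul, Pi.mul_apply, mul_comm (ζ _), ← smul_smul]
    refine Finset.sum_congr rfl fun j _ => congrArg (v j • ·) ?_
    show act Q h (b j) = _
    rcases j with j | j
    · rw [hbl, hUm _ (bU j).2]; simp [ζ]
    · rw [hbr, hWm _ (bW j).2]; simp [ζ]
  have hne : (-1 : F) ≠ 1 := neg_one_ne_one E
  have hcl : ∀ j : J, (cls ζ (ζ j)).card =
      Sum.elim (fun _ => Module.finrank F U) (fun _ => Module.finrank F W) j := by
    rintro (j | j)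
    · rw [show cls ζ (ζ (Sum.inl j)) = Finset.univ.image Sum.inl from Finset.ext fun k => by
        rw [mem_cls]; rcases k with k | k <;> simp [ζ, hne.symm]]
      rw [Finset.card_image_of_injective _ Sum.inl_injective]
      simp
    · rw [show cls ζ (ζ (Sum.inr j)) = Finset.univ.image Sum.inr from Finset.ext fun k => by
        rw [mem_cls]; rcases k with k | k <;> simp [ζ, hne]]
      rw [Finset.card_image_of_injective _ Sum.inr_injective]
      simp
  have hone : ∀ j : J, (∀ k, ζ k = ζ j → k = j) → (cls ζ (ζ j)).card = 1 := fun j hj => by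
    rw [Finset.card_eq_one]
    refine ⟨j, Finset.ext fun k => ?_⟩
    rw [mem_cls, Finset.mem_singleton]
    exact ⟨hj k, fun hk => hk ▸ rfl⟩
  let M : Model Q h.1 F J :=
    { κ := RingHom.id F
      φ := φ
      φ_smul := fun a v => map_smul b.equivFun.symm a v
      d := d
      d_ne := hd
      ℓ := AddMonoidHom.id F
      Q_φ := hQφ
      ζ := ζ
      g_φ := hζ
      two := h2
      classes := fun j => by
        by_cases h1 : (cls ζ (ζ j)).card = 1
        · refine Or.inl fun k hk => ?_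
          obtain ⟨m, hm⟩ := Finset.card_eq_one.1 h1
          have ej : j = m := by simpa [hm] using (mem_cls.2 (rfl : ζ j = ζ j) : j ∈ cls ζ (ζ j))
          have ek : k = m := by simpa [hm] using (mem_cls.2 hk : k ∈ cls ζ (ζ j))
          rw [ek, ej]
        · refine Or.inr ?_
          rw [hcl] at h1 ⊢
          rcases j with j | j <;> simp only [Sum.elim_inl, Sum.elim_inr] at h1 ⊢
          · obtain ⟨i, hi⟩ := hdU; omega
          · obtain ⟨i, hi⟩ := hdW; omega
      single := fun j hj => by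
        refine ⟨Function.surjective_id, fun k hk => ?_⟩
        have h1 := hone j hj
        have hk' : ζ k ≠ ζ j := fun hh => hk (hj k hh)
        rw [hcl] at h1 ⊢
        have := eight_le E
        rcases j with j | j <;> rcases k with k | k <;>
          simp only [Sum.elim_inl, Sum.elim_inr, ζ, ne_eq, not_true_eq_false] at h1 hk' ⊢ <;> omega
      big := by
        rcases hbig with hb | hb
        · exact ⟨ζ (Sum.inl ⟨0, by omega⟩), by rw [hcl]; exact hb⟩
        · exact ⟨ζ (Sum.inr ⟨0, by omega⟩), by rw [hcl]; exact hb⟩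
      lift := fun k _ => by
        set L := LinearMap.toMatrix b b (Matrix.toLin' (Units.val k.1 : Matrix ι ι F)) with hL
        have hk : ∀ v, act Q k (φ v) = φ (L *ᵥ v) := fun v => by
          have h1 := LinearMap.toMatrix_mulVec_repr b b (Matrix.toLin' (Units.val k.1 : Matrix ι ι F)) (φ v)
          rw [show ⇑(b.repr (φ v)) = v from b.equivFun.apply_symm_apply v, ← hL] at h1
          rw [h1]
          exact (b.equivFun.symm_apply_apply _).symm
        refine ⟨L, hk, fun v w => mul_left_cancel₀ h2 ?_⟩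
        rw [← hpol, ← hpol, ← hk, ← hk]
        exact pf_act k _ _
      pair := fun u v i j k _ _ hu0 hvv huv hk => by
        have hqu : Q (φ u) = dotD d u u := hQφ u
        have hqv : Q (φ v) = dotD d u u := (hQφ v).trans hvv
        have hu' : Q (φ u) ≠ 0 := by rw [hqu]; exact hu0
        have hv' : Q (φ v) ≠ 0 := by rw [hqv]; exact hu0
        have hr : ∀ (a : J → F) (ha : Q (φ a) ≠ 0) w,
            act Q (OrthGen.refl Q ha) (φ w) = φ (LocalBalance.refl d a *ᵥ w) := by
          intro a ha w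
          rw [act_refl, refl_mulVec, map_sub, pf, hpol, dotD_comm d w a, hQφ]
          rw [show ((2 : F) / dotD d a a * dotD d a w) = (dotD d a a)⁻¹ * (2 * dotD d a w) by ring]
          exact congrArg (φ w - ·) (map_smul b.equivFun.symm _ a).symm
        have hkk : k = OrthGen.refl Q hu' * OrthGen.refl Q hv' := ext_act fun y => by
          rw [← φ.apply_symm_apply y, hk, act_mul, hr v hv', hr u hu', Matrix.mulVec_mulVec]
        rw [hkk, Classes.mem_omega_iff h2 E.nondeg E.two_le, map_mul, map_mul, Classes.detHom_refl,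
          Classes.detHom_refl]
        refine ⟨by ring, ?_⟩
        by_cases hs : IsSquare (1 / Q (φ u))
        · rw [(spinSign_refl h2 one_ne_zero hu').2 hs,
            (spinSign_refl h2 one_ne_zero hv').2 (by rw [hqv, ← hqu]; exact hs)]
          decide
        · rw [(spinSign_refl' h2 one_ne_zero hu').2 hs,
            (spinSign_refl' h2 one_ne_zero hv').2 (by rw [hqv, ← hqu]; exact hs)]
          decide }
  have hd' : delta E (isoSim h) = -1 := (Int.units_eq_one_or _).resolve_left fun e => by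
    rw [delta_isoSim_eq_one_iff, hdet] at e
    exact hne e
  refine M.core_eq_bot N (gs := isoSim h) rfl hord (not_inn E hd') hgam hZ ?_ A hinn
  intro γ c hc hγ
  obtain ⟨k, hk⟩ := hdU
  obtain ⟨k', hk'⟩ := hdW
  let jU : J := Sum.inl ⟨0, by omega⟩
  let jW : J := Sum.inr ⟨0, by omega⟩
  have hsq : ∀ j, c j * c j = (mu N γ : F) := by
    intro j
    have h1 := mu_spec N γ (φ (Pi.single j 1))
    rw [show (Units.val γ.1 : Matrix ι ι F) *ᵥ φ (Pi.single j 1) = φ (c * Pi.single j 1) from hγ _,
      hQφ, hQφ, show c * Pi.single j 1 = c j • (Pi.single j 1 : J → F) from funext fun m => by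
        by_cases hm : m = j
        · subst hm; simp
        · simp [hm], dotD_smul_left, dotD_smul_right, ← mul_assoc] at h1
    exact mul_right_cancel₀ (by rw [dotD_single]; simpa using hd j) h1
  have hc0 : c jW ≠ 0 := fun hh => (mu N γ).ne_zero (by rw [← hsq jW, hh, zero_mul])
  have hcU : ∀ j, c j = if ζ j = 1 then c jW else c jU := fun j => by
    rcases j with j | j
    · rw [if_neg (by simpa [ζ] using hne)]; exact hc _ _ rfl
    · rw [if_pos (by simp [ζ])]; exact hc _ _ rfl
  rcases mul_self_eq_mul_self_iff.1 ((hsq jU).trans (hsq jW).symm) with e | e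
  · refine ⟨0, ?_⟩
    show simAut (⇑Q) (isoSim h) ^ (0 : ℤ) = _
    rw [zpow_zero, eq_comm, simAut_eq_one_iff E.good]
    refine ⟨c jW, hc0, Matrix.ext_of_mulVec_single fun i => ?_⟩
    obtain ⟨v, hv⟩ := φ.surjective (Pi.single i 1)
    rw [← hv, Matrix.smul_mulVec, Matrix.one_mulVec]
    refine (hγ v).trans ((congrArg φ ?_).trans (map_smul b.equivFun.symm (c jW) v))
    funext j
    rw [Pi.mul_apply, hcU j, e, ite_self]
    rfl
  · refine ⟨1, ?_⟩
    show simAut (⇑Q) (isoSim h) ^ (1 : ℤ) = _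
    rw [zpow_one, ← one_mul (simAut (⇑Q) (isoSim h)),
      ← simAut_scalarSim N (Units.mk0 (c jW) hc0), ← map_mul]
    refine congrArg _ (Subtype.ext (Units.ext (Matrix.ext_of_mulVec_single fun i => ?_)))
    obtain ⟨v, hv⟩ := φ.surjective (Pi.single i 1)
    rw [← hv]
    show (Units.val (scalarGL (Units.mk0 (c jW) hc0)) * Units.val h.1 : Matrix ι ι F) *ᵥ φ v = _
    rw [← Matrix.mulVec_mulVec, hζ, coe_scalarGL, Matrix.smul_mulVec, Matrix.one_mulVec]
    refine ((map_smul b.equivFun.symm (c jW) (ζ * v)).symm.trans (congrArg φ ?_)).trans (hγ v).symm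
    funext j
    rw [Pi.smul_apply, smul_eq_mul, Pi.mul_apply, Pi.mul_apply, hcU j, e]
    rcases j with j | j <;> simp [ζ, hne]

/-- A similarity whose square is a nonsquare scalar. -/
theorem nonsplit_core_eq_bot (E : Even2 Q) (gs : ↥(Cfsg.Geo.quadSimilarityGroup (F := F) (⇑Q)))
    (hd : delta E gs = -1) {l : Fˣ} (hl : gs * gs = scalarSim l) (hns : ¬ IsSquare (l : F))
    (hord : orderOf (simAut (⇑Q) gs) = 2)
    (hgam : ∀ a : MulAut PO, Commute a (simAut (⇑Q) gs) →
      (∀ k, simAut (⇑Q) gs k = k → a k = k) → a ∈ Cfsg.gammaPOmega F (⇑Q))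
    (hZ : Subgroup.center PO = ⊥) (A : Subgroup (MulAut PO)) (hinn : ∀ k : PO, MulAut.conj k ∈ A) :
    Cfsg.pPrimeCore 2 ↥(A ⊓ Subgroup.centralizer {simAut (⇑Q) gs}) = ⊥ := by
  classical
  haveI := E.nonempty
  have N := even2_nd E
  have h2 := E.two
  obtain ⟨hμ, hkodd⟩ := mult_eq_of_nonsquare E gs hd hl hns
  set a : Matrix ι ι F := Units.val gs.1 with ha
  have hgg : ∀ y, a *ᵥ (a *ᵥ y) = (l : F) • y := mulVec_mulVec_of_sq hl
  have hl0 : (l : F) ≠ 0 := l.ne_zero
  have hpol : ∀ y z, pf Q (a *ᵥ y) (a *ᵥ z) = (l : F) * pf Q y z := fun y z => by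
    simp only [pf, QuadraticMap.polar, ← Matrix.mulVec_add, ha, mult_spec E, hμ]; ring
  have hsa : ∀ y z, pf Q (a *ᵥ y) z = pf Q y (a *ᵥ z) := fun y z => by
    have h1 := hpol y (a *ᵥ z)
    rw [hgg, pf, QuadraticMap.polar_smul_right, ← pf, smul_eq_mul] at h1
    exact mul_left_cancel₀ hl0 h1
  haveI : Fact (∀ r : F, r ^ 2 ≠ (l : F) + 0 * r) :=
    ⟨fun r hr => hns ⟨r, by linear_combination -hr⟩⟩
  haveI : Finite (QuadraticAlgebra F (l : F) 0) := Finite.of_equiv _ (QuadraticAlgebra.equivProd (l : F) (0 : F)).symm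
  have hK2 : (2 : (QuadraticAlgebra F (l : F) 0)) ≠ 0 := fun hh => h2 ((FaithfulSMul.algebraMap_injective F (QuadraticAlgebra F (l : F) 0))
    (by rw [map_ofNat, map_zero]; exact hh))
  haveI : Invertible (2 : (QuadraticAlgebra F (l : F) 0)) := invertibleOfNonzero hK2
  have hsq : Matrix.toLin' a * Matrix.toLin' a =
      (l : F) • (1 : Module.End F (ι → F)) + (0 : F) • Matrix.toLin' a := by
    rw [zero_smul, add_zero]
    refine LinearMap.ext fun y => ?_
    show Matrix.toLin' a (Matrix.toLin' a y) = (l : F) • y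
    rw [Matrix.toLin'_apply, Matrix.toLin'_apply, hgg]
  let Λ : (QuadraticAlgebra F (l : F) 0) →ₐ[F] Module.End F (ι → F) := QuadraticAlgebra.lift ⟨Matrix.toLin' a, hsq⟩
  letI : Module (QuadraticAlgebra F (l : F) 0) (ι → F) := Module.compHom (ι → F) Λ.toRingHom
  have hsmul : ∀ (z : (QuadraticAlgebra F (l : F) 0)) (y : ι → F), z • y = z.re • y + z.im • (a *ᵥ y) := fun z y => rfl
  haveI : Module.Finite (QuadraticAlgebra F (l : F) 0) (ι → F) := Module.Finite.of_finite
  let β : LinearMap.BilinForm (QuadraticAlgebra F (l : F) 0) (ι → F) := LinearMap.mk₂ (QuadraticAlgebra F (l : F) 0)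
    (fun y z => (⟨pf Q y z, (l : F)⁻¹ * pf Q y (a *ᵥ z)⟩ : (QuadraticAlgebra F (l : F) 0)))
    (fun y y' z => by
      refine QuadraticAlgebra.ext ?_ ?_
      · show pf Q (y + y') z = pf Q y z + pf Q y' z
        simp only [pf, QuadraticMap.polar_add_left]
      · show (l : F)⁻¹ * pf Q (y + y') (a *ᵥ z) = (l : F)⁻¹ * pf Q y (a *ᵥ z) + (l : F)⁻¹ * pf Q y' (a *ᵥ z)
        simp only [pf, QuadraticMap.polar_add_left, mul_add])
    (fun r y z => by
      have hsa' : pf Q (a *ᵥ y) z = pf Q y (a *ᵥ z) := hsa y z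
      have hsa'' := hpol y z
      refine QuadraticAlgebra.ext ?_ ?_
      · show pf Q (r • y) z = r.re * pf Q y z + (l : F) * r.im * ((l : F)⁻¹ * pf Q y (a *ᵥ z))
        simp only [hsmul, pf, QuadraticMap.polar_add_left, QuadraticMap.polar_smul_left, smul_eq_mul] at hsa' ⊢
        rw [hsa']
        field_simp
      · show (l : F)⁻¹ * pf Q (r • y) (a *ᵥ z) = r.re * ((l : F)⁻¹ * pf Q y (a *ᵥ z)) +
          r.im * pf Q y z + 0 * r.im * ((l : F)⁻¹ * pf Q y (a *ᵥ z))
        simp only [hsmul, pf, QuadraticMap.polar_add_left, QuadraticMap.polar_smul_left, smul_eq_mul] at hsa'' ⊢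
        rw [hsa'']
        field_simp
        ring)
    (fun y z z' => by
      refine QuadraticAlgebra.ext ?_ ?_
      · show pf Q y (z + z') = pf Q y z + pf Q y z'
        simp only [pf, QuadraticMap.polar_add_right]
      · show (l : F)⁻¹ * pf Q y (a *ᵥ (z + z')) = (l : F)⁻¹ * pf Q y (a *ᵥ z) + (l : F)⁻¹ * pf Q y (a *ᵥ z')
        simp only [pf, Matrix.mulVec_add, QuadraticMap.polar_add_right, mul_add])
    (fun r y z => by
      refine QuadraticAlgebra.ext ?_ ?_
      · show pf Q y (r • z) = r.re * pf Q y z + (l : F) * r.im * ((l : F)⁻¹ * pf Q y (a *ᵥ z))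
        simp only [hsmul, pf, QuadraticMap.polar_add_right, QuadraticMap.polar_smul_right, smul_eq_mul]
        field_simp
      · show (l : F)⁻¹ * pf Q y (a *ᵥ (r • z)) = r.re * ((l : F)⁻¹ * pf Q y (a *ᵥ z)) +
          r.im * pf Q y z + 0 * r.im * ((l : F)⁻¹ * pf Q y (a *ᵥ z))
        simp only [hsmul, pf, Matrix.mulVec_add, Matrix.mulVec_smul, hgg, QuadraticMap.polar_add_right,
          QuadraticMap.polar_smul_right, smul_eq_mul]
        field_simp
        ring)
  have hβ : ∀ y z, β y z = (⟨pf Q y z, (l : F)⁻¹ * pf Q y (a *ᵥ z)⟩ : (QuadraticAlgebra F (l : F) 0)) := fun y z => rfl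
  have hsymm : LinearMap.IsSymm β := LinearMap.isSymm_def.2 fun y z => by
    rw [hβ, hβ, pf_comm Q z y, pf_comm Q z, hsa]
    rfl
  set m := Module.finrank (QuadraticAlgebra F (l : F) 0) (ι → F) with hm
  obtain ⟨b, hb⟩ : ∃ b : Module.Basis (Fin m) (QuadraticAlgebra F (l : F) 0) (ι → F), β.IsOrthoᵢ b :=
    LinearMap.BilinForm.exists_orthogonal_basis hsymm
  have hcard : Fintype.card ι = 2 * m := by
    have h1 := Module.natCard_eq_pow_finrank (K := (QuadraticAlgebra F (l : F) 0)) (V := ι → F)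
    rw [Nat.card_congr (QuadraticAlgebra.equivProd (l : F) (0 : F)), Nat.card_prod, Nat.card_fun,
      Nat.card_eq_fintype_card (α := ι), ← pow_two, ← pow_mul] at h1
    exact Nat.pow_right_injective Finite.one_lt_card h1
  have hm5 : 5 ≤ m := by
    have := eight_le E
    obtain ⟨j, hj⟩ := hkodd
    omega
  let d : Fin m → (QuadraticAlgebra F (l : F) 0) := fun j => β (b j) (b j)
  let φ : (Fin m → (QuadraticAlgebra F (l : F) 0)) ≃+ (ι → F) := b.equivFun.symm.toAddEquiv
  have hφ : ∀ v, φ v = ∑ j, v j • b j := fun v => b.equivFun_symm_apply v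
  have hdot : ∀ v w, β (φ v) (φ w) = dotD d v w := by
    intro v w
    rw [hφ, hφ, map_sum, dotD_eq_sum]
    simp only [LinearMap.sum_apply, map_sum, map_smul, LinearMap.smul_apply, smul_eq_mul]
    refine Finset.sum_congr rfl fun j _ => ?_
    rw [Finset.sum_eq_single j]
    · simp only [d]; ring
    · intro k _ hk
      rw [show β (b k) (b j) = 0 from LinearMap.isOrthoᵢ_def.1 hb k j hk]
      simp
    · simp
  have hdne : ∀ j, d j ≠ 0 := by
    intro j hj
    refine b.ne_zero j (E.nondeg.1 _ fun y => ?_)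
    obtain ⟨w, rfl⟩ := φ.surjective y
    have h1 := hdot (Pi.single j 1) w
    rw [dotD_single, hj, zero_mul, mul_zero, show φ (Pi.single j 1) = b j by
      rw [hφ, Finset.sum_eq_single j] <;> simp +contextual [Pi.single_apply], hβ] at h1
    exact congrArg QuadraticAlgebra.re h1
  let θ : (QuadraticAlgebra F (l : F) 0) := ⟨0, 1⟩
  have hθ : ∀ y : ι → F, θ • y = a *ᵥ y := fun y => by simp [hsmul, θ]
  have hθ0 : θ ≠ 0 := fun hh => one_ne_zero (congrArg QuadraticAlgebra.im hh : (1 : F) = 0)
  let ℓ : (QuadraticAlgebra F (l : F) 0) →+ F := AddMonoidHom.mk' (fun z => z.re / 2) fun z z' => by simp [add_div]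
  have hQφ : ∀ v, Q (φ v) = ℓ (dotD d v v) := fun v => by
    rw [← hdot, hβ]
    show Q (φ v) = pf Q (φ v) (φ v) / 2
    rw [pf_self]
    field_simp
  let κ : F →+* (QuadraticAlgebra F (l : F) 0) := algebraMap F (QuadraticAlgebra F (l : F) 0)
  have hκ : ∀ (r : F) (v : Fin m → (QuadraticAlgebra F (l : F) 0)), φ (κ r • v) = r • φ v := fun r v => by
    refine (map_smul b.equivFun.symm (κ r) v).trans ?_
    show κ r • φ v = r • φ v
    rw [hsmul, show κ r = (⟨r, 0⟩ : (QuadraticAlgebra F (l : F) 0)) from rfl]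
    simp
  have hgφ : ∀ v, a *ᵥ φ v = φ ((fun _ => θ) * v) := fun v => by
    rw [← hθ]
    exact (map_smul b.equivFun.symm θ v).symm
  have hcls : ∀ j : Fin m, cls (fun _ : Fin m => θ) θ = Finset.univ := fun _ =>
    Finset.ext fun k => by simp [mem_cls]
  let M : Model Q gs.1 (QuadraticAlgebra F (l : F) 0) (Fin m) :=
    { κ := κ
      φ := φ
      φ_smul := hκ
      d := d
      d_ne := hdne
      ℓ := ℓ
      Q_φ := hQφ
      ζ := fun _ => θ
      g_φ := hgφ
      two := hK2
      classes := fun j => Or.inr (by rw [hcls j]; simpa using le_trans (by norm_num) hm5)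
      single := fun j hj => by
        exfalso
        by_cases hj0 : j.1 = 0
        · have := congrArg Fin.val (hj ⟨1, by omega⟩ rfl); simp [hj0] at this
        · have := congrArg Fin.val (hj ⟨0, by omega⟩ rfl); simp at this; omega
      big := ⟨θ, by rw [hcls ⟨0, by omega⟩]; simpa using hm5⟩
      lift := fun k hk => by
        let f : (ι → F) →ₗ[(QuadraticAlgebra F (l : F) 0)] (ι → F) :=
          { toFun := act Q k
            map_add' := act_add k
            map_smul' := fun z y => by
              rw [RingHom.id_apply, hsmul, hsmul, act_add, act_smul, act_smul, hk] }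
        set L := LinearMap.toMatrix b b f with hL
        have hk' : ∀ v, act Q k (φ v) = φ (L *ᵥ v) := fun v => by
          have h1 := LinearMap.toMatrix_mulVec_repr b b f (φ v)
          rw [show ⇑(b.repr (φ v)) = v from b.equivFun.apply_symm_apply v, ← hL] at h1
          rw [h1]
          exact (b.equivFun.symm_apply_apply _).symm
        refine ⟨L, hk', fun v w => ?_⟩
        rw [← hdot, ← hdot, ← hk', ← hk', hβ, hβ, pf_act, ← hk, pf_act]
      pair := fun u v i j k _ _ hu0 hvv huv hk => by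
        set w := u - v with hw
        have hww : dotD d w w = 2 * dotD d u u := by
          simp only [hw, dotD_sub_left, dotD_sub_right, hvv, huv, dotD_comm d v u]; ring
        have hw0 : dotD d w w ≠ 0 := by rw [hww]; exact mul_ne_zero hK2 hu0
        have huw : dotD d u w = dotD d u u := by rw [hw, dotD_sub_right, huv, sub_zero]
        have hmap : LocalBalance.refl d w *ᵥ u = v := by
          rw [refl_mulVec, hww, huw, show (2 : (QuadraticAlgebra F (l : F) 0)) / (2 * dotD d u u) * dotD d u u = 1 by field_simp,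
            one_smul, hw, sub_sub_cancel]
        have hv0 : dotD d v v ≠ 0 := by rw [hvv]; exact hu0
        obtain ⟨ρu, hρu⟩ := exists_iso_of_coords κ φ hκ d hdne ℓ hQφ _ (refl_dotD hu0)
        obtain ⟨ρw, hρw⟩ := exists_iso_of_coords κ φ hκ d hdne ℓ hQφ _ (refl_dotD hw0)
        have hinvρ : ∀ (ρ : ↥(Cfsg.isometryGroup F (⇑Q))) (z : Fin m → (QuadraticAlgebra F (l : F) 0)), dotD d z z ≠ 0 →
            (∀ t, act Q ρ (φ t) = φ (LocalBalance.refl d z *ᵥ t)) → ρ⁻¹ = ρ := fun ρ z hz hρ =>
          inv_eq_of_mul_eq_one_right (ext_act fun y => by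
            rw [← φ.apply_symm_apply y, act_mul, hρ, hρ, act_one, Matrix.mulVec_mulVec,
              refl_mul_self hz, Matrix.one_mulVec])
        have hkk : k = ρu * ρw * ρu⁻¹ * ρw⁻¹ := ext_act fun y => by
          rw [← φ.apply_symm_apply y, hinvρ ρu u hu0 hρu, hinvρ ρw w hw0 hρw, hk, act_mul, act_mul,
            act_mul, hρw, hρu, hρw, hρu, Matrix.mulVec_mulVec, Matrix.mulVec_mulVec,
            Matrix.mulVec_mulVec]
          refine congrArg φ (congrArg (· *ᵥ _) ?_)
          have h3 := mul_refl (X := LocalBalance.refl d w) (refl_dotD hw0) u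
          rw [hmap] at h3
          rw [Matrix.mul_assoc (LocalBalance.refl d u) (LocalBalance.refl d w), h3, Matrix.mul_assoc,
            Matrix.mul_assoc (LocalBalance.refl d v), refl_mul_self hw0, Matrix.mul_one]
        rw [hkk]
        exact Subgroup.commutator_mem_commutator (Subgroup.mem_top _) (Subgroup.mem_top _) }
  refine M.core_eq_bot N (gs := gs) rfl hord (not_inn E hd) hgam hZ ?_ A hinn
  intro γ c hc hγ
  set z := c ⟨0, by omega⟩ with hz
  have hγy : ∀ y, (Units.val γ.1 : Matrix ι ι F) *ᵥ y = z.re • y + z.im • (a *ᵥ y) := by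
    intro y
    obtain ⟨v, rfl⟩ := φ.surjective y
    rw [show (Units.val γ.1 : Matrix ι ι F) *ᵥ φ v = φ (c * v) from hγ v, ← hsmul]
    rw [show c * v = z • v from funext fun j => by
      rw [Pi.mul_apply, Pi.smul_apply, smul_eq_mul, hc j ⟨0, by omega⟩ rfl]]
    exact map_smul b.equivFun.symm z v
  have hzero : z.re = 0 ∨ z.im = 0 := by
    let e₀ : Fin m → (QuadraticAlgebra F (l : F) 0) := Pi.single ⟨0, by omega⟩ 1
    obtain ⟨w, -, -, -, hw⟩ := exists_value_orth hK2 hdne Finset.univ (by simp; omega) e₀ 0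
      (by simp [e₀, dotD_single, hdne]) (Or.inl rfl) (by simp [dotD]) (Or.inl (by simp)) (by simp) hθ0
    have h1 := hdot w w
    rw [hw, hβ] at h1
    have hre : pf Q (φ w) (φ w) = 0 := congrArg QuadraticAlgebra.re h1
    have him : (l : F)⁻¹ * pf Q (φ w) (a *ᵥ φ w) = 1 := congrArg QuadraticAlgebra.im h1
    have hQ0 : Q (φ w) = 0 := by
      rw [pf_self] at hre
      exact (mul_eq_zero.1 hre).resolve_left h2
    have h3 := mu_spec N γ (φ w)
    rw [hγy, QuadraticMap.map_add (⇑Q), QuadraticMap.map_smul, QuadraticMap.map_smul,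
      QuadraticMap.polar_smul_left, QuadraticMap.polar_smul_right, ← pf, ha, mult_spec E, hQ0] at h3
    simp only [smul_eq_mul, mul_zero, zero_add] at h3
    have h4 : pf Q (φ w) (a *ᵥ φ w) ≠ 0 := fun hh => by
      rw [hh, mul_zero] at him; exact zero_ne_one him
    rcases mul_eq_zero.1 h3 with h5 | h5
    · exact Or.inl h5
    · exact Or.inr ((mul_eq_zero.1 h5).resolve_right h4)
  rcases hzero with e | e
  · have hne0 : z.im ≠ 0 := fun hh => γ.1.ne_zero (Matrix.ext_of_mulVec_single fun i => by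
      rw [hγy, e, hh, zero_smul, zero_smul, add_zero, Matrix.zero_mulVec])
    refine ⟨1, ?_⟩
    show simAut (⇑Q) gs ^ (1 : ℤ) = _
    rw [zpow_one, ← one_mul (simAut (⇑Q) gs), ← simAut_scalarSim N (Units.mk0 _ hne0), ← map_mul]
    refine congrArg _ (Subtype.ext (Units.ext (Matrix.ext_of_mulVec_single fun i => ?_)))
    rw [hγy, e, zero_smul, zero_add]
    show (Units.val (scalarGL (Units.mk0 z.im hne0)) * a : Matrix ι ι F) *ᵥ _ = _
    rw [← Matrix.mulVec_mulVec, coe_scalarGL, Matrix.smul_mulVec, Matrix.one_mulVec]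
    rfl
  · have hne0 : z.re ≠ 0 := fun hh => γ.1.ne_zero (Matrix.ext_of_mulVec_single fun i => by
      rw [hγy, e, hh, zero_smul, zero_smul, add_zero, Matrix.zero_mulVec])
    refine ⟨0, ?_⟩
    show simAut (⇑Q) gs ^ (0 : ℤ) = _
    rw [zpow_zero, eq_comm, simAut_eq_one_iff E.good]
    refine ⟨z.re, hne0, Matrix.ext_of_mulVec_single fun i => ?_⟩
    rw [hγy, e, zero_smul, add_zero, Matrix.smul_mulVec, Matrix.one_mulVec]

/-- The `2'`-core of the centraliser of an improper involutory similarity is trivial. -/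
theorem core_eq_bot_of_improper (E : Even2 Q) (gs : ↥(Cfsg.Geo.quadSimilarityGroup (F := F) (⇑Q)))
    (hd : delta E gs = -1) (hord : orderOf (simAut (⇑Q) gs) = 2)
    (hgam : ∀ a : MulAut PO, Commute a (simAut (⇑Q) gs) →
      (∀ k, simAut (⇑Q) gs k = k → a k = k) → a ∈ Cfsg.gammaPOmega F (⇑Q))
    (hK : IsSimpleGroup PO) (A : Subgroup (MulAut PO)) (hinn : ∀ k : PO, MulAut.conj k ∈ A) :
    Cfsg.pPrimeCore 2 ↥(A ⊓ Subgroup.centralizer {simAut (⇑Q) gs}) = ⊥ := by
  have hZ := DatumField.center_pOmega_of_simple (even2_nd E) hK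
  obtain ⟨l, hl, -⟩ := exists_sq_eq_scalar E gs (by rw [← pow_two, ← hord, pow_orderOf_eq_one])
  by_cases hsq : IsSquare (l : F)
  · obtain ⟨c, h, hg, hinv, hdet⟩ := POmegaQuot.exists_involution E gs hd hl hsq
    have he : simAut (⇑Q) gs = simAut (⇑Q) (isoSim h) := by
      rw [hg, map_mul, simAut_scalar E, one_mul]
    rw [he] at hord hgam ⊢
    exact split_core_eq_bot E h hinv hdet hord hgam hZ A hinn
  · exact nonsplit_core_eq_bot E gs hd hl hsq hord hgam hZ A hinn

end CfsgLib.LocalBalanceAut.Graph
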