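import Cfsg.Agent.Lib.LocalBalance.NoCoreOrth
import Cfsg.Agent.Lib.Classes.OmegaClasses

/-!
# Reflections and values of diagonal forms on coordinate subspaces
-/

set_option autoImplicit false
set_option linter.unusedSectionVars false
set_option linter.style.haveILetI false
set_option maxHeartbeats 400000

open Matrix CfsgLib.LocalBalance

namespace CfsgLib.LocalBalanceAut.OrthCoord

universe u

variable {L : Type u} [Field L] {J : Type} [Fintype J] [DecidableEq J] {d : J → L}

theorem dotD_eq_sum (d u v : J → L) : dotD d u v = ∑ k, d k * (u k * v k) := by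
  simp only [dotD, dotProduct, Matrix.mulVec_diagonal]
  exact Finset.sum_congr rfl fun _ _ => by ring

/-- Conjugating a reflection by an isometry. -/
theorem mul_refl {X : Matrix J J L} (hX : ∀ v w, dotD d (X *ᵥ v) (X *ᵥ w) = dotD d v w) (u : J → L) :
    X * refl d u = refl d (X *ᵥ u) * X := by
  refine Matrix.ext_of_mulVec_single fun k => ?_
  rw [← Matrix.mulVec_mulVec, ← Matrix.mulVec_mulVec, refl_mulVec, refl_mulVec, Matrix.mulVec_sub,
    Matrix.mulVec_smul, hX, hX]

theorem refl_dotD {u : J → L} (hu : dotD d u u ≠ 0) (v w : J → L) :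
    dotD d (refl d u *ᵥ v) (refl d u *ᵥ w) = dotD d v w :=
  dotD_isom (refl_isom hu) v w

theorem mul_dotD {X Y : Matrix J J L} (hX : ∀ v w, dotD d (X *ᵥ v) (X *ᵥ w) = dotD d v w)
    (hY : ∀ v w, dotD d (Y *ᵥ v) (Y *ᵥ w) = dotD d v w) (v w : J → L) :
    dotD d ((X * Y) *ᵥ v) ((X * Y) *ᵥ w) = dotD d v w := by
  rw [← Matrix.mulVec_mulVec, ← Matrix.mulVec_mulVec, hX, hY]

theorem refl_comm {a b : J → L} (hab : dotD d a b = 0) : refl d a * refl d b = refl d b * refl d a := by
  refine Matrix.ext_of_mulVec_single fun k => ?_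
  have hba : dotD d b a = 0 := by rw [dotD_comm]; exact hab
  simp only [← Matrix.mulVec_mulVec, refl_mulVec, dotD_sub_left, dotD_smul_left, hab, hba, mul_zero,
    sub_zero]
  abel

theorem refl_mul_sq {a b : J → L} (ha : dotD d a a ≠ 0) (hb : dotD d b b ≠ 0) (hab : dotD d a b = 0) :
    refl d a * refl d b * (refl d a * refl d b) = 1 := by
  calc refl d a * refl d b * (refl d a * refl d b)
      = refl d a * (refl d b * refl d a) * refl d b := by simp only [Matrix.mul_assoc]
    _ = refl d a * refl d a * (refl d b * refl d b) := by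
        rw [← refl_comm hab]; simp only [Matrix.mul_assoc]
    _ = 1 := by rw [refl_mul_self ha, refl_mul_self hb, Matrix.mul_one]

/-- A reflection commutes with multiplication by coordinates that are constant on the support. -/
theorem refl_mulVec_mul {ζ : J → L} {u : J → L} {z : L} (hu : ∀ k, ζ k ≠ z → u k = 0) (v : J → L) :
    refl d u *ᵥ (ζ * v) = ζ * (refl d u *ᵥ v) := by
  have hz : ∀ k, ζ k * u k = z * u k := fun k => by
    by_cases h : ζ k = z
    · rw [h]
    · rw [hu k h, mul_zero, mul_zero]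
  have hd : dotD d (ζ * v) u = z * dotD d v u := by
    rw [dotD_eq_sum, dotD_eq_sum, Finset.mul_sum]
    refine Finset.sum_congr rfl fun k _ => ?_
    rw [Pi.mul_apply]
    linear_combination d k * v k * hz k
  rw [refl_mulVec, refl_mulVec, hd]
  funext k
  simp only [Pi.sub_apply, Pi.mul_apply, Pi.smul_apply, smul_eq_mul]
  linear_combination 2 / dotD d u u * dotD d v u * hz k

variable [Finite L]

/-- A value taken orthogonally to given orthogonal anisotropic vectors, on a coordinate subspace. -/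
theorem exists_value_orth (h2 : (2 : L) ≠ 0) (hd : ∀ k, d k ≠ 0) (S : Finset J) (hS : 4 ≤ S.card)
    (u v : J → L) (hu : dotD d u u ≠ 0) (hv : v = 0 ∨ dotD d v v ≠ 0) (huv : dotD d u v = 0)
    (hsu : (∀ k, k ∉ S → u k = 0) ∨ ∀ k ∈ S, u k = 0) (hsv : ∀ k, k ∉ S → v k = 0)
    {c : L} (hc : c ≠ 0) :
    ∃ w : J → L, (∀ k, k ∉ S → w k = 0) ∧ dotD d u w = 0 ∧ dotD d v w = 0 ∧ dotD d w w = c := by
  classical
  let R : QuadraticForm L (J → L) := QuadraticMap.weightedSumSquares L d
  have hR : ∀ w, R w = dotD d w w := fun w => by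
    simp [R, dotD_eq_sum, QuadraticMap.weightedSumSquares_apply]
  have hpol : ∀ a b, QuadraticMap.polar R a b = 2 * dotD d a b := fun a b => by
    rw [QuadraticMap.polar, hR, hR, hR, dotD_add_left, dotD_add_right, dotD_add_right, dotD_comm d b a]
    ring
  let f : (J → L) →ₗ[L] (L × L) × ({k // k ∉ S} → L) :=
    { toFun := fun w => ((dotD d u w, dotD d v w), fun k => w k.1)
      map_add' := fun a b => by ext <;> simp [dotD_add_right]
      map_smul' := fun r a => by ext <;> simp [dotD_smul_right] }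
  have hmem : ∀ w, w ∈ LinearMap.ker f ↔
      (dotD d u w = 0 ∧ dotD d v w = 0) ∧ ∀ k, k ∉ S → w k = 0 := fun w => by
    rw [LinearMap.mem_ker]
    exact ⟨fun h => ⟨⟨congrArg (fun z => z.1.1) h, congrArg (fun z => z.1.2) h⟩,
        fun k hk => congrFun (congrArg Prod.snd h) ⟨k, hk⟩⟩,
      fun h => Prod.ext (Prod.ext h.1.1 h.1.2) (funext fun k => h.2 k.1 k.2)⟩
  have hrank : 2 ≤ Module.finrank L (LinearMap.ker f) := by
    have h := LinearMap.finrank_range_add_finrank_ker f
    have hle := Submodule.finrank_le (LinearMap.range f)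
    rw [Module.finrank_prod, Module.finrank_prod, Module.finrank_self,
      Module.finrank_fintype_fun_eq_card, Fintype.card_subtype_compl, Fintype.card_coe] at hle
    rw [Module.finrank_fintype_fun_eq_card] at h
    have := Finset.card_le_univ S
    omega
  have hnd : LinearMap.ker f ⊓
      LinearMap.BilinForm.orthogonal (QuadraticMap.polarBilin R) (LinearMap.ker f) = ⊥ := by
    rw [Submodule.eq_bot_iff]
    rintro y ⟨hy, hyo⟩
    obtain ⟨⟨hyu, hyv⟩, hys⟩ := (hmem y).1 hy
    funext j
    by_cases hj : j ∈ S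
    swap
    · exact hys j hj
    set e : J → L := Pi.single j 1
    let x : J → L := e - (dotD d u e / dotD d u u) • u - (dotD d v e / dotD d v v) • v
    have hxu : dotD d u x = 0 := by
      simp only [x, dotD_sub_right, dotD_smul_right, huv, mul_zero, sub_zero]
      rw [div_mul_cancel₀ _ hu, sub_self]
    have hxv : dotD d v x = 0 := by
      rcases hv with rfl | hv
      · simp [dotD]
      · simp only [x, dotD_sub_right, dotD_smul_right, dotD_comm d v u, huv, mul_zero, sub_zero]
        rw [div_mul_cancel₀ _ hv, sub_self]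
    have hxs : ∀ k, k ∉ S → x k = 0 := fun k hk => by
      have hkj : k ≠ j := fun h => hk (h ▸ hj)
      have hcu : dotD d u e / dotD d u u * u k = 0 := by
        rcases hsu with h | h
        · rw [h k hk, mul_zero]
        · rw [dotD_comm, dotD_single, h j hj]; simp
      simp [x, e, hkj, hsv k hk, hcu]
    have h := hyo x ((hmem x).2 ⟨⟨hxu, hxv⟩, hxs⟩)
    rw [QuadraticMap.polarBilin_apply_apply, hpol,
      mul_eq_zero, or_iff_right h2] at h
    simp only [x, dotD_sub_left, dotD_smul_left, hyu, hyv, mul_zero, sub_zero, e, dotD_single,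
      one_mul] at h
    exact (mul_eq_zero.1 h).resolve_left (hd j)
  obtain ⟨w, hw, hwc⟩ := Classes.exists_value_mem (Q := R) (LinearMap.ker f) hnd hrank hc
  obtain ⟨⟨h1, h1'⟩, h3⟩ := (hmem w).1 hw
  exact ⟨w, h3, h1, h1', by rw [← hR, hwc]⟩

/-- The anisotropic orthogonal vector of a product of two reflections, on a coordinate subspace. -/
theorem exists_anisotropic_orth_on (h2 : (2 : L) ≠ 0) (hd : ∀ k, d k ≠ 0) (S : Finset J)
    (hS : 3 ≤ S.card) {a b : J → L} (hsa : ∀ k, k ∉ S → a k = 0) (hsb : ∀ k, k ∉ S → b k = 0)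
    (ha : dotD d a a ≠ 0) (hb : dotD d b b = dotD d a a) (hne : refl d a * refl d b ≠ 1) :
    ∃ W : J → L, (∀ k, k ∉ S → W k = 0) ∧ dotD d W W ≠ 0 ∧
      dotD d W ((refl d a * refl d b) *ᵥ W) = 0 := by
  let d' : S → L := fun k => d k.1
  let res : (J → L) → (S → L) := fun v k => v k.1
  let ext : (S → L) → (J → L) := fun v k => if h : k ∈ S then v ⟨k, h⟩ else 0
  have hext : ∀ v k, k ∉ S → ext v k = 0 := fun v k hk => dif_neg hk
  have hsum : ∀ v w : J → L, (∀ k, k ∉ S → v k = 0) → dotD d v w = dotD d' (res v) (res w) := by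
    intro v w hv
    rw [dotD_eq_sum, dotD_eq_sum, Finset.sum_coe_sort S (fun k => d k * (v k * w k))]
    refine (Finset.sum_subset (Finset.subset_univ S) fun k _ hk => ?_).symm
    rw [hv k hk]; ring
  have hres : ∀ v, res (ext v) = v := fun v => funext fun k => by simp [res, ext, k.2]
  have hrefl : ∀ u, (∀ k, k ∉ S → u k = 0) → ∀ v,
      res (refl d u *ᵥ v) = refl d' (res u) *ᵥ res v := by
    intro u hu v
    rw [refl_mulVec, refl_mulVec, hsum u u hu, dotD_comm d v u, hsum u v hu, dotD_comm d' (res u) (res v)]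
    rfl
  have ha' : dotD d' (res a) (res a) ≠ 0 := by rw [← hsum a a hsa]; exact ha
  have hb' : dotD d' (res b) (res b) = dotD d' (res a) (res a) := by
    rw [← hsum a a hsa, ← hsum b b hsb, hb]
  have hne' : refl d' (res a) * refl d' (res b) ≠ 1 := by
    intro h
    refine hne (Matrix.ext_of_mulVec_single fun j => ?_)
    rw [Matrix.one_mulVec]
    generalize (Pi.single j 1 : J → L) = v
    funext k
    by_cases hk : k ∈ S
    · have h1 := congrArg (fun A : Matrix S S L => (A *ᵥ res v) ⟨k, hk⟩) h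
      simp only [Matrix.one_mulVec, ← Matrix.mulVec_mulVec, ← hrefl b hsb, ← hrefl a hsa] at h1
      rw [← Matrix.mulVec_mulVec]
      exact h1
    · simp [← Matrix.mulVec_mulVec, refl_mulVec, hsa k hk, hsb k hk]
  obtain ⟨W, hW, hW0⟩ := exists_anisotropic_orth (d := d') h2 (fun k => hd k.1)
    (by rw [Fintype.card_coe]; exact hS) ha' hb' hne'
  refine ⟨ext W, hext W, by rw [hsum _ _ (hext W), hres]; exact hW, ?_⟩
  rw [hsum _ _ (hext W), ← Matrix.mulVec_mulVec, hrefl a hsa, hrefl b hsb, hres, Matrix.mulVec_mulVec]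
  exact hW0

/-- Additive maps having all anisotropic vectors of a coordinate subspace as eigenvectors. -/
theorem scalar_of_lines (hd : ∀ k, d k ≠ 0) (S : Finset J) (hS : 3 ≤ S.card)
    (ψ : (J → L) →+ (J → L))
    (hlines : ∀ u, (∀ k, k ∉ S → u k = 0) → dotD d u u ≠ 0 → ∃ c : L, ψ u = c • u) :
    ∃ c : L, ∀ u, (∀ k, k ∉ S → u k = 0) → ψ u = c • u := by
  classical
  have hsingle : ∀ k ∈ S, ∀ y : L, ∀ m, m ∉ S → (Pi.single k y : J → L) m = 0 := fun k hk y m hm =>
    by simp [show m ≠ k from fun h => hm (h.symm ▸ hk)]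
  have hex : ∀ k ∈ S, ∀ y : L, y ≠ 0 → ∃ c : L, ψ (Pi.single k y) = c • Pi.single k y := by
    intro k hk y hy
    refine hlines _ (hsingle k hk y) ?_
    rw [dotD_single, Pi.single_eq_same]
    exact mul_ne_zero hy (mul_ne_zero (hd k) hy)
  choose r hr using hex
  have hpair : ∀ i (hi : i ∈ S) j (hj : j ∈ S), i ≠ j → ∀ y (hy : y ≠ 0) w (hw : w ≠ 0),
      r i hi y hy = r j hj w hw := by
    intro i hi j hj hij y hy w hw
    obtain ⟨k, hk, hki, hkj⟩ : ∃ k ∈ S, k ≠ i ∧ k ≠ j := by
      have : 0 < ((S.erase i).erase j).card := by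
        rw [Finset.card_erase_of_mem (Finset.mem_erase.2 ⟨hij.symm, hj⟩), Finset.card_erase_of_mem hi]
        omega
      obtain ⟨k, hk⟩ := Finset.card_pos.1 this
      simp only [Finset.mem_erase] at hk
      exact ⟨k, hk.2.2, hk.2.1, hk.1⟩
    obtain ⟨u, hu⟩ : ∃ u : J → L, u = Pi.single i y + Pi.single j w := ⟨_, rfl⟩
    have hui : u i = y := by simp [hu, hij]
    have huj : u j = w := by simp [hu, hij.symm]
    have hus : ∀ m, m ∉ S → u m = 0 := fun m hm => by
      simp [hu, hsingle i hi y m hm, hsingle j hj w m hm]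
    by_cases h0 : dotD d u u = 0
    swap
    · obtain ⟨c, hc⟩ := hlines u hus h0
      rw [hu, map_add, hr i hi y hy, hr j hj w hw] at hc
      have h1 := congrFun hc i
      have h1' := congrFun hc j
      simp [hij, hij.symm, hy, hw] at h1 h1'
      rw [h1, h1']
    · have hv : dotD d (u + Pi.single k 1) (u + Pi.single k 1) ≠ 0 := by
        have huk : u k = 0 := by simp [hu, hki, hkj]
        rw [dotD_add_left, dotD_add_right, dotD_add_right, h0, dotD_comm d u, dotD_single, dotD_single,
          huk, Pi.single_eq_same]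
        simpa using hd k
      obtain ⟨c, hc⟩ := hlines _ (fun m hm => by
        rw [Pi.add_apply, hus m hm, hsingle k hk 1 m hm, add_zero]) hv
      rw [hu, map_add, map_add, hr i hi y hy, hr j hj w hw, hr k hk 1 one_ne_zero] at hc
      have h1 := congrFun hc i
      have h1' := congrFun hc j
      simp [hij, hij.symm, hki.symm, hkj.symm, hy, hw] at h1 h1'
      rw [h1, h1']
  obtain ⟨i₀, hi₀⟩ := Finset.card_pos.1 (show 0 < S.card by omega)
  obtain ⟨i₁, hi₁, h10⟩ := Finset.exists_mem_ne (show 1 < S.card by omega) i₀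
  refine ⟨r i₁ hi₁ 1 one_ne_zero, fun u hu => ?_⟩
  have hs : ∀ k, ψ (Pi.single k (u k)) = r i₁ hi₁ 1 one_ne_zero • Pi.single k (u k) := by
    intro k
    by_cases hy : u k = 0
    · simp [hy]
    have hk : k ∈ S := by_contra fun h => hy (hu k h)
    rw [hr k hk _ hy]
    congr 1
    by_cases hk1 : k = i₁
    · subst hk1
      rw [hpair k hk i₀ hi₀ h10 _ hy 1 one_ne_zero, hpair k hi₁ i₀ hi₀ h10 1 one_ne_zero 1 one_ne_zero]
    · exact hpair k hk i₁ hi₁ hk1 _ hy 1 one_ne_zero
  conv_lhs => rw [← Finset.univ_sum_single u, map_sum]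
  simp only [hs, ← Finset.smul_sum, Finset.univ_sum_single]

end CfsgLib.LocalBalanceAut.OrthCoord
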