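import Cfsg.Agent.Lib.LocalBalanceAut.GraphTypes
import Cfsg.Agent.Lib.ReflectionsSpinor.POmegaStd
import Cfsg.Agent.Lib.ReflectionsSpinor.POmegaGraphGamma

/-!
# Local balance for the automorphisms of `PΩ⁻` that are not inner-diagonal
-/

set_option autoImplicit false
set_option linter.unusedSectionVars false
set_option linter.style.haveILetI false
set_option maxHeartbeats 1600000

open Matrix CfsgLib.OrthGen
open CfsgLib.ReflectionsSpinor CfsgLib.ReflectionsSpinor.POmegaAut CfsgLib.ReflectionsSpinor.POmegaQuot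
  CfsgLib.ReflectionsSpinor.POmegaForms CfsgLib.ReflectionsSpinor.POmegaField
open CfsgLib.ClassicalForms (Aniso)

namespace CfsgLib.LocalBalanceAut.POmegaMinus

universe u v

variable {F : Type u} [Field F] [Finite F] {m : ℕ} {a b : F}

/-- A twisted field automorphism of minus type is a field automorphism. -/
theorem isFieldAutClass_of_datum {σ : F ≃+* F} {r : ℕ} (hr : orderOf σ = r) (hr1 : r ≠ 1) (hodd : Odd r)
    {F₀ : Type v} [Field F₀] [Finite F₀] {i : F₀ →+* F} (hi : ∀ x, σ (i x) = i x)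
    (hi' : ∀ y, σ y = y → ∃ x, i x = y) {a₀ b₀ : F₀} (hab₀ : Aniso a₀ b₀)
    (D : Datum (qM m a b) i (Equiv.refl _) (qM m a₀ b₀)) :
    Cfsg.IsFieldAutClassPOmegaMinus m (a := a) (b := b) (D.fieldAut σ hi) := by
  set a' := i a₀ with ha'
  set b' := i b₀ with hb'
  have hcomm : ∀ v, qM m a' b' (σ ∘ v) = σ (qM m a' b' v) := fun v => by
    simp [coe_qM, Cfsg.quadFormMinus, map_sum, ha', hb', hi]
  have hH : ∀ v, qM m a b ((Units.val D.H : Matrix _ _ F) *ᵥ v) = (D.a : F) * qM m a' b' v := fun v => by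
    refine Eq.trans ?_ (D.extend (qM m a' b')
      (fun w => by simp [coe_qM, Cfsg.quadFormMinus, map_sum, ha', hb']) v)
    rfl
  let Λ : Cfsg.POmega F (⇑(qM m a' b')) ≃* Cfsg.POmega F (⇑(qM m a b)) := pomegaConj D.H D.a hH
  refine ⟨a', b', Λ.symm, σ, aniso_map_odd σ hr hodd i hi hi' hab₀, fun h => hr1 ?_, hi a₀, hi b₀, ?_⟩
  · rw [← hr, h]
    exact orderOf_one
  · refine (isFieldAutOf_iff (Q := ⇑(qM m a' b')) hcomm).2 (aut_ext (Q := ⇑(qM m a' b')) fun s => ?_)
    show Λ.symm (D.fieldAut σ hi (Λ (cl (⇑(qM m a' b')) s))) = semiAut 1 σ (semi_of_comm hcomm) (cl _ s)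
    rw [MulEquiv.symm_apply_eq, semiAut_cl, pomegaConj_cl, pomegaConj_cl, Datum.fieldAut, semiAut_cl]
    refine congrArg (cl _) (Subtype.ext (Subtype.ext ?_))
    rw [coe_semiOmega]
    show D.twist σ * gmap σ (D.H * s.1.1 * D.H⁻¹) * (D.twist σ)⁻¹ =
      D.H * (1 * gmap σ s.1.1 * 1⁻¹) * D.H⁻¹
    rw [Datum.twist, map_mul, map_mul, map_inv]
    group

/-- The criterion, at an automorphism that is not inner-diagonal. -/
theorem main {r : ℕ} [Fact r.Prime] [CharP F r] (hm : 3 ≤ m) (hab : Aniso a b)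
    (hK : IsSimpleGroup (Cfsg.POmega F (⇑(qM m a b))))
    (A : Subgroup (MulAut (Cfsg.POmega F (⇑(qM m a b)))))
    (hinn : ∀ k : Cfsg.POmega F (⇑(qM m a b)), MulAut.conj k ∈ A)
    {p : ℕ} [Fact p.Prime] (hpr : p ≠ r) (x : MulAut (Cfsg.POmega F (⇑(qM m a b))))
    (hord : orderOf x = p) (hnot : ¬ Cfsg.IsInnerDiagonalAutPOmegaMinus m a b x) :
    Cfsg.pPrimeCore p ↥(A ⊓ Subgroup.centralizer {x}) ≠ ⊥ ↔
      (Cfsg.IsFieldAutClassPOmegaMinus m (a := a) (b := b) x ∧
        Nat.Coprime p (Nat.card ↥(MonoidHom.eqLocus x.toMonoidHom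
          (MonoidHom.id (Cfsg.POmega F (⇑(qM m a b))))))) := by
  have hp : p.Prime := Fact.out
  have E := ev_qM (F := F) hm hab
  have hgam : ∀ β : MulAut (Cfsg.POmega F (⇑(qM m a b))), β ∈ Cfsg.gammaPOmega F (⇑(qM m a b)) := by
    intro β
    have h := (CfsgLib.ClassicalAut.Ortho.setupMinus hab m hm).gamma_top
    exact h.symm ▸ Subgroup.mem_top β
  have htwo : p = 2 → (2 : F) ≠ 0 := by
    intro hp2 h2
    have h3 : ((2 : ℕ) : F) = 0 := by exact_mod_cast h2
    exact hpr (hp2.trans ((Nat.prime_dvd_prime_iff_eq Fact.out Nat.prime_two).1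
      ((CharP.cast_eq_zero_iff F r 2).1 h3)).symm)
  obtain ⟨g, σ, h, rfl⟩ := mem_gamma_iff.1 (hgam x)
  have hxp : semiAut g σ h ^ p = 1 := hord ▸ pow_orderOf_eq_one _
  have hσp : σ ^ p = 1 := by
    have h1 := hxp
    rw [semiAut_pow h, semiAut_eq_one_iff E.good] at h1
    exact h1.1
  by_cases hσ1 : σ = 1
  · subst hσ1
    let gs : ↥(Cfsg.Geo.quadSimilarityGroup (F := F) (⇑(qM m a b))) := ⟨g, sim_of_semi h⟩
    have hx : semiAut g 1 h = simAut (⇑(qM m a b)) gs := rfl
    have hs : sgn E gs = -1 := (Int.units_eq_one_or _).resolve_left fun e =>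
      hnot ⟨g, gs.2, (preserves_iff_sgn_minus hm hab gs).2 e, isInduced_semiAut h⟩
    have hp2 : p = 2 := by
      refine hp.eq_two_or_odd'.resolve_right fun hodd => ?_
      have h1 : sgn E (gs ^ p) = sgn E 1 := chi_eq_of_simAut_eq E.toNd (sgn E) (sgn_scalarSim E) (by
        rw [map_pow, ← hx, hxp, map_one])
      rw [map_pow, hs, map_one, hodd.neg_one_pow] at h1
      exact absurd h1 (by decide)
    subst hp2
    have h2 := htwo rfl
    refine iff_of_false ?_ ?_
    · rw [not_not, hx]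
      refine Graph.core_eq_bot_of_improper (E.even2 h2) gs ?_ (hx ▸ hord)
        (fun β _ _ => hgam β) hK A hinn
      rw [← sgn_of_ne E h2]
      exact hs
    · rintro ⟨hf, -⟩
      obtain ⟨σ', a', b', H, d, h', α, hσ', hab', ha', hb', -, he⟩ := exists_minus_std hab hm hf
      have hord' : orderOf σ' = 2 := orderOf_minus_std hm hab hσ' Nat.prime_two (h := h') (by
        rw [← he]
        exact ((MulAut.conj α).orderOf_eq _).trans hord)
      exact not_aniso_map_two σ' hord' ha' hb' hab'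
  · have hσord : orderOf σ = p := orderOf_eq_prime hσp hσ1
    have hodd : Odd p := by
      refine hp.eq_two_or_odd'.resolve_left fun hp2 => hσ1 ?_
      subst hp2
      obtain ⟨k, hk⟩ := POmegaMinus.exists_sim_of_involution (E.even2 (htwo rfl)) hm hab (hgam _)
        (by rw [← pow_two]; exact hxp)
      have h1 : semiAut g σ h * (semiAut k.1 1 (semi_of_sim k.2))⁻¹ = 1 := by
        rw [hk, simAut_apply, mul_inv_cancel]
      rw [semiAut_inv, semiAut_mul, semiAut_eq_one_iff E.good] at h1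
      simpa using h1.1
    set F₀ := fixedField σ with hF₀
    set i : F₀ →+* F := F₀.subtype
    have hi : ∀ z, σ (i z) = i z := fun z => z.2
    have hi' : ∀ z, σ z = z → ∃ w, i w = z := fun z hz => ⟨⟨z, hz⟩, rfl⟩
    obtain ⟨a₀, b₀, hab₀⟩ := exists_aniso F₀
    let eP : (Fin (m + 1) ⊕ Fin (m + 1)) ≃ ((Fin m ⊕ Fin m) ⊕ Fin 2) :=
      Fintype.equivOfCardEq (by simp; omega)
    rcases exists_typed_datum E.toNd (k := m) (by simp; omega) eP (Equiv.refl _) hab₀ h hσord hxp hi hi'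
      with ⟨D, -⟩ | ⟨D, hD⟩
    · exfalso
      refine plus_minus_not_similar hab D.coord (c := (D.a : F)) fun v => ?_
      exact D.extend (qP F (m + 1)) (fun w => by simp [coe_qP, Cfsg.quadFormPlus, map_sum]) v
    · have hfield : Cfsg.IsFieldAutClassPOmegaMinus m (a := a) (b := b) (semiAut g σ h) :=
        hD ▸ isFieldAutClass_of_datum hσord hp.one_lt.ne' hodd hi hi' hab₀ D
      refine Iff.trans ?_ (and_iff_right hfield).symm
      rw [← hD]
      have hK₀ : IsSimpleGroup (Cfsg.POmega F₀ (⇑(qM m a₀ b₀))) :=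
        CfsgLib.ClassicalForms.isSimpleGroup_pOmega_minus hab₀ m hm
      exact DatumField.main D hi hi' E.toNd (ev_qM hm hab₀).toNd hK hK₀ hσord
        (fun β _ _ => hgam β) (fun h2 => absurd (h2 ▸ hodd) (by decide)) A hinn

end CfsgLib.LocalBalanceAut.POmegaMinus
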