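import Cfsg.Agent.Lib.LocalBalanceAut.Core
import Cfsg.Agent.Lib.LocalBalanceAut.Galois
import Cfsg.Agent.Lib.LocalBalanceAut.POmegaOddCent
import Cfsg.Agent.Lib.ClassicalForms.Ortho.POmega

/-!
# Local balance for the automorphisms of `Ω_{2m+1}(F)` that are not inner-diagonal
-/

set_option autoImplicit false
set_option linter.unusedSectionVars false
set_option linter.style.haveILetI false
set_option maxHeartbeats 1600000

open Matrix CfsgLib.OrthGen
open CfsgLib.ReflectionsSpinor CfsgLib.ReflectionsSpinor.POmegaAut CfsgLib.ReflectionsSpinor.POmegaQuot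
  CfsgLib.ReflectionsSpinor.POmegaForms CfsgLib.ReflectionsSpinor.POmegaField

namespace CfsgLib.LocalBalanceAut.POmegaOdd

universe u v

variable {F : Type u} [Field F] [Finite F] {m : ℕ}

local notation "ι" => (Unit ⊕ (Fin m ⊕ Fin m))
local notation "Q" => qO F m
set_option quotPrecheck false in
local notation "PO" => Cfsg.POmega F (⇑(qO F m))

variable (F m) in
/-- `σ ↦` the standard field automorphism. -/
noncomputable def stdHom : (F ≃+* F) →* MulAut (Cfsg.POmega F (⇑(qO F m))) :=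
  MonoidHom.mk' (fun σ => stdOdd F m σ) fun σ ρ => by
    show semiAut 1 (σ * ρ) _ = semiAut 1 σ _ * semiAut 1 ρ _
    rw [semiAut_mul]
    exact semiAut_congr (by rw [map_one, mul_one]) rfl

theorem stdOdd_cl (σ : F ≃+* F) (s : ↥(Cfsg.Omega F (⇑Q))) :
    stdOdd F m σ (cl (⇑Q) s) = cl (⇑Q) (semiOmega 1 σ (semi_of_comm (qO_comm m σ)) s) := rfl

theorem coe_semiOmega_one (σ : F ≃+* F) (s : ↥(Cfsg.Omega F (⇑Q))) :
    (semiOmega 1 σ (semi_of_comm (qO_comm m σ)) s).1.1 = gmap σ s.1.1 := by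
  rw [coe_semiOmega, one_mul, inv_one, mul_one]

theorem stdOdd_cl_eq_iff (h2 : (2 : F) ≠ 0) (hm : 3 ≤ m) (σ : F ≃+* F) (s : ↥(Cfsg.Omega F (⇑Q))) :
    stdOdd F m σ (cl (⇑Q) s) = cl (⇑Q) s ↔ gmap σ s.1.1 = s.1.1 := by
  rw [stdOdd_cl, (cl_injective h2 hm).eq_iff, ← coe_semiOmega_one]
  exact ⟨fun h => by rw [h], fun h => Subtype.ext (Subtype.ext h)⟩

section Subfield

variable {F₀ : Type v} [Field F₀] [Finite F₀] (i : F₀ →+* F)

theorem bcIso_mem_omega {t : ↥(Cfsg.isometryGroup F₀ (⇑(qO F₀ m)))}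
    (ht : t ∈ Cfsg.Omega F₀ (⇑(qO F₀ m))) :
    (datumOdd (F := F) m i).bcIso t ∈ Cfsg.Omega F (⇑Q) := by
  have h : (Cfsg.Omega F₀ (⇑(qO F₀ m))).map (datumOdd (F := F) m i).bcIso ≤ Cfsg.Omega F (⇑Q) := by
    rw [Cfsg.Omega, commutator_def, Subgroup.map_commutator]
    exact Subgroup.commutator_mono le_top le_top
  exact h ⟨t, ht, rfl⟩

/-- `Ω_{2m+1}(F₀) → Ω_{2m+1}(F)`, read in `PΩ`. -/
noncomputable def subHom : ↥(Cfsg.Omega F₀ (⇑(qO F₀ m))) →* Cfsg.POmega F (⇑(qO F m)) :=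
  (QuotientGroup.mk' _).comp
    (((datumOdd (F := F) m i).bcIso.comp (Cfsg.Omega F₀ (⇑(qO F₀ m))).subtype).codRestrict
      (Cfsg.Omega F (⇑(qO F m))) fun t => bcIso_mem_omega i t.2)

theorem subHom_apply (t : ↥(Cfsg.Omega F₀ (⇑(qO F₀ m)))) :
    subHom (F := F) i t = cl (⇑Q) ⟨(datumOdd (F := F) m i).bcIso t.1, bcIso_mem_omega i t.2⟩ := rfl

theorem bcIso_injective : Function.Injective (datumOdd (F := F) m i).bcIso := by
  intro s t h
  have h1 : (datumOdd (F := F) m i).bc s.1 = (datumOdd (F := F) m i).bc t.1 := congrArg Subtype.val h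
  rw [Datum.bc_apply, Datum.bc_apply, mul_left_inj, mul_right_inj] at h1
  refine Subtype.ext (Units.ext (Matrix.ext fun a b => i.injective ?_))
  exact congrFun (congrFun (congrArg (fun u : GL ι F => (Units.val u : Matrix ι ι F)) h1) a) b

theorem subHom_injective (h2 : (2 : F) ≠ 0) (hm : 3 ≤ m) :
    Function.Injective (subHom (F := F) (m := m) i) := by
  intro s t h
  rw [subHom_apply, subHom_apply] at h
  exact Subtype.ext (bcIso_injective i (congrArg Subtype.val (cl_injective h2 hm h)))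

theorem gmap_bc {σ : F ≃+* F} (hi : ∀ x, σ (i x) = i x) (k : GL ι F₀) :
    gmap σ ((datumOdd (F := F) m i).bc k) = (datumOdd (F := F) m i).bc k := by
  rw [Datum.bc_apply, map_mul, map_mul, map_inv, gmap_rx σ i hi,
    show (datumOdd (F := F) m i).H = 1 from rfl, map_one]

theorem exists_of_fixed {σ : F ≃+* F} (hi' : ∀ y, σ y = y → ∃ x, i x = y)
    {s : ↥(Cfsg.isometryGroup F (⇑Q))} (h : gmap σ s.1 = s.1) :
    ∃ t : ↥(Cfsg.isometryGroup F₀ (⇑(qO F₀ m))), (datumOdd (F := F) m i).bcIso t = s := by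
  set D := datumOdd (F := F) m i
  choose x hx using fun a b => hi' _ (congrFun (congrFun (congrArg (fun u : GL ι F => (Units.val u : Matrix ι ι F)) h) a) b)
  have hA : (Matrix.of x).map i = (Units.val s.1 : Matrix ι ι F) := Matrix.ext hx
  have hdet : IsUnit (Matrix.of x).det := by
    refine isUnit_iff_ne_zero.2 fun h0 => ?_
    have h1 : ((Matrix.of x).map i).det = 0 := by
      rw [← RingHom.mapMatrix_apply, ← RingHom.map_det, h0, map_zero]
    rw [hA] at h1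
    exact ((Matrix.isUnit_iff_isUnit_det _).1 s.1.isUnit).ne_zero h1
  set k := Matrix.GeneralLinearGroup.mk'' (Matrix.of x) hdet
  have hk : D.bc k = s.1 := by
    rw [Datum.bc_apply, show D.H = 1 from rfl, one_mul, inv_one, mul_one]
    exact Units.ext hA
  have hmem : k ∈ Cfsg.isometryGroup F₀ (⇑(qO F₀ m)) := mem_iso_iff.2 fun v => i.injective (by
    have h1 := mem_iso_iff.1 s.2 (D.emb v)
    rw [← hk, D.bc_emb, D.Q_emb, D.Q_emb, show (D.a : F) = 1 from rfl, one_mul, one_mul] at h1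
    exact h1)
  exact ⟨⟨k, hmem⟩, Subtype.ext hk⟩

theorem dvd_card_omega (h2 : (2 : F) ≠ 0) (h20 : (2 : F₀) ≠ 0) (hm : 3 ≤ m) {σ : F ≃+* F}
    (hi' : ∀ y, σ y = y → ∃ x, i x = y) {p : ℕ} [Fact p.Prime] (hodd : Odd p)
    {k : Cfsg.POmega F (⇑(qO F m))} (hk : stdOdd F m σ k = k) (hkp : orderOf k = p) :
    p ∣ Nat.card ↥(Cfsg.Omega F₀ (⇑(qO F₀ m))) := by
  obtain ⟨s, rfl⟩ := cl_surjective k
  obtain ⟨s₀, hs₀⟩ := exists_of_fixed i hi' ((stdOdd_cl_eq_iff h2 hm σ s).1 hk)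
  let π : ↥(Cfsg.Omega F (⇑(qO F m))) →* Cfsg.POmega F (⇑(qO F m)) := QuotientGroup.mk' _
  have hπ : Function.Injective π := cl_injective h2 hm
  have hsp : orderOf s = p := (orderOf_injective π hπ s).symm.trans hkp
  have hsp' : orderOf s.1 = p := (Subgroup.orderOf_coe s).trans hsp
  have hs₀o : orderOf s₀ = p := by
    rw [← orderOf_injective _ (bcIso_injective (F := F) i) s₀, hs₀]
    exact hsp'
  obtain ⟨j, hj⟩ := hodd
  have hmem : s₀ ∈ Cfsg.Omega F₀ (⇑(qO F₀ m)) := by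
    have h1 : s₀ = (s₀ ^ (j + 1)) ^ 2 := by
      rw [← pow_mul, show (j + 1) * 2 = p + 1 by omega, pow_succ, ← hs₀o, pow_orderOf_eq_one,
        one_mul]
    rw [h1]
    exact sq_mem_omega h20 hm _
  rw [← hs₀o, ← Subgroup.orderOf_mk s₀ hmem]
  exact orderOf_dvd_natCard _

end Subfield

/-- The criterion, at an automorphism that is not inner-diagonal. -/
theorem main {r : ℕ} [Fact r.Prime] [CharP F r] (h2 : (2 : F) ≠ 0) (hm : 3 ≤ m)
    (hK : IsSimpleGroup PO) (A : Subgroup (MulAut PO)) (hinn : ∀ k : PO, MulAut.conj k ∈ A)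
    {p : ℕ} [Fact p.Prime] (x : MulAut PO) (hord : orderOf x = p)
    (hnot : ¬ Cfsg.IsInnerDiagonalAutPOmegaOdd m x) :
    Cfsg.pPrimeCore p ↥(A ⊓ Subgroup.centralizer {x}) ≠ ⊥ ↔
      (Cfsg.IsFieldAutClassPOmega (⇑Q) x ∧
        Nat.Coprime p (Nat.card ↥(MonoidHom.eqLocus x.toMonoidHom (MonoidHom.id PO)))) := by
  classical
  have hp : p.Prime := Fact.out
  have N := nd_qO (F := F) h2 hm
  have hxm : x ∈ Cfsg.gammaPOmega F (⇑Q) := by
    have h := (CfsgLib.ClassicalAut.Ortho.setupOdd h2 m hm).gamma_top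
    exact h.symm ▸ Subgroup.mem_top x
  obtain ⟨g, σ, h, rfl⟩ := mem_gamma_iff.1 hxm
  have hxp : semiAut g σ h ^ p = 1 := hord ▸ pow_orderOf_eq_one _
  have hσp : σ ^ p = 1 := by
    have h1 := hxp
    rw [semiAut_pow h, semiAut_eq_one_iff N.good] at h1
    exact h1.1
  have hσ1 : σ ≠ 1 := by
    rintro rfl
    exact hnot ⟨g, sim_of_semi h, isInduced_semiAut h⟩
  have hσord : orderOf σ = p := orderOf_eq_prime hσp hσ1
  set F₀ := fixedField σ with hF₀
  set i : F₀ →+* F := F₀.subtype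
  have hi : ∀ z, σ (i z) = i z := fun z => z.2
  have hi' : ∀ z, σ z = z → ∃ w, i w = z := fun z hz => ⟨⟨z, hz⟩, rfl⟩
  have h20 : (2 : F₀) ≠ 0 := fun h' => h2 (by
    have := congrArg i h'
    rwa [map_ofNat, map_zero] at this)
  obtain ⟨c, hc⟩ := odd_conj h2 hm hσord hi hi' h hxp
  set y := stdOdd F m σ with hy
  have he : (simAut (⇑Q) c)⁻¹ * semiAut g σ h * (simAut (⇑Q) c)⁻¹⁻¹ = y := by
    rw [← hc]; group
  have hfield : Cfsg.IsFieldAutClassPOmega (⇑Q) (semiAut g σ h) :=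
    ⟨(simAut (⇑Q) c)⁻¹, y, σ, hσ1, (isFieldAutOf_iff (qO_comm m σ)).2 rfl, he⟩
  rw [and_iff_right hfield]
  have hperf0 := (nd_qO (F := F₀) h20 hm).good.omega_perfect
  haveI hK0 : IsSimpleGroup (Cfsg.POmega F₀ (⇑(qO F₀ m))) :=
    CfsgLib.ClassicalForms.isSimpleGroup_pOmega_odd h20 m hm
  haveI : IsSimpleGroup ↥(Cfsg.Omega F₀ (⇑(qO F₀ m))) :=
    (MulEquiv.ofBijective (QuotientGroup.mk' _)
      ⟨cl_injective h20 hm, QuotientGroup.mk_surjective⟩).isSimpleGroup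
  refine core_ne_bot_iff_of_conj (center_pOmega h2 hm hK) A hinn he hord ?_ ?_ ?_
    (subHom (F := F) (m := m) i).range ?_ ?_ ?_
  · rintro ⟨k, hk⟩
    obtain ⟨s, rfl⟩ := cl_surjective k
    rw [inner_eq_simAut, simAut_apply, hy] at hk
    have h1 : semiAut 1 σ (semi_of_comm (qO_comm m σ)) *
        (semiAut _ 1 (semi_of_sim (omegaSim (⇑Q) s).2))⁻¹ = 1 := by
      rw [hk]; exact mul_inv_cancel _
    rw [semiAut_inv, semiAut_mul, semiAut_eq_one_iff N.good] at h1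
    exact hσ1 (by simpa using h1.1)
  · obtain ⟨t, ht, ht1, -⟩ := exists_involution (F := F₀) (m := m) h20 hm
    refine ⟨subHom i ⟨t, ht⟩, fun h' => ?_, ?_⟩
    · exact ht1 (congrArg Subtype.val (subHom_injective i h2 hm (h'.trans (map_one _).symm)))
    · rw [subHom_apply, hy, stdOdd_cl_eq_iff h2 hm]
      exact gmap_bc i hi t.1
  · intro a _ hfix
    have ha : a ∈ Cfsg.gammaPOmega F (⇑Q) := by
      have h' := (CfsgLib.ClassicalAut.Ortho.setupOdd h2 m hm).gamma_top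
      exact h'.symm ▸ Subgroup.mem_top a
    obtain ⟨g', τ, h', rfl⟩ := mem_gamma_iff.1 ha
    obtain ⟨⟨c', hc0, hg'⟩, hτ⟩ := scalar_of_centralizes i h2 hm g' τ fun t ht => by
      have h1 := hfix (subHom i ⟨t, ht⟩) (by
        rw [subHom_apply, hy, stdOdd_cl_eq_iff h2 hm]; exact gmap_bc i hi t.1)
      rw [subHom_apply, semiAut_cl] at h1
      have h3 := congrArg (fun z : ↥(Cfsg.Omega F (⇑Q)) => z.1.1) (cl_injective h2 hm h1)
      simp only [coe_semiOmega] at h3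
      exact h3
    obtain ⟨k, hk⟩ := CfsgLib.LocalBalanceAut.mem_zpowers_of_fix σ τ fun z hz => by
      obtain ⟨w, rfl⟩ := hi' z hz
      exact hτ w
    have hs : g' ∈ Cfsg.Geo.quadSimilarityGroup (F := F) (⇑Q) := by
      refine ⟨Units.mk0 (c' * c') (mul_ne_zero hc0 hc0), fun v => ?_⟩
      rw [hg', Matrix.smul_mulVec, Matrix.one_mulVec, QuadraticMap.map_smul, smul_eq_mul]
      rfl
    refine ⟨k, ?_⟩
    have e : semiAut g' τ h' = simAut (⇑Q) ⟨g', hs⟩ * stdOdd F m τ := by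
      rw [simAut_apply, stdOdd, semiAut_mul]
      exact semiAut_congr (by rw [map_one, mul_one]) (one_mul τ).symm
    rw [e, (simAut_eq_one_iff N.good _).2 ⟨c', hc0, hg'⟩, one_mul, hy]
    show stdHom F m σ ^ k = stdHom F m τ
    rw [← map_zpow]
    exact congrArg _ hk
  · rintro _ ⟨t, rfl⟩
    rw [subHom_apply, hy, stdOdd_cl_eq_iff h2 hm]
    exact gmap_bc i hi t.1.1
  · intro k l hk hl
    obtain ⟨s, rfl⟩ := cl_surjective k
    obtain ⟨t, rfl⟩ := cl_surjective l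
    rw [hy, stdOdd_cl_eq_iff h2 hm] at hk hl
    obtain ⟨s₀, hs₀⟩ := exists_of_fixed i hi' hk
    obtain ⟨t₀, ht₀⟩ := exists_of_fixed i hi' hl
    have hmem : s₀ * t₀ * s₀⁻¹ * t₀⁻¹ ∈ Cfsg.Omega F₀ (⇑(qO F₀ m)) :=
      Subgroup.commutator_mem_commutator (Subgroup.mem_top _) (Subgroup.mem_top _)
    refine ⟨⟨_, hmem⟩, ?_⟩
    rw [subHom_apply]
    refine congrArg (cl (⇑Q)) (Subtype.ext ?_)
    show (datumOdd (F := F) m i).bcIso (s₀ * t₀ * s₀⁻¹ * t₀⁻¹) = _
    rw [map_mul, map_mul, map_mul, map_inv, map_inv, hs₀, ht₀]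
    rfl
  · intro hpd M hMn hM
    let e : ↥(Cfsg.Omega F₀ (⇑(qO F₀ m))) ≃* ↥(subHom (F := F) (m := m) i).range :=
      MonoidHom.ofInjective (subHom_injective i h2 hm)
    have hp0 : p ∣ Nat.card ↥(Cfsg.Omega F₀ (⇑(qO F₀ m))) := by
      rcases hp.eq_two_or_odd' with h2' | hodd
      · obtain ⟨t, ht, ht1, htsq⟩ := exists_involution (F := F₀) (m := m) h20 hm
        rw [h2', ← orderOf_eq_prime (Subtype.ext htsq : (⟨t, ht⟩ :
          ↥(Cfsg.Omega F₀ (⇑(qO F₀ m)))) ^ 2 = 1) fun h' => ht1 (congrArg Subtype.val h')]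
        exact orderOf_dvd_natCard _
      · obtain ⟨⟨k, hk⟩, hko⟩ := exists_prime_orderOf_dvd_card' p hpd
        have hkp : orderOf k = p := (Subgroup.orderOf_coe (⟨k, hk⟩ : fixedPts y)).trans hko
        exact dvd_card_omega i h2 h20 hm hi' hodd hk hkp
    haveI : (M.comap e.toMonoidHom).Normal := hMn.comap _
    rcases IsSimpleGroup.eq_bot_or_eq_top_of_normal (M.comap e.toMonoidHom) inferInstance with h' | h'
    · refine (Subgroup.eq_bot_iff_forall _).2 fun a ha => ?_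
      have : e.symm a ∈ M.comap e.toMonoidHom := by
        rw [Subgroup.mem_comap, MulEquiv.coe_toMonoidHom, e.apply_symm_apply]; exact ha
      rw [h', Subgroup.mem_bot] at this
      exact e.symm.injective (this.trans (map_one e.symm).symm)
    · exfalso
      have hcard : Nat.card (M.comap e.toMonoidHom) = Nat.card M := by
        rw [show M.comap e.toMonoidHom = M.map e.symm.toMonoidHom from
          Subgroup.comap_equiv_eq_map_symm' _ _, Subgroup.card_map_of_injective e.symm.injective]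
      rw [h', Subgroup.card_top] at hcard
      exact (Nat.Prime.coprime_iff_not_dvd hp).1 hM.symm (hcard ▸ hp0)

end CfsgLib.LocalBalanceAut.POmegaOdd
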