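import Cfsg.Agent.Lib.LocalBalanceAut.PlusCosets

/-!
# Local balance for the automorphisms of `PΩ⁺` that are not inner-diagonal
-/

set_option autoImplicit false
set_option linter.unusedSectionVars false
set_option linter.style.haveILetI false
set_option maxHeartbeats 1600000

open Matrix CfsgLib.OrthGen
open CfsgLib.ReflectionsSpinor CfsgLib.ReflectionsSpinor.POmegaAut CfsgLib.ReflectionsSpinor.POmegaQuot
  CfsgLib.ReflectionsSpinor.POmegaForms CfsgLib.ReflectionsSpinor.POmegaField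
open CfsgLib.Geometric (ap ap_mul ap_smul ap_one gl_ext)
open CfsgLib.ClassicalForms (Aniso)

namespace CfsgLib.LocalBalanceAut.POmegaPlus

universe u v

variable {F : Type u} [Field F] [Finite F] {m : ℕ}

set_option quotPrecheck false in
local notation "SimM" => Cfsg.Geo.quadSimilarityGroup (F := F) (⇑(qP F m))

set_option quotPrecheck false in
local notation "PM" => Cfsg.POmega F (⇑(qP F m))

set_option quotPrecheck false in
local notation "ΓM" => Cfsg.gammaPOmega F (⇑(qP F m))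

set_option quotPrecheck false in
local notation "fixCard" x =>
  Nat.card ↥(MonoidHom.eqLocus (MulEquiv.toMonoidHom x) (MonoidHom.id PM))

/-- The inner-diagonal automorphisms are the similarities of sign one. -/
theorem innerDiag_iff (hm : 4 ≤ m) (x : MulAut PM) :
    Cfsg.IsInnerDiagonalAutPOmegaPlus m x ↔ x ∈ (sgn (ev_qP (F := F) hm)).ker.map (simAut (⇑(qP F m))) := by
  constructor
  · rintro ⟨g, hg, hp, hi⟩
    exact ⟨⟨g, hg⟩, MonoidHom.mem_ker.2 ((preserves_iff_sgn_plus hm ⟨g, hg⟩).1 hp),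
      ((isInduced_refl_iff (Q := ⇑(qP F m)) hg).1 hi).symm⟩
  · rintro ⟨k, hk, rfl⟩
    exact ⟨k.1, k.2, (preserves_iff_sgn_plus hm k).2 (MonoidHom.mem_ker.1 hk),
      (isInduced_refl_iff (Q := ⇑(qP F m)) k.2).2 rfl⟩

/-- The centraliser core moves with conjugation. -/
theorem core_conj {K : Type v} [Group K] [Finite K] (A : Subgroup (MulAut K)) (c x : MulAut K) (p : ℕ) :
    Cfsg.pPrimeCore p ↥(A ⊓ Subgroup.centralizer {x}) ≠ ⊥ ↔
      Cfsg.pPrimeCore p ↥(A.map (MulAut.conj c).toMonoidHom ⊓ Subgroup.centralizer {c * x * c⁻¹}) ≠ ⊥ := by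
  set C : MulAut K ≃* MulAut K := MulAut.conj c with hC
  have hmap : (A ⊓ Subgroup.centralizer {x}).map C.toMonoidHom =
      A.map C.toMonoidHom ⊓ Subgroup.centralizer {c * x * c⁻¹} := by
    rw [Subgroup.map_inf _ _ _ C.injective]
    congr 1
    ext a
    rw [Subgroup.mem_map_equiv, Subgroup.mem_centralizer_singleton_iff,
      Subgroup.mem_centralizer_singleton_iff]
    conv_lhs => rw [← C.injective.eq_iff, map_mul, map_mul, MulEquiv.apply_symm_apply]
    rw [show C x = c * x * c⁻¹ from rfl]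
  have e : ↥(A ⊓ Subgroup.centralizer {x}) ≃*
      ↥(A.map C.toMonoidHom ⊓ Subgroup.centralizer {c * x * c⁻¹}) :=
    ((A ⊓ Subgroup.centralizer {x}).equivMapOfInjective C.toMonoidHom C.injective).trans
      (MulEquiv.subgroupCongr hmap)
  refine not_congr ?_
  rw [← CfsgLib.Cores.map_pPrimeCore_equiv e, Subgroup.map_eq_bot_iff_of_injective _ e.injective]

theorem inn_conj {K : Type v} [Group K] (A : Subgroup (MulAut K)) (hinn : ∀ k : K, MulAut.conj k ∈ A)
    (c : MulAut K) (k : K) : MulAut.conj k ∈ A.map (MulAut.conj c).toMonoidHom :=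
  ⟨MulAut.conj (c⁻¹ k), hinn _, by
    show c * MulAut.conj (c⁻¹ k) * c⁻¹ = _
    rw [mul_conj_mul_inv, MulAut.apply_inv_self]⟩

theorem fix_conj {K : Type v} [Group K] (c x : MulAut K) :
    Nat.card (fixedPts x) = Nat.card (fixedPts (c * x * c⁻¹)) :=
  Nat.card_congr (c.toEquiv.subtypeEquiv fun k => by
    show x k = k ↔ (c * x * c⁻¹) (c k) = c k
    rw [MulAut.mul_apply, MulAut.mul_apply, MulAut.inv_apply_self, c.injective.eq_iff])

/-- The criterion transfers along a conjugation. -/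
theorem criterion_conj {K : Type v} [Group K] [Finite K] (A : Subgroup (MulAut K))
    (hinn : ∀ k : K, MulAut.conj k ∈ A) {c x y : MulAut K} {p : ℕ} (hy : c * x * c⁻¹ = y)
    (h : ∀ B : Subgroup (MulAut K), (∀ k : K, MulAut.conj k ∈ B) →
      (Cfsg.pPrimeCore p ↥(B ⊓ Subgroup.centralizer {y}) ≠ ⊥ ↔ Nat.Coprime p (Nat.card (fixedPts y)))) :
    Cfsg.pPrimeCore p ↥(A ⊓ Subgroup.centralizer {x}) ≠ ⊥ ↔ Nat.Coprime p (Nat.card (fixedPts x)) := by
  subst hy
  rw [core_conj A c, fix_conj c x]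
  exact h _ (inn_conj A hinn c)

theorem field_conj (c x : MulAut PM) :
    Cfsg.IsFieldAutClassPOmega (⇑(qP F m)) x ↔ Cfsg.IsFieldAutClassPOmega (⇑(qP F m)) (c * x * c⁻¹) := by
  constructor
  · rintro ⟨α, φ, σ, hσ, hφ, he⟩
    exact ⟨α * c⁻¹, φ, σ, hσ, hφ, by rw [← he]; group⟩
  · rintro ⟨α, φ, σ, hσ, hφ, he⟩
    exact ⟨α * c, φ, σ, hσ, hφ, by rw [← he]; group⟩

/-- The sandwich comes from the fixed field. -/
theorem exists_subHom_sand {F₀ : Type v} [Field F₀] [Finite F₀] (i : F₀ →+* F) :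
    ∃ t, DatumField.subHom (datumPlus 4 i) t = sand F := by
  let t : ↥(Cfsg.Omega F₀ (⇑(qP F₀ 4))) := Triality.sandwich (1 : F₀)
  let s : ↥(Cfsg.Omega F (⇑(qP F 4))) := Triality.sandwich (1 : F)
  refine ⟨t, ?_⟩
  have h : DatumField.subOmega (datumPlus 4 i) t = s := by
    refine Subtype.ext (Subtype.ext ?_)
    rw [DatumField.coe_subOmega]
    refine Units.ext (Matrix.ext_of_mulVec_single fun j => ?_)
    have e : (Pi.single j 1 : Fin 4 ⊕ Fin 4 → F) = i ∘ (Pi.single j 1 : Fin 4 ⊕ Fin 4 → F₀) := by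
      funext l
      by_cases hl : l = j
      · subst hl; simp
      · simp [hl]
    have emb : ∀ v : Fin 4 ⊕ Fin 4 → F₀, (datumPlus (F := F) 4 i).emb v = i ∘ v := fun v => by
      rw [Datum.emb, show (datumPlus (F := F) 4 i).H = 1 from rfl, Units.val_one, Matrix.one_mulVec]
      rfl
    have hmul : ∀ x y : Fin 4 ⊕ Fin 4 → F₀, i ∘ Triality.mul x y = Triality.mul (i ∘ x) (i ∘ y) := fun x y => by
      funext l; rcases l with l | l <;> fin_cases l <;> simp [Triality.mul]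
    have hav : i ∘ Triality.av (1 : F₀) = Triality.av (1 : F) := by
      funext l; rcases l with l | l <;> fin_cases l <;> simp [Triality.av, Triality.one, Triality.nil]
    rw [e, ← emb, Datum.bc_emb, emb]
    show i ∘ ap (ClassicalAut.Ortho.gl F₀ (Cfsg.quadFormPlus 4 F₀) (Triality.sandwich (1 : F₀))) _ =
      ap (ClassicalAut.Ortho.gl F (Cfsg.quadFormPlus 4 F) (Triality.sandwich (1 : F))) _
    rw [Triality.ap_sandwich, Triality.ap_sandwich, hmul, hmul, hav, emb]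
  exact (DatumField.subHom_apply _ t).trans ((congrArg _ h).trans rfl)

/-- The criterion at a standard field automorphism. -/
theorem std_case (hm : 4 ≤ m) (hK : IsSimpleGroup PM) (A : Subgroup (MulAut PM))
    (hinn : ∀ k : PM, MulAut.conj k ∈ A) {p : ℕ} [Fact p.Prime] (htwo : p = 2 → (2 : F) ≠ 0)
    {σ : F ≃+* F} (hσ : orderOf σ = p) :
    Cfsg.pPrimeCore p ↥(A ⊓ Subgroup.centralizer {stdPlus F m σ}) ≠ ⊥ ↔
      Nat.Coprime p (Nat.card (fixedPts (stdPlus F m σ))) := by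
  set F₀ := fixedField σ with hF₀
  set i : F₀ →+* F := F₀.subtype
  haveI : Finite F₀ := Subtype.finite
  have hi : ∀ z, σ (i z) = i z := fun z => z.2
  have hi' : ∀ z, σ z = z → ∃ w, i w = z := fun z hz => ⟨⟨z, hz⟩, rfl⟩
  rw [← fieldAut_datumPlus (F := F) (m := m) hi]
  have hK₀ : IsSimpleGroup (Cfsg.POmega F₀ (⇑(qP F₀ m))) :=
    CfsgLib.ClassicalForms.isSimpleGroup_pOmega_plus m hm
  refine DatumField.main (datumPlus m i) hi hi' (ev_qP hm).toNd (ev_qP hm).toNd hK hK₀ hσ ?_ ?_ A hinn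
  · intro a _ hfix
    rcases Nat.eq_or_lt_of_le hm with rfl | hm'
    · obtain ⟨t, ht⟩ := exists_subHom_sand i
      exact mem_gamma_of_fix (ht ▸ hfix t)
    · exact gamma_top_of_five hm' a
  · intro hp2
    have h20 : (2 : F₀) ≠ 0 := fun h' => htwo hp2 (by
      have := congrArg i h'
      rwa [map_ofNat, map_zero] at this)
    exact (two_dvd_card_plus h20 hm).trans (card_dvd_card_range (datumPlus m i))

/-- The core at a graph-field involution. -/
theorem graph_field_case (hm : 4 ≤ m) (hK : IsSimpleGroup PM) (A : Subgroup (MulAut PM))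
    (hinn : ∀ k : PM, MulAut.conj k ∈ A) (h2 : (2 : F) ≠ 0) {σ : F ≃+* F} (hσ : orderOf σ = 2)
    (a : ↥SimM) (hs : sgn (ev_qP hm) a = -1) (hpow : form a σ ^ 2 = 1) :
    Cfsg.pPrimeCore 2 ↥(A ⊓ Subgroup.centralizer {form a σ}) = ⊥ := by
  haveI : Fact (Nat.Prime 2) := ⟨Nat.prime_two⟩
  set F₀ := fixedField σ with hF₀
  set i : F₀ →+* F := F₀.subtype
  haveI : Finite F₀ := Subtype.finite
  have hi : ∀ z, σ (i z) = i z := fun z => z.2
  have hi' : ∀ z, σ z = z → ∃ w, i w = z := fun z hz => ⟨⟨z, hz⟩, rfl⟩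
  obtain ⟨k, rfl⟩ : ∃ k, m = k + 1 := ⟨m - 1, by omega⟩
  obtain ⟨a₀, b₀, hab₀⟩ := exists_aniso F₀
  let eM : ((Fin k ⊕ Fin k) ⊕ Fin 2) ≃ (Fin (k + 1) ⊕ Fin (k + 1)) :=
    Fintype.equivOfCardEq (by simp; omega)
  rcases plus_typed hm hab₀ eM hσ hi hi' a hpow with ⟨h1, -⟩ | ⟨D, hD⟩
  · exact absurd (hs.symm.trans h1) (by decide)
  have hk : 3 ≤ k := by omega
  have hK₀ : IsSimpleGroup (Cfsg.POmega F₀ (⇑(qM k a₀ b₀))) :=
    CfsgLib.ClassicalForms.isSimpleGroup_pOmega_minus hab₀ k hk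
  have hD' : D.fieldAut σ hi = form a σ := hD
  have h20 : (2 : F₀) ≠ 0 := fun h' => h2 (by
    have := congrArg i h'
    rwa [map_ofNat, map_zero] at this)
  have hev := (two_dvd_card_minus h20 hk hab₀).trans (card_dvd_card_range D)
  have h := DatumField.main D hi hi' (ev_qP hm).toNd (ev_qM hk hab₀).toNd hK hK₀ hσ
    (fun b hb _ => mem_gamma_of_commute hm hs (hD' ▸ hb)) (fun _ => hev) A hinn
  rw [← hD']
  by_contra hne
  refine (Nat.Prime.coprime_iff_not_dvd Nat.prime_two).1 (h.1 hne) (hev.trans (Subgroup.card_dvd_of_le ?_))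
  rintro _ ⟨t, rfl⟩
  exact DatumField.fieldAut_subHom D hi t

/-- The criterion inside `Γ`. -/
theorem main_gamma (hm : 4 ≤ m) (hK : IsSimpleGroup PM) (A : Subgroup (MulAut PM))
    (hinn : ∀ k : PM, MulAut.conj k ∈ A) {p : ℕ} [Fact p.Prime] (htwo : p = 2 → (2 : F) ≠ 0)
    (x : MulAut PM) (hord : orderOf x = p) (hx : x ∈ ΓM) (hnot : ¬ Cfsg.IsInnerDiagonalAutPOmegaPlus m x) :
    Cfsg.pPrimeCore p ↥(A ⊓ Subgroup.centralizer {x}) ≠ ⊥ ↔
      (Cfsg.IsFieldAutClassPOmega (⇑(qP F m)) x ∧ Nat.Coprime p (Nat.card (fixedPts x))) := by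
  have hp : p.Prime := Fact.out
  obtain ⟨a, σ, rfl⟩ := exists_form hx
  set E := ev_qP (F := F) hm
  obtain ⟨b, hb, hbs⟩ := form_pow hm a σ p
  have hxp : form a σ ^ p = 1 := hord ▸ pow_orderOf_eq_one _
  rw [hxp, show (1 : MulAut PM) = form (1 : ↥SimM) 1 by rw [form_one, map_one]] at hb
  obtain ⟨hb1, hσp⟩ := form_eq hm hb
  rw [hbs, map_one] at hb1
  have hp2 : sgn E a = -1 → p = 2 := fun hs => hp.eq_two_or_odd'.resolve_right fun hodd => by
    rw [hs, hodd.neg_one_pow] at hb1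
    exact absurd hb1 (by decide)
  have hno : sgn E a = -1 → ¬ Cfsg.IsFieldAutClassPOmega (⇑(qP F m)) (form a σ) := fun hs hf => by
    obtain ⟨β, hβ, σ', hσ', he⟩ := exists_gamma_conj hm hf
    exact absurd (hs.symm.trans (invariants_of_field hm hβ hσ' he).2) (by decide)
  by_cases hσ1 : σ = 1
  · subst hσ1
    have hs : sgn E a = -1 := (Int.units_eq_one_or _).resolve_left fun h =>
      hnot ((innerDiag_iff hm _).2 ⟨a, MonoidHom.mem_ker.2 h, (form_one a).symm⟩)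
    obtain rfl := hp2 hs
    have h2 := htwo rfl
    refine iff_of_false ?_ fun h => hno hs h.1
    rw [not_not, form_one]
    refine Graph.core_eq_bot_of_improper (E.even2 h2) a ?_ (form_one a ▸ hord)
      (fun β hβ _ => mem_gamma_of_commute (σ := 1) hm hs (by rw [form_one]; exact hβ)) hK A hinn
    rw [← sgn_of_ne E h2]
    exact hs
  have hσord : orderOf σ = p := orderOf_eq_prime hσp.symm hσ1
  rcases Int.units_eq_one_or (sgn E a) with hs | hs
  swap
  · obtain rfl := hp2 hs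
    exact iff_of_false (not_not.2 (graph_field_case hm hK A hinn (htwo rfl) hσord a hs hxp))
      fun h => hno hs h.1
  obtain ⟨k, rfl⟩ : ∃ k, m = k + 1 := ⟨m - 1, by omega⟩
  haveI : Finite (fixedField σ) := Subtype.finite
  obtain ⟨a₀, b₀, hab₀⟩ := exists_aniso (fixedField σ)
  obtain ⟨c, -, hc⟩ := plus_field_conj (i := (fixedField σ).subtype) hm hp hσord (fun z => z.2)
    (fun z hz => ⟨⟨z, hz⟩, rfl⟩) hab₀ a hs hxp
  set C := simAut (⇑(qP F (k + 1))) c
  have hy : C⁻¹ * form a σ * C⁻¹⁻¹ = stdPlus F (k + 1) σ := by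
    rw [form, ← hc]; group
  have hfield : Cfsg.IsFieldAutClassPOmega (⇑(qP F (k + 1))) (form a σ) :=
    ⟨C⁻¹, stdPlus F (k + 1) σ, σ, hσ1, (isFieldAutOf_iff (qP_comm (k + 1) σ)).2 rfl, hy⟩
  exact Iff.trans (criterion_conj A hinn hy fun B hB => std_case hm hK B hB htwo hσord)
    (and_iff_right hfield).symm

/-- Outside the conjugates of `Γ` the core is trivial. -/
theorem core_eq_bot_of_moves {r : ℕ} [Fact r.Prime] [CharP F r] {p : ℕ} [Fact p.Prime] (hpr : p ≠ r)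
    (A : Subgroup (MulAut (Cfsg.POmega F (⇑(qP F 4)))))
    (hinn : ∀ k : Cfsg.POmega F (⇑(qP F 4)), MulAut.conj k ∈ A)
    (x : MulAut (Cfsg.POmega F (⇑(qP F 4)))) (hord : orderOf x = p)
    (hmoves : ∀ c, c⁻¹ * x * c ∉ Cfsg.gammaPOmega F (⇑(qP F 4))) :
    Cfsg.pPrimeCore p ↥(A ⊓ Subgroup.centralizer {x}) = ⊥ := by
  classical
  haveI : Finite (MulAut (Cfsg.POmega F (⇑(qP F 4)))) := Finite.of_injective _ DFunLike.coe_injective
  obtain rfl : p = 3 := by
    let e : (MulAut (Cfsg.POmega F (⇑(qP F 4)))) ⧸ (Cfsg.gammaPOmega F (⇑(qP F 4))) ≃ Fin 3 := Finite.equivFinOfCardEq Triality.index_gamma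
    let θ : (MulAut (Cfsg.POmega F (⇑(qP F 4)))) →* Equiv.Perm (Fin 3) :=
      e.permCongrHom.toMonoidHom.comp (MulAction.toPermHom (MulAut (Cfsg.POmega F (⇑(qP F 4)))) ((MulAut (Cfsg.POmega F (⇑(qP F 4)))) ⧸ (Cfsg.gammaPOmega F (⇑(qP F 4)))))
    have hfpf : ∀ i, θ x i ≠ i := fun i hi => by
      have h2 : MulAction.toPermHom (MulAut (Cfsg.POmega F (⇑(qP F 4)))) ((MulAut (Cfsg.POmega F (⇑(qP F 4)))) ⧸ (Cfsg.gammaPOmega F (⇑(qP F 4)))) x (e.symm i) = e.symm i := by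
        have := congrArg e.symm hi
        simpa [θ, Equiv.permCongrHom] using this
      induction hc : e.symm i using QuotientGroup.induction_on with
      | _ c =>
        rw [hc] at h2
        have h3 : ((x * c : (MulAut (Cfsg.POmega F (⇑(qP F 4))))) : (MulAut (Cfsg.POmega F (⇑(qP F 4)))) ⧸ (Cfsg.gammaPOmega F (⇑(qP F 4)))) = (c : (MulAut (Cfsg.POmega F (⇑(qP F 4)))) ⧸ (Cfsg.gammaPOmega F (⇑(qP F 4)))) := h2
        exact hmoves c (by simpa [mul_assoc] using QuotientGroup.eq.1 h3.symm)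
    have h3 : θ x ^ 3 = 1 := by rw [pow_succ, pow_two, Tri.perm_three _ _ hfpf rfl]
    have hne : θ x ≠ 1 := fun h => hfpf 0 (by rw [h]; rfl)
    haveI : Fact (Nat.Prime 3) := ⟨Nat.prime_three⟩
    have h4 := orderOf_map_dvd θ x
    rw [orderOf_eq_prime h3 hne, hord] at h4
    exact ((Nat.prime_dvd_prime_iff_eq Nat.prime_three Fact.out).1 h4).symm
  refine CfsgLib.Cores.pPrimeCore_eq_bot_iff.2 fun N hN hcop => ?_
  refine (Subgroup.map_eq_bot_iff_of_injective N (A ⊓ Subgroup.centralizer {x}).subtype_injective).1 (Tri.sig_eq_bot hpr.symm hord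
    ⟨?_, ?_, ?_, hmoves⟩)
  · rintro _ ⟨n, -, rfl⟩
    exact ((Subgroup.mem_centralizer_singleton_iff.1 n.2.2 : _)).symm
  · rwa [Subgroup.card_map_of_injective (A ⊓ Subgroup.centralizer {x}).subtype_injective]
  · rintro _ ⟨k, rfl⟩ hgx _ ⟨n, hn, rfl⟩
    exact ⟨_, hN.conj_mem n hn ⟨MulAut.conj k, hinn k, Subgroup.mem_centralizer_singleton_iff.2 hgx.eq⟩, rfl⟩

/-- The criterion, at an automorphism that is not inner-diagonal. -/
theorem main {r : ℕ} [Fact r.Prime] [CharP F r] (hm : 4 ≤ m) (hK : IsSimpleGroup PM)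
    (A : Subgroup (MulAut PM)) (hinn : ∀ k : PM, MulAut.conj k ∈ A)
    {p : ℕ} [Fact p.Prime] (hpr : p ≠ r) (x : MulAut PM) (hord : orderOf x = p)
    (hnot : ¬ Cfsg.IsInnerDiagonalAutPOmegaPlus m x) :
    Cfsg.pPrimeCore p ↥(A ⊓ Subgroup.centralizer {x}) ≠ ⊥ ↔
      (Cfsg.IsFieldAutClassPOmega (⇑(qP F m)) x ∧ Nat.Coprime p (fixCard x)) := by
  have htwo : p = 2 → (2 : F) ≠ 0 := by
    intro hp2 h2
    have h3 : ((2 : ℕ) : F) = 0 := by exact_mod_cast h2
    exact hpr (hp2.trans ((Nat.prime_dvd_prime_iff_eq Fact.out Nat.prime_two).1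
      ((CharP.cast_eq_zero_iff F r 2).1 h3)).symm)
  by_cases hc : ∃ c, c⁻¹ * x * c ∈ ΓM
  · obtain ⟨c, hc⟩ := hc
    have hy : c⁻¹ * x * c⁻¹⁻¹ = c⁻¹ * x * c := by rw [inv_inv]
    have hnot' : ¬ Cfsg.IsInnerDiagonalAutPOmegaPlus m (c⁻¹ * x * c) := fun h => hnot (by
      rw [innerDiag_iff hm] at h ⊢
      have := (POmegaTriality.stable_plus hm c).1 _ h
      simpa [mul_assoc] using this)
    show _ ↔ (_ ∧ Nat.Coprime p (Nat.card (fixedPts x)))
    rw [core_conj A c⁻¹, field_conj c⁻¹ x, fix_conj c⁻¹ x, hy]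
    exact main_gamma hm hK _ (inn_conj A hinn _) htwo _
      (by rw [← hy, ← hord]; exact (MulAut.conj c⁻¹).orderOf_eq x) hc hnot'
  · push Not at hc
    rcases Nat.eq_or_lt_of_le hm with rfl | hm'
    swap
    · exact absurd (gamma_top_of_five hm' _) (hc 1)
    refine iff_of_false (not_not.2 (core_eq_bot_of_moves hpr A hinn x hord hc)) ?_
    rintro ⟨⟨α, φ, σ, -, hφ, he⟩, -⟩
    obtain rfl : φ = stdPlus F 4 σ := (isFieldAutOf_iff (qP_comm 4 σ)).1 hφ
    refine hc α⁻¹ ?_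
    rw [inv_inv, he]
    exact semiAut_mem_gamma _

end CfsgLib.LocalBalanceAut.POmegaPlus
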