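import Cfsg.Agent.Lib.LocalBalanceAut.Core
import Cfsg.Agent.Lib.LocalBalanceAut.Galois
import Cfsg.Agent.Lib.ClassicalLinear.SympSimple
import Cfsg.Agent.Lib.ReflectionsSpinor.PSpFieldAut
import Cfsg.Agent.Lib.Parabolic.SpFourGraph

/-!
# Local balance for the automorphisms of `PSp_{2m}(F)` that are not inner-diagonal
-/

set_option autoImplicit false
set_option linter.unusedSectionVars false
set_option linter.style.haveILetI false
set_option maxHeartbeats 400000

open Matrix
open CfsgLib.ClassicalLinear CfsgLib.ReflectionsSpinor CfsgLib.ReflectionsSpinor.PSpAut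

namespace CfsgLib.LocalBalanceAut.PSp

universe u v

variable {m : ℕ} {F : Type u} [Field F]

local notation "V" => (Fin m ⊕ Fin m → F)
local notation "M2" => Matrix (Fin m ⊕ Fin m) (Fin m ⊕ Fin m) F
local notation "Sp" => Matrix.symplecticGroup (Fin m) F
local notation "GS" => Cfsg.GSp m F
local notation "PS" => Cfsg.PSp m F

theorem char_two (h : (2 : F) = 0) : CharP F 2 :=
  CharTwo.of_one_ne_zero_of_two_eq_zero one_ne_zero h

theorem isTr_semiAut (g : ↥GS) (σ : F ≃+* F) {x : PS} (hx : IsTr x) : IsTr (semiAut g σ x) := by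
  obtain ⟨w, a, hw, ha, rfl⟩ := hx
  obtain ⟨b, hb, hT⟩ := semiHom_spT g σ w a
  refine ⟨_, _, fun h0 => hw ?_, mul_ne_zero ((map_ne_zero σ).2 ha) hb,
    (semiAut_cl _ _ _).trans (congrArg cl hT)⟩
  have h1 := congrArg ((Units.val g.1⁻¹ : M2) *ᵥ ·) h0
  simp only [Matrix.mulVec_mulVec, Units.inv_mul, Matrix.one_mulVec, Matrix.mulVec_zero] at h1
  exact funext fun i => (map_eq_zero σ).1 (congrFun h1 i)

/-- An automorphism of odd order is semilinear, also for `PSp_4(2^f)`. -/
theorem exists_semiAut_of_pow [Fintype F] (hm : 2 ≤ m) {n : ℕ} (x : MulAut PS) (hx : x ^ n = 1)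
    (h4 : m = 2 → (2 : F) = 0 → Odd n) :
    ∃ (g : ↥GS) (σ : F ≃+* F), x = semiAut g σ := by
  by_cases he : m = 2 ∧ (2 : F) = 0
  · obtain ⟨rfl, h2⟩ := he
    obtain ⟨k, hk⟩ := h4 rfl h2
    haveI := char_two h2
    have hsq : ∀ A : MulAut (Cfsg.PSp 2 F), ∃ (g : ↥(Cfsg.GSp 2 F)) (σ : F ≃+* F),
        A * A = semiAut g σ := by
      intro A
      obtain ⟨g, σ, h | h⟩ := CfsgLib.Parabolic.SpFour.exists_semiAut_or_star A
      · exact ⟨_, _, by rw [h, semiAut_mul]⟩
      obtain ⟨g', σ', h' | h'⟩ := CfsgLib.Parabolic.SpFour.exists_semiAut_or_star (A * A)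
      · exact ⟨g', σ', h'⟩
      exfalso
      rw [h, mul_assoc, mul_right_inj] at h'
      have e : CfsgLib.Parabolic.SpFour.starAut F =
          (semiAut g σ)⁻¹ * semiAut g' σ' * (semiAut g σ)⁻¹ := by
        rw [← h']; group
      rw [semiAut_inv, semiAut_mul, semiAut_mul] at e
      exact CfsgLib.Parabolic.SpFour.semiAut_ne_starAut_mul _ (1 : ↥(Cfsg.GSp 2 F)) _
        (1 : F ≃+* F) (e.symm.trans (by rw [semiAut_one, mul_one]))
    obtain ⟨g, σ, hg⟩ := hsq x
    refine ⟨_, _, (?_ : x = semiAut ⟨Descent.twNorm σ g.1 (k + 1), twNorm_mem g σ _⟩ (σ ^ (k + 1)))⟩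
    rw [← semiAut_pow, ← hg, ← pow_two, ← pow_mul, show 2 * (k + 1) = n + 1 by omega, pow_succ, hx,
      one_mul]
  · exact PSpAut.exists_semiAut hm (fun h h2 => he ⟨h, h2⟩) x

theorem coe_semiHom_one (σ : F ≃+* F) (s : Sp) : (semiHom (1 : ↥GS) σ s : M2) = (s : M2).map σ := by
  rw [coe_semiHom, OneMemClass.coe_one, inv_one, Units.val_one, Matrix.one_mul, Matrix.mul_one]

theorem semiAut_one_T (σ : F ≃+* F) (w : V) (c : F) :
    semiAut (1 : ↥GS) σ (T w c) = T (σ ∘ w) (σ c) := by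
  rw [T, semiAut_cl]
  refine congrArg cl (sp_ext fun z => ?_)
  obtain ⟨y, rfl⟩ : ∃ y, σ ∘ y = z := ⟨σ.symm ∘ z, funext fun i => σ.apply_symm_apply _⟩
  rw [sp_smul_eq, coe_semiHom_one, gmap_mulVec, ← sp_smul_eq, spT_smul, spT_smul, sympForm_map]
  funext i
  simp

theorem conj_eq_semiAut (k : PS) : ∃ g : ↥GS, MulAut.conj k = semiAut g 1 := by
  obtain ⟨s, rfl⟩ := cl_surjective k
  exact ⟨_, inner_eq_semiAut s⟩

theorem center_eq_bot [Fintype F] (hm : 2 ≤ m) (hK : IsSimpleGroup PS) :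
    Subgroup.center PS = ⊥ := by
  let i₀ : Fin m := ⟨0, by omega⟩
  have hw : (Pi.single (.inl i₀) 1 : V) ≠ 0 := Pi.single_ne_zero_iff.2 one_ne_zero
  obtain ⟨u, hu⟩ := exists_sympForm_eq_one hw
  have hu0 : u ≠ 0 := by
    rintro rfl
    rw [← CfsgLib.Omega.sympBilin_apply, map_zero] at hu
    exact zero_ne_one hu
  refine center_eq_bot_of_isSimpleGroup (a := T u (1 : F)) (b := T (Pi.single (.inl i₀) 1) 1) ?_
  intro h
  rw [commute_T_T_iff hm hw hu0 one_ne_zero one_ne_zero, hu] at h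
  exact one_ne_zero h

theorem not_mem_inn [Fintype F] (hm : 2 ≤ m) {σ : F ≃+* F} (hσ : σ ≠ 1) :
    semiAut (1 : ↥GS) σ ∉ (MulAut.conj : PS →* MulAut PS).range := by
  rintro ⟨k, hk⟩
  obtain ⟨g, hg⟩ := conj_eq_semiAut k
  have h1 : semiAut (1 : ↥GS) σ * (semiAut g 1)⁻¹ = 1 := by rw [← hg, hk, mul_inv_cancel]
  rw [semiAut_inv, semiAut_mul, semiAut_eq_one_iff hm] at h1
  exact hσ (by simpa using h1.1)

theorem exists_fixed_ne_one [Fintype F] (hm : 2 ≤ m) (σ : F ≃+* F) :
    ∃ k : PS, k ≠ 1 ∧ semiAut (1 : ↥GS) σ k = k := by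
  let a : Fin m ⊕ Fin m := .inl ⟨0, by omega⟩
  refine ⟨T (Pi.single a 1) 1, T_ne_one hm (Pi.single_ne_zero_iff.2 one_ne_zero) one_ne_zero, ?_⟩
  rw [semiAut_one_T, map_one]
  congr 1
  funext j
  by_cases hj : j = a <;> simp [hj]

theorem semiHom_one_map (σ : F ≃+* F) (g : ↥GS) :
    semiAut g σ = semiAut g 1 * semiAut 1 σ := by
  rw [semiAut_mul, gmapS_one, mul_one, one_mul]

/-- Only powers of `φ` centralise the fixed points of `φ`. -/
theorem mem_zpowers_of_fix_fixed [Fintype F] (hm : 2 ≤ m) (σ : F ≃+* F) (a : MulAut PS)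
    (hfix : ∀ k, semiAut (1 : ↥GS) σ k = k → a k = k) :
    a ∈ Subgroup.zpowers (semiAut (1 : ↥GS) σ) := by
  obtain ⟨g, τ, rfl⟩ : ∃ (g : ↥GS) (τ : F ≃+* F), a = semiAut g τ := by
    by_cases he : m = 2 ∧ (2 : F) = 0
    · obtain ⟨rfl, h2⟩ := he
      haveI := char_two h2
      obtain ⟨g, τ, h | h⟩ := CfsgLib.Parabolic.SpFour.exists_semiAut_or_star a
      · exact ⟨g, τ, h⟩
      exfalso
      set t : Cfsg.PSp 2 F := T (Pi.single (.inl 0) 1) 1 with ht
      have htr : IsTr t := ⟨_, _, Pi.single_ne_zero_iff.2 one_ne_zero, one_ne_zero, rfl⟩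
      have hfixt : semiAut (1 : ↥(Cfsg.GSp 2 F)) σ t = t := by
        rw [ht, semiAut_one_T, map_one]
        congr 1
        funext j
        by_cases hj : j = .inl 0 <;> simp [hj]
      have hat := hfix t hfixt
      rw [h, MulAut.mul_apply] at hat
      refine CfsgLib.Parabolic.SpFour.not_isTr_starAut_T (F := F)
        (CfsgLib.Parabolic.SpFour.isTr_of_isConj
          ((CfsgLib.Parabolic.SpFour.starAut F).toMonoidHom.map_isConj
            (CfsgLib.Parabolic.SpFour.isConj_of_isTr (isTr_semiAut g τ htr) htr)) ?_)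
      rw [MulEquiv.coe_toMonoidHom, hat]
      exact htr
    · exact PSpAut.exists_semiAut hm (fun h h2 => he ⟨h, h2⟩) a
  have key : ∀ w : V, w ≠ 0 → σ ∘ w = w →
      ∃ r : F, (Units.val g.1 : M2) *ᵥ (τ ∘ w) = r • w := by
    intro w hw hσw
    obtain ⟨b, hb, hT⟩ := semiHom_spT g τ w 1
    have h1 : T w (1 : F) = T ((Units.val g.1 : M2) *ᵥ (τ ∘ w)) (τ 1 * b) := by
      have h0 := hfix (T w 1) (by rw [semiAut_one_T, hσw, map_one])
      conv_lhs => rw [← h0]
      rw [T, semiAut_cl, hT]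
    obtain ⟨t, ht⟩ := Submodule.mem_span_singleton.1 (T_line hm hw one_ne_zero h1)
    have ht0 : t ≠ 0 := by
      rintro rfl
      rw [zero_smul] at ht
      exact hw ht.symm
    refine ⟨t⁻¹, ?_⟩
    rw [← ht, inv_smul_smul₀ ht0]
    rw [ht]
  have hone : ∀ (ρ : F ≃+* F) i, (ρ ∘ (Pi.single i 1 : V)) = Pi.single i 1 := fun ρ i => by
    funext j; by_cases hj : j = i <;> simp [hj]
  choose r hr using fun i => key (Pi.single i 1) (Pi.single_ne_zero_iff.2 one_ne_zero) (hone σ i)
  have hpair : ∀ i j : Fin m ⊕ Fin m, i ≠ j → ∀ c : F, σ c = c → τ c * r j = r i * c := by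
    intro i j hij c hc
    obtain ⟨t, ht⟩ := key (Pi.single i 1 + c • Pi.single j 1) (fun h0 => by
      have := congrFun h0 i
      simp [hij] at this) (funext fun k => by
        simp only [Function.comp_apply, Pi.add_apply, Pi.smul_apply, smul_eq_mul, map_add, map_mul, hc]
        rw [show σ ((Pi.single i 1 : V) k) = (Pi.single i 1 : V) k from congrFun (hone σ i) k,
          show σ ((Pi.single j 1 : V) k) = (Pi.single j 1 : V) k from congrFun (hone σ j) k])
    rw [show τ ∘ (Pi.single i 1 + c • Pi.single j 1 : V) = τ ∘ Pi.single i 1 + τ c • (τ ∘ Pi.single j 1) from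
      funext fun k => by simp, Matrix.mulVec_add, Matrix.mulVec_smul, hr, hr] at ht
    have hi := congrFun ht i
    have hj := congrFun ht j
    simp [hij, Ne.symm hij] at hi hj
    rw [hi]; exact hj
  have heq : ∀ i j, r j = r i := fun i j => by
    by_cases hij : i = j
    · rw [hij]
    · simpa using hpair i j hij 1 (map_one σ)
  let i0 : Fin m ⊕ Fin m := Sum.inl ⟨0, by omega⟩
  have hr0 : r i0 ≠ 0 := by
    intro h0
    have h1 := congrArg ((Units.val g.1⁻¹ : M2) *ᵥ ·) (hr i0)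
    simp only [h0, zero_smul, Matrix.mulVec_zero, Matrix.mulVec_mulVec, Units.inv_mul, Matrix.one_mulVec,
      hone] at h1
    exact Pi.single_ne_zero_iff.2 one_ne_zero h1
  have hg : g.1 ∈ Cfsg.Geo.scalars (Fin m ⊕ Fin m) F := by
    refine (Cfsg.Geo.mem_scalars_iff _).2 ⟨Units.mk0 _ hr0, ?_⟩
    refine Matrix.ext_of_mulVec_single fun i => ?_
    rw [Units.val_mk0, Matrix.smul_mulVec, Matrix.one_mulVec, ← heq i0 i, ← hr i, hone]
  have hτ : ∀ c, σ c = c → τ c = c := by
    intro c hc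
    have h1 := hpair i0 (Sum.inr ⟨0, by omega⟩) (by simp [i0]) c hc
    rw [heq i0, mul_comm (r i0)] at h1
    exact mul_right_cancel₀ hr0 h1
  obtain ⟨k, hk⟩ := mem_zpowers_of_fix σ τ hτ
  let H : (F ≃+* F) →* MulAut PS :=
    MonoidHom.mk' (fun ρ => semiAut (1 : ↥GS) ρ) fun ρ ρ' => by
      show semiAut 1 (ρ * ρ') = semiAut 1 ρ * semiAut 1 ρ'
      rw [semiAut_mul, map_one, one_mul]
  refine ⟨k, ?_⟩
  show H σ ^ k = _
  rw [semiHom_one_map, semiAut_scalar hg, one_mul, ← map_zpow, show σ ^ k = τ from hk]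
  rfl

/-! ### The subgroup of the subfield -/

section Subfield

variable {F₀ : Type v} [Field F₀] (i : F₀ →+* F)

theorem map_mem_sp {t : Matrix (Fin m ⊕ Fin m) (Fin m ⊕ Fin m) F₀}
    (ht : t ∈ Matrix.symplecticGroup (Fin m) F₀) : t.map i ∈ Sp := by
  refine SymplecticGroup.mem_iff.2 ?_
  have h := congrArg (fun X => Matrix.map X i) (SymplecticGroup.mem_iff.1 ht)
  simpa only [Matrix.map_mul, Matrix.transpose_map, J_map] using h

/-- `Sp_{2m}(F₀) → Sp_{2m}(F)`. -/
noncomputable def spMap : Matrix.symplecticGroup (Fin m) F₀ →* Matrix.symplecticGroup (Fin m) F where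
  toFun t := ⟨_, map_mem_sp i t.2⟩
  map_one' := Subtype.ext (Matrix.map_one i (map_zero i) (map_one i))
  map_mul' s t := Subtype.ext (Matrix.map_mul (f := i))

theorem coe_spMap (t : Matrix.symplecticGroup (Fin m) F₀) :
    (spMap i t : M2) = (t : Matrix (Fin m ⊕ Fin m) (Fin m ⊕ Fin m) F₀).map i := rfl

theorem cl_spMap_eq_one_iff (hm : 1 ≤ m) (t : Matrix.symplecticGroup (Fin m) F₀) :
    cl (spMap i t) = 1 ↔ t ∈ Subgroup.center (Matrix.symplecticGroup (Fin m) F₀) := by
  rw [cl, QuotientGroup.eq_one_iff, mem_center_sp_iff hm, mem_center_sp_iff hm, coe_spMap]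
  have e1 : (1 : Matrix (Fin m ⊕ Fin m) (Fin m ⊕ Fin m) F₀).map i = (1 : M2) :=
    Matrix.map_one i (map_zero i) (map_one i)
  have e2 : (-1 : Matrix (Fin m ⊕ Fin m) (Fin m ⊕ Fin m) F₀).map i = (-1 : M2) := by
    rw [Matrix.map_neg i (map_neg i), e1]
  conv_lhs => rw [← e2, ← e1]
  rw [(Matrix.map_injective i.injective).eq_iff, (Matrix.map_injective i.injective).eq_iff]

/-- `PSp_{2m}(F₀) → PSp_{2m}(F)`. -/
noncomputable def pspMap (hm : 1 ≤ m) : Cfsg.PSp m F₀ →* Cfsg.PSp m F :=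
  QuotientGroup.lift _ ((QuotientGroup.mk' _).comp (spMap i)) fun t ht =>
    (cl_spMap_eq_one_iff i hm t).2 ht

theorem pspMap_cl (hm : 1 ≤ m) (t : Matrix.symplecticGroup (Fin m) F₀) :
    pspMap i hm (cl t) = cl (spMap i t) := rfl

theorem pspMap_injective (hm : 1 ≤ m) : Function.Injective (pspMap i hm) := by
  refine (injective_iff_map_eq_one _).2 fun k hk => ?_
  obtain ⟨t, rfl⟩ := cl_surjective k
  exact (QuotientGroup.eq_one_iff t).2 ((cl_spMap_eq_one_iff i hm t).1 hk)

theorem exists_spMap_of_fixed {σ : F ≃+* F} (hi' : ∀ y, σ y = y → ∃ x, i x = y) {s : Sp}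
    (h : (s : M2).map σ = (s : M2)) : ∃ t, spMap i t = s := by
  choose x hx using fun a b => hi' _ (congrFun (congrFun h a) b)
  have hA : (Matrix.of x).map i = (s : M2) := Matrix.ext hx
  refine ⟨⟨Matrix.of x, SymplecticGroup.mem_iff.2 (Matrix.map_injective i.injective ?_)⟩,
    Subtype.ext hA⟩
  show (Matrix.of x * Matrix.J (Fin m) F₀ * (Matrix.of x)ᵀ).map i = (Matrix.J (Fin m) F₀).map i
  rw [Matrix.map_mul, Matrix.map_mul, Matrix.transpose_map, J_map, hA]
  exact SymplecticGroup.mem_iff.1 s.2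

end Subfield

/-- Normal `p'`-subgroups of `PSp_{2m}(F₀)` are trivial, also for `PSp_4(2)`. -/
theorem psp_normal_eq_bot {F₀ : Type v} [Field F₀] [Fintype F₀] (hm : 2 ≤ m) {p r : ℕ}
    [Fact p.Prime] [Fact r.Prime] [CharP F₀ r] (hpr : p ≠ r) (hp : p ∣ Nat.card (Cfsg.PSp m F₀))
    (M : Subgroup (Cfsg.PSp m F₀)) [M.Normal] (hM : (Nat.card M).Coprime p) : M = ⊥ := by
  classical
  have hp' : p.Prime := Fact.out
  by_cases hs : 3 ≤ m ∨ (2 : F₀) ≠ 0 ∨ ∃ a : F₀, a ≠ 0 ∧ a ^ 2 ≠ 1
  · haveI := isSimpleGroup_psp hm hs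
    rcases IsSimpleGroup.eq_bot_or_eq_top_of_normal M inferInstance with h | h
    · exact h
    · rw [h, Subgroup.card_top] at hM
      exact absurd hp ((Nat.Prime.coprime_iff_not_dvd hp').1 hM.symm)
  · push Not at hs
    obtain ⟨hm3, h2, hsq⟩ := hs
    obtain rfl : m = 2 := by omega
    have hq : Fintype.card F₀ = 2 := by
      have hall : ∀ a : F₀, a = 0 ∨ a = 1 := by
        intro a
        by_cases ha : a = 0
        · exact Or.inl ha
        refine Or.inr ?_
        have h1 := hsq a ha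
        have : (a - 1) ^ 2 = 0 := by linear_combination h1 + (1 - a) * h2
        exact sub_eq_zero.1 (eq_zero_of_pow_eq_zero this)
      refine le_antisymm ?_ Fintype.one_lt_card
      calc Fintype.card F₀ = (Finset.univ : Finset F₀).card := rfl
        _ ≤ ({0, 1} : Finset F₀).card := Finset.card_le_card fun a _ => by
            rcases hall a with h | h <;> simp [h]
        _ ≤ 2 := Finset.card_le_two
    have hr2 : r = 2 := by
      have h1 : ((2 : ℕ) : F₀) = 0 := by exact_mod_cast h2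
      exact (Nat.prime_dvd_prime_iff_eq Fact.out Nat.prime_two).1 ((CharP.cast_eq_zero_iff F₀ r 2).1 h1)
    have h720 : Nat.card (Cfsg.PSp 2 F₀) ∣ 720 := by
      have h : Nat.card (Matrix.symplecticGroup (Fin 2) F₀) = 720 := by
        rw [card_sp, hq]; norm_num [Finset.prod_range_succ]
      rw [← h]
      exact Subgroup.card_quotient_dvd_card _
    have h15 : p ∣ 15 := by
      have h1 : p ∣ 720 := hp.trans h720
      rw [show 720 = 2 ^ 4 * (3 * 15) by norm_num] at h1
      rcases hp'.dvd_mul.1 h1 with h | h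
      · exact absurd ((Nat.prime_dvd_prime_iff_eq hp' Nat.prime_two).1 (hp'.dvd_of_dvd_pow h))
          (hr2 ▸ hpr)
      · rcases hp'.dvd_mul.1 h with h | h
        · exact h.trans (by norm_num)
        · exact h
    by_contra hne
    let P := Projectivization F₀ (Fin 2 ⊕ Fin 2 → F₀)
    haveI : FaithfulSMul (Cfsg.PSp 2 F₀) P := pspFaithful (by norm_num)
    haveI : MulAction.IsPreprimitive (Cfsg.PSp 2 F₀) P := psp_preprimitive le_rfl
    have hfp : MulAction.fixedPoints M P ≠ Set.univ := by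
      intro h
      refine hne ((Subgroup.eq_bot_iff_forall _).2 fun g hg => ?_)
      refine eq_of_smul_eq_smul (α := P) fun q => ?_
      rw [one_smul]
      exact MulAction.mem_fixedPoints.1 (h ▸ Set.mem_univ q) ⟨g, hg⟩
    haveI := MulAction.IsQuasiPreprimitive.isPretransitive_of_normal (N := M) hfp
    let q₀ : P := Projectivization.mk F₀ (Pi.single (.inl 0) 1) (Pi.single_ne_zero_iff.2 one_ne_zero)
    have hcard : Nat.card P ∣ Nat.card M := by
      rw [← MulAction.index_stabilizer_of_transitive M q₀]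
      exact Subgroup.index_dvd_card _
    have hP : Nat.card P = 15 := by
      have h := Projectivization.card' F₀ (Fin 2 ⊕ Fin 2 → F₀)
      simp only [Nat.card_eq_fintype_card (α := F₀), hq, Nat.card_fun] at h
      simp at h
      omega
    rw [hP] at hcard
    exact (Nat.Prime.coprime_iff_not_dvd hp').1 hM.symm (h15.trans hcard)

/-- The criterion, at an automorphism that is not inner-diagonal. -/
theorem main [Fintype F] {r : ℕ} [Fact r.Prime] [CharP F r] (hm : 2 ≤ m) (hK : IsSimpleGroup PS)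
    (A : Subgroup (MulAut PS)) (hinn : ∀ k : PS, MulAut.conj k ∈ A) {p : ℕ} [Fact p.Prime]
    (hpr : p ≠ r) (x : MulAut PS) (hord : orderOf x = p) (hnot : ¬ Cfsg.IsInnerDiagonalAutPSp x) :
    Cfsg.pPrimeCore p ↥(A ⊓ Subgroup.centralizer {x}) ≠ ⊥ ↔
      (Cfsg.IsFieldAutClassPSp x ∧
        Nat.Coprime p (Nat.card ↥(MonoidHom.eqLocus x.toMonoidHom (MonoidHom.id PS)))) := by
  classical
  have hp : p.Prime := Fact.out
  have hm1 : 1 ≤ m := by omega
  have hchar2 : (2 : F) = 0 → Odd p := fun h2 => by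
    have hr : r = 2 := (Nat.prime_dvd_prime_iff_eq Fact.out Nat.prime_two).1
      ((CharP.cast_eq_zero_iff F r 2).1 (by exact_mod_cast h2))
    exact hp.odd_of_ne_two (hr ▸ hpr)
  have hxp : x ^ p = 1 := hord ▸ pow_orderOf_eq_one x
  obtain ⟨g, σ, rfl⟩ := exists_semiAut_of_pow hm x hxp fun _ h2 => hchar2 h2
  have hσp : σ ^ p = 1 := by
    have h := hxp
    rw [semiAut_pow, semiAut_eq_one_iff hm] at h
    exact h.1
  have hσ1 : σ ≠ 1 := by
    rintro rfl
    exact hnot ⟨g.1, g.2, isInduced_semiAut g 1⟩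
  have hσord : orderOf σ = p := orderOf_eq_prime hσp hσ1
  obtain ⟨d, -, hd⟩ := isConjUnder_of_pow_eq_one hm g hσord hxp
  set y : MulAut PS := semiAut (1 : ↥GS) σ with hy
  have he : d⁻¹ * semiAut g σ * d⁻¹⁻¹ = y := by rw [hd]; group
  have hfield : Cfsg.IsFieldAutClassPSp (semiAut g σ) :=
    ⟨d⁻¹, σ, hσ1, isStdFieldAut_iff.2 he⟩
  rw [and_iff_right hfield]
  set F₀ := fixedField σ with hF₀
  letI : Fintype F₀ := Fintype.ofFinite _
  haveI : CharP F₀ r :=
    (RingHom.charP_iff F₀.subtype F₀.subtype_injective r).2 inferInstance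
  set i : F₀ →+* F := F₀.subtype
  have hi' : ∀ z, σ z = z → ∃ w, i w = z := fun z hz => ⟨⟨z, hz⟩, rfl⟩
  refine core_ne_bot_iff_of_conj (center_eq_bot hm hK) A hinn he hord (not_mem_inn hm hσ1)
    (exists_fixed_ne_one hm σ) (fun a _ h => mem_zpowers_of_fix_fixed hm σ a h)
    (pspMap i hm1).range ?_ ?_ ?_
  · rintro _ ⟨k, rfl⟩
    obtain ⟨t, rfl⟩ := cl_surjective k
    rw [pspMap_cl, hy, semiAut_cl]
    refine congrArg cl (Subtype.ext ?_)
    rw [coe_semiHom_one, coe_spMap, Matrix.map_map]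
    exact Matrix.ext fun a b => ((t : Matrix (Fin m ⊕ Fin m) (Fin m ⊕ Fin m) F₀) a b).2
  · intro k l hk hl
    obtain ⟨s, rfl⟩ := cl_surjective k
    obtain ⟨t, rfl⟩ := cl_surjective l
    rw [hy, semiAut_cl, QuotientGroup.eq] at hk hl
    have hs := Subgroup.mem_center_iff.1 hk
    have ht := Subgroup.mem_center_iff.1 hl
    set φ := semiHom (1 : ↥GS) σ
    have e : φ (s * t * s⁻¹ * t⁻¹) = s * t * s⁻¹ * t⁻¹ := by
      set z := (φ s)⁻¹ * s with hz
      set w := (φ t)⁻¹ * t with hw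
      have e1 : φ s = s * z⁻¹ := by rw [hz]; group
      have e2 : φ t = t * w⁻¹ := by rw [hw]; group
      have hz' : ∀ b, z⁻¹ * b = b * z⁻¹ := fun b => (Commute.inv_right (hs b)).eq.symm
      have hw' : ∀ b, w⁻¹ * b = b * w⁻¹ := fun b => (Commute.inv_right (ht b)).eq.symm
      rw [map_mul, map_mul, map_mul, map_inv, map_inv, e1, e2]
      calc s * z⁻¹ * (t * w⁻¹) * (s * z⁻¹)⁻¹ * (t * w⁻¹)⁻¹
          = s * t * (z⁻¹ * w⁻¹) * z * (s⁻¹ * w) * t⁻¹ := by
            rw [← mul_assoc (s * z⁻¹) t, mul_assoc s z⁻¹ t, hz' t]; group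
        _ = s * t * s⁻¹ * t⁻¹ := by
            rw [hz' w⁻¹, show s⁻¹ * w = w * s⁻¹ from ht s⁻¹]; group
    obtain ⟨c, hc⟩ := exists_spMap_of_fixed i hi' (σ := σ)
      ((coe_semiHom_one σ _).symm.trans (congrArg Subtype.val e))
    exact ⟨cl c, by rw [pspMap_cl, hc]; rfl⟩
  · intro hpd M hMn hM
    have hp0 : p ∣ Nat.card (Cfsg.PSp m F₀) := by
      rcases hp.eq_two_or_odd' with h2' | hodd
      · -- the class of `J` has order two
        have h2 : (2 : F) ≠ 0 := fun h2 => by
          have := hchar2 h2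
          rw [h2'] at this
          exact absurd this (by decide)
        have h20 : (2 : F₀) ≠ 0 := fun h => h2 (by
          have := congrArg i h
          rwa [map_ofNat, map_zero] at this)
        let j : Matrix.symplecticGroup (Fin m) F₀ := ⟨Matrix.J (Fin m) F₀, SymplecticGroup.J_mem _ _⟩
        have hj2 : cl j ^ 2 = 1 := by
          rw [pow_two, ← cl_mul]
          refine (QuotientGroup.eq_one_iff _).2 ((mem_center_sp_iff hm1).2 (Or.inr ?_))
          show Matrix.J (Fin m) F₀ * Matrix.J (Fin m) F₀ = -1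
          exact Matrix.J_squared _ _
        have hj1 : cl j ≠ 1 := by
          intro h
          rcases (mem_center_sp_iff hm1).1 ((QuotientGroup.eq_one_iff _).1 h) with h1 | h1 <;>
          · have := congrFun (congrFun h1 (Sum.inr ⟨0, by omega⟩)) (Sum.inl ⟨0, by omega⟩)
            simp [j, Matrix.J] at this
        rw [h2', ← orderOf_eq_prime hj2 hj1]
        exact orderOf_dvd_natCard _
      · obtain ⟨⟨k, hk⟩, hko⟩ := exists_prime_orderOf_dvd_card' p hpd
        have hk2 : k ^ 2 ∈ (pspMap i hm1).range := by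
          obtain ⟨s, rfl⟩ := cl_surjective k
          have hk' : cl (semiHom (1 : ↥GS) σ s) = cl s := hk
          obtain h | h := (cl_eq_cl_iff hm1).1 hk'
          all_goals
            obtain ⟨c, hc⟩ := exists_spMap_of_fixed i hi' (σ := σ) (s := s * s) (by
              rw [← coe_semiHom_one, map_mul, Submonoid.coe_mul, Submonoid.coe_mul, h,
                ] <;> simp [coe_semiHom_one])
            exact ⟨cl c, by rw [pspMap_cl, hc, pow_two]; rfl⟩
        obtain ⟨c, hc⟩ := hk2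
        have hck : orderOf c = p := by
          rw [← orderOf_injective (pspMap i hm1) (pspMap_injective i hm1), hc]
          have hkp : orderOf k = p := by rw [← hko]; exact (Subgroup.orderOf_coe (⟨k, hk⟩ : fixedPts y)).symm ▸ rfl
          rw [Nat.Coprime.orderOf_pow (by rw [hkp]; exact (Nat.coprime_primes hp Nat.prime_two).2 (by
            rintro rfl; exact absurd hodd (by decide))), hkp]
        exact hck ▸ orderOf_dvd_natCard c
    let e : Cfsg.PSp m F₀ ≃* (pspMap i hm1).range := MonoidHom.ofInjective (pspMap_injective i hm1)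
    haveI : (M.comap e.toMonoidHom).Normal := hMn.comap _
    have h0 := psp_normal_eq_bot (r := r) hm hpr hp0 (M.comap e.toMonoidHom) (by
      rwa [show M.comap e.toMonoidHom = M.map e.symm.toMonoidHom from
        Subgroup.comap_equiv_eq_map_symm' _ _, Subgroup.card_map_of_injective e.symm.injective])
    refine (Subgroup.eq_bot_iff_forall _).2 fun a ha => ?_
    have : e.symm a ∈ M.comap e.toMonoidHom := by
      rw [Subgroup.mem_comap, MulEquiv.coe_toMonoidHom, e.apply_symm_apply]; exact ha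
    rw [h0, Subgroup.mem_bot] at this
    exact e.symm.injective (this.trans (map_one e.symm).symm)

end CfsgLib.LocalBalanceAut.PSp
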