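import Cfsg.Agent.Lib.LocalBalanceAut.TriSignal

/-!
# The signalizers of triality automorphisms are trivial
-/

set_option autoImplicit false
set_option linter.unusedSectionVars false
set_option linter.unusedSimpArgs false
set_option linter.style.haveILetI false
set_option maxHeartbeats 800000

open Matrix CfsgLib.OrthGen
open CfsgLib.ReflectionsSpinor CfsgLib.ReflectionsSpinor.POmegaAut CfsgLib.ReflectionsSpinor.POmegaQuot
  CfsgLib.ReflectionsSpinor.POmegaForms CfsgLib.ReflectionsSpinor.POmegaField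
open CfsgLib.Geometric (ap ap_mul ap_smul ap_one gl_ext ap_add ap_injective)
open CfsgLib.Triality (nrm Tri)
open CfsgLib.ReflectionsSpinor.POmegaTriality (cSim ap_c ap_scalar sim_ext)

namespace CfsgLib.LocalBalanceAut.Tri

universe u v

/-! ### Coprime action of a group of order nine -/

section Coprime

variable {Y : Type v} [Group Y] [Finite Y]

theorem line_of_fixedPointFree (f : Y →* Y) (h3 : ∀ y, f (f (f y)) = y) (h0 : ∀ y, f y = y → y = 1) (y : Y) :
    y * f y * f (f y) = 1 := by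
  have hinj : Function.Injective fun z : Y => z⁻¹ * f z := fun z w e => by
    have e' : z⁻¹ * f z = w⁻¹ * f w := e
    have : w * z⁻¹ = 1 := h0 _ (by
      rw [map_mul, map_inv, eq_comm, eq_mul_inv_iff_mul_eq, mul_assoc, e', mul_inv_cancel_left])
    exact (mul_inv_eq_one.1 this).symm
  obtain ⟨z, rfl⟩ := Finite.injective_iff_surjective.1 hinj y
  simp [h3, mul_assoc]

theorem commute_of_fixedPointFree (f : Y →* Y) (h3 : ∀ y, f (f (f y)) = y) (h0 : ∀ y, f y = y → y = 1) (y : Y) :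
    Commute y (f y) := by
  have h1 := line_of_fixedPointFree f h3 h0 (f (f y))
  have h2 := line_of_fixedPointFree (f.comp f) (fun z => by simp [h3])
    (fun z hz => h0 z (by
      have := congrArg f hz
      simpa [h3] using this.symm)) (f (f y))
  simp only [MonoidHom.comp_apply, h3] at h1 h2
  show y * f y = f y * y
  exact mul_left_cancel (a := f (f y)) (by rw [← mul_assoc, ← mul_assoc, h1, h2])

theorem eq_one_of_four_fixedPointFree (α β : Y →* Y) (hc : ∀ y, α (β y) = β (α y))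
    (hα : ∀ y, α (α (α y)) = y) (hβ : ∀ y, β (β (β y)) = y)
    (h1 : ∀ y, α y = y → y = 1) (h2 : ∀ y, β y = y → y = 1) (h3 : ∀ y, α (β y) = y → y = 1)
    (h4 : ∀ y, α (α (β y)) = y → y = 1) (hY : (Nat.card Y).Coprime 3) (y : Y) : y = 1 := by
  have hαβ : ∀ z, (α.comp β) ((α.comp β) ((α.comp β) z)) = z := fun z => by
    simp only [MonoidHom.comp_apply, ← hc, hα, hβ]
  have hααβ : ∀ z, (α.comp (α.comp β)) ((α.comp (α.comp β)) ((α.comp (α.comp β)) z)) = z := fun z => by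
    simp only [MonoidHom.comp_apply, ← hc, hα, hβ]
  have cab : Commute y (α y) := commute_of_fixedPointFree α hα h1 y
  have cac : Commute y (β y) := commute_of_fixedPointFree β hβ h2 y
  have cae : Commute y (α (β y)) := commute_of_fixedPointFree (α.comp β) hαβ h3 y
  have cbe : Commute (α y) (α (β y)) := cac.map α
  have cce : Commute (β y) (α (β y)) := commute_of_fixedPointFree α hα h1 (β y)
  have l1 : β y * α (β y) * α (α (β y)) = 1 := line_of_fixedPointFree α hα h1 (β y)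
  have l2 := line_of_fixedPointFree β hβ h2 (α y)
  have l3 := line_of_fixedPointFree (α.comp (α.comp β)) hααβ h4 y
  have l4 := line_of_fixedPointFree (α.comp β) hαβ h3 y
  have l5 : y * β y * β (β y) = 1 := line_of_fixedPointFree β hβ h2 y
  have l6 := line_of_fixedPointFree α hα h1 (β (β y))
  simp only [MonoidHom.comp_apply, ← hc, hα] at l2 l3 l4 l6
  generalize α (α (β y)) = p at l1 l3
  generalize α (α (β (β y))) = r at l4 l6
  generalize α (β (β y)) = q at l2 l3 l6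
  generalize β (β y) = s at l5 l6
  generalize α (β y) = e at cae cbe cce l1 l2 l4
  generalize α y = b at cab cbe l2
  generalize β y = c at cac cce l1 l5
  have ha : y = b * e * (c * e) := by
    rw [eq_inv_of_mul_eq_one_left (by rw [← mul_assoc]; exact l3 : y * (p * q) = 1), _root_.mul_inv_rev,
      inv_eq_of_mul_eq_one_left l2, inv_eq_of_mul_eq_one_left l1]
  have hr : r = b * e * (y * c) := by
    rw [eq_inv_of_mul_eq_one_right l6, _root_.mul_inv_rev, inv_eq_of_mul_eq_one_left l2,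
      inv_eq_of_mul_eq_one_left l5]
  have hy : y ^ 3 = 1 := by
    calc y ^ 3 = y * (b * e * (c * e)) * y := by rw [← ha, pow_succ, pow_two]
      _ = y * (b * e * (e * c)) * y := by rw [cce.eq]
      _ = y * e * (b * (e * c) * y) := by rw [cbe.eq]; simp only [mul_assoc]
      _ = y * e * (b * (e * (y * c))) := by
          rw [mul_assoc b, mul_assoc e c, cac.symm.eq]
      _ = 1 := by rw [← mul_assoc b, ← hr, l4]
  refine orderOf_eq_one_iff.1 (Nat.dvd_one.1 ?_)
  rw [← hY]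
  exact Nat.dvd_gcd (orderOf_dvd_natCard y) (orderOf_dvd_of_pow_eq_one hy)

end Coprime

/-- Conjugation inside a subgroup. -/
def conjOn {G : Type v} [Group G] (Y : Subgroup G) (g : G) (h : ∀ n ∈ Y, g * n * g⁻¹ ∈ Y) : ↥Y →* ↥Y :=
  ((MulAut.conj g).toMonoidHom.comp Y.subtype).codRestrict Y fun n => h n.1 n.2

theorem coe_conjOn {G : Type v} [Group G] (Y : Subgroup G) (g : G) (h : ∀ n ∈ Y, g * n * g⁻¹ ∈ Y) (y : ↥Y) :
    (conjOn Y g h y : G) = g * y * g⁻¹ := rfl

theorem conjOn_cube {G : Type v} [Group G] (Y : Subgroup G) (g : G) (h : ∀ n ∈ Y, g * n * g⁻¹ ∈ Y)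
    (hg : g ^ 3 = 1) (y : ↥Y) : conjOn Y g h (conjOn Y g h (conjOn Y g h y)) = y := by
  refine Subtype.ext ?_
  simp only [coe_conjOn]
  calc g * (g * (g * y * g⁻¹) * g⁻¹) * g⁻¹ = g ^ 3 * y * (g ^ 3)⁻¹ := by simp [pow_succ, mul_assoc]
    _ = y := by rw [hg, one_mul, inv_one, mul_one]

variable {F : Type u} [Field F] [Finite F]

local notation "V" => (Fin 4 ⊕ Fin 4 → F)

set_option quotPrecheck false in
local notation "SimP" => Cfsg.Geo.quadSimilarityGroup (F := F) (⇑(qP F 4))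

set_option quotPrecheck false in
local notation "Aut4" => MulAut (Cfsg.POmega F (⇑(qP F 4)))

set_option quotPrecheck false in
local notation "InnP" => Cfsg.Inn (Cfsg.POmega F (⇑(qP F 4)))

variable (Φ : Frame F) {N : Subgroup (MulAut (Cfsg.POmega F (⇑(qP F 4))))} {a d : K1 F} {ρ : F ≃+* F}

/-- The torus of constant quadruples. -/
noncomputable def tQ (a d : K1 F) : MulAut (Cfsg.POmega F (⇑(qP F 4))) := sA (tor (a, a, a, d))

theorem tQ_mul (a d a' d' : K1 F) : tQ a d * tQ a' d' = tQ (a * a') (d * d') := by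
  rw [tQ, tQ, tQ, ← sA_mul, ← map_mul]; rfl

theorem tQ_one : tQ (1 : K1 F) 1 = 1 := by
  rw [tQ, show ((1, 1, 1, 1) : Q4 F) = 1 from rfl, map_one, sA_one]

theorem tQ_t0 : tQ (1 : K1 F) uK = sA t0 := rfl

theorem tQ_inn {a d : K1 F} (ha : a ^ 3 = 1) (hd : d ^ 3 = 1) : tQ a d ∈ InnP :=
  inn_tor _ (by simp [ha, hd])

theorem tQ_psi (a d : K1 F) : psi F * tQ a d = tQ a d * psi F := by
  rw [tQ, psi_simAut (tri_tor _ _ _ _), conj_tor]

theorem tQ_pow_three {a d : K1 F} (ha : a ^ 3 = 1) (hd : d ^ 3 = 1) : tQ a d ^ 3 = 1 := by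
  rw [tQ, ← map_pow, ← map_pow, show ((a, a, a, d) : Q4 F) ^ 3 = 1 by simp [ha, hd], map_one, sA_one]

theorem W_tQ {a d : K1 F} (ha : a ^ 3 = 1) (hd : d ^ 3 = 1) : W Φ * tQ a d = tQ (a * d⁻¹) d * W Φ := by
  have sq : ∀ {z : K1 F}, z ^ 3 = 1 → z * z * (z * z) = z := fun {z} hz => by
    rw [← mul_assoc, ← pow_two, ← pow_succ, hz, one_mul]
  have inv : ∀ {z : K1 F}, z ^ 3 = 1 → z⁻¹ = z * z := fun {z} hz =>
    inv_eq_of_mul_eq_one_left (by rw [← pow_two, ← pow_succ]; exact hz)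
  have e := uu_w_tor Φ (a * a) (a * a) (a * a) (d * d)
  rw [sq ha, sq hd] at e
  rw [W, tQ, tQ, ← sA_mul, e, sA_mul]
  have e1 : a * a * (d * d) * a⁻¹ = a * d⁻¹ := by
    rw [inv hd]
    calc a * a * (d * d) * a⁻¹ = a * (a * a⁻¹) * (d * d) := by ac_rfl
      _ = _ := by rw [mul_inv_cancel, mul_one]
  have e2 : (a * (a * a) * (d * d))⁻¹ = d := by
    rw [show a * (a * a) = 1 by rw [← pow_two, ← pow_succ']; exact ha, one_mul, ← inv hd, inv_inv]
  rw [e1, e2]

theorem Xel_eq (a d : K1 F) (ρ : F ≃+* F) : Xel a d ρ = tQ a d * stdPlus F 4 ρ * psi F := rfl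

include Φ in
theorem tQ_std {a d : K1 F} (ρ : F ≃+* F) (ha : a ^ 3 = 1) (hd : d ^ 3 = 1) :
    stdPlus F 4 ρ * tQ a d = tQ a d * stdPlus F 4 ρ := by
  rw [tQ, stdPlus_mul_simAut, tw_tor Φ, rK1_cube Φ.h3 ρ ha, rK1_cube Φ.h3 ρ hd]

include Φ in
theorem tQ_commute_Xel {a d b e : K1 F} (ρ : F ≃+* F) (hb : b ^ 3 = 1) (he : e ^ 3 = 1) :
    Commute (tQ b e) (Xel a d ρ) := by
  rw [Xel_eq]
  refine (Commute.mul_right ?_ (tQ_std Φ ρ hb he).symm).mul_right (tQ_psi b e).symm
  show _ = _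
  rw [tQ_mul, tQ_mul, mul_comm b, mul_comm e]

theorem W_Xel {a d : K1 F} (ρ : F ≃+* F) (ha : a ^ 3 = 1) (hd : d ^ 3 = 1) :
    W Φ * Xel a d ρ = Xel (a * d⁻¹) d ρ * W Φ := by
  rw [Xel_eq, Xel_eq, ← mul_assoc, ← mul_assoc, W_tQ Φ ha hd, mul_assoc _ (W Φ), ← std_W, ← mul_assoc,
    mul_assoc _ (W Φ), ← psi_W, ← mul_assoc]

theorem cube_mul {a b : K1 F} (ha : a ^ 3 = 1) (hb : b ^ 3 = 1) : (a * b) ^ 3 = 1 := by
  rw [mul_pow, ha, hb, one_mul]

theorem cube_inv {a : K1 F} (ha : a ^ 3 = 1) : a⁻¹ ^ 3 = 1 := by rw [inv_pow, ha, inv_one]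

theorem sig_W (hS : Sig (Xel a d ρ) N) (ha : a ^ 3 = 1) (hd : d ^ 3 = 1) :
    Sig (Xel (a * d⁻¹) d ρ) (N.map (MulAut.conj (W Φ)).toMonoidHom) := by
  have := hS.map (W Φ)
  rwa [W_Xel Φ ρ ha hd, mul_inv_cancel_right] at this

theorem sig_W_inv (hS : Sig (Xel a d ρ) N) (ha : a ^ 3 = 1) (hd : d ^ 3 = 1) :
    Sig (Xel (a * d) d ρ) (N.map (MulAut.conj (W Φ)⁻¹).toMonoidHom) := by
  have h := hS.map (W Φ)⁻¹
  have e := W_Xel Φ ρ (cube_mul ha hd) hd
  rw [mul_inv_cancel_right] at e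
  rwa [inv_inv, mul_assoc, ← e, inv_mul_cancel_left] at h

theorem eq_one_of_conj {g n : Aut4} (h : g * n * g⁻¹ = 1) : n = 1 := by simpa using h

include Φ in
/-- The centraliser of `t0` in a signalizer is trivial. -/
theorem cent_t0_trivial (hS : Sig (Xel a d ρ) N) (ha : a ^ 3 = 1) (hd : d ^ 3 = 1) (hρ : ρ ^ 3 = 1)
    {n : Aut4} (hn : n ∈ N) (hc : Commute n (sA t0)) : n = 1 := by
  obtain ⟨D, rfl⟩ := cent_t0 Φ hS ha hρ hn hc
  have hu := uK_pow_three (F := F)
  have hcu : Commute (sA (tor (1, 1, 1, D))) (tQ uK uK) := by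
    show _ = _
    rw [tQ, ← sA_mul, ← sA_mul, ← map_mul, ← map_mul, mul_comm]
  have hc' : Commute (W Φ * sA (tor (1, 1, 1, D)) * (W Φ)⁻¹) (sA t0) := by
    have h := hcu.map (MulAut.conj (W Φ)).toMonoidHom
    simp only [MulEquiv.coe_toMonoidHom, MulAut.conj_apply] at h
    rwa [W_tQ Φ hu hu, mul_inv_cancel, mul_inv_cancel_right, tQ_t0] at h
  obtain ⟨D', hD'⟩ := cent_t0 Φ (sig_W Φ hS ha hd) (cube_mul ha (cube_inv hd)) hρ
    (Subgroup.mem_map_of_mem _ hn) hc'
  rw [MulEquiv.coe_toMonoidHom, MulAut.conj_apply, mul_inv_eq_iff_eq_mul, W, ← sA_mul, ← sA_mul] at hD'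
  obtain ⟨l, hl⟩ := sA_eq_iff.1 hD'
  have key := fun (z : K2 F) (v : Fin 3 → K2 F) => congrArg (fun g : ↥SimP => ap g.1 (co Φ z v)) hl
  simp only [Subgroup.coe_mul, ap_mul, ap_scalar, ap_uu, ap_tor Φ, co_smul] at key
  have hl1 : (l : F) = 1 := by
    have := congrArg QuadraticAlgebra.re (co_inj Φ (key 1 0)).1
    simp [QuadraticAlgebra.re_one] at this
    exact this.symm
  have hD : (D : K2 F) = 1 := by
    have h := congrFun (co_inj Φ (key 0 (Pi.single 1 1))).2 0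
    simp [wSU, Matrix.mulVec, dotProduct, Fin.sum_univ_three, hl1] at h
    exact h.symm
  rw [show D = 1 from Subtype.ext hD, show ((1, 1, 1, 1) : Q4 F) = 1 from rfl, map_one, sA_one]

include Φ in
theorem cent_tQ_uu (hS : Sig (Xel a d ρ) N) (ha : a ^ 3 = 1) (hd : d ^ 3 = 1) (hρ : ρ ^ 3 = 1)
    {n : Aut4} (hn : n ∈ N) (hc : Commute n (tQ uK uK)) : n = 1 := by
  have h := hc.map (MulAut.conj (W Φ)).toMonoidHom
  simp only [MulEquiv.coe_toMonoidHom, MulAut.conj_apply] at h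
  rw [W_tQ Φ uK_pow_three uK_pow_three, mul_inv_cancel, mul_inv_cancel_right, tQ_t0] at h
  exact eq_one_of_conj (cent_t0_trivial Φ (sig_W Φ hS ha hd) (cube_mul ha (cube_inv hd)) hd hρ
    (Subgroup.mem_map_of_mem _ hn) h)

include Φ in
theorem cent_tQ_inv (hS : Sig (Xel a d ρ) N) (ha : a ^ 3 = 1) (hd : d ^ 3 = 1) (hρ : ρ ^ 3 = 1)
    {n : Aut4} (hn : n ∈ N) (hc : Commute n (tQ uK⁻¹ uK)) : n = 1 := by
  have h := hc.map (MulAut.conj (W Φ)⁻¹).toMonoidHom
  simp only [MulEquiv.coe_toMonoidHom, MulAut.conj_apply] at h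
  have e : (W Φ)⁻¹ * tQ uK⁻¹ uK * (W Φ)⁻¹⁻¹ = sA t0 := by
    have e := W_tQ Φ (one_pow 3 : (1 : K1 F) ^ 3 = 1) uK_pow_three
    rw [one_mul] at e
    rw [inv_inv, mul_assoc, ← e, inv_mul_cancel_left, tQ_t0]
  rw [e] at h
  exact eq_one_of_conj (cent_t0_trivial Φ (sig_W_inv Φ hS ha hd) (cube_mul ha hd) hd hρ
    (Subgroup.mem_map_of_mem _ hn) h)

/-! ### The centraliser of the central torus element -/

/-- The eigenvalue of the central torus element. -/
def ub : K2 F := ⟨-1, -1⟩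

local notation "uB" => (ub : K2 F)

/-- The central torus element. -/
noncomputable def tc : ↥(Cfsg.Geo.quadSimilarityGroup (F := F) (⇑(qP F 4))) := tor (uK, uK, uK, 1)

theorem tQ_tc : tQ (uK : K1 F) 1 = sA tc := rfl

theorem ap_tc (z : K2 F) (v : Fin 3 → K2 F) : ap (tc (F := F)).1 (co Φ z v) = co Φ z (uB • v) := by
  rw [tc, ap_tor Φ]
  congr 1
  · simp
  · funext i
    fin_cases i <;> simp [ub, ← Unitary.star_eq_inv, coe_uK]

theorem eq_zero_of_ub (h3 : (3 : F) ≠ 0) {w : K2 F} (h : uB * w = w) : w = 0 := by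
  have hre := congrArg QuadraticAlgebra.re h
  have him := congrArg QuadraticAlgebra.im h
  simp [ub] at hre him
  have h0 : w.re = 0 := mul_left_cancel₀ h3 (by linear_combination -hre - him)
  ext
  · exact h0
  · simp only [QuadraticAlgebra.im_zero]
    linear_combination hre + 2 * h0

/-- Preservation of the two parts of the coordinates. -/
def KPres (g : ↥(Cfsg.Geo.quadSimilarityGroup (F := F) (⇑(qP F 4)))) : Prop :=
  (∀ z, ∃ z', ap g.1 (co Φ z 0) = co Φ z' 0) ∧ (∀ v, ∃ v', ap g.1 (co Φ 0 v) = co Φ 0 v')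

theorem kpres_of_commute {g : ↥SimP} {l : Fˣ} (h : tc * g = scalarSim l * (g * tc)) : KPres Φ g := by
  have key : ∀ x, ap (tc (F := F)).1 (ap g.1 x) = (l : F) • ap g.1 (ap (tc (F := F)).1 x) := fun x => by
    have := congrArg (fun z : ↥SimP => ap z.1 x) h
    simpa [ap_mul, ap_scalar] using this
  have kK : ∀ z z' v', ap g.1 (co Φ z 0) = co Φ z' v' → z' = (l : F) • z' ∧ uB • v' = (l : F) • v' := by
    intro z z' v' he
    have := key (co Φ z 0)
    rw [ap_tc, smul_zero, he, ap_tc, co_smul] at this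
    exact co_inj Φ this
  have hl : (l : F) = 1 := by
    by_contra hl
    set q := (l : F) * l + l + 1 with hq
    set ε : K2 F := ⟨(l : F), -1⟩ with hε
    have hsplit : ∀ w : K2 F, ub * w = (l : F) • w → q • w = 0 := fun w hw => by
      have e : (uB * w - (l : F) • w) * ε = 0 := by rw [hw, sub_self, zero_mul]
      have e' : (uB * w - (l : F) • w) * ε = -(q • w) := by
        ext <;> simp [ub, hε, hq] <;> ring
      rw [e'] at e
      exact neg_eq_zero.1 e
    by_cases hq0 : q = 0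
    · have hy : ∀ t : Fin 3 → F, ∃ z, ap g.1 (co Φ z 0) = co Φ 0 (fun i => t i • ε) := fun t => by
        obtain ⟨z, v, he⟩ := exists_co Φ (ap g⁻¹.1 (co Φ 0 (fun i => t i • ε)))
        have hg : ap g.1 (co Φ z v) = co Φ 0 (fun i => t i • ε) := by
          rw [← he, ← ap_mul, ← Subgroup.coe_mul, mul_inv_cancel, Subgroup.coe_one, ap_one]
        have hεl : uB * ε = (l : F) • ε := by
          ext <;> simp [ub, hε] <;> linear_combination -hq0 + hq
        have e := key (co Φ z v)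
        rw [ap_tc, hg, ap_tc] at e
        have e2 : co Φ 0 (uB • fun i => t i • ε) = (l : F) • co Φ 0 (fun i => t i • ε) := by
          rw [co_smul, smul_zero]
          congr 1
          funext i
          rw [Pi.smul_apply, Pi.smul_apply, smul_eq_mul, mul_smul_comm, hεl, smul_comm]
        rw [e2] at e
        have e3 := ap_injective g.1 (((smul_right_injective V l.ne_zero) e).symm.trans hg.symm)
        have hv : v = 0 := funext fun i => eq_zero_of_ub Φ.h3 (congrFun (co_inj Φ e3).2 i)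
        exact ⟨z, by rw [← hv]; exact hg⟩
      choose f hf using hy
      have hinj : Function.Injective fun t => ((f t).re, (f t).im) := fun t t' e => by
        have e' : f t = f t' := QuadraticAlgebra.ext (congrArg Prod.fst e) (congrArg Prod.snd e)
        have h2 := (co_inj Φ ((hf t).symm.trans (e' ▸ hf t'))).2
        funext i
        have := congrArg QuadraticAlgebra.im (congrFun h2 i)
        simpa [hε] using this
      have hc := Nat.card_le_card_of_injective _ hinj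
      rw [Nat.card_fun, Nat.card_prod, Nat.card_fin] at hc
      have h2 : 2 ≤ Nat.card F := Finite.one_lt_card
      nlinarith [Nat.mul_le_mul h2 (le_refl (Nat.card F))]
    · obtain ⟨z', v', he⟩ := exists_co Φ (ap g.1 (co Φ 1 0))
      obtain ⟨h1, h2⟩ := kK 1 z' v' he
      have hz' : z' = 0 := by
        have h4 : (1 - (l : F)) • z' = 0 := by rw [sub_smul, one_smul, ← h1, sub_self]
        exact (smul_eq_zero_iff_right (sub_ne_zero.2 (Ne.symm hl))).1 h4
      have hv' : v' = 0 := funext fun i =>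
        (smul_eq_zero_iff_right hq0).1 (hsplit _ (congrFun h2 i))
      rw [hz', hv'] at he
      have h0 : ap g.1 (co Φ 0 0) = co Φ 0 0 := by
        have e0 : co Φ (0 : K2 F) 0 = (0 : F) • co Φ 1 0 := by rw [co_smul, zero_smul, smul_zero]
        rw [e0, ap_smul, zero_smul, zero_smul]
      have h01 := (co_inj Φ (ap_injective g.1 (he.trans h0.symm))).1
      have := congrArg QuadraticAlgebra.re h01
      simp [QuadraticAlgebra.re_one] at this
  refine ⟨fun z => ?_, fun v => ?_⟩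
  · obtain ⟨z', v', he⟩ := exists_co Φ (ap g.1 (co Φ z 0))
    refine ⟨z', ?_⟩
    obtain ⟨-, h2⟩ := kK z z' v' he
    have hv : v' = 0 := funext fun i => by
      refine eq_zero_of_ub Φ.h3 ?_
      have := congrFun h2 i
      rwa [hl, one_smul, Pi.smul_apply, smul_eq_mul] at this
    rw [he, hv]
  · set w : Fin 3 → K2 F := fun i => (-1 / 3 : F) • ((uB + (⟨2, 0⟩ : K2 F)) * v i) with hw
    have hv : co Φ 0 v = ap (tc (F := F)).1 (co Φ 0 w) + (-1 : F) • co Φ 0 w := by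
      rw [ap_tc, co_smul, co_add, smul_zero, add_zero]
      congr 1
      funext i
      simp only [hw, Pi.add_apply, Pi.smul_apply, smul_eq_mul]
      have := Φ.h3
      ext <;> simp [ub] <;> field_simp <;> ring
    obtain ⟨z', v', he⟩ := exists_co Φ (ap g.1 (co Φ 0 w))
    refine ⟨uB • v' + (-1 : F) • v', ?_⟩
    have hk := key (co Φ 0 w)
    rw [hl, one_smul] at hk
    rw [hv, ap_add, ap_smul, ← hk, he, ap_tc, co_smul, co_add]
    congr 1
    rw [neg_smul, one_smul, add_neg_cancel]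

include Φ in
theorem tw_tc (ρ' : F ≃+* F) : tw ρ' (tc (F := F)) = tc := by
  rw [tc, tw_tor Φ, map_one, rK1_uK]

include Φ in
theorem ap_t0_co (z : K2 F) (v : Fin 3 → K2 F) :
    ap (t0 (F := F)).1 (co Φ z v) =
      co Φ z ![v 0, ((uK : K1 F) : K2 F) * v 1, ((uK⁻¹ : K1 F) : K2 F) * v 2] := by
  rw [t0, ap_tor Φ]
  simp

include Φ in
/-- The quotient of an element centralising `tc` by its triality conjugate centralises `t0`. -/
theorem exists_quotient (hS : Sig (Xel a d ρ) N) {n : Aut4} (hn : n ∈ N) (hc : Commute n (sA tc)) :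
    ∃ m : ↥SimP, n * (psi F * n * (psi F)⁻¹)⁻¹ = sA m ∧ t0 * m = m * t0 := by
  obtain ⟨g, g₂, g₃, k, ρ', rfl, ht⟩ := hS.exists_tri' hn
  have hc' : Commute (sA (cSim * g₂ * cSim) * stdPlus F 4 ρ') (sA tc) := by
    have h1 := hc.map (MulAut.conj (psi F)).toMonoidHom
    simp only [MulEquiv.coe_toMonoidHom, MulAut.conj_apply] at h1
    rwa [psi_conj ht, ← tQ_tc, tQ_psi, mul_inv_cancel_right] at h1
  obtain ⟨l, hl⟩ := scalar_commute (tw_tc Φ ρ') hc
  obtain ⟨l', hl'⟩ := scalar_commute (tw_tc Φ ρ') hc'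
  have hg := kpres_of_commute Φ hl
  have hh := kpres_of_commute Φ hl'
  set h := cSim * g₂ * cSim with hh'
  refine ⟨g * h⁻¹, ?_, ?_⟩
  · rw [psi_conj ht, ← hh', sA_mul g, sA_inv h]
    group
  choose gK hgK using hg.1
  choose gW hgW using hg.2
  choose hK hhK using hh.1
  choose hW hhW using hh.2
  have hKs : Function.Surjective hK := Finite.injective_iff_surjective.1 fun x y e =>
    (co_inj Φ (ap_injective h.1 (by rw [hhK, hhK, e]))).1
  have hWs : Function.Surjective hW := Finite.injective_iff_surjective.1 fun x y e =>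
    (co_inj Φ (ap_injective h.1 (by rw [hhW, hhW, e]))).2
  have hg2 : ∀ z v, ap g₂.1 (co Φ z v) = Triality.conj (ap h.1 (co Φ (star z) (-v))) := fun z v => by
    rw [hh', Subgroup.coe_mul, Subgroup.coe_mul, ap_mul, ap_mul, ap_c, ap_c, Triality.conj_conj, conj_co,
      star_star, neg_neg]
  have hg2K : ∀ z, ap g₂.1 (co Φ z 0) = co Φ (star (hK (star z))) 0 := fun z => by
    rw [hg2, neg_zero, hhK, conj_co, neg_zero]
  have hg2W : ∀ v, ap g₂.1 (co Φ 0 v) = co Φ 0 (hW v) := fun v => by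
    have e : co Φ (0 : K2 F) (-v) = (-1 : F) • co Φ 0 v := by rw [co_smul, smul_zero, neg_smul, one_smul]
    rw [hg2, star_zero, e, ap_smul, hhW, co_smul, smul_zero, conj_co, star_zero, neg_smul, one_smul, neg_neg]
  obtain ⟨s, t, hs⟩ := exists_co Φ (ap g₃.1 Triality.one)
  have hmul : ∀ z v, ap g.1 (co Φ z v) = k • Triality.mul (ap g₂.1 (co Φ z v)) (co Φ s t) := fun z v => by
    have := ht.2 (co Φ z v) Triality.one
    rwa [one_eq_co Φ, mul_co, ← one_eq_co Φ, hs, star_zero, dotProduct_zero, sub_zero, mul_one,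
      smul_zero, zero_add, star_one, one_smul, map_zero, star_zero, add_zero] at this
  have ht0 : t = 0 := by
    obtain ⟨z, hz⟩ := hKs 1
    have e := hmul (star z) 0
    rw [hg2K, star_star, hz, star_one, mul_co, co_smul, hgK] at e
    have e2 := (co_inj Φ e).2
    rw [one_smul, smul_zero, add_zero, map_zero, LinearMap.zero_apply, star_zero, add_zero, eq_comm,
      smul_eq_zero_iff_right ht.1] at e2
    exact e2
  subst ht0
  set ε : K2 F := k • star s with hε
  have hgε : ∀ v, ap g.1 (co Φ 0 v) = co Φ 0 (ε • hW v) := fun v => by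
    rw [hmul, hg2W, mul_co, co_smul]
    congr 1
    · simp
    · simp [hε, smul_assoc]
  have hinv : ∀ x y, ap h.1 x = y → ap (h⁻¹).1 y = x := fun x y e => by
    rw [← e, ← ap_mul, ← Subgroup.coe_mul, inv_mul_cancel, Subgroup.coe_one, ap_one]
  have hmW : ∀ v, ap (g * h⁻¹).1 (co Φ 0 v) = co Φ 0 (ε • v) := fun v => by
    obtain ⟨w, rfl⟩ := hWs v
    rw [Subgroup.coe_mul, ap_mul, hinv _ _ (hhW w), hgε]
  have hmK : ∀ z, ∃ z', ap (g * h⁻¹).1 (co Φ z 0) = co Φ z' 0 := fun z => by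
    obtain ⟨w, rfl⟩ := hKs z
    exact ⟨gK w, by rw [Subgroup.coe_mul, ap_mul, hinv _ _ (hhK w), hgK]⟩
  refine sim_ext_co Φ fun z v => ?_
  obtain ⟨z', hz'⟩ := hmK z
  generalize g * h⁻¹ = m at hmW hz' ⊢
  simp only [Subgroup.coe_mul, ap_mul]
  rw [ap_t0_co Φ z v]
  have esplit : ∀ v, co Φ z v = co Φ z 0 + co Φ 0 v := fun v => by rw [co_add, add_zero, zero_add]
  have em : ∀ v, ap m.1 (co Φ z v) = co Φ z' (ε • v) := fun v => by
    rw [esplit, ap_add, hz', hmW, co_add, add_zero, zero_add]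
  rw [em, em, ap_t0_co Φ]
  congr 1
  funext i
  fin_cases i <;> simp <;> ring

theorem Xel_one_one (ρ : F ≃+* F) : Xel (1 : K1 F) 1 ρ = stdPlus F 4 ρ * psi F := by
  rw [Xel_eq, tQ_one, one_mul]

include Φ in
theorem fixed_axis (hS : Sig (Xel (1 : K1 F) 1 ρ) N) (hρ : ρ ^ 3 = 1) {δ : K1 F} (hδ : δ ^ 3 = 1)
    {n : Aut4} (hn : n ∈ N) (hc : Commute n (tQ 1 δ * W Φ)) : n = 1 := by
  set U := sA (uu Φ (diagonaliser Φ.h3 δ)) with hU
  have key : tQ 1 δ * W Φ * U = U * sA t0 := by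
    rw [tQ, W, hU, tor_eq_uu Φ, ← sA_mul, ← map_mul (uu Φ), ← sA_mul, ← map_mul (uu Φ), mul_diagonaliser,
      map_mul (uu Φ), sA_mul, ← tor_eq_uu Φ]
    rfl
  have hUX : Commute U (stdPlus F 4 ρ * psi F) := by
    refine Commute.mul_right ?_ (psi_uu Φ _).symm
    show _ = _
    rw [hU, std_uu, rSU_diagonaliser, rK1_cube Φ.h3 ρ hδ]
  have hS' := hS.map U⁻¹
  rw [Xel_one_one] at hS'
  rw [inv_inv, mul_assoc, ← hUX.eq, inv_mul_cancel_left, ← Xel_one_one] at hS'
  have h := hc.map (MulAut.conj U⁻¹).toMonoidHom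
  simp only [MulEquiv.coe_toMonoidHom, MulAut.conj_apply] at h
  simp only [inv_inv] at h
  rw [mul_assoc U⁻¹ (tQ 1 δ * W Φ), key, inv_mul_cancel_left] at h
  have := cent_t0_trivial Φ hS' (one_pow 3) (one_pow 3) hρ (Subgroup.mem_map_of_mem _ hn)
    (by simpa only [MulEquiv.coe_toMonoidHom, MulAut.conj_apply, inv_inv] using h)
  exact eq_one_of_conj this

theorem commute_of_fixed {G : Type v} [Group G] {n g : G} (h : g * n * g⁻¹ = n) : Commute n g :=
  (mul_inv_eq_iff_eq_mul.1 h).symm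

include Φ in
/-- The centraliser of `tc` in the field-triality case. -/
theorem cent_tc_field (hS : Sig (Xel (1 : K1 F) 1 ρ) N) (hρ : ρ ^ 3 = 1)
    {n : Aut4} (hn : n ∈ N) (hc : Commute n (sA tc)) : n = 1 := by
  haveI : Finite Aut4 := Finite.of_injective _ DFunLike.coe_injective
  have hu := uK_pow_three (F := F)
  have h1 : (1 : K1 F) ^ 3 = 1 := one_pow 3
  set Y := N ⊓ Subgroup.centralizer {sA (tc (F := F))} with hYdef
  have hYc : ∀ y ∈ Y, Commute y (tQ (uK : K1 F) 1) := fun y hy =>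
    Subgroup.mem_centralizer_singleton_iff.1 hy.2
  have hWX : Commute (W Φ) (Xel (1 : K1 F) 1 ρ) := by
    show _ = _
    rw [W_Xel Φ ρ h1 h1, inv_one, mul_one]
  have hWc : Commute (W Φ) (tQ (uK : K1 F) 1) := by
    show _ = _
    rw [W_tQ Φ hu h1, inv_one, mul_one]
  have hnorm : ∀ g ∈ InnP, Commute g (Xel (1 : K1 F) 1 ρ) → Commute g (tQ (uK : K1 F) 1) →
      ∀ y ∈ Y, g * y * g⁻¹ ∈ Y := by
    intro g hg hgX hgc y hy
    refine ⟨hS.norm g hg hgX y hy.1, Subgroup.mem_centralizer_singleton_iff.2 ?_⟩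
    exact ((hgc.mul_left (hYc y hy)).mul_left hgc.inv_left).eq
  have hW3 : (wSU : ↥(SU F)) ^ 3 = 1 := wSU_pow_three
  have hτc : Commute (tQ (1 : K1 F) uK) (tQ (uK : K1 F) 1) := by
    show _ = _
    rw [tQ_mul, tQ_mul, mul_comm, mul_comm uK]
  let α := conjOn Y (W Φ) (hnorm _ (inn_uu Φ _ hW3 : W Φ ∈ InnP) hWX hWc)
  let β := conjOn Y (tQ (1 : K1 F) uK) (hnorm _ (tQ_inn h1 hu) (tQ_commute_Xel Φ ρ h1 hu) hτc)
  have hWt : W Φ * tQ (1 : K1 F) uK = tQ uK⁻¹ uK * W Φ := by rw [W_tQ Φ h1 hu, one_mul]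
  have hti : tQ (uK⁻¹ : K1 F) uK = (tQ (uK : K1 F) 1)⁻¹ * tQ 1 uK := by
    rw [eq_inv_mul_iff_mul_eq, tQ_mul, mul_inv_cancel, one_mul]
  have h0 : ∀ {g g' : Aut4}, (∀ y ∈ Y, Commute y g → Commute y g') → (∀ y ∈ Y, Commute y g' → y = 1) →
      ∀ y : ↥Y, g * y.1 * g⁻¹ = y.1 → y = 1 := fun hgg hg' y hy =>
    Subtype.ext (hg' y.1 y.2 (hgg y.1 y.2 (commute_of_fixed hy)))
  have := eq_one_of_four_fixedPointFree α β
    (fun y => Subtype.ext (by
      simp only [α, β, coe_conjOn]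
      have hy := (hYc y.1 y.2).inv_right
      calc W Φ * (tQ 1 uK * y.1 * (tQ 1 uK)⁻¹) * (W Φ)⁻¹
          = (W Φ * tQ 1 uK) * y.1 * (W Φ * tQ 1 uK)⁻¹ := by group
        _ = (tQ (uK : K1 F) 1)⁻¹ * (tQ 1 uK * (W Φ * y.1 * (W Φ)⁻¹) * (tQ 1 uK)⁻¹) * tQ (uK : K1 F) 1 := by
            rw [hWt, hti]; group
        _ = _ := by
            have hm : tQ 1 uK * (W Φ * y.1 * (W Φ)⁻¹) * (tQ 1 uK)⁻¹ ∈ Y := hnorm _ (tQ_inn h1 hu) (tQ_commute_Xel Φ ρ h1 hu) hτc _
              (hnorm _ (inn_uu Φ _ hW3) hWX hWc y.1 y.2)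
            rw [mul_assoc, (hYc _ hm).eq, inv_mul_cancel_left]))
    (conjOn_cube _ _ _ (W_pow_three Φ)) (conjOn_cube _ _ _ (tQ_pow_three h1 hu))
    (fun y hy => h0 (g := W Φ) (g' := tQ 1 1 * W Φ) (fun y _ h => by rwa [tQ_one, one_mul])
      (fun y hy h => fixed_axis Φ hS hρ h1 hy.1 h) y (congrArg Subtype.val hy))
    (fun y hy => h0 (g := tQ 1 uK) (g' := tQ 1 uK) (fun y _ h => h)
      (fun y hy h => cent_t0_trivial Φ hS h1 h1 hρ hy.1 h) y (congrArg Subtype.val hy))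
    (fun y hy => h0 (g := W Φ * tQ 1 uK) (g' := tQ 1 uK * W Φ) (fun y hy h => by
        have := (hYc y hy).mul_right h
        rwa [hWt, hti, ← mul_assoc, mul_inv_cancel_left] at this)
      (fun y hy h => fixed_axis Φ hS hρ hu hy.1 h) y (by
        have := congrArg Subtype.val hy
        simp only [α, β, coe_conjOn] at this
        calc _ = W Φ * (tQ 1 uK * y.1 * (tQ 1 uK)⁻¹) * (W Φ)⁻¹ := by group
          _ = _ := this))
    (fun y hy => h0 (g := W Φ * (W Φ * tQ 1 uK)) (g' := tQ 1 uK⁻¹ * W Φ) (fun y hy h => by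
        have e : (W Φ * (W Φ * tQ 1 uK))⁻¹ = tQ 1 uK⁻¹ * W Φ := by
          refine inv_eq_of_mul_eq_one_left ?_
          calc tQ 1 uK⁻¹ * W Φ * (W Φ * (W Φ * tQ 1 uK))
              = tQ 1 uK⁻¹ * W Φ ^ 3 * tQ 1 uK := by simp only [pow_succ, pow_zero, one_mul, mul_assoc]
            _ = 1 := by rw [W_pow_three, mul_one, tQ_mul, one_mul, inv_mul_cancel, tQ_one]
        rw [← e]
        exact h.inv_right)
      (fun y hy h => fixed_axis Φ hS hρ (cube_inv hu) hy.1 h) y (by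
        have := congrArg Subtype.val hy
        simp only [α, β, coe_conjOn] at this
        calc _ = W Φ * (W Φ * (tQ 1 uK * y.1 * (tQ 1 uK)⁻¹) * (W Φ)⁻¹) * (W Φ)⁻¹ := by group
          _ = _ := this))
    (hS.cop.coprime_dvd_left (Subgroup.card_dvd_of_le inf_le_left))
    ⟨n, hn, Subgroup.mem_centralizer_singleton_iff.2 hc⟩
  exact congrArg Subtype.val this

include Φ in
/-- The centraliser of `tc` in a signalizer is trivial. -/
theorem cent_tc (hS : Sig (Xel (1 : K1 F) d ρ) N) (hd : d ^ 3 = 1) (hρ : ρ ^ 3 = 1) (hcase : ρ = 1 ∨ d = 1)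
    {n : Aut4} (hn : n ∈ N) (hc : Commute n (sA tc)) : n = 1 := by
  by_cases hd1 : d = 1
  · subst hd1
    exact cent_tc_field Φ hS hρ hn hc
  obtain rfl : ρ = 1 := hcase.resolve_right hd1
  obtain ⟨m, hm, hmc⟩ := exists_quotient Φ hS hn hc
  have hx := (hS.comm n hn).eq
  rw [Xel_eq, stdPlus_one, mul_one] at hx
  set t := tQ (1 : K1 F) d with ht
  have hψ : psi F * n * (psi F)⁻¹ = t⁻¹ * n * t := by
    calc psi F * n * (psi F)⁻¹ = t⁻¹ * (t * psi F * n) * (psi F)⁻¹ := by group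
      _ = t⁻¹ * n * t := by rw [hx]; group
  have ht' : t⁻¹ * n * t ∈ N := by
    have := hS.norm t⁻¹ (inv_mem (tQ_inn (one_pow 3) hd))
      (tQ_commute_Xel Φ (1 : F ≃+* F) (one_pow 3) hd).inv_left n hn
    rwa [inv_inv] at this
  have hmN : sA m ∈ N := by rw [← hm, hψ]; exact mul_mem hn (inv_mem ht')
  have hm1 : sA m = 1 := cent_t0_trivial Φ hS (one_pow 3) hd hρ hmN (by
    show _ = _
    rw [← sA_mul, ← sA_mul, hmc])
  rw [hm1, mul_inv_eq_one, hψ] at hm
  have hct : Commute n t := by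
    show n * t = t * n
    conv_rhs => rw [hm]
    group
  refine cent_t0_trivial Φ hS (one_pow 3) hd hρ hn ?_
  rw [← tQ_t0]
  rcases K1_cube Φ.h3 hd with h | h | h
  · exact absurd h hd1
  · rw [ht, h] at hct; exact hct
  · have e : tQ (1 : K1 F) uK = t * t := by
      rw [ht, h, tQ_mul, one_mul]
      congr 1
      rw [show uK * uK * (uK * uK) = uK ^ (3 + 1) by simp [pow_succ, mul_assoc], pow_succ, uK_pow_three, one_mul]
    rw [e]
    exact hct.mul_right hct

include Φ in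
theorem sig_rep_eq_bot (hS : Sig (Xel (1 : K1 F) d ρ) N) (hd : d ^ 3 = 1) (hρ : ρ ^ 3 = 1)
    (hcase : ρ = 1 ∨ d = 1) : N = ⊥ := by
  haveI : Finite Aut4 := Finite.of_injective _ DFunLike.coe_injective
  have hu := uK_pow_three (F := F)
  have h1 : (1 : K1 F) ^ 3 = 1 := one_pow 3
  let α := conjOn N (tQ (uK : K1 F) 1) (hS.norm _ (tQ_inn hu h1) (tQ_commute_Xel Φ ρ hu h1))
  let β := conjOn N (tQ (1 : K1 F) uK) (hS.norm _ (tQ_inn h1 hu) (tQ_commute_Xel Φ ρ h1 hu))
  have hab : ∀ b e b' e' : K1 F, ∀ y : Aut4,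
      tQ b e * (tQ b' e' * y * (tQ b' e')⁻¹) * (tQ b e)⁻¹ = tQ (b * b') (e * e') * y * (tQ (b * b') (e * e'))⁻¹ := by
    intro b e b' e' y
    rw [← tQ_mul]
    group
  rw [Subgroup.eq_bot_iff_forall]
  intro n hn
  refine congrArg Subtype.val (eq_one_of_four_fixedPointFree α β
    (fun y => Subtype.ext (by simp only [α, β, coe_conjOn, hab]; rw [mul_comm]))
    (conjOn_cube _ _ _ (tQ_pow_three hu h1)) (conjOn_cube _ _ _ (tQ_pow_three h1 hu))
    (fun y hy => ?_) (fun y hy => ?_) (fun y hy => ?_) (fun y hy => ?_) hS.cop (⟨n, hn⟩ : ↥N))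
  all_goals
    have h := congrArg Subtype.val hy
    simp only [α, β, coe_conjOn, hab, mul_one, one_mul] at h
    have h := commute_of_fixed h
    refine Subtype.ext ?_
  · exact cent_tc Φ hS hd hρ hcase y.2 h
  · exact cent_t0_trivial Φ hS h1 hd hρ y.2 h
  · exact cent_tQ_uu Φ hS h1 hd hρ y.2 h
  · refine cent_tQ_inv Φ hS h1 hd hρ y.2 ?_
    rwa [show (uK : K1 F)⁻¹ = uK * uK from
      inv_eq_of_mul_eq_one_left (by rw [← pow_two, ← pow_succ]; exact hu)]

/-- A signalizer of a triality automorphism of order three is trivial. -/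
theorem sig_eq_bot {r : ℕ} [Fact r.Prime] [CharP F r] (hr : r ≠ 3)
    {x : Aut4} (hord : orderOf x = 3) (hS : Sig x N) : N = ⊥ := by
  obtain ⟨Φ⟩ := exists_frame (F := F) hr
  obtain ⟨c, d, ρ, he, hd, hρ, hcase⟩ := classify Φ Φ.h3 hord hS.moves
  have h := hS.map c
  rw [he] at h
  have := sig_rep_eq_bot Φ h hd hρ hcase
  exact (Subgroup.map_eq_bot_iff_of_injective N (MulAut.conj c).injective).1 this

end CfsgLib.LocalBalanceAut.Tri
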