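import Cfsg.Agent.Lib.LocalBalanceAut.GraphTypes
import Cfsg.Agent.Lib.LocalBalanceAut.TriSignalCore
import Cfsg.Agent.Lib.ReflectionsSpinor.POmegaStd

/-!
# The semilinear normal form of automorphisms of `PΩ⁺` and even orders
-/

set_option autoImplicit false
set_option linter.unusedSectionVars false
set_option linter.style.haveILetI false
set_option maxHeartbeats 1600000

open Matrix CfsgLib.OrthGen
open CfsgLib.ReflectionsSpinor CfsgLib.ReflectionsSpinor.POmegaAut CfsgLib.ReflectionsSpinor.POmegaQuot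
  CfsgLib.ReflectionsSpinor.POmegaForms CfsgLib.ReflectionsSpinor.POmegaField
open CfsgLib.ClassicalForms (Aniso)

namespace CfsgLib.LocalBalanceAut.POmegaPlus

universe u v

variable {F : Type u} [Field F] [Finite F] {m : ℕ}

set_option quotPrecheck false in
local notation "SimM" => Cfsg.Geo.quadSimilarityGroup (F := F) (⇑(qP F m))

set_option quotPrecheck false in
local notation "AutM" => MulAut (Cfsg.POmega F (⇑(qP F m)))

set_option quotPrecheck false in
local notation "ΓM" => Cfsg.gammaPOmega F (⇑(qP F m))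

/-- The automorphism of a similarity times a field automorphism. -/
noncomputable def form (a : ↥(Cfsg.Geo.quadSimilarityGroup (F := F) (⇑(qP F m)))) (σ : F ≃+* F) :
    MulAut (Cfsg.POmega F (⇑(qP F m))) :=
  simAut (⇑(qP F m)) a * stdPlus F m σ

theorem form_mem_gamma (a : ↥SimM) (σ : F ≃+* F) : form a σ ∈ ΓM := by
  refine mul_mem ?_ (semiAut_mem_gamma _)
  rw [simAut_apply]
  exact semiAut_mem_gamma _

theorem exists_form {β : AutM} (hβ : β ∈ ΓM) : ∃ (a : ↥SimM) (σ : F ≃+* F), β = form a σ := by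
  obtain ⟨g, τ, h, rfl⟩ := mem_gamma_iff.1 hβ
  have hg : g ∈ SimM := by
    obtain ⟨c, hc⟩ := h
    refine ⟨c, fun w => ?_⟩
    have := hc (τ.symm ∘ w)
    rw [show (fun j => τ ((τ.symm ∘ w) j)) = w from funext fun j => τ.apply_symm_apply _,
      show qP F m (τ.symm ∘ w) = τ.symm (qP F m w) from qP_comm m τ.symm w,
      RingEquiv.apply_symm_apply] at this
    exact this
  refine ⟨⟨g, hg⟩, τ, ?_⟩
  rw [form, simAut_apply, stdPlus, semiAut_mul]
  exact semiAut_congr (by rw [gmap_one, mul_one]) (one_mul τ).symm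

theorem std_mul (σ τ : F ≃+* F) : stdPlus F m (σ * τ) = stdPlus F m σ * stdPlus F m τ := by
  rw [stdPlus, stdPlus, stdPlus, semiAut_mul]
  exact semiAut_congr (by rw [map_one, mul_one]) rfl

theorem std_one : stdPlus F m (1 : F ≃+* F) = 1 := semiAut_one

theorem form_one (a : ↥SimM) : form a (1 : F ≃+* F) = simAut (⇑(qP F m)) a := by
  rw [form, std_one, mul_one]

/-- Twisting a similarity by a field automorphism. -/
noncomputable def twm (σ : F ≃+* F) : ↥(Cfsg.Geo.quadSimilarityGroup (F := F) (⇑(qP F m))) →*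
    ↥(Cfsg.Geo.quadSimilarityGroup (F := F) (⇑(qP F m))) :=
  (datumOfSemi (semi_of_comm (qP_comm m σ))).bcSim

theorem std_simAut (σ : F ≃+* F) (a : ↥SimM) :
    stdPlus F m σ * simAut (⇑(qP F m)) a = simAut (⇑(qP F m)) (twm σ a) * stdPlus F m σ :=
  semiAut_mul_simAut _ a

theorem sgn_twm (hm : 4 ≤ m) (σ : F ≃+* F) (a : ↥SimM) :
    sgn (ev_qP hm) (twm σ a) = sgn (ev_qP hm) a :=
  sgn_stable (ev_qP hm) _ a

theorem form_mul (a b : ↥SimM) (σ τ : F ≃+* F) : form a σ * form b τ = form (a * twm σ b) (σ * τ) := by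
  rw [form, form, form, map_mul, std_mul, mul_assoc, ← mul_assoc (stdPlus F m σ), std_simAut]
  simp only [mul_assoc]

theorem form_pow (hm : 4 ≤ m) (a : ↥SimM) (σ : F ≃+* F) (n : ℕ) :
    ∃ b : ↥SimM, form a σ ^ n = form b (σ ^ n) ∧ sgn (ev_qP hm) b = sgn (ev_qP hm) a ^ n := by
  induction n with
  | zero => exact ⟨1, by rw [pow_zero, pow_zero, form_one, map_one], by rw [pow_zero, map_one]⟩
  | succ n ih =>
    obtain ⟨b, hb, hs⟩ := ih
    exact ⟨b * twm (σ ^ n) a, by rw [pow_succ, hb, form_mul, ← pow_succ],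
      by rw [map_mul, sgn_twm hm, hs, pow_succ]⟩

/-- The sign and the field automorphism are determined by the automorphism. -/
theorem form_eq (hm : 4 ≤ m) {a b : ↥SimM} {σ τ : F ≃+* F} (h : form a σ = form b τ) :
    sgn (ev_qP hm) a = sgn (ev_qP hm) b ∧ σ = τ := by
  have E := ev_qP (F := F) hm
  rw [form, form] at h
  have h1 : simAut (⇑(qP F m)) (b⁻¹ * a) = stdPlus F m τ * (stdPlus F m σ)⁻¹ := by
    rw [map_mul, map_inv, inv_mul_eq_iff_eq_mul, ← mul_assoc, ← h, mul_inv_cancel_right]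
  have hσ : σ = τ := by
    rw [simAut_apply, stdPlus, stdPlus, semiAut_inv, semiAut_mul, ← mul_inv_eq_one, semiAut_inv, semiAut_mul,
      semiAut_eq_one_iff E.toNd.good] at h1
    have h2 := h1.1
    simp only [one_mul, _root_.mul_inv_rev, inv_inv] at h2
    exact mul_inv_eq_one.1 h2
  subst hσ
  exact ⟨chi_eq_of_simAut_eq E.toNd (sgn (ev_qP hm)) (sgn_scalarSim _) (mul_right_cancel h), rfl⟩

theorem form_inv (hm : 4 ≤ m) (a : ↥SimM) (σ : F ≃+* F) :
    ∃ b : ↥SimM, (form a σ)⁻¹ = form b σ⁻¹ ∧ sgn (ev_qP hm) b = sgn (ev_qP hm) a := by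
  refine ⟨twm σ⁻¹ a⁻¹, inv_eq_of_mul_eq_one_left ?_, ?_⟩
  · rw [form_mul, ← map_mul, inv_mul_cancel, map_one, inv_mul_cancel, form_one, map_one]
  · rw [sgn_twm hm, map_inv, Int.units_inv_eq_self]

/-- Conjugation inside `Γ` keeps the sign and the triviality of the field automorphism. -/
theorem form_conj (hm : 4 ≤ m) {β : AutM} (hβ : β ∈ ΓM) (a : ↥SimM) (σ : F ≃+* F) :
    ∃ (b : ↥SimM) (τ : F ≃+* F), β * form a σ * β⁻¹ = form b (τ * σ * τ⁻¹) ∧
      sgn (ev_qP hm) b = sgn (ev_qP hm) a := by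
  obtain ⟨c, τ, rfl⟩ := exists_form hβ
  obtain ⟨c', hc, hs⟩ := form_inv hm c τ
  refine ⟨c * twm τ a * twm (τ * σ) c', τ, ?_, ?_⟩
  · rw [hc, form_mul, form_mul]
  · rw [map_mul, map_mul, sgn_twm hm, sgn_twm hm, hs, mul_right_comm, Int.units_mul_self, one_mul]

/-- A conjugate inside `Γ` of a field automorphism. -/
theorem invariants_of_field (hm : 4 ≤ m) {β : AutM} (hβ : β ∈ ΓM) {a : ↥SimM} {σ σ' : F ≃+* F}
    (hσ : σ' ≠ 1) (h : form a σ = β * stdPlus F m σ' * β⁻¹) : σ ≠ 1 ∧ sgn (ev_qP hm) a = 1 := by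
  obtain ⟨b, τ, hb, hs⟩ := form_conj hm hβ (1 : ↥SimM) σ'
  rw [show form (1 : ↥SimM) σ' = stdPlus F m σ' by rw [form, map_one, one_mul]] at hb
  rw [hb] at h
  obtain ⟨h1, rfl⟩ := form_eq hm h
  exact ⟨fun e => hσ (by simpa using e), by rw [h1, hs, map_one]⟩

/-! ### Even orders -/

section EvenOrder

variable {ι : Type} [Fintype ι] [DecidableEq ι] {Q : QuadraticForm F (ι → F)}

/-- Three orthogonal vectors, two of value one, give an involution of `PΩ`. -/
theorem two_dvd_card_pomega (N : Nd Q) (h2 : (2 : F) ≠ 0) {a v w : ι → F} (qa : Q a = 1) (qv : Q v = 1)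
    (pav : pf Q a v = 0) (pvw : pf Q v w = 0) (paw : pf Q a w = 0) (hw : w ≠ 0) :
    2 ∣ Nat.card (Cfsg.POmega F (⇑Q)) := by
  set b : ι → F := a + v with hb
  have qb : Q b = 2 := by
    rw [hb, QuadraticMap.map_add (⇑Q), qa, qv, show QuadraticMap.polar (⇑Q) a v = 0 from pav, add_zero]
    norm_num
  have pba : pf Q b a = 2 := by
    rw [pf, hb, QuadraticMap.polar_add_left, QuadraticMap.polar_comm (⇑Q) v a,
      show QuadraticMap.polar (⇑Q) a v = 0 from pav, QuadraticMap.polar_self, qa, add_zero, nsmul_eq_mul,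
      mul_one]
    rfl
  have ha0 : Q a ≠ 0 := by rw [qa]; exact one_ne_zero
  have hb0 : Q b ≠ 0 := by rw [qb]; exact h2
  have hv0 : Q v ≠ 0 := by rw [qv]; exact one_ne_zero
  have hba : act Q (refl Q hb0) a = (-1 : F) • v := by
    rw [act_refl, qb, pba, inv_mul_cancel₀ h2, one_smul, hb, neg_one_smul]
    abel
  have pva : pf Q v a = 0 := by rw [pf, QuadraticMap.polar_comm]; exact pav
  set c := refl Q ha0 * refl Q hv0 with hc
  have hmem : c ∈ Cfsg.Omega F (⇑Q) := by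
    have e : c = refl Q ha0 * refl Q hb0 * (refl Q ha0)⁻¹ * (refl Q hb0)⁻¹ := by
      rw [hc, mul_assoc, mul_assoc]
      congr 1
      rw [← mul_assoc, refl_inv Q ha0, conj_refl]
      simp only [hba]
      exact (refl_smul Q hv0 (neg_ne_zero.2 one_ne_zero)).symm
    rw [e]
    exact Subgroup.commutator_mem_commutator (Subgroup.mem_top _) (Subgroup.mem_top _)
  have hsq : c ^ 2 = 1 := by
    have hcomm : refl Q hv0 * refl Q ha0 = refl Q ha0 * refl Q hv0 := by
      have e := conj_refl Q (refl Q hv0) ha0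
      simp only [act_refl_of_orth Q hv0 pva] at e
      exact mul_inv_eq_iff_eq_mul.1 e
    rw [hc, pow_two]
    calc refl Q ha0 * refl Q hv0 * (refl Q ha0 * refl Q hv0)
        = refl Q ha0 * (refl Q hv0 * refl Q ha0) * refl Q hv0 := by group
      _ = refl Q ha0 * refl Q ha0 * (refl Q hv0 * refl Q hv0) := by rw [hcomm]; group
      _ = 1 := by rw [refl_mul_self, refl_mul_self, one_mul]
  set k := cl (⇑Q) (⟨c, hmem⟩ : ↥(Cfsg.Omega F (⇑Q))) with hk
  have hk2 : k ^ 2 = 1 := by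
    have e : (⟨c, hmem⟩ : ↥(Cfsg.Omega F (⇑Q))) ^ 2 = 1 := Subtype.ext hsq
    exact (map_pow (QuotientGroup.mk' _) (⟨c, hmem⟩ : ↥(Cfsg.Omega F (⇑Q))) 2).symm.trans
      ((congrArg (QuotientGroup.mk' _) e).trans (map_one _))
  have hk1 : k ≠ 1 := by
    intro h
    have h1 : simAut (⇑Q) (omegaSim (⇑Q) ⟨c, hmem⟩) = 1 := by rw [← inner_eq_simAut, ← hk, h, map_one]
    obtain ⟨l, -, hl⟩ := (simAut_eq_one_iff N.good _).1 h1
    have hl' : ∀ x, act Q c x = l • x := fun x => by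
      show (Units.val (omegaSim (⇑Q) ⟨c, hmem⟩).1 : Matrix ι ι F) *ᵥ x = _
      rw [hl, Matrix.smul_mulVec, Matrix.one_mulVec]
    have e1 : -a = l • a := by
      rw [← hl' a, hc, act_mul, act_refl_of_orth Q hv0 pva, act_refl_self]
    have e2 : w = l • w := by
      rw [← hl' w, hc, act_mul, act_refl_of_orth Q hv0 pvw, act_refl_of_orth Q ha0 paw]
    have l1 : l = 1 := by
      by_contra hl1
      have : (1 - l) • w = 0 := by rw [sub_smul, one_smul, ← e2, sub_self]
      exact hw ((smul_eq_zero_iff_right (sub_ne_zero.2 (Ne.symm hl1))).1 this)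
    rw [l1, one_smul] at e1
    have h3 : (2 : F) • a = 0 := by
      rw [two_smul]
      nth_rewrite 1 [← e1]
      exact neg_add_cancel a
    rw [(smul_eq_zero_iff_right h2).1 h3, QuadraticMap.map_zero] at qa
    exact zero_ne_one qa
  haveI : Fact (Nat.Prime 2) := ⟨Nat.prime_two⟩
  rw [← orderOf_eq_prime hk2 hk1]
  exact orderOf_dvd_natCard k

variable {F₀ : Type v} [Field F₀] [Finite F₀] {κ : Type} [Fintype κ] [DecidableEq κ] {i : F₀ →+* F}
  {e : κ ≃ ι} {Q₀ : QuadraticForm F₀ (κ → F₀)}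

/-- The order of `PΩ(Q₀)` divides that of the image of `Ω(Q₀)`. -/
theorem card_dvd_card_range (D : Datum Q i e Q₀) :
    Nat.card (Cfsg.POmega F₀ (⇑Q₀)) ∣ Nat.card ↥(DatumField.subHom D).range := by
  have hle : (DatumField.subHom D).ker ≤ Subgroup.center ↥(Cfsg.Omega F₀ (⇑Q₀)) := fun t ht => by
    have hc : DatumField.subOmega D t ∈ Subgroup.center ↥(Cfsg.Omega F (⇑Q)) :=
      (QuotientGroup.eq_one_iff _).1 ht
    refine Subgroup.mem_center_iff.2 fun s => DatumField.subOmega_injective D ?_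
    rw [map_mul, map_mul]
    exact Subgroup.mem_center_iff.1 hc _
  rw [← Subgroup.index_ker]
  exact Subgroup.index_dvd_of_le hle

end EvenOrder

section Hyperbolic

variable {F₀ : Type v} [Field F₀] [Finite F₀]

theorem two_dvd_card_plus (h2 : (2 : F₀) ≠ 0) {k : ℕ} (hk : 4 ≤ k) :
    2 ∣ Nat.card (Cfsg.POmega F₀ (⇑(qP F₀ k))) := by
  let v : Fin k → (Fin k ⊕ Fin k → F₀) := fun j => Pi.single (.inl j) 1 + Pi.single (.inr j) 1
  have hq : ∀ j, qP F₀ k (v j) = 1 := fun j => by simp [v, coe_qP, Cfsg.quadFormPlus, Pi.single_apply]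
  have hp : ∀ j l, j ≠ l → pf (qP F₀ k) (v j) (v l) = 0 := fun j l h => by
    rw [pf, QuadraticMap.polar, hq, hq]
    simp [v, coe_qP, Cfsg.quadFormPlus, Pi.single_apply, h, Ne.symm h, Finset.sum_add_distrib,
      mul_add]
  refine two_dvd_card_pomega (ev_qP (F := F₀) hk).toNd h2 (a := v ⟨0, by omega⟩) (v := v ⟨1, by omega⟩)
    (w := v ⟨2, by omega⟩) (hq _) (hq _) (hp _ _ (by simp)) (hp _ _ (by simp)) (hp _ _ (by simp)) fun h => ?_
  have := hq ⟨2, by omega⟩
  rw [h, QuadraticMap.map_zero] at this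
  exact zero_ne_one this

theorem two_dvd_card_minus (h2 : (2 : F₀) ≠ 0) {k : ℕ} (hk : 3 ≤ k) {a b : F₀} (hab : Aniso a b) :
    2 ∣ Nat.card (Cfsg.POmega F₀ (⇑(qM k a b))) := by
  let v : Fin k → ((Fin k ⊕ Fin k) ⊕ Fin 2 → F₀) := fun j =>
    Pi.single (.inl (.inl j)) 1 + Pi.single (.inl (.inr j)) 1
  have hq : ∀ j, qM k a b (v j) = 1 := fun j => by simp [v, coe_qM, Cfsg.quadFormMinus, Pi.single_apply]
  have hp : ∀ j l, j ≠ l → pf (qM k a b) (v j) (v l) = 0 := fun j l h => by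
    rw [pf, QuadraticMap.polar, hq, hq]
    simp [v, coe_qM, Cfsg.quadFormMinus, Pi.single_apply, h, Ne.symm h, Finset.sum_add_distrib,
      mul_add]
  refine two_dvd_card_pomega (ev_qM hk hab).toNd h2 (a := v ⟨0, by omega⟩) (v := v ⟨1, by omega⟩)
    (w := v ⟨2, by omega⟩) (hq _) (hq _) (hp _ _ (by simp)) (hp _ _ (by simp)) (hp _ _ (by simp)) fun h => ?_
  have := hq ⟨2, by omega⟩
  rw [h, QuadraticMap.map_zero] at this
  exact zero_ne_one this

end Hyperbolic

end CfsgLib.LocalBalanceAut.POmegaPlus
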