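import Cfsg.Agent.Lib.LocalBalanceAut.PlusBasic

/-!
# The cosets of `Γ` in the automorphism group of `PΩ⁺`
-/

set_option autoImplicit false
set_option linter.unusedSectionVars false
set_option linter.style.haveILetI false
set_option maxHeartbeats 1600000

open Matrix CfsgLib.OrthGen
open CfsgLib.ReflectionsSpinor CfsgLib.ReflectionsSpinor.POmegaAut CfsgLib.ReflectionsSpinor.POmegaQuot
  CfsgLib.ReflectionsSpinor.POmegaForms CfsgLib.ReflectionsSpinor.POmegaField
open CfsgLib.Geometric (ap ap_mul ap_smul ap_one gl_ext)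
open CfsgLib.Triality (nrm phi2 phi3)
open CfsgLib.ReflectionsSpinor.POmegaTriality (cSim)
open CfsgLib.LocalBalanceAut.Tri

namespace CfsgLib.LocalBalanceAut.POmegaPlus

universe u v

variable {F : Type u} [Field F] [Finite F]

section Eight

set_option quotPrecheck false in
local notation "Aut4" => MulAut (Cfsg.POmega F (⇑(qP F 4)))

set_option quotPrecheck false in
local notation "Γ4" => Cfsg.gammaPOmega F (⇑(qP F 4))

set_option quotPrecheck false in
local notation "E4" => ev_qP (F := F) (le_refl 4)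

theorem psi_pow_std (j : ℕ) (σ : F ≃+* F) : psi F ^ j * stdPlus F 4 σ = stdPlus F 4 σ * psi F ^ j :=
  ((show Commute (psi F) (stdPlus F 4 σ) from psi_stdPlus σ).pow_left j).eq

theorem exists_coset (α : Aut4) : ∃ j : Fin 3, (psi F ^ (j : ℕ))⁻¹ * α ∈ Γ4 := by
  haveI : Finite Aut4 := Finite.of_injective _ DFunLike.coe_injective
  let f : Fin 3 → Aut4 ⧸ Γ4 := fun j => (psi F ^ (j : ℕ) : Aut4)
  have hinj : Function.Injective f := fun i j h => by
    have h1 : (psi F ^ (i : ℕ))⁻¹ * psi F ^ (j : ℕ) ∈ Γ4 := QuotientGroup.eq.1 h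
    have hper : ∀ n : ℕ, psi F ^ n = psi F ^ (n % 3) := fun n => by
      conv_lhs => rw [← Nat.div_add_mod n 3]
      rw [pow_add, pow_mul, psi_pow_three, one_pow, one_mul]
    have e : (psi F ^ (i : ℕ))⁻¹ * psi F ^ (j : ℕ) = psi F ^ ((j - i : Fin 3) : ℕ) := by
      rw [inv_mul_eq_iff_eq_mul, ← pow_add, hper (_ + _), hper (j : ℕ)]
      congr 1
      omega
    rw [e] at h1
    exact (sub_eq_zero.1 (psi_zpow_mem_iff h1)).symm
  have hsurj : Function.Surjective f :=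
    (hinj.bijective_of_nat_card_le (by
      rw [Nat.card_fin]; exact le_of_eq (Triality.index_gamma (F := F)))).2
  obtain ⟨j, hj⟩ := hsurj (α : Aut4 ⧸ Γ4)
  exact ⟨j, QuotientGroup.eq.1 hj⟩

/-- Elements of sign `-1` have no triality conjugate in `Γ`. -/
theorem psi_conj_not_mem {g : ↥(Cfsg.Geo.quadSimilarityGroup (F := F) (⇑(qP F 4)))} {ρ : F ≃+* F}
    (h : sgn E4 g = -1) : psi F * form g ρ * (psi F)⁻¹ ∉ Γ4 := by
  obtain ⟨g', g₂, g₃, k, he, ht⟩ := exists_tri (F := F) ⟨g * cSim,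
    MonoidHom.mem_ker.2 (by rw [map_mul, h, sgn_cSim]; decide), rfl⟩
  have e : form g ρ = sA g' * sA cSim * stdPlus F 4 ρ := by
    show sA g * stdPlus F 4 ρ = _
    rw [← he, ← sA_mul, mul_assoc g, cSim_mul_self, mul_one]
  have e2 : psi F * form g ρ * (psi F)⁻¹ = sA (cSim * g₂ * cSim) * f2 F * stdPlus F 4 ρ := by
    rw [e, show psi F * (sA g' * sA cSim * stdPlus F 4 ρ) * (psi F)⁻¹ = (psi F * sA g') *
      sA cSim * (stdPlus F 4 ρ * (psi F)⁻¹) by simp only [mul_assoc], psi_simAut ht,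
      show stdPlus F 4 ρ * (psi F)⁻¹ = (psi F)⁻¹ * stdPlus F 4 ρ from
        (Commute.inv_left (psi_stdPlus ρ)).eq.symm]
    rw [show sA (cSim * g₂ * cSim) * psi F * sA cSim * ((psi F)⁻¹ * stdPlus F 4 ρ) =
      sA (cSim * g₂ * cSim) * (psi F * sA cSim * (psi F)⁻¹) * stdPlus F 4 ρ by simp only [mul_assoc],
      psi_gamma]
  intro hmem
  rw [e2, Subgroup.mul_mem_cancel_right _ (std_mem_gamma ρ),
    Subgroup.mul_mem_cancel_left _ (sA_mem_gamma _)] at hmem
  exact f2_not_mem (F := F) hmem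

variable (F) in
/-- The sandwich element. -/
noncomputable def sand : Cfsg.POmega F (⇑(qP F 4)) :=
  CfsgLib.ClassicalAut.Ortho.cl (Triality.sandwich (1 : F))

theorem isFlat_f2 : Triality.IsFlat (f2 F (sand F)) := by
  obtain ⟨t₂, t₃, r₂, r₃, ht, e2, -⟩ := Triality.exists_sandwich_companions (1 : F)
  exact (congrArg Triality.IsFlat ((Triality.phiHom_apply ht).1 :
    f2 F (sand F) = CfsgLib.ClassicalAut.Ortho.cl t₂)).mpr (Triality.isFlat_of_mul (Or.inl e2))

theorem isFlat_f3 : Triality.IsFlat (f3 F (sand F)) := by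
  obtain ⟨t₂, t₃, r₂, r₃, ht, -, e3⟩ := Triality.exists_sandwich_companions (1 : F)
  exact (congrArg Triality.IsFlat ((Triality.phiHom_apply ht).2 :
    f3 F (sand F) = CfsgLib.ClassicalAut.Ortho.cl t₃)).mpr (Triality.isFlat_of_mul (Or.inr e3))

/-- Whatever fixes a sandwich lies in `Γ`. -/
theorem mem_gamma_of_fix {a : Aut4}
    (h : a (sand F) = sand F) : a ∈ Γ4 := by
  set c := sand F
  have hγ : ga F ∈ Γ4 := CfsgLib.ClassicalAut.Ortho.semiAut_mem_gamma _
  obtain ⟨j, hj⟩ := exists_coset a⁻¹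
  set β := (psi F ^ (j : ℕ))⁻¹ * a⁻¹ with hβ
  have hc : (psi F ^ (j : ℕ))⁻¹ c = β c := by
    rw [hβ, MulAut.mul_apply]
    congr 1
    conv_lhs => rw [← MulAut.inv_apply_self (M := Cfsg.POmega F (⇑(qP F 4))) a c, h]
  have hnf : ¬ Triality.IsFlat (β c) := fun hf =>
    Triality.not_isFlat_sandwich one_ne_zero ((Triality.isFlat_gamma hj c).1 hf)
  have hp2 : psi F ^ 2 = (psi F)⁻¹ :=
    eq_inv_of_mul_eq_one_left (by rw [← pow_succ]; exact psi_pow_three)
  fin_cases j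
  · have : a⁻¹ = β := by rw [hβ]; simp
    exact inv_mem_iff.1 (this ▸ hj)
  · exfalso
    refine hnf ?_
    rw [← hc]
    have e : (psi F ^ (((1 : Fin 3) : Fin 3) : ℕ))⁻¹ = ga F * f3 F := by
      show (psi F ^ 1)⁻¹ = _
      rw [pow_one, ← hp2, psi, pow_two]
      calc ga F * f2 F * (ga F * f2 F) = ga F * (f2 F * ga F) * f2 F := by simp only [mul_assoc]
        _ = ga F * ga F * (f3 F * f2 F) := by rw [f2_ga]; simp only [mul_assoc]
        _ = _ := by rw [ga_mul_self, one_mul, f3_f2]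
    exact (congrArg (fun g : Aut4 => Triality.IsFlat (g c)) e).mpr
      ((Triality.isFlat_gamma hγ _).2 isFlat_f3)
  · exfalso
    refine hnf ?_
    rw [← hc]
    have e : (psi F ^ (((2 : Fin 3) : Fin 3) : ℕ))⁻¹ = ga F * f2 F := by
      show (psi F ^ 2)⁻¹ = _
      rw [hp2, inv_inv, psi]
    exact (congrArg (fun g : Aut4 => Triality.IsFlat (g c)) e).mpr
      ((Triality.isFlat_gamma hγ _).2 isFlat_f2)

end Eight

variable {m : ℕ}

set_option quotPrecheck false in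
local notation "AutM" => MulAut (Cfsg.POmega F (⇑(qP F m)))

set_option quotPrecheck false in
local notation "ΓM" => Cfsg.gammaPOmega F (⇑(qP F m))

theorem gamma_top_of_five (hm : 5 ≤ m) (β : AutM) : β ∈ ΓM := by
  have h := (CfsgLib.ClassicalAut.Ortho.setupPlus (F := F) m hm).gamma_top
  exact h.symm ▸ Subgroup.mem_top β

/-- A field automorphism class meets `Γ` in conjugates by `Γ`. -/
theorem exists_gamma_conj (hm : 4 ≤ m) {x : AutM} (hf : Cfsg.IsFieldAutClassPOmega (⇑(qP F m)) x) :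
    ∃ β ∈ ΓM, ∃ σ : F ≃+* F, σ ≠ 1 ∧ x = β * stdPlus F m σ * β⁻¹ := by
  obtain ⟨α, φ, σ, hσ, hφ, he⟩ := hf
  obtain rfl : φ = stdPlus F m σ := (isFieldAutOf_iff (qP_comm m σ)).1 hφ
  have hx : x = α⁻¹ * stdPlus F m σ * α := by rw [← he]; group
  rcases Nat.eq_or_lt_of_le hm with rfl | hm'
  · obtain ⟨j, hj⟩ := exists_coset α
    refine ⟨((psi F ^ (j : ℕ))⁻¹ * α)⁻¹, inv_mem hj, σ, hσ, ?_⟩
    rw [hx, inv_inv, _root_.mul_inv_rev, inv_inv, mul_assoc α⁻¹ (psi F ^ (j : ℕ)), psi_pow_std]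
    group
  · exact ⟨α⁻¹, gamma_top_of_five hm' _, σ, hσ, by rw [hx, inv_inv]⟩

/-- What commutes with an element of sign `-1` lies in `Γ`. -/
theorem mem_gamma_of_commute (hm : 4 ≤ m) {g : ↥(Cfsg.Geo.quadSimilarityGroup (F := F) (⇑(qP F m)))}
    {σ : F ≃+* F} (hs : sgn (ev_qP hm) g = -1) {a : AutM} (ha : Commute a (form g σ)) : a ∈ ΓM := by
  rcases Nat.eq_or_lt_of_le hm with rfl | hm'
  swap
  · exact gamma_top_of_five hm' a
  obtain ⟨j, hj⟩ := exists_coset a
  set β := (psi F ^ (j : ℕ))⁻¹ * a with hβ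
  have ha' : a = psi F ^ (j : ℕ) * β := by rw [hβ, mul_inv_cancel_left]
  obtain ⟨b, τ, hb, hbs⟩ := form_conj hm hj g σ
  have key : psi F ^ (j : ℕ) * form b (τ * σ * τ⁻¹) * (psi F ^ (j : ℕ))⁻¹ = form g σ := by
    rw [← hb]
    calc psi F ^ (j : ℕ) * (β * form g σ * β⁻¹) * (psi F ^ (j : ℕ))⁻¹
        = (a * form g σ) * a⁻¹ := by rw [ha']; group
      _ = _ := by rw [ha.eq, mul_inv_cancel_right]
  fin_cases j
  · simp only [pow_zero, one_mul] at ha'
    exact ha' ▸ hj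
  · exfalso
    simp only [pow_one] at key
    exact psi_conj_not_mem (hbs.trans hs) (key ▸ form_mem_gamma g σ)
  · exfalso
    refine psi_conj_not_mem (ρ := σ) hs ?_
    simp only at key
    rw [← key, show psi F * (psi F ^ 2 * form b (τ * σ * τ⁻¹) * (psi F ^ 2)⁻¹) * (psi F)⁻¹ =
      psi F ^ 3 * form b (τ * σ * τ⁻¹) * (psi F ^ 3)⁻¹ by simp [pow_succ, mul_assoc], psi_pow_three,
      one_mul, inv_one, mul_one]
    exact form_mem_gamma _ _

end CfsgLib.LocalBalanceAut.POmegaPlus
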