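import Mathlib.GroupTheory.PGroup
import Mathlib.Tactic.Abel
import Mathlib.Tactic.Module
import Mathlib.Tactic.LinearCombination

/-!
# Twisted norms on abelian `3`-groups
-/

set_option autoImplicit false

namespace CfsgLib.LocalBalanceAut.Tri

universe u

/-- The `1 - r f` image contains every element of trivial `r f`-norm. -/
theorem mem_range_of_norm {A : Type u} [AddCommGroup A] (f r : A →+ A) {N : ℕ}
    (hN : ∀ z : A, (3 ^ N : ℕ) • z = 0)
    (hf : ∀ z, z + f z + f (f z) = 0) (hrf : ∀ z, r (f z) = f (r z)) (hr : ∀ z, r (r (r z)) = z)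
    (hdiff : ∀ z, ∃ y, r z - z = 3 • y) (hfix : ∀ z, r z = z → ∃ y, z = 3 • y)
    (htor : ∀ z, 3 • z = 0 → r z = z)
    {t : A} (ht : t + r (f t) + r (f (r (f t))) = 0) : ∃ s, t = s - r (f s) := by
  set R : AddSubgroup A := (AddMonoidHom.id A - r.comp f).range with hR
  suffices h : t ∈ R by
    obtain ⟨s, hs⟩ := h
    exact ⟨s, hs.symm⟩
  have hmem : ∀ z, z - r (f z) ∈ R := fun z => ⟨z, rfl⟩
  have hff : ∀ z, f (f z) = -z - f z := fun z => by
    have := hf z
    calc f (f z) = (z + f z + f (f z)) - z - f z := by abel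
      _ = -z - f z := by rw [this]; abel
  have hN3 : ∀ z, z + r z + r (r z) ∈ R := by
    intro z
    have h := hmem (z - r (f (f z)))
    have e : z - r (f (f z)) - r (f (z - r (f (f z)))) = z + r z + r (r z) := by
      simp only [map_sub, hrf, hff, map_neg]
      abel
    rwa [e] at h
  have hP : ∀ k : ℕ, ∀ z, ∃ w, 3 • z - (3 ^ k : ℕ) • (3 • w) ∈ R := by
    intro k
    induction k with
    | zero => exact fun z => ⟨z, by simp⟩
    | succ k ih =>
      intro z
      obtain ⟨w, hw⟩ := ih z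
      obtain ⟨v, rfl⟩ : ∃ v, w = r v := ⟨r (r w), (hr w).symm⟩
      obtain ⟨a, ha⟩ := hdiff v
      obtain ⟨b, hb⟩ := hdiff a
      have e : 3 • r v = (v + r v + r (r v)) - 3 • (3 • b) := by
        have h1 : r (r v) - r v - (r v - v) = 3 • (3 • b) := by
          rw [← map_sub, ha, map_nsmul, ← smul_sub, hb]
        rw [← h1]
        abel
      refine ⟨-b, ?_⟩
      have h2 : 3 • z - (3 ^ (k + 1) : ℕ) • (3 • -b) =
          (3 • z - (3 ^ k : ℕ) • (3 • r v)) + (3 ^ k : ℕ) • (v + r v + r (r v)) := by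
        rw [e, pow_succ]
        module
      rw [h2]
      exact R.add_mem hw (R.nsmul_mem (hN3 v) _)
  have h3 : ∀ z, 3 • z ∈ R := by
    intro z
    obtain ⟨w, hw⟩ := hP N z
    rwa [hN, sub_zero] at hw
  have hb : ∀ z, f z - z ∈ R := by
    intro z
    obtain ⟨y, hy⟩ := hdiff (f z)
    have e : f z - z = -(z - r (f z)) - 3 • y := by rw [← hy]; abel
    rw [e]
    exact R.sub_mem (R.neg_mem (hmem z)) (h3 y)
  set y := t + r t + r (f t) with hy
  have hry : r y = y := by
    rw [← sub_eq_zero, ← neg_eq_zero, ← ht, hy]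
    simp only [map_add, hrf, hff, map_neg, map_sub]
    abel
  obtain ⟨a, ha⟩ := hfix y hry
  obtain ⟨b, hb'⟩ := hdiff t
  obtain ⟨c, hc⟩ := hdiff (f t)
  have hc3 : f t - t = 3 • (a - b - c - t) := by
    simp only [smul_sub, ← ha, ← hb', ← hc, hy]
    abel
  set z := a - b - c - t
  set w := t + f (f (f z - z)) with hw
  have hfff : ∀ v, f (f (f v)) = v := fun v => by rw [hff (f v), hff v]; abel
  have hfw : f w = w := by
    rw [← sub_eq_zero, hw]
    have e : f (t + f (f (f z - z))) - (t + f (f (f z - z))) = (f t - t) - 3 • z := by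
      simp only [map_add, map_sub, hfff, hff, map_neg]
      abel
    rw [e, hc3, sub_self]
  have hw3 : 3 • w = 0 := by
    have := hf w
    rw [hfw, hfw] at this
    rw [← this]; abel
  obtain ⟨w', hw'⟩ := hfix w (htor w hw3)
  have ht' : t = 3 • w' - f (f (f z - z)) := by rw [← hw', hw]; abel
  rw [ht']
  refine R.sub_mem (h3 w') ?_
  rw [map_sub, map_sub, hfff]
  have e : z - f (f z) = -((f (f z) - f z) + (f z - z)) := by abel
  rw [e]
  exact R.neg_mem (R.add_mem (hb (f z)) (hb z))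

/-- The multiplicative form of `mem_range_of_norm`. -/
theorem exists_eq_mul_inv_of_norm {A : Type u} [CommGroup A] (f r : A →* A) {N : ℕ}
    (hN : ∀ z : A, z ^ (3 ^ N) = 1) (hf : ∀ z, z * f z * f (f z) = 1) (hrf : ∀ z, r (f z) = f (r z))
    (hr : ∀ z, r (r (r z)) = z) (hdiff : ∀ z, ∃ y, r z * z⁻¹ = y ^ 3)
    (hfix : ∀ z, r z = z → ∃ y, z = y ^ 3) (htor : ∀ z, z ^ 3 = 1 → r z = z)
    {t : A} (ht : t * r (f t) * r (f (r (f t))) = 1) : ∃ s, t = s * (r (f s))⁻¹ := by
  obtain ⟨s, hs⟩ := mem_range_of_norm (A := Additive A) (MonoidHom.toAdditive f) (MonoidHom.toAdditive r)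
    (N := N) (t := Additive.ofMul t) (fun z => hN z.toMul) (fun z => hf z.toMul) (fun z => hrf z.toMul)
    (fun z => hr z.toMul)
    (fun z => (hdiff z.toMul).imp' Additive.ofMul fun y hy => (sub_eq_add_neg _ _).trans hy)
    (fun z hz => (hfix z.toMul hz).imp' Additive.ofMul fun y hy => hy)
    (fun z hz => htor z.toMul hz) ht
  exact ⟨s.toMul, hs.trans (sub_eq_add_neg _ _)⟩

/-- An element of trivial norm under an automorphism of order three has order three. -/
theorem pow_three_eq_one_of_norm {S : Type u} [CommGroup S] (r : S →* S)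
    (hdiff : ∀ z, z ^ 9 = 1 → (r z * z⁻¹) ^ 3 = 1) (htor : ∀ z, z ^ 3 = 1 → r z = z) :
    ∀ (k : ℕ) (z : S), z ^ (3 ^ k) = 1 → z * r z * r (r z) = 1 → z ^ 3 = 1 := by
  intro k
  induction k with
  | zero => intro z hz _; simp_all
  | succ k ih =>
    intro z hz hn
    have h9 : z ^ 9 = 1 := by
      have := ih (z ^ 3) (by rw [← pow_mul, ← pow_succ']; exact hz) (by
        rw [map_pow, map_pow, ← mul_pow, ← mul_pow, hn, one_pow])
      rwa [← pow_mul] at this
    have he := hdiff z h9
    set e := r z * z⁻¹ with hedef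
    have h1 : r z = e * z := by rw [hedef, inv_mul_cancel_right]
    rw [h1, map_mul, htor e he, h1] at hn
    calc z ^ 3 = e ^ 3 * z ^ 3 := by rw [he, one_mul]
      _ = z * (e * z) * (e * (e * z)) := by simp only [pow_succ, pow_zero, one_mul]; ac_rfl
      _ = 1 := hn

end CfsgLib.LocalBalanceAut.Tri
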