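import Cfsg.Agent.Lib.LocalBalanceAut.TriMaps
import Mathlib.GroupTheory.GroupAction.Quotient

/-!
# Triality on the automorphism group of `PΩ⁺₈(q)`
-/

set_option autoImplicit false
set_option linter.unusedSectionVars false
set_option linter.style.haveILetI false
set_option maxHeartbeats 800000

open Matrix CfsgLib.OrthGen
open CfsgLib.ReflectionsSpinor CfsgLib.ReflectionsSpinor.POmegaAut CfsgLib.ReflectionsSpinor.POmegaQuot
  CfsgLib.ReflectionsSpinor.POmegaForms CfsgLib.ReflectionsSpinor.POmegaField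
open CfsgLib.Geometric (ap ap_mul ap_smul ap_one gl_ext)
open CfsgLib.Triality (nrm Tri phi2 phi3)
open CfsgLib.ReflectionsSpinor.POmegaTriality (L R cSim ap_L ap_R ap_c ap_scalar sim_ext)

namespace CfsgLib.LocalBalanceAut.Tri

universe u

variable {F : Type u} [Field F] [Finite F]

set_option quotPrecheck false in
local notation "SimP" => Cfsg.Geo.quadSimilarityGroup (F := F) (⇑(qP F 4))

set_option quotPrecheck false in
local notation "Aut4" => MulAut (Cfsg.POmega F (⇑(qP F 4)))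

set_option quotPrecheck false in
local notation "E4" => ev_qP (F := F) (le_refl 4)

set_option quotPrecheck false in
local notation "Γ4" => Cfsg.gammaPOmega F (⇑(qP F 4))

/-- The automorphism of a similarity. -/
noncomputable abbrev sA : ↥(Cfsg.Geo.quadSimilarityGroup (F := F) (⇑(qP F 4))) →*
    MulAut (Cfsg.POmega F (⇑(qP F 4))) := simAut (⇑(qP F 4))

theorem sA_mul (g h : ↥SimP) : sA (g * h) = sA g * sA h := MonoidHom.map_mul _ g h

theorem sA_one : sA (1 : ↥SimP) = 1 := MonoidHom.map_one _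

theorem sA_inv (g : ↥SimP) : sA g⁻¹ = (sA g)⁻¹ := MonoidHom.map_inv _ g

variable (F) in
/-- The conjugation automorphism. -/
noncomputable def ga : MulAut (Cfsg.POmega F (⇑(qP F 4))) := Classes.TrialityOut.gamma (F := F)

variable (F) in
/-- The first triality automorphism. -/
noncomputable def f2 : MulAut (Cfsg.POmega F (⇑(qP F 4))) := phi2 (F := F)

variable (F) in
/-- The second triality automorphism. -/
noncomputable def f3 : MulAut (Cfsg.POmega F (⇑(qP F 4))) := phi3 (F := F)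

theorem ga_mul_self : ga F * ga F = 1 := Classes.TrialityOut.gamma_mul_self
theorem f2_mul_self : f2 F * f2 F = 1 := Classes.TrialityOut.phi2_mul_self
theorem f2_ga : f2 F * ga F = ga F * f3 F := Classes.TrialityOut.phi2_mul_gamma
theorem f3_f2 : f3 F * f2 F = ga F * f3 F := Classes.TrialityOut.phi3_mul_phi2
theorem f2_not_mem : f2 F ∉ Γ4 := Triality.phi2_not_mem (F := F)

theorem ga_eq : ga F = sA cSim := by
  rw [ga, Classes.TrialityOut.gamma]
  exact POmegaTriality.simAut_eq_semiAut cSim _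

variable (F) in
/-- Triality of order three. -/
noncomputable def psi : MulAut (Cfsg.POmega F (⇑(qP F 4))) := ga F * f2 F

theorem psi_not_mem : psi F ∉ Γ4 := by
  intro h
  refine f2_not_mem (F := F) ?_
  have hg : ga F ∈ Γ4 := CfsgLib.ClassicalAut.Ortho.semiAut_mem_gamma _
  exact (Subgroup.mul_mem_cancel_left _ hg).1 h

theorem psi_simAut {k : F} {g g₂ g₃ : ↥SimP} (h : Tri k g.1 g₂.1 g₃.1) :
    psi F * sA g = sA (cSim * g₂ * cSim) * psi F := by
  have e : f2 F * sA g * (f2 F)⁻¹ = sA g₂ := POmegaTriality.phi2_conj h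
  rw [mul_inv_eq_iff_eq_mul] at e
  rw [psi, mul_assoc, e, ga_eq, sA_mul, sA_mul]
  have hc : sA (cSim (F := F)) * sA cSim = 1 := by rw [← sA_mul, cSim_mul_self, sA_one]
  calc sA cSim * (sA g₂ * f2 F) = sA cSim * sA g₂ * (sA cSim * sA cSim) * f2 F := by
        rw [hc, mul_one, mul_assoc]
    _ = sA cSim * sA g₂ * sA cSim * (sA cSim * f2 F) := by simp only [mul_assoc]

theorem ortho_semiAut_eq {g : GL (Fin 4 ⊕ Fin 4) F} {σ : F ≃+* F}
    (h : Cfsg.IsSemisimilarityPair (Cfsg.quadFormPlus 4 F) g σ) :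
    (CfsgLib.ClassicalAut.Ortho.semiAut h : Aut4) = semiAut g σ h :=
  (isInduced_iff (Q := ⇑(qP F 4)) h).1 (CfsgLib.ClassicalAut.Ortho.isInduced_semiAut h)

theorem psi_stdPlus (ρ : F ≃+* F) : psi F * stdPlus F 4 ρ = stdPlus F 4 ρ * psi F := by
  have h : Cfsg.IsSemisimilarityPair (Cfsg.quadFormPlus 4 F) 1 ρ := semi_of_comm (qP_comm (F := F) 4 ρ)
  have e := (Classes.TrialityOut.phi_mul_semiAut (F := F) Triality.Tri.one h h h).1
  have e0 : (CfsgLib.ClassicalAut.Ortho.semiAut h : Aut4) = stdPlus F 4 ρ := ortho_semiAut_eq h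
  have e' : f2 F * stdPlus F 4 ρ = stdPlus F 4 ρ * f2 F := by rw [← e0]; exact e
  have hg : ga F * stdPlus F 4 ρ = stdPlus F 4 ρ * ga F := by
    rw [ga_eq, stdPlus_mul_simAut]
    refine congrArg (fun z => sA z * _) (sim_ext fun x => ?_)
    obtain ⟨y, rfl⟩ : ∃ y, x = ρ ∘ y :=
      ⟨ρ.symm ∘ x, (CfsgLib.ReflectionsSpinor.POmegaAut.comp_symm_comp ρ x).symm⟩
    rw [ap_tw, ap_c, ap_c, Classes.TrialityOut.map_conj]
  rw [psi, mul_assoc, e', ← mul_assoc, hg, mul_assoc]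

theorem psi_pow_three : psi F ^ 3 = 1 := by
  have h5 : f3 F * ga F = ga F * f2 F := by
    calc f3 F * ga F = ga F * (ga F * f3 F) * ga F := by rw [← mul_assoc (ga F), ga_mul_self, one_mul]
      _ = ga F * f2 F * (ga F * ga F) := by rw [← f2_ga]; simp only [mul_assoc]
      _ = ga F * f2 F := by rw [ga_mul_self, mul_one]
  rw [psi, pow_succ, pow_two]
  calc ga F * f2 F * (ga F * f2 F) * (ga F * f2 F)
      = ga F * (f2 F * ga F) * f2 F * ga F * f2 F := by simp only [mul_assoc]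
    _ = ga F * ga F * (f3 F * f2 F) * ga F * f2 F := by rw [f2_ga]; simp only [mul_assoc]
    _ = ga F * (f3 F * ga F) * f2 F := by rw [ga_mul_self, f3_f2]; simp only [mul_assoc, one_mul]
    _ = ga F * ga F * (f2 F * f2 F) := by rw [h5]; simp only [mul_assoc]
    _ = 1 := by rw [ga_mul_self, f2_mul_self, one_mul]

theorem psi_gamma : psi F * sA cSim * (psi F)⁻¹ = f2 F := by
  rw [← ga_eq, mul_inv_eq_iff_eq_mul, psi, mul_assoc, f2_ga, ← mul_assoc, ga_mul_self, one_mul, ← mul_assoc,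
    f2_ga, mul_assoc, f3_f2, ← mul_assoc, ga_mul_self, one_mul]

theorem sA_eq_iff {g g' : ↥SimP} : sA g = sA g' ↔ ∃ l : Fˣ, g' = scalarSim l * g := by
  constructor
  · intro h
    have h1 : sA (g' * g⁻¹) = 1 := by rw [map_mul, map_inv, h, mul_inv_cancel]
    obtain ⟨c, hc0, hc⟩ := (simAut_eq_one_iff (E4).toNd.good _).1 h1
    refine ⟨Units.mk0 c hc0, ?_⟩
    rw [← show g' * g⁻¹ = scalarSim (Units.mk0 c hc0) from
      Subtype.ext (Units.ext (hc.trans (coe_scalarGL (Units.mk0 c hc0)).symm)), inv_mul_cancel_right]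
  · rintro ⟨l, rfl⟩
    rw [map_mul, simAut_scalarSim (E4).toNd, one_mul]

theorem sA_stdPlus_eq_iff {g g' : ↥SimP} {ρ ρ' : F ≃+* F} :
    sA g * stdPlus F 4 ρ = sA g' * stdPlus F 4 ρ' ↔ sA g = sA g' ∧ ρ = ρ' := by
  refine ⟨fun h => ?_, fun ⟨h, h'⟩ => by rw [h, h']⟩
  have h1 : sA (g'⁻¹ * g) = stdPlus F 4 ρ' * (stdPlus F 4 ρ)⁻¹ := by
    rw [map_mul, map_inv, inv_mul_eq_iff_eq_mul, ← mul_assoc, ← h, mul_inv_cancel_right]
  have hρ : ρ = ρ' := by
    rw [simAut_apply, stdPlus, stdPlus, semiAut_inv, semiAut_mul, ← mul_inv_eq_one, semiAut_inv, semiAut_mul,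
      semiAut_eq_one_iff (E4).toNd.good] at h1
    have h2 := h1.1
    simp only [one_mul, _root_.mul_inv_rev, inv_inv] at h2
    exact mul_inv_eq_one.1 h2
  subst hρ
  exact ⟨mul_right_cancel h, rfl⟩

theorem exists_of_mem_gamma {β : Aut4} (hβ : β ∈ Γ4) :
    ∃ (g : ↥SimP) (ρ : F ≃+* F), β = sA g * stdPlus F 4 ρ := by
  obtain ⟨g, τ, h, rfl⟩ := mem_gamma_iff.1 hβ
  have hg : g ∈ SimP := by
    obtain ⟨c, hc⟩ := h
    refine ⟨c, fun w => ?_⟩
    have := hc (τ.symm ∘ w)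
    rw [show (fun j => τ ((τ.symm ∘ w) j)) = w from funext fun j => τ.apply_symm_apply _,
      show qP F 4 (τ.symm ∘ w) = τ.symm (qP F 4 w) from qP_comm 4 τ.symm w,
      RingEquiv.apply_symm_apply] at this
    exact this
  refine ⟨⟨g, hg⟩, τ, ?_⟩
  rw [simAut_apply, stdPlus, semiAut_mul]
  exact semiAut_congr (by rw [gmap_one, mul_one]) (one_mul τ).symm

theorem sA_mem_gamma (g : ↥SimP) : sA g ∈ Γ4 := by
  show simAut (⇑(qP F 4)) g ∈ Γ4
  rw [simAut_apply]
  exact semiAut_mem_gamma _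

theorem std_mem_gamma (ρ : F ≃+* F) : stdPlus F 4 ρ ∈ Γ4 := semiAut_mem_gamma _

/-- Elements of sign one have companions. -/
theorem exists_tri {β : Aut4} (hβ : β ∈ (sgn E4).ker.map sA) :
    ∃ (g g₂ g₃ : ↥SimP) (k : F), β = sA g ∧ Tri k g.1 g₂.1 g₃.1 := by
  have hinn : ∀ {b : Aut4}, b ∈ Cfsg.Inn (Cfsg.POmega F (⇑(qP F 4))) →
      ∃ (g g₂ g₃ : ↥SimP) (k : F), b = sA g ∧ Tri k g.1 g₂.1 g₃.1 := by
    rintro b ⟨y, rfl⟩
    obtain ⟨s, rfl⟩ := cl_surjective y
    obtain ⟨t₂, t₃, k, hk⟩ := Triality.exists_hasTri (F := F) s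
    exact ⟨omegaSim _ s, omegaSim _ t₂, omegaSim _ t₃, k, inner_eq_simAut s, hk⟩
  by_cases h2 : (2 : F) = 0
  · rw [← inn_eq_of_two E4 h2] at hβ
    exact hinn hβ
  rw [← POmegaTriality.mulGroup_eq h2] at hβ
  induction hβ using Subgroup.closure_induction with
  | mem b hb =>
    rcases hb with hb | ⟨a, ha, rfl | rfl⟩
    · exact hinn hb
    · have ha' : nrm (Triality.conj a) ≠ 0 := by rwa [Triality.nrm_conj]
      exact ⟨L a ha, R a ha * L a ha, L (Triality.conj a) ha', (nrm a)⁻¹, rfl, inv_ne_zero ha, fun x y => by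
        rw [Subgroup.coe_mul, ap_mul, ap_L, ap_L, ap_R, ap_L, ← Triality.moufang_left,
          Triality.mul_conj_self, Triality.mul_smul_right, Triality.mul_smul_right, inv_smul_smul₀ ha]⟩
    · exact ⟨_, _, _, _, rfl, tri_R a ha (by rwa [Triality.nrm_conj])⟩
  | one => exact ⟨1, 1, 1, 1, (map_one _).symm, Triality.Tri.one⟩
  | mul a b _ _ iha ihb =>
    obtain ⟨g, g₂, g₃, k, rfl, h⟩ := iha
    obtain ⟨g', g₂', g₃', k', rfl, h'⟩ := ihb
    exact ⟨g * g', g₂ * g₂', g₃ * g₃', k * k', (map_mul _ _ _).symm, h.mul h'⟩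
  | inv a _ iha =>
    obtain ⟨g, g₂, g₃, k, rfl, h⟩ := iha
    exact ⟨g⁻¹, g₂⁻¹, g₃⁻¹, k⁻¹, (map_inv _ _).symm, h.inv⟩

theorem sgn_cSim : sgn E4 (cSim (F := F)) = -1 := by
  refine (Int.units_eq_one_or _).resolve_left fun h => ?_
  obtain ⟨g, g₂, g₃, k, he, ht⟩ := exists_tri (F := F) ⟨cSim, MonoidHom.mem_ker.2 h, rfl⟩
  refine f2_not_mem (F := F) ?_
  have := psi_gamma (F := F)
  rw [he, psi_simAut ht, mul_inv_cancel_right] at this
  exact this ▸ sA_mem_gamma _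

/-- An element of `Γ` whose triality conjugate lies in `Γ` has sign one. -/
theorem exists_tri_of_mem {n : Aut4} (hn : n ∈ Γ4) (hn' : psi F * n * (psi F)⁻¹ ∈ Γ4) :
    ∃ (g g₂ g₃ : ↥SimP) (k : F) (ρ : F ≃+* F), n = sA g * stdPlus F 4 ρ ∧ Tri k g.1 g₂.1 g₃.1 := by
  obtain ⟨g, ρ, rfl⟩ := exists_of_mem_gamma hn
  rcases Int.units_eq_one_or (sgn E4 g) with h | h
  · obtain ⟨g', g₂, g₃, k, he, ht⟩ := exists_tri (F := F) ⟨g, MonoidHom.mem_ker.2 h, rfl⟩
    exact ⟨g', g₂, g₃, k, ρ, by rw [← he], ht⟩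
  exfalso
  refine f2_not_mem (F := F) ?_
  obtain ⟨g', g₂, g₃, k, he, ht⟩ := exists_tri (F := F) ⟨g * cSim,
    MonoidHom.mem_ker.2 (by rw [map_mul, h, sgn_cSim]; decide), rfl⟩
  have e : sA g = sA g' * sA cSim := by
    rw [← he, ← sA_mul, mul_assoc, cSim_mul_self, mul_one]
  have e2 : psi F * (sA g * stdPlus F 4 ρ) * (psi F)⁻¹ =
      sA (cSim * g₂ * cSim) * f2 F * stdPlus F 4 ρ := by
    rw [e, show psi F * (sA g' * sA cSim * stdPlus F 4 ρ) * (psi F)⁻¹ = (psi F * sA g') *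
      sA cSim * (stdPlus F 4 ρ * (psi F)⁻¹) by simp only [mul_assoc], psi_simAut ht,
      show stdPlus F 4 ρ * (psi F)⁻¹ = (psi F)⁻¹ * stdPlus F 4 ρ from
        (Commute.inv_left (psi_stdPlus ρ)).eq.symm]
    rw [show sA (cSim * g₂ * cSim) * psi F * sA cSim * ((psi F)⁻¹ * stdPlus F 4 ρ) =
      sA (cSim * g₂ * cSim) * (psi F * sA cSim * (psi F)⁻¹) * stdPlus F 4 ρ by simp only [mul_assoc],
      psi_gamma]
  rw [e2, Subgroup.mul_mem_cancel_right _ (std_mem_gamma ρ),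
    Subgroup.mul_mem_cancel_left _ (sA_mem_gamma _)] at hn'
  exact hn'

theorem perm_three : ∀ σ π : Equiv.Perm (Fin 3), (∀ i, σ i ≠ i) → σ * π = π * σ → π * π * π = 1 := by
  decide

/-- Outside the conjugates of `Γ`, the `3'`-elements of a centraliser are in the core of `Γ`. -/
theorem mem_normalCore_of_coprime {x n : Aut4} (hx : ∀ c : Aut4, c⁻¹ * x * c ∉ Γ4)
    (hcomm : Commute x n) (hn : (orderOf n).Coprime 3) : n ∈ (Γ4).normalCore := by
  classical
  haveI : Finite Aut4 := Finite.of_injective _ DFunLike.coe_injective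
  rw [Subgroup.normalCore_eq_ker, MonoidHom.mem_ker]
  set θ := MulAction.toPermHom Aut4 (Aut4 ⧸ Γ4)
  have hcard : Nat.card (Aut4 ⧸ Γ4) = 3 := Triality.index_gamma
  let e : Aut4 ⧸ Γ4 ≃ Fin 3 := Finite.equivFinOfCardEq hcard
  let θ' : Aut4 →* Equiv.Perm (Fin 3) := e.permCongrHom.toMonoidHom.comp θ
  have h1 : θ' n * θ' n * θ' n = 1 := by
    refine perm_three (θ' x) (θ' n) (fun i hi => ?_) (by rw [← map_mul, ← map_mul, hcomm.eq])
    have h2 : θ x (e.symm i) = e.symm i := by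
      have := congrArg e.symm hi
      simpa [θ', Equiv.permCongrHom] using this
    induction hc : e.symm i using QuotientGroup.induction_on with
    | _ c =>
      rw [hc] at h2
      have h3 : ((x * c : Aut4) : Aut4 ⧸ Γ4) = (c : Aut4 ⧸ Γ4) := h2
      exact hx c (by simpa [mul_assoc] using QuotientGroup.eq.1 h3.symm)
  have h3 : θ' n ^ 3 = 1 := by rw [pow_succ, pow_two, h1]
  have h4 : θ' n = 1 := by
    have hd : orderOf (θ' n) ∣ Nat.gcd (orderOf n) 3 :=
      Nat.dvd_gcd (orderOf_map_dvd θ' n) (orderOf_dvd_of_pow_eq_one h3)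
    rw [hn] at hd
    exact orderOf_eq_one_iff.1 (Nat.dvd_one.1 hd)
  exact e.permCongrHom.injective (h4.trans (map_one _).symm)

end CfsgLib.LocalBalanceAut.Tri
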