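import Cfsg.Agent.Lib.LocalBalanceAut.TriClassify

/-!
# The classes of triality automorphisms of order three
-/

set_option autoImplicit false
set_option linter.unusedSectionVars false
set_option linter.unusedSimpArgs false
set_option linter.style.haveILetI false
set_option maxHeartbeats 1600000

open Matrix CfsgLib.OrthGen
open CfsgLib.ReflectionsSpinor CfsgLib.ReflectionsSpinor.POmegaAut CfsgLib.ReflectionsSpinor.POmegaQuot
  CfsgLib.ReflectionsSpinor.POmegaForms CfsgLib.ReflectionsSpinor.POmegaField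
open CfsgLib.Geometric (ap ap_mul ap_smul ap_one gl_ext)
open CfsgLib.ReflectionsSpinor.POmegaTriality (cSim ap_c sim_ext)

namespace CfsgLib.LocalBalanceAut.Tri

universe u

variable {F : Type u} [Field F] [Finite F] (Φ : Frame F)

set_option quotPrecheck false in
local notation "Aut4" => MulAut (Cfsg.POmega F (⇑(qP F 4)))

set_option quotPrecheck false in
local notation "Γ4" => Cfsg.gammaPOmega F (⇑(qP F 4))

/-- The classes of representatives. -/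
def Rep (x : MulAut (Cfsg.POmega F (⇑(qP F 4)))) : Prop :=
  ∃ (c : MulAut (Cfsg.POmega F (⇑(qP F 4)))) (d : K1 F) (ρ : F ≃+* F),
    c * x * c⁻¹ = Xel 1 d ρ ∧ d ^ 3 = 1 ∧ ρ ^ 3 = 1 ∧ (ρ = 1 ∨ d = 1)

theorem Rep.of_conj {x y : Aut4} (c : Aut4) (h : c * x * c⁻¹ = y) (hy : Rep y) : Rep x := by
  obtain ⟨b, d, ρ, he, hr⟩ := hy
  exact ⟨b * c, d, ρ, by rw [← he, ← h]; group, hr⟩

theorem Rep.of_semiconj {x y : Aut4} (c : Aut4) (h : c * x = y * c) (hy : Rep y) : Rep x :=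
  Rep.of_conj c (by rw [h, mul_inv_cancel_right]) hy

theorem conj_torus {X : Aut4} {g : T4 F →* T4 F} (hg : ∀ t, X * tt t = tt (g t) * X) (s t : T4 F) :
    tt s * (tt t * X) = tt (s * t * (g s)⁻¹) * X * tt s := by
  rw [mul_assoc (tt (s * t * (g s)⁻¹)), hg, ← mul_assoc, ← mul_assoc, ← map_mul, ← map_mul,
    inv_mul_cancel_right]

theorem pow_eq_one_of_semiconj {G : Type*} [Group G] {c x y : G} (h : c * x = y * c) {n : ℕ} (hx : x ^ n = 1) :
    y ^ n = 1 := by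
  rw [eq_mul_inv_of_mul_eq h.symm, conj_pow, hx, mul_one, mul_inv_cancel]

theorem cube_torus {X : Aut4} {g : T4 F →* T4 F} (hg : ∀ t, X * tt t = tt (g t) * X) (t : T4 F) :
    (tt t * X) ^ 3 = tt (t * g t * g (g t)) * X ^ 3 := by
  rw [pow_succ, pow_two, pow_succ, pow_two]
  simp only [← mul_assoc]
  rw [mul_assoc (tt t) X (tt t), hg, ← mul_assoc, ← map_mul]
  rw [mul_assoc (tt (t * g t)) X X, mul_assoc (tt (t * g t)) (X * X) (tt t), mul_assoc X X (tt t), hg,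
    ← mul_assoc X, hg, ← mul_assoc, ← mul_assoc, ← map_mul]

include Φ in
theorem eq_of_power {t : T4 F} {ρ : F ≃+* F} (h3 : (3 : F) ≠ 0) (h : tt t * stdPlus F 4 ρ = 1) :
    t = 1 ∧ ρ = 1 := by
  have := normal_form_inj Φ h3 (t := t) (t' := 1) (i := 0) (i' := 0) (ρ := ρ) (ρ' := 1) (j := 0) (j' := 0)
    (by simpa [stdPlus_one] using h)
  exact ⟨this.1, this.2.2.1⟩

theorem std_pow (ρ : F ≃+* F) (n : ℕ) : stdPlus F 4 ρ ^ n = stdPlus F 4 (ρ ^ n) :=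
  ((stdHom F).map_pow ρ n).symm

theorem ga_stdPlus (ρ : F ≃+* F) : sA cSim * stdPlus F 4 ρ = stdPlus F 4 ρ * sA (cSim (F := F)) := by
  rw [stdPlus_mul_simAut]
  refine congrArg (fun z => sA z * _) (sim_ext fun x => ?_)
  obtain ⟨y, rfl⟩ : ∃ y, x = ρ ∘ y :=
    ⟨ρ.symm ∘ x, (CfsgLib.ReflectionsSpinor.POmegaAut.comp_symm_comp ρ x).symm⟩
  rw [ap_tw, ap_c, ap_c, Classes.TrialityOut.map_conj]

theorem hom_cube_range (h3 : (3 : F) ≠ 0) (ρ : F ≃+* F) (z : ↥(S3 F)) :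
    ∃ y, rS ρ z * z⁻¹ = y ^ 3 := by
  let δ : ↥(S3 F) →* ↥(S3 F) := rS ρ / MonoidHom.id _
  refine exists_cube_root h3 δ.range (fun htop => ?_) ⟨z, div_eq_mul_inv _ _⟩
  have hinj : Function.Injective δ :=
    Finite.injective_iff_surjective.2 (MonoidHom.range_eq_top.1 htop)
  have h1 : (uS : ↥(S3 F)) = 1 := hinj (by
    rw [map_one]
    exact (div_eq_one.2 (rS_uS ρ)))
  exact uK_ne_one (congrArg Subtype.val h1)

theorem fixed_cube (h3 : (3 : F) ≠ 0) {ρ : F ≃+* F} (hρ : orderOf ρ = 3) {z : ↥(S3 F)} (hz : rS ρ z = z) :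
    ∃ y, z = y ^ 3 := by
  obtain ⟨w, hw⟩ := exists_rS_ne h3 hρ
  refine exists_cube_root h3 ((rS ρ).eqLocus (MonoidHom.id _)) (fun h => hw ?_) hz
  exact (h ▸ Subgroup.mem_top w : w ∈ (rS ρ).eqLocus (MonoidHom.id _))

theorem cube_fixed (h3 : (3 : F) ≠ 0) (ρ : F ≃+* F) {z : ↥(S3 F)} (hz : z ^ 3 = 1) : rS ρ z = z := by
  rcases S3_cube h3 hz with rfl | rfl | rfl
  · exact map_one _
  · exact rS_uS ρ
  · rw [map_mul, rS_uS]

include Φ in
/-- The torus part of a standard triality element can be removed. -/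
theorem case_zero (h3 : (3 : F) ≠ 0) (t : T4 F) (ρ : F ≃+* F)
    (hx : (tt t * (stdPlus F 4 ρ * psi F)) ^ 3 = 1) : Rep (tt t * (stdPlus F 4 ρ * psi F)) := by
  set X := stdPlus F 4 ρ * psi F with hX
  have hg : ∀ s, X * tt s = tt (((rT ρ).comp cyc) s) * X := fun s => by
    rw [hX, mul_assoc, psi_tt, ← mul_assoc, std_tt Φ, mul_assoc]
    rfl
  have hX3 : X ^ 3 = stdPlus F 4 (ρ ^ 3) := by
    rw [hX, (Commute.mul_pow (psi_stdPlus ρ).symm), psi_pow_three, mul_one, std_pow]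
  rw [cube_torus hg, hX3] at hx
  obtain ⟨hn, hρ⟩ := eq_of_power Φ h3 hx
  obtain ⟨A, B, C, D⟩ := t
  have hA := congrArg Prod.fst hn
  have hD := congrArg (fun q : T4 F => q.2.2.2) hn
  simp [rT, cyc, rS_rS] at hA hD
  have hA' : rS (ρ * ρ) A * C * rS ρ B = 1 := by
    have := congrArg (rS (ρ * ρ)) hA
    simp only [map_mul, map_one, rS_rS] at this
    rwa [show ρ * ρ * ρ = 1 by rw [← pow_two, ← pow_succ, hρ], rS_one,
      show ρ * ρ * (ρ * ρ) = ρ by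
        rw [← mul_assoc, show ρ * ρ * ρ = 1 by rw [← pow_two, ← pow_succ, hρ], one_mul]]
      at this
  have hρr : ∀ z, rS ρ (rS (ρ * ρ) z) = z := fun z => by
    rw [rS_rS, show ρ * (ρ * ρ) = 1 by rw [← mul_assoc, ← pow_two, ← pow_succ, hρ], rS_one]
  obtain ⟨e, hfin⟩ : ∃ e, (e * D * (rS ρ e)⁻¹) ^ 3 = 1 ∧ (ρ = 1 ∨ e * D * (rS ρ e)⁻¹ = 1) := by
    by_cases hρ1 : ρ = 1
    · subst hρ1
      refine ⟨1, ?_, Or.inl rfl⟩
      simp only [mul_one, one_mul, map_one, inv_one]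
      simp only [mul_one, rS_one] at hD
      rw [pow_succ, pow_two, hD]
    · have hord : orderOf ρ = 3 := by
        haveI : Fact (Nat.Prime 3) := ⟨Nat.prime_three⟩
        exact orderOf_eq_prime hρ hρ1
      obtain ⟨n, hn'⟩ := isPGroup_S3 D
      have hD3 : D ^ 3 = 1 := by
        refine pow_three_eq_one_of_norm (rS ρ) (fun z hz => ?_) (fun z hz => cube_fixed h3 ρ hz) n D hn'
          (by rw [rS_rS]; exact hD)
        have h9 : (z ^ 3) ^ 3 = 1 := by rw [← pow_mul]; exact hz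
        rw [mul_pow, ← map_pow, cube_fixed h3 ρ h9, inv_pow, mul_inv_cancel]
      haveI : Fact (Nat.Prime 3) := ⟨Nat.prime_three⟩
      let δ : ↥(S3 F) →* ↥(S3 F) := rS ρ / MonoidHom.id _
      have hu : (uS : ↥(S3 F)) ∈ δ.range := by
        obtain ⟨w, hw⟩ := exists_rS_ne h3 hord
        haveI : Nontrivial ↥δ.range :=
          ⟨⟨⟨_, w, rfl⟩, 1, fun h => hw (div_eq_one.1 (congrArg Subtype.val h))⟩⟩
        obtain ⟨k, hk0, hk⟩ := ((isPGroup_S3 (F := F)).to_subgroup δ.range).nontrivial_iff_card.1 inferInstance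
        obtain ⟨⟨y, hy⟩, hyo⟩ := exists_prime_orderOf_dvd_card' 3 (hk ▸ dvd_pow_self 3 hk0.ne')
        have hy' : orderOf y = 3 := (Subgroup.orderOf_coe (⟨y, hy⟩ : δ.range)).trans hyo
        have hy3 : y ^ 3 = 1 := hy' ▸ pow_orderOf_eq_one y
        rcases S3_cube h3 hy3 with rfl | rfl | rfl
        · simp at hy'
        · exact hy
        · have := δ.range.pow_mem hy 2
          rwa [← pow_two, ← pow_mul, show 2 * 2 = 3 + 1 from rfl, pow_succ,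
            show (uS : ↥(S3 F)) ^ 3 = 1 from Subtype.ext (uK_pow_three), one_mul] at this
      have hDr : D ∈ δ.range := by
        rcases S3_cube h3 hD3 with rfl | rfl | rfl
        · exact δ.range.one_mem
        · exact hu
        · exact δ.range.mul_mem hu hu
      obtain ⟨e, he⟩ := hDr
      have he' : rS ρ e * e⁻¹ = D := by rw [← div_eq_mul_inv]; exact he
      refine ⟨e, ?_⟩
      have : e * D * (rS ρ e)⁻¹ = 1 := by
        rw [← he', mul_comm e, inv_mul_cancel_right, mul_inv_cancel]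
      exact ⟨by rw [this, one_pow], Or.inr this⟩
  set s : T4 F := (1, B⁻¹, rS (ρ * ρ) A, e)
  refine Rep.of_semiconj (tt s) (conj_torus hg s (A, B, C, D)) ?_
  refine ⟨1, ((e * D * (rS ρ e)⁻¹ : ↥(S3 F)) : K1 F), ρ, ?_, congrArg Subtype.val hfin.1, hρ,
    hfin.2.imp_right fun h => congrArg Subtype.val h⟩
  have hs : s * (A, B, C, D) * ((rT ρ).comp cyc s)⁻¹ = (1, 1, 1, e * D * (rS ρ e)⁻¹) := by
    refine Prod.ext ?_ (Prod.ext ?_ (Prod.ext ?_ ?_)) <;> simp [s, rT, cyc, hρr]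
    exact hA'
  rw [hs, one_mul, inv_one, mul_one, tt_apply, Xel, hX, ← mul_assoc]
  rfl

theorem tt_D_W (d : ↥(S3 F)) :
    tt (1, 1, 1, d) * W Φ = sA (uu Φ (diagSU 1 (d : K1 F) (d : K1 F)⁻¹ (by simp) * wSU)) := by
  rw [map_mul (uu Φ), sA_mul, ← tor_eq_uu Φ, tt_apply]
  rfl

theorem conj_diagonaliser (h3 : (3 : F) ≠ 0) (d : ↥(S3 F)) (ρ : F ≃+* F) (hd : rS ρ d = d) :
    (sA (uu Φ (diagonaliser h3 (d : K1 F))))⁻¹ * (tt (1, 1, 1, d) * W Φ * (stdPlus F 4 ρ * psi F)) =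
      tt (1, 1, 1, uS) * (stdPlus F 4 ρ * psi F) * (sA (uu Φ (diagonaliser h3 (d : K1 F))))⁻¹ := by
  set U := diagonaliser h3 (d : K1 F)
  have hc : Commute (sA (uu Φ U)) (stdPlus F 4 ρ * psi F) := by
    refine Commute.mul_right ?_ (psi_uu Φ U).symm
    show _ = _
    rw [std_uu, rSU_diagonaliser, show rK1 ρ (d : K1 F) = d from congrArg Subtype.val hd]
  have key : tt (1, 1, 1, d) * W Φ * sA (uu Φ U) = sA (uu Φ U) * tt (1, 1, 1, uS) := by
    rw [tt_D_W, ← sA_mul, ← map_mul (uu Φ), mul_diagonaliser, map_mul (uu Φ), sA_mul, ← tor_eq_uu Φ]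
    rfl
  have hB := hc.inv_left.eq
  generalize sA (uu Φ U) = u at key hB ⊢
  generalize tt (1, 1, 1, d) * W Φ = A at key ⊢
  generalize stdPlus F 4 ρ * psi F = B at hB ⊢
  calc u⁻¹ * (A * B) = u⁻¹ * (A * u) * (u⁻¹ * B) := by group
    _ = u⁻¹ * (u * tt (1, 1, 1, uS)) * (B * u⁻¹) := by rw [key, hB]
    _ = tt (1, 1, 1, uS) * B * u⁻¹ := by group

theorem nn_commute_W : Commute (sA (nn Φ)) (W Φ * psi F) := by
  show _ = _
  rw [mul_assoc, psi_simAut (tri_nn Φ), ← mul_assoc, ← mul_assoc, W, ← sA_mul, ← sA_mul, nn_commutes Φ,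
    sA_mul (scalarSim _), simAut_scalarSim (ev_qP (F := F) (le_refl 4)).toNd, one_mul]

theorem case_axis (h3 : (3 : F) ≠ 0) (d : ↥(S3 F)) (hx : (tt (1, 1, 1, d) * (W Φ * psi F)) ^ 3 = 1) :
    Rep (tt (1, 1, 1, d) * (W Φ * psi F)) := by
  have h := conj_diagonaliser Φ h3 d 1 (rS_one d)
  rw [stdPlus_one, one_mul, mul_assoc] at h
  refine Rep.of_semiconj _ h (Eq.mp (by rw [stdPlus_one, one_mul]) (case_zero Φ h3 (1, 1, 1, uS) 1 ?_))
  rw [stdPlus_one, one_mul]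
  have := congrArg (· ^ 3) (mul_inv_eq_iff_eq_mul.2 h)
  simp only [conj_pow, hx, mul_one, mul_inv_cancel] at this
  exact this.symm

theorem case_one_trivial (h3 : (3 : F) ≠ 0) (t : T4 F) (hx : (tt t * (W Φ * psi F)) ^ 3 = 1) :
    Rep (tt t * (W Φ * psi F)) := by
  set X := W Φ * psi F with hX
  have hg : ∀ s, X * tt s = tt (ff s) * X := fun s => W_psi_tt Φ h3 s
  have hnorm : ∀ s, (tt s * X) ^ 3 = 1 := fun s => by
    rw [cube_torus hg, ff_norm h3, map_one, one_mul, hX, (Commute.mul_pow (psi_W Φ).symm),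
      W_pow_three, psi_pow_three, one_mul]
  let δ : T4 F →* T4 F := MonoidHom.id (T4 F) / ff
  set R := δ.range with hR
  have hmove : ∀ {s r : T4 F}, r ∈ R → Rep (tt (s * r) * X) → Rep (tt s * X) := by
    rintro s _ ⟨a, rfl⟩ h
    refine Rep.of_semiconj (tt a) (conj_torus hg a s) ?_
    have e : a * s * (ff a)⁻¹ = s * δ a := by
      rw [MonoidHom.div_apply, MonoidHom.id_apply, div_eq_mul_inv, mul_comm a s, mul_assoc]
    rwa [e]
  have hcube : ∀ s : T4 F, s ^ 3 ∈ R := fun s => by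
    refine ⟨s * (ff (ff s))⁻¹, ?_⟩
    rw [MonoidHom.div_apply, MonoidHom.id_apply, map_mul, map_inv]
    have hf := ff_norm h3
    have h4 : ff (ff (ff s)) = s := by
      have e1 := hf (ff s)
      have e2 := hf s
      refine mul_left_cancel (a := ff s * ff (ff s)) (e1.trans ?_)
      rw [← e2]
      ac_rfl
    rw [h4]
    have e3 : ff (ff s) = s⁻¹ * (ff s)⁻¹ := by
      rw [eq_inv_mul_iff_mul_eq, eq_inv_iff_mul_eq_one, mul_assoc, mul_comm (ff (ff s)), ← mul_assoc]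
      exact hf s
    rw [e3, div_eq_mul_inv, pow_succ, pow_two]
    apply Additive.ofMul.injective
    simp only [ofMul_mul, ofMul_inv]
    abel
  have hff0 : ∀ s : T4 F, ff (s ^ 2) = f0 s := fun s => by
    rw [ff, MonoidHom.comp_apply, MonoidHom.map_pow (root (F := F)), root_spec h3]
  have hcol : ∀ z : ↥(S3 F), ((z, z, z, 1) : T4 F) ∈ R ∧ ((1, z⁻¹, z, z) : T4 F) ∈ R := by
    intro z
    constructor
    · have h1 : ((z⁻¹, z⁻¹, z⁻¹, z ^ 3) : T4 F) ∈ R := by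
        refine ⟨((1, 1, 1, z) : T4 F) ^ 2, ?_⟩
        rw [MonoidHom.div_apply, MonoidHom.id_apply, hff0]
        refine Prod.ext ?_ (Prod.ext ?_ (Prod.ext ?_ ?_)) <;> simp [f0, pow_succ]
      have h2 := R.mul_mem (R.inv_mem h1) (hcube ((1, 1, 1, z) : T4 F))
      simpa using h2
    · have h1 : ((z ^ 3, z⁻¹, z, z) : T4 F) ∈ R := by
        refine ⟨((z, 1, 1, 1) : T4 F) ^ 2, ?_⟩
        rw [MonoidHom.div_apply, MonoidHom.id_apply, hff0]
        refine Prod.ext ?_ (Prod.ext ?_ (Prod.ext ?_ ?_)) <;> simp [f0, pow_succ]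
      have h2 := R.mul_mem h1 (R.inv_mem (hcube ((z, 1, 1, 1) : T4 F)))
      simpa using h2
  have hD : ∀ d : ↥(S3 F), Rep (tt ((1, 1, 1, d) : T4 F) * X) := fun d =>
    case_axis Φ h3 d (hnorm _)
  have hA : ∀ a : ↥(S3 F), Rep (tt ((a, 1, 1, 1) : T4 F) * X) := fun a => by
    refine Rep.of_semiconj (sA (nn Φ)) ?_ (hD a)
    rw [← mul_assoc, tt_apply, ← sA_mul, nn_tor Φ, sA_mul, mul_assoc, hX, (nn_commute_W Φ).eq, ← mul_assoc]
    simp [tt_apply]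
  have hpsi : ∀ s : T4 F, psi F * (tt s * X) = tt (cyc s) * X * psi F := fun s => by
    rw [← mul_assoc, psi_tt, mul_assoc, hX, ← mul_assoc (psi F), psi_W, ← mul_assoc]
  have hC : ∀ c : ↥(S3 F), Rep (tt ((1, 1, c, 1) : T4 F) * X) := fun c =>
    Rep.of_semiconj (psi F) (hpsi _) (hA c)
  have hB : ∀ b : ↥(S3 F), Rep (tt ((1, b, 1, 1) : T4 F) * X) := fun b =>
    Rep.of_semiconj (psi F) (hpsi _) (hC b)
  obtain ⟨A, B, C, D⟩ := t
  refine hmove (R.mul_mem (R.inv_mem (hcol A).1) (R.inv_mem (hcol D).2)) ?_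
  have e : ((A, B, C, D) : T4 F) * (((A, A, A, 1) : T4 F)⁻¹ * ((1, D⁻¹, D, D) : T4 F)⁻¹) =
      (1, B * A⁻¹ * D, C * A⁻¹ * D⁻¹, 1) := by
    refine Prod.ext ?_ (Prod.ext ?_ (Prod.ext ?_ ?_)) <;> simp [mul_assoc]
  rw [e]
  set p := B * A⁻¹ * D
  set q := C * A⁻¹ * D⁻¹
  obtain ⟨g, hg'⟩ := exists_generator h3
  obtain ⟨i, hi⟩ := mem_powers_iff_mem_zpowers.2 (hg' p)
  obtain ⟨j, hj⟩ := mem_powers_iff_mem_zpowers.2 (hg' q)
  change g ^ i = p at hi
  change g ^ j = q at hj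
  have hcases : 3 ∣ i ∨ 3 ∣ j ∨ i % 3 = j % 3 ∨ 3 ∣ i + j := by omega
  have hone : ∀ a b c d : ↥(S3 F), ((a ^ 3, b ^ 3, c ^ 3, d ^ 3) : T4 F) ∈ R := fun a b c d =>
    hcube (a, b, c, d)
  rcases hcases with ⟨k, rfl⟩ | ⟨k, rfl⟩ | h | ⟨k, hk⟩
  · refine hmove (R.inv_mem (hone 1 (g ^ k) 1 1)) ?_
    rw [show ((1, p, q, 1) : T4 F) * ((1 ^ 3, (g ^ k) ^ 3, 1 ^ 3, 1 ^ 3) : T4 F)⁻¹ = (1, 1, q, 1) by
      rw [← hi, ← pow_mul, mul_comm k 3]; simp]
    exact hC q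
  · refine hmove (R.inv_mem (hone 1 1 (g ^ k) 1)) ?_
    rw [show ((1, p, q, 1) : T4 F) * ((1 ^ 3, 1 ^ 3, (g ^ k) ^ 3, 1 ^ 3) : T4 F)⁻¹ = (1, p, 1, 1) by
      rw [← hj, ← pow_mul, mul_comm k 3]; simp]
    exact hB p
  · -- `q ≡ p`
    refine hmove (R.mul_mem (R.inv_mem (hcol p).1) (R.mul_mem (R.inv_mem (hone 1 1 (g ^ (j / 3)) 1))
      (hone 1 1 (g ^ (i / 3)) 1))) ?_
    have hq : q * p⁻¹ * (((g ^ (j / 3)) ^ 3)⁻¹ * (g ^ (i / 3)) ^ 3) = 1 := by
      have e1 : g ^ j = g ^ (j % 3) * (g ^ (j / 3)) ^ 3 := by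
        rw [← pow_mul, ← pow_add]; congr 1; omega
      have e2 : g ^ i = g ^ (i % 3) * (g ^ (i / 3)) ^ 3 := by
        rw [← pow_mul, ← pow_add]; congr 1; omega
      rw [← hi, ← hj, e1, e2, h]
      apply Additive.ofMul.injective
      simp only [ofMul_mul, ofMul_inv, ofMul_one]
      abel
    rw [show ((1, p, q, 1) : T4 F) * (((p, p, p, 1) : T4 F)⁻¹ *
      (((1 ^ 3, 1 ^ 3, (g ^ (j / 3)) ^ 3, 1 ^ 3) : T4 F)⁻¹ * (1 ^ 3, 1 ^ 3, (g ^ (i / 3)) ^ 3, 1 ^ 3))) =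
      (p⁻¹, 1, 1, 1) by
        refine Prod.ext ?_ (Prod.ext ?_ (Prod.ext ?_ ?_)) <;> simp [← mul_assoc]
        simpa [← mul_assoc] using hq]
    exact hA _
  · -- `q ≡ p⁻¹`
    refine hmove (R.mul_mem (hcol p).2 (R.inv_mem (hone 1 1 (g ^ k) 1))) ?_
    rw [show ((1, p, q, 1) : T4 F) * (((1, p⁻¹, p, p) : T4 F) *
      ((1 ^ 3, 1 ^ 3, (g ^ k) ^ 3, 1 ^ 3) : T4 F)⁻¹) = (1, 1, 1, p) by
        have hq : q * p * ((g ^ k) ^ 3)⁻¹ = 1 := by
          rw [← hi, ← hj, ← pow_add, ← pow_mul, mul_inv_eq_one]; congr 1; omega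
        refine Prod.ext ?_ (Prod.ext ?_ (Prod.ext ?_ ?_)) <;> simp [← mul_assoc]
        simpa [← mul_assoc] using hq]
    exact hD p

theorem rT_mk (ρ : F ≃+* F) (a b c d : ↥(S3 F)) :
    rT ρ (a, b, c, d) = (rS ρ a, rS ρ b, rS ρ c, rS ρ d) := rfl

theorem f0_mk (a b c d : ↥(S3 F)) :
    f0 (a, b, c, d) = (c * d * (a * b)⁻¹, a * d * (b * c)⁻¹, b * d * (c * a)⁻¹, (a * b * c * d)⁻¹) := rfl

theorem rT_f0 (ρ : F ≃+* F) (s : T4 F) : rT ρ (f0 s) = f0 (rT ρ s) := by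
  obtain ⟨a, b, c, d⟩ := s
  rw [f0_mk, rT_mk, rT_mk, f0_mk]
  simp only [map_mul, map_inv]

theorem rT_ff (ρ : F ≃+* F) (z : T4 F) : rT ρ (ff z) = ff (rT ρ z) := by
  rw [ff, MonoidHom.comp_apply, MonoidHom.comp_apply, rT_f0, root, powMonoidHom_apply, powMonoidHom_apply]
  exact congrArg f0 (MonoidHom.map_pow (rT ρ) z _)

theorem std_W_psi_tt (h3 : (3 : F) ≠ 0) (ρ : F ≃+* F) (s : T4 F) :
    stdPlus F 4 ρ * (W Φ * psi F) * tt s = tt (((rT ρ).comp ff) s) * (stdPlus F 4 ρ * (W Φ * psi F)) :=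
  calc stdPlus F 4 ρ * (W Φ * psi F) * tt s = stdPlus F 4 ρ * (W Φ * psi F * tt s) := mul_assoc _ _ _
    _ = stdPlus F 4 ρ * (tt (ff s) * (W Φ * psi F)) := congrArg (fun z => stdPlus F 4 ρ * z) (W_psi_tt Φ h3 s)
    _ = stdPlus F 4 ρ * tt (ff s) * (W Φ * psi F) := (mul_assoc _ _ _).symm
    _ = tt (rT ρ (ff s)) * stdPlus F 4 ρ * (W Φ * psi F) :=
        congrArg (fun z => z * (W Φ * psi F)) (std_tt Φ ρ (ff s))
    _ = _ := mul_assoc _ _ _

theorem case_one (h3 : (3 : F) ≠ 0) (t : T4 F) (ρ : F ≃+* F)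
    (hx : (tt t * (W Φ * (stdPlus F 4 ρ * psi F))) ^ 3 = 1) :
    Rep (tt t * (W Φ * (stdPlus F 4 ρ * psi F))) := by
  by_cases hρ1 : ρ = 1
  · have e : W Φ * (stdPlus F 4 ρ * psi F) = W Φ * psi F :=
      (congrArg (fun z => W Φ * (z * psi F)) ((congrArg (stdPlus F 4) hρ1).trans stdPlus_one)).trans
        (congrArg (fun z => W Φ * z) (one_mul (psi F)))
    rw [e] at hx ⊢
    exact case_one_trivial Φ h3 t hx
  have hX0 : W Φ * (stdPlus F 4 ρ * psi F) = stdPlus F 4 ρ * (W Φ * psi F) := by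
    rw [← mul_assoc, ← std_W, mul_assoc]
  rw [hX0] at hx ⊢
  have hcomm : Commute (stdPlus F 4 ρ) (W Φ * psi F) :=
    Commute.mul_right (std_W Φ ρ) (psi_stdPlus ρ).symm
  have hX3 : (stdPlus F 4 ρ * (W Φ * psi F)) ^ 3 = stdPlus F 4 (ρ ^ 3) := by
    rw [hcomm.mul_pow, Commute.mul_pow (psi_W Φ).symm, W_pow_three, psi_pow_three, one_mul, mul_one,
      std_pow]
  have hg : ∀ s, stdPlus F 4 ρ * (W Φ * psi F) * tt s =
      tt (((rT ρ).comp ff) s) * (stdPlus F 4 ρ * (W Φ * psi F)) := fun s => std_W_psi_tt Φ h3 ρ s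
  have hx1 : tt (t * (rT ρ).comp ff t * (rT ρ).comp ff ((rT ρ).comp ff t)) * stdPlus F 4 (ρ ^ 3) = 1 :=
    (congrArg (fun z => tt (t * (rT ρ).comp ff t * (rT ρ).comp ff ((rT ρ).comp ff t)) * z) hX3.symm).trans
      ((cube_torus hg t).symm.trans hx)
  have hne := eq_of_power Φ h3 hx1
  have hn := hne.1
  have hρ := hne.2
  haveI : Fact (Nat.Prime 3) := ⟨Nat.prime_three⟩
  have hord : orderOf ρ = 3 := orderOf_eq_prime hρ hρ1
  obtain ⟨N, hN⟩ : ∃ N, Nat.card ↥(S3 F) = 3 ^ N := ⟨_, card_S3 h3⟩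
  have hrr : ∀ z : T4 F, rT ρ (rT ρ (rT ρ z)) = z := fun z => by
    obtain ⟨a, b, c, d⟩ := z
    have e : ρ * (ρ * ρ) = 1 := by rw [← mul_assoc, ← pow_two, ← pow_succ, hρ]
    simp [rT, rS_rS, e, rS_one]
  have hrf : ∀ z : T4 F, rT ρ (ff z) = ff (rT ρ z) := rT_ff ρ
  have hN' : ∀ z : T4 F, z ^ (3 ^ N) = 1 := fun z => by
    rw [← hN]
    exact Prod.ext (pow_card_S3 _) (Prod.ext (pow_card_S3 _) (Prod.ext (pow_card_S3 _) (pow_card_S3 _)))
  have hdiff : ∀ z : T4 F, ∃ y, rT ρ z * z⁻¹ = y ^ 3 := fun z => by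
    obtain ⟨ya, ha⟩ := hom_cube_range h3 ρ z.1
    obtain ⟨yb, hb⟩ := hom_cube_range h3 ρ z.2.1
    obtain ⟨yc, hc⟩ := hom_cube_range h3 ρ z.2.2.1
    obtain ⟨yd, hd⟩ := hom_cube_range h3 ρ z.2.2.2
    exact ⟨(ya, yb, yc, yd), Prod.ext ha (Prod.ext hb (Prod.ext hc hd))⟩
  have hfix : ∀ z : T4 F, rT ρ z = z → ∃ y, z = y ^ 3 := fun z hz => by
    obtain ⟨ya, ha⟩ := fixed_cube h3 hord (congrArg (fun q : T4 F => q.1) hz)
    obtain ⟨yb, hb⟩ := fixed_cube h3 hord (congrArg (fun q : T4 F => q.2.1) hz)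
    obtain ⟨yc, hc⟩ := fixed_cube h3 hord (congrArg (fun q : T4 F => q.2.2.1) hz)
    obtain ⟨yd, hd⟩ := fixed_cube h3 hord (congrArg (fun q : T4 F => q.2.2.2) hz)
    exact ⟨(ya, yb, yc, yd), Prod.ext ha (Prod.ext hb (Prod.ext hc hd))⟩
  have htor : ∀ z : T4 F, z ^ 3 = 1 → rT ρ z = z := fun z hz =>
    Prod.ext (cube_fixed h3 ρ (congrArg (fun q : T4 F => q.1) hz))
      (Prod.ext (cube_fixed h3 ρ (congrArg (fun q : T4 F => q.2.1) hz))
      (Prod.ext (cube_fixed h3 ρ (congrArg (fun q : T4 F => q.2.2.1) hz))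
        (cube_fixed h3 ρ (congrArg (fun q : T4 F => q.2.2.2) hz))))
  have hn' : t * rT ρ (ff t) * rT ρ (ff (rT ρ (ff t))) = 1 := hn
  have hex : ∃ s : T4 F, t = s * (rT ρ (ff s))⁻¹ :=
    exists_eq_mul_inv_of_norm (A := T4 F) (N := N) ff (rT ρ) hN' (fun z => ff_norm h3 z) hrf hrr hdiff hfix htor
      (t := t) hn'
  obtain ⟨s, hs'⟩ := hex
  refine Rep.of_semiconj (tt s⁻¹) (conj_torus hg s⁻¹ t) ?_
  rw [show s⁻¹ * t * ((rT ρ).comp ff s⁻¹)⁻¹ = 1 by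
    rw [hs', map_inv, inv_inv, MonoidHom.comp_apply, inv_mul_cancel_left, inv_mul_cancel], map_one, one_mul]
  have h := conj_diagonaliser Φ h3 1 ρ (map_one _)
  rw [show ((1, 1, 1, 1) : T4 F) = 1 from rfl, map_one, one_mul, hX0] at h
  refine Rep.of_semiconj _ h (case_zero Φ h3 _ ρ (pow_eq_one_of_semiconj h ?_))
  exact hX3.trans ((congrArg (stdPlus F 4) hρ).trans stdPlus_one)

include Φ in
/-- Automorphisms of order three that fix no triality coset. -/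
theorem classify (h3 : (3 : F) ≠ 0) {x : Aut4} (hord : orderOf x = 3) (hx : ∀ c : Aut4, c⁻¹ * x * c ∉ Γ4) :
    Rep x := by
  obtain ⟨c, t, i, ρ, j, hy⟩ := exists_normal_form Φ h3 hord
  refine Rep.of_conj c hy ?_
  have hpow : (tt t * W Φ ^ (i : ℕ) * stdPlus F 4 ρ * psi F ^ (j : ℕ)) ^ 3 = 1 := by
    rw [← hy, conj_pow, ← hord, pow_orderOf_eq_one, mul_one, mul_inv_cancel]
  have main : ∀ (t : T4 F) (i : ℕ), i < 2 → (tt t * W Φ ^ i * stdPlus F 4 ρ * psi F) ^ 3 = 1 →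
      Rep (tt t * W Φ ^ i * stdPlus F 4 ρ * psi F) := by
    intro t i hi h
    interval_cases i
    · rw [pow_zero, mul_one, mul_assoc] at h ⊢
      exact case_zero Φ h3 t ρ h
    · rw [pow_one, mul_assoc, mul_assoc] at h ⊢
      exact case_one Φ h3 t ρ h
  have key : ∀ (t : T4 F) (i : Fin 3), (tt t * W Φ ^ (i : ℕ) * stdPlus F 4 ρ * psi F) ^ 3 = 1 →
      Rep (tt t * W Φ ^ (i : ℕ) * stdPlus F 4 ρ * psi F) := by
    intro t i h
    by_cases hi : (i : ℕ) < 2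
    · exact main t _ hi h
    have hi2 : (i : ℕ) = 2 := by omega
    rw [hi2] at h ⊢
    obtain ⟨A, B, C, D⟩ := t
    have hs : sA (uu Φ swapSU) * (tt (A, B, C, D) * W Φ ^ 2 * stdPlus F 4 ρ * psi F) =
        tt (A, B, C, D⁻¹) * W Φ ^ 1 * stdPlus F 4 ρ * psi F * sA (uu Φ swapSU) := by
      have e1 : sA (uu Φ swapSU) * tt (A, B, C, D) = tt (A, B, C, D⁻¹) * sA (uu Φ swapSU) := by
        rw [tt_apply, tt_apply, ← sA_mul, uu_swap_tor Φ, sA_mul]
        rfl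
      have e2 : sA (uu Φ swapSU) * W Φ ^ 2 = W Φ ^ 1 * sA (uu Φ swapSU) := by
        rw [W, ← map_pow sA, ← map_pow sA, ← sA_mul, ← sA_mul, ← map_pow (uu Φ), ← map_pow (uu Φ), ← map_mul,
          ← map_mul, pow_one]
        congr 2
        rw [pow_two, ← mul_assoc, swap_wSU, mul_assoc, swap_wSU, ← mul_assoc, ← pow_add,
          show 2 + 2 = 3 + 1 from rfl, pow_succ, wSU_pow_three, one_mul]
      have e3 : sA (uu Φ swapSU) * stdPlus F 4 ρ = stdPlus F 4 ρ * sA (uu Φ swapSU) := by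
        rw [std_uu, rSU_swapSU]
      simp only [← mul_assoc]
      rw [e1, mul_assoc (tt _) (sA _) (W Φ ^ 2), e2, ← mul_assoc, mul_assoc _ (sA _) (stdPlus F 4 ρ), e3,
        ← mul_assoc, mul_assoc _ (sA _) (psi F), ← psi_uu, ← mul_assoc]
    refine Rep.of_semiconj _ hs (main _ 1 one_lt_two ?_)
    have := congrArg (· ^ 3) (mul_inv_eq_iff_eq_mul.2 hs)
    simp only [conj_pow, h, mul_one, mul_inv_cancel] at this
    exact this.symm
  fin_cases j
  · exfalso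
    refine hx c⁻¹ ?_
    rw [inv_inv, hy]
    simp only [pow_zero, mul_one]
    exact mul_mem (mul_mem (tt_mem_gamma Φ t) (pow_mem (W_mem_gamma Φ) _)) (std_mem_gamma ρ)
  · simpa using key t i (by simpa using hpow)
  · obtain ⟨A, B, C, D⟩ := t
    simp only at hpow ⊢
    have hg : sA cSim * (tt (A, B, C, D) * W Φ ^ (i : ℕ) * stdPlus F 4 ρ * psi F ^ 2) =
        tt (B, A, C, D) * W Φ ^ (i : ℕ) * stdPlus F 4 ρ * psi F * sA cSim := by
      have e1 : sA cSim * tt (A, B, C, D) = tt (B, A, C, D) * sA (cSim (F := F)) := by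
        rw [tt_apply, tt_apply, ← sA_mul, ← sA_mul]
        congr 1
        conv_rhs => rw [← conj_tor, mul_assoc, cSim_mul_self, mul_one]
      have e2 : Commute (sA cSim) (W Φ ^ (i : ℕ)) := by
        refine Commute.pow_right ?_ _
        show sA cSim * W Φ = W Φ * sA cSim
        rw [W, ← sA_mul, ← sA_mul]
        congr 1
        conv_rhs => rw [← conj_uu Φ wSU, mul_assoc, cSim_mul_self, mul_one]
      have e3 : sA cSim * psi F ^ 2 = psi F * sA (cSim (F := F)) := by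
        rw [← ga_eq, psi, pow_two]
        calc ga F * (ga F * f2 F * (ga F * f2 F)) = ga F * ga F * (f2 F * ga F) * f2 F := by
              simp only [mul_assoc]
          _ = ga F * f3 F * f2 F := by rw [ga_mul_self, one_mul, f2_ga]
          _ = ga F * ga F * f3 F := by rw [mul_assoc, f3_f2, ← mul_assoc]
          _ = ga F * (f2 F * ga F) := by rw [f2_ga, ← mul_assoc]
          _ = ga F * f2 F * ga F := by rw [mul_assoc]
      simp only [← mul_assoc]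
      rw [e1, mul_assoc (tt _) (sA _) (W Φ ^ _), e2.eq, ← mul_assoc, mul_assoc _ (sA _) (stdPlus F 4 ρ),
        ga_stdPlus, ← mul_assoc, mul_assoc _ (sA _) (psi F ^ 2), e3, ← mul_assoc]
    refine Rep.of_semiconj _ hg (key _ i ?_)
    have := congrArg (· ^ 3) (mul_inv_eq_iff_eq_mul.2 hg)
    simp only [conj_pow, hpow, mul_one, mul_inv_cancel] at this
    exact this.symm

end CfsgLib.LocalBalanceAut.Tri
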