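import Cfsg.Agent.Lib.LocalBalanceAut.TriTorus
import Cfsg.Agent.Lib.ClassicalForms.Ortho.POmegaCard

/-!
# Automorphisms of order three moving all triality cosets
-/

set_option autoImplicit false
set_option linter.unusedSectionVars false
set_option linter.unusedSimpArgs false
set_option linter.style.haveILetI false
set_option maxHeartbeats 1600000

open Matrix CfsgLib.OrthGen
open CfsgLib.ReflectionsSpinor CfsgLib.ReflectionsSpinor.POmegaAut CfsgLib.ReflectionsSpinor.POmegaQuot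
  CfsgLib.ReflectionsSpinor.POmegaForms CfsgLib.ReflectionsSpinor.POmegaField
open CfsgLib.Geometric (ap ap_mul ap_smul ap_one gl_ext)
open CfsgLib.Triality (nrm)
open CfsgLib.ReflectionsSpinor.POmegaTriality (cSim ap_scalar)

namespace CfsgLib.LocalBalanceAut.Tri

universe u

variable {F : Type u} [Field F] [Finite F]

set_option quotPrecheck false in
local notation "Aut4" => MulAut (Cfsg.POmega F (⇑(qP F 4)))

set_option quotPrecheck false in
local notation "Γ4" => Cfsg.gammaPOmega F (⇑(qP F 4))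

variable (F) in
/-- Quadruples from the three-part. -/
abbrev T4 : Type u := ↥(S3 F) × ↥(S3 F) × ↥(S3 F) × ↥(S3 F)

/-- Quadruples as norm-one elements. -/
def coe4 : T4 F →* Q4 F :=
  (S3 F).subtype.prodMap ((S3 F).subtype.prodMap ((S3 F).subtype.prodMap (S3 F).subtype))

/-- The torus as automorphisms. -/
noncomputable def tt : T4 F →* MulAut (Cfsg.POmega F (⇑(qP F 4))) := sA.comp (tor.comp coe4)

theorem tt_apply (a b c d : ↥(S3 F)) :
    tt (a, b, c, d) = sA (tor ((a : K1 F), (b : K1 F), (c : K1 F), (d : K1 F))) := rfl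

/-- The cyclic shift. -/
def cyc : T4 F →* T4 F where
  toFun t := (t.2.2.1, t.1, t.2.1, t.2.2.2)
  map_one' := rfl
  map_mul' _ _ := rfl

/-- The action of a field automorphism. -/
def rT (ρ : F ≃+* F) : T4 F →* T4 F := (rS ρ).prodMap ((rS ρ).prodMap ((rS ρ).prodMap (rS ρ)))

/-- Square roots. -/
noncomputable def root : T4 F →* T4 F := powMonoidHom ((Nat.card ↥(S3 F) + 1) / 2)

theorem root_spec (h3 : (3 : F) ≠ 0) (t : T4 F) : root t ^ 2 = t := by
  have hodd : Odd (Nat.card ↥(S3 F)) := by rw [card_S3 h3]; exact (by decide : Odd 3).pow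
  have hN : t ^ Nat.card ↥(S3 F) = 1 :=
    Prod.ext (pow_card_S3 _) (Prod.ext (pow_card_S3 _) (Prod.ext (pow_card_S3 _) (pow_card_S3 _)))
  rw [root, powMonoidHom_apply, ← pow_mul]
  obtain ⟨k, hk⟩ := hodd
  rw [show (Nat.card ↥(S3 F) + 1) / 2 * 2 = Nat.card ↥(S3 F) + 1 by omega, pow_succ, hN, one_mul]

/-- The permutation after the shift, on square roots. -/
def f0 : T4 F →* T4 F where
  toFun t := (t.2.2.1 * t.2.2.2 * (t.1 * t.2.1)⁻¹, t.1 * t.2.2.2 * (t.2.1 * t.2.2.1)⁻¹,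
    t.2.1 * t.2.2.2 * (t.2.2.1 * t.1)⁻¹, (t.1 * t.2.1 * t.2.2.1 * t.2.2.2)⁻¹)
  map_one' := by simp
  map_mul' s t := by
    obtain ⟨a, b, c, d⟩ := s
    obtain ⟨a', b', c', d'⟩ := t
    ext1
    · simp [mul_inv]; ac_rfl
    ext1
    · simp [mul_inv]; ac_rfl
    ext1
    · simp [mul_inv]; ac_rfl
    · simp [mul_inv]; ac_rfl

/-- The permutation after the shift. -/
noncomputable def ff : T4 F →* T4 F := f0.comp root

theorem ff_norm (h3 : (3 : F) ≠ 0) (t : T4 F) : t * ff t * ff (ff t) = 1 := by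
  obtain ⟨r, rfl⟩ : ∃ r : T4 F, t = r ^ 4 := ⟨root (root t), by
    rw [show 4 = 2 * 2 from rfl, pow_mul, root_spec h3, root_spec h3]⟩
  have hr : ∀ s : T4 F, root (s ^ 2) = s := fun s => by
    rw [map_pow, root_spec h3]
  have e1 : ff (r ^ 4) = f0 r ^ 2 := by
    rw [ff, MonoidHom.comp_apply, show 4 = 2 * 2 from rfl, pow_mul, hr, map_pow]
  rw [e1, ff, MonoidHom.comp_apply, hr]
  obtain ⟨a, b, c, d⟩ := r
  simp only [f0, MonoidHom.coe_mk, OneHom.coe_mk, Prod.pow_mk, Prod.mk_mul_mk]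
  refine Prod.ext ?_ (Prod.ext ?_ (Prod.ext ?_ ?_)) <;>
    simp only [Prod.fst_one, Prod.snd_one] <;> apply Additive.ofMul.injective <;>
    simp only [ofMul_mul, ofMul_inv, ofMul_pow, ofMul_one] <;> abel

theorem tt_injective (Φ : Frame F) : Function.Injective (tt (F := F)) := by
  refine (injective_iff_map_eq_one _).2 fun t ht => ?_
  obtain ⟨a, b, c, d⟩ := t
  obtain ⟨l, hl⟩ := sA_eq_iff.1 ((tt_apply a b c d).symm.trans ht |>.trans sA_one.symm)
  have key : ∀ (z : K2 F) (v : Fin 3 → K2 F),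
      co Φ z v = (l : F) • co Φ (((a : K1 F) * (b : K1 F)⁻¹ : K1 F) * z)
        ![((a : K1 F) * b : K1 F) * v 0, ((d : K1 F) * (c : K1 F)⁻¹ : K1 F) * v 1,
          (((d : K1 F) * c)⁻¹ : K1 F) * v 2] := fun z v => by
    have := congrArg (fun g => ap g.1 (co Φ z v)) hl
    simp only [Subgroup.coe_one, ap_one] at this
    rwa [Subgroup.coe_mul, ap_mul, ap_scalar, ap_tor] at this
  have hsq : ∀ {w : ↥(S3 F)}, w ^ 2 = 1 → w = 1 := fun {w} hw => by
    obtain ⟨n, hn⟩ := isPGroup_S3 w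
    have h1 : orderOf w ∣ Nat.gcd 2 (3 ^ n) :=
      Nat.dvd_gcd (orderOf_dvd_of_pow_eq_one hw) (orderOf_dvd_of_pow_eq_one hn)
    rw [Nat.Coprime.pow_right n (by decide : Nat.Coprime 2 3)] at h1
    exact orderOf_eq_one_iff.1 (Nat.dvd_one.1 h1)
  have h2 : ∀ z : K1 F, (z : K2 F) = (l : F)⁻¹ • 1 → z ^ 2 = 1 := by
    intro z hz
    have h := Unitary.mul_star_self_of_mem z.2
    rw [hz, star_smulK, star_one] at h
    refine Subtype.ext ?_
    rw [SubmonoidClass.coe_pow, pow_two, hz, OneMemClass.coe_one]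
    exact h
  have hz : ∀ z : K1 F, (1 : K2 F) = (l : F) • ((z : K2 F) * 1) → (z : K2 F) = (l : F)⁻¹ • 1 := fun z h => by
    rw [h, inv_smul_smul₀ l.ne_zero, mul_one]
  have k0 := (co_inj Φ ((key 1 0).trans (co_smul Φ _ _ _))).1
  have kk := fun i : Fin 3 => congrFun (co_inj Φ ((key 0 (Pi.single i 1)).trans (co_smul Φ _ _ _))).2 i
  have k1 := kk 0
  have k2 := kk 1
  have k3 := kk 2
  simp only [Pi.single_eq_same, Pi.smul_apply, Matrix.cons_val_zero, Matrix.cons_val_one, Matrix.cons_val_two,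
    Matrix.tail_cons, Matrix.head_cons] at k1 k2 k3
  have h0 := hsq (w := a * b⁻¹) (Subtype.ext (h2 _ (hz _ k0)))
  have h1 := hsq (w := a * b) (Subtype.ext (h2 _ (hz _ k1)))
  have h2' := hsq (w := d * c⁻¹) (Subtype.ext (h2 _ (hz _ k2)))
  have h3' := hsq (w := (d * c)⁻¹) (Subtype.ext (h2 _ (hz _ k3)))
  have hab : a = b := mul_inv_eq_one.1 h0
  have hdc : d = c := mul_inv_eq_one.1 h2'
  have ha : a = 1 := hsq (by rw [pow_two]; nth_rewrite 2 [hab]; exact h1)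
  have hd : d = 1 := hsq (by rw [pow_two]; nth_rewrite 2 [hdc]; exact inv_eq_one.1 h3')
  subst hab hdc
  rw [ha, hd]
  rfl

/-! ### Relations -/

variable (Φ : Frame F)

/-- The cyclic permutation as an automorphism. -/
noncomputable def W : MulAut (Cfsg.POmega F (⇑(qP F 4))) := sA (uu Φ wSU)

theorem psi_uu (U : ↥(SU F)) : psi F * sA (uu Φ U) = sA (uu Φ U) * psi F := by
  rw [psi_simAut (tri_uu Φ U), conj_uu]

theorem psi_W : psi F * W Φ = W Φ * psi F := psi_uu Φ _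

theorem psi_tt (t : T4 F) : psi F * tt t = tt (cyc t) * psi F := by
  obtain ⟨a, b, c, d⟩ := t
  rw [tt_apply, psi_simAut (tri_tor _ _ _ _), conj_tor]
  rfl

theorem std_uu (ρ : F ≃+* F) (U : ↥(SU F)) :
    stdPlus F 4 ρ * sA (uu Φ U) = sA (uu Φ (rSU ρ U)) * stdPlus F 4 ρ := by
  rw [← tw_uu]
  exact stdPlus_mul_simAut ρ _

theorem std_W (ρ : F ≃+* F) : stdPlus F 4 ρ * W Φ = W Φ * stdPlus F 4 ρ := by
  rw [W, std_uu, rSU_wSU]

include Φ in
theorem std_tt (ρ : F ≃+* F) (t : T4 F) : stdPlus F 4 ρ * tt t = tt (rT ρ t) * stdPlus F 4 ρ := by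
  obtain ⟨a, b, c, d⟩ := t
  rw [tt_apply, stdPlus_mul_simAut, tw_tor Φ]
  rfl

theorem W_psi_tt (h3 : (3 : F) ≠ 0) (t : T4 F) : W Φ * psi F * tt t = tt (ff t) * (W Φ * psi F) := by
  rw [mul_assoc, psi_tt, ← mul_assoc]
  obtain ⟨⟨a, b, c, d⟩, rfl⟩ : ∃ s : T4 F, t = s ^ 2 := ⟨root t, (root_spec h3 t).symm⟩
  have e : ff (((a, b, c, d) : T4 F) ^ 2) = f0 (a, b, c, d) := by
    rw [ff, MonoidHom.comp_apply, MonoidHom.map_pow (root (F := F)), root_spec h3]
  have hcyc : tt (cyc (((a, b, c, d) : T4 F) ^ 2)) =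
      sA (tor ((c : K1 F) * (c : K1 F), (a : K1 F) * (a : K1 F), (b : K1 F) * (b : K1 F), (d : K1 F) * (d : K1 F))) := by
    rw [pow_two]; rfl
  rw [e, hcyc, W, ← sA_mul, uu_w_tor Φ (c : K1 F) (a : K1 F) (b : K1 F) (d : K1 F), sA_mul,
    mul_assoc (sA (tor _))]
  refine congrArg (fun q => sA (tor q) * (sA (uu Φ wSU) * psi F)) ?_
  refine Prod.ext ?_ (Prod.ext ?_ (Prod.ext ?_ ?_)) <;> simp [coe4, f0, mul_comm, mul_left_comm, mul_assoc]

theorem W_tt (h3 : (3 : F) ≠ 0) (t : T4 F) : W Φ * tt t = tt (ff (cyc (cyc t))) * W Φ := by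
  have hc : cyc (cyc (cyc t)) = t := rfl
  refine mul_right_cancel (b := psi F) ?_
  rw [mul_assoc (tt _), ← W_psi_tt Φ h3, mul_assoc (W Φ) (psi F), psi_tt, hc, mul_assoc]

theorem W_pow_three : W Φ ^ 3 = 1 := by
  rw [W, ← map_pow sA, ← map_pow (uu Φ), wSU_pow_three, map_one, sA_one]

theorem stdPlus_mul (ρ τ : F ≃+* F) : stdPlus F 4 (ρ * τ) = stdPlus F 4 ρ * stdPlus F 4 τ := by
  rw [stdPlus, stdPlus, stdPlus, semiAut_mul]
  exact semiAut_congr (by rw [map_one, mul_one]) rfl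

theorem stdPlus_one : stdPlus F 4 (1 : F ≃+* F) = 1 := semiAut_one

variable (F) in
/-- Field automorphisms as a homomorphism. -/
noncomputable def stdHom : (F ≃+* F) →* MulAut (Cfsg.POmega F (⇑(qP F 4))) where
  toFun := stdPlus F 4
  map_one' := stdPlus_one
  map_mul' := stdPlus_mul

/-- The representative automorphisms. -/
noncomputable def Xel (a d : K1 F) (ρ : F ≃+* F) : MulAut (Cfsg.POmega F (⇑(qP F 4))) :=
  sA (tor (a, a, a, d)) * stdPlus F 4 ρ * psi F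

/-! ### A Sylow three-subgroup -/

theorem psi_zpow_mem_iff {j : Fin 3} (h : psi F ^ (j : ℕ) ∈ Γ4) : j = 0 := by
  fin_cases j
  · rfl
  · exact absurd (by simpa using h) (psi_not_mem (F := F))
  · exfalso
    refine psi_not_mem (F := F) ?_
    have h' := Subgroup.inv_mem _ h
    have e : (psi F ^ 2)⁻¹ = psi F :=
      inv_eq_of_mul_eq_one_right (by rw [← pow_succ]; exact psi_pow_three)
    simp only at h'
    rwa [e] at h'

include Φ in
theorem tt_mem_gamma (t : T4 F) : tt t ∈ Γ4 := sA_mem_gamma _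

theorem W_mem_gamma : W Φ ∈ Γ4 := sA_mem_gamma _

/-- The normal form is unique. -/
theorem normal_form_inj (h3 : (3 : F) ≠ 0) {t t' : T4 F} {i i' : Fin 3} {ρ ρ' : F ≃+* F} {j j' : Fin 3}
    (h : tt t * W Φ ^ (i : ℕ) * stdPlus F 4 ρ * psi F ^ (j : ℕ) =
      tt t' * W Φ ^ (i' : ℕ) * stdPlus F 4 ρ' * psi F ^ (j' : ℕ)) :
    t = t' ∧ i = i' ∧ ρ = ρ' ∧ j = j' := by
  have hmem : ∀ (t : T4 F) (i : ℕ) (ρ : F ≃+* F), tt t * W Φ ^ i * stdPlus F 4 ρ ∈ Γ4 := fun t i ρ =>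
    mul_mem (mul_mem (tt_mem_gamma Φ t) (pow_mem (W_mem_gamma Φ) _)) (std_mem_gamma ρ)
  have hj : j = j' := by
    have h1 : psi F ^ (j : ℕ) * (psi F ^ (j' : ℕ))⁻¹ ∈ Γ4 := by
      have e : psi F ^ (j : ℕ) * (psi F ^ (j' : ℕ))⁻¹ = (tt t * W Φ ^ (i : ℕ) * stdPlus F 4 ρ)⁻¹ *
          (tt t' * W Φ ^ (i' : ℕ) * stdPlus F 4 ρ') := by
        rw [eq_inv_mul_iff_mul_eq, ← mul_assoc, h, mul_inv_cancel_right]
      rw [e]
      exact mul_mem (inv_mem (hmem _ _ _)) (hmem _ _ _)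
    have hper : ∀ n : ℕ, psi F ^ n = psi F ^ (n % 3) := fun n => by
      conv_lhs => rw [← Nat.div_add_mod n 3]
      rw [pow_add, pow_mul, psi_pow_three, one_pow, one_mul]
    have e : psi F ^ (j : ℕ) * (psi F ^ (j' : ℕ))⁻¹ = psi F ^ ((j - j' : Fin 3) : ℕ) := by
      rw [mul_inv_eq_iff_eq_mul, ← pow_add, hper (_ + _), hper (j : ℕ)]
      congr 1
      omega
    rw [e] at h1
    exact sub_eq_zero.1 (psi_zpow_mem_iff h1)
  subst hj
  have h' := mul_right_cancel h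
  have e1 : ∀ (t : T4 F) (i : ℕ), tt t * W Φ ^ i = sA (tor (coe4 t) * uu Φ (wSU ^ i)) := fun t i => by
    rw [sA_mul, map_pow, map_pow]; rfl
  rw [e1, e1, sA_stdPlus_eq_iff] at h'
  obtain ⟨h1, rfl⟩ := h'
  rw [← e1, ← e1] at h1
  have hi : i = i' := by
    by_contra hne
    have h2 : (tt t')⁻¹ * tt t = W Φ ^ ((i' - i : Fin 3) : ℕ) := by
      have hper : ∀ n : ℕ, W Φ ^ n = W Φ ^ (n % 3) := fun n => by
        conv_lhs => rw [← Nat.div_add_mod n 3]
        rw [pow_add, pow_mul, W_pow_three, one_pow, one_mul]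
      rw [inv_mul_eq_iff_eq_mul, ← mul_left_inj (W Φ ^ (i : ℕ)), mul_assoc, ← pow_add, h1, hper (_ + _),
        hper (i' : ℕ)]
      congr 2
      omega
    rw [← map_inv, ← map_mul] at h2
    obtain ⟨⟨a, b, c, d⟩, hs⟩ : ∃ s : T4 F, t'⁻¹ * t = s := ⟨_, rfl⟩
    rw [hs, tt_apply, W, ← map_pow sA, ← map_pow (uu Φ)] at h2
    obtain ⟨l, hl⟩ := sA_eq_iff.1 h2
    have h4 := congrArg (fun g => ap g.1 (co Φ 0 (Pi.single 0 1))) hl
    simp only [Subgroup.coe_mul, ap_mul, ap_uu, ap_scalar, ap_tor, co_smul] at h4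
    have h5 := congrFun (co_inj Φ h4).2 0
    simp only [Pi.smul_apply, Matrix.cons_val_zero, Pi.single_eq_same, mul_one] at h5
    have hk : ((i' - i : Fin 3) : ℕ) = 1 ∨ ((i' - i : Fin 3) : ℕ) = 2 := by
      have : (i' - i : Fin 3) ≠ 0 := fun e => hne (sub_eq_zero.1 e).symm
      omega
    have hz : (l : F) • (((a : K1 F) * b : K1 F) : K2 F) = 0 := by
      rw [← h5]
      rcases hk with hk | hk <;> rw [hk] <;>
        simp [wSU, pow_two, Matrix.mul_apply, Matrix.mulVec, dotProduct, Fin.sum_univ_three]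
    rw [smul_eq_zero_iff_right l.ne_zero] at hz
    have := Unitary.mul_star_self_of_mem ((a : K1 F) * b).2
    rw [hz, zero_mul] at this
    exact zero_ne_one this
  subst hi
  exact ⟨tt_injective Φ (mul_right_cancel h1), rfl, rfl, rfl⟩

omit [Finite F] in
theorem mem_normalizer_of_conj {G : Type*} [Group G] [Finite G] {H : Subgroup G} {g : G}
    (h : ∀ a ∈ H, g * a * g⁻¹ ∈ H) : g ∈ Subgroup.normalizer (H : Set G) := by
  have he : H.map (MulAut.conj g).toMonoidHom = H := by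
    refine Subgroup.eq_of_le_of_card_ge (by rintro _ ⟨a, ha, rfl⟩; exact h a ha) ?_
    rw [Subgroup.card_map_of_injective (MulAut.conj g).injective]
  refine Subgroup.mem_normalizer_iff.2 fun a => ⟨h a, fun ha => ?_⟩
  rw [← he] at ha
  obtain ⟨b, hb, e⟩ := ha
  rwa [← (MulAut.conj g).injective (e.trans rfl)]

theorem conj_mem_sup {G : Type*} [Group G] {H K : Subgroup G} {g : G}
    (h : ∀ a ∈ H, g * a * g⁻¹ ∈ H ⊔ K) (k : ∀ a ∈ K, g * a * g⁻¹ ∈ H ⊔ K) :
    ∀ a ∈ H ⊔ K, g * a * g⁻¹ ∈ H ⊔ K := fun a ha => by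
  have hle : (H ⊔ K).map (MulAut.conj g).toMonoidHom ≤ H ⊔ K := by
    rw [Subgroup.map_sup, sup_le_iff]
    exact ⟨by rintro _ ⟨a, ha, rfl⟩; exact h a ha, by rintro _ ⟨a, ha, rfl⟩; exact k a ha⟩
  exact hle ⟨a, ha, rfl⟩

theorem fact_three_of_pow_one {G : Type*} [Group G] {g : G} (h : g ^ 3 = 1) :
    IsPGroup 3 ↥(Subgroup.zpowers g) := by
  rintro ⟨a, n, rfl⟩
  exact ⟨1, Subtype.ext (by
    show (g ^ n) ^ (3 ^ 1) = 1
    rw [pow_one, ← zpow_natCast, ← _root_.zpow_mul, mul_comm, _root_.zpow_mul, zpow_natCast, h, _root_.one_zpow])⟩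

variable {G3 : Subgroup (F ≃+* F)}

/-- The subgroup of normal forms. -/
noncomputable def P3 (G3 : Subgroup (F ≃+* F)) : Subgroup (MulAut (Cfsg.POmega F (⇑(qP F 4)))) :=
  ((tt (F := F)).range ⊔ Subgroup.zpowers (W Φ)) ⊔ G3.map (stdHom F) ⊔ Subgroup.zpowers (psi F)

theorem isPGroup_P3 (h3 : (3 : F) ≠ 0) (hG : IsPGroup 3 ↥G3) : IsPGroup 3 ↥(P3 Φ G3) := by
  haveI : Finite Aut4 := Finite.of_injective _ DFunLike.coe_injective
  haveI : Finite (F ≃+* F) := Finite.of_injective _ DFunLike.coe_injective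
  set T := (tt (F := F)).range with hT
  have hTp : IsPGroup 3 ↥T := by
    rintro ⟨_, t, rfl⟩
    obtain ⟨n, hn⟩ : ∃ n, Nat.card ↥(S3 F) = 3 ^ n := ⟨_, card_S3 h3⟩
    refine ⟨n, Subtype.ext ?_⟩
    show tt t ^ 3 ^ n = 1
    rw [← map_pow, ← hn, show t ^ Nat.card ↥(S3 F) = 1 from
      Prod.ext (pow_card_S3 _) (Prod.ext (pow_card_S3 _) (Prod.ext (pow_card_S3 _) (pow_card_S3 _))), map_one]
  have hWT : ∀ a ∈ T, W Φ * a * (W Φ)⁻¹ ∈ T := by
    rintro _ ⟨t, rfl⟩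
    exact ⟨_, eq_mul_inv_iff_mul_eq.2 (W_tt Φ h3 t).symm⟩
  have h1 := (fact_three_of_pow_one (W_pow_three Φ)).to_sup_of_normal_right' hTp
    (Subgroup.zpowers_le.2 (mem_normalizer_of_conj hWT))
  rw [sup_comm] at h1
  set P2 := T ⊔ Subgroup.zpowers (W Φ)
  have hS : ∀ ρ : F ≃+* F, ∀ a ∈ P2, stdPlus F 4 ρ * a * (stdPlus F 4 ρ)⁻¹ ∈ P2 := fun ρ =>
    conj_mem_sup (by
      rintro _ ⟨t, rfl⟩
      exact Subgroup.mem_sup_left ⟨_, eq_mul_inv_iff_mul_eq.2 (std_tt Φ ρ t).symm⟩) (by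
      rintro _ ⟨n, rfl⟩
      refine Subgroup.mem_sup_right ⟨n, ?_⟩
      show W Φ ^ n = stdPlus F 4 ρ * W Φ ^ n * (stdPlus F 4 ρ)⁻¹
      rw [((Commute.zpow_right (std_W Φ ρ) n).eq), mul_inv_cancel_right])
  have h2 := (hG.map (stdHom F)).to_sup_of_normal_right' h1 (by
    rintro _ ⟨ρ, -, rfl⟩
    exact mem_normalizer_of_conj (hS ρ))
  rw [sup_comm] at h2
  have hpsi : ∀ a ∈ P2 ⊔ G3.map (stdHom F), psi F * a * (psi F)⁻¹ ∈ P2 ⊔ G3.map (stdHom F) :=
    conj_mem_sup (fun a ha => Subgroup.mem_sup_left (conj_mem_sup (by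
      rintro _ ⟨t, rfl⟩
      exact Subgroup.mem_sup_left ⟨_, eq_mul_inv_iff_mul_eq.2 (psi_tt t).symm⟩) (by
      rintro _ ⟨n, rfl⟩
      refine Subgroup.mem_sup_right ⟨n, ?_⟩
      show W Φ ^ n = psi F * W Φ ^ n * (psi F)⁻¹
      rw [((Commute.zpow_right (psi_W Φ) n).eq), mul_inv_cancel_right]) a ha)) (by
      rintro _ ⟨ρ, hρ, rfl⟩
      refine Subgroup.mem_sup_right ⟨ρ, hρ, ?_⟩
      show stdPlus F 4 ρ = psi F * stdPlus F 4 ρ * (psi F)⁻¹
      rw [psi_stdPlus, mul_inv_cancel_right])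
  have h4 := (fact_three_of_pow_one (psi_pow_three (F := F))).to_sup_of_normal_right' h2
    (Subgroup.zpowers_le.2 (mem_normalizer_of_conj hpsi))
  rw [sup_comm] at h4
  exact h4

theorem factorization_card_aut (h3 : (3 : F) ≠ 0) :
    (Nat.card Aut4).factorization 3 = 2 + (Nat.card (F ≃+* F)).factorization 3 +
      4 * (Nat.card (Matrix.SpecialLinearGroup (Fin 2) F)).factorization 3 := by
  classical
  haveI := Fintype.ofFinite F
  haveI : Finite (F ≃+* F) := Finite.of_injective _ DFunLike.coe_injective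
  have h1 : Nat.card Aut4 = 3 * (Nat.card (F ≃+* F) *
      Nat.card (ClassicalForms.orth (ClassicalForms.qPlus 4 F))) := by
    rw [← ClassicalForms.card_pOmega_plus (F := F) (m := 4) (by norm_num)]
    rw [show Nat.card Aut4 = Nat.card (MulAut (Cfsg.POmega F (Cfsg.quadFormPlus 4 F))) from rfl,
      Triality.card_mulAut_eight]
    ring
  set q := Nat.card F with hq
  have hq2 : 2 ≤ q := Finite.one_lt_card
  have hZ := ClassicalForms.card_orth_qPlus (F := F) 4 (by norm_num)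
  have hd1 : 1 ≤ q ^ 2 := Nat.one_le_pow _ _ (by omega)
  set d := q ^ 2 - 1 with hd
  have hd0 : d ≠ 0 := by
    have : 4 ≤ q ^ 2 := by nlinarith
    omega
  have hdZ : (d : ℤ) = (q : ℤ) ^ 2 - 1 := by
    rw [hd, Nat.cast_sub hd1]; push_cast; ring
  have hnat : Nat.card (ClassicalForms.orth (ClassicalForms.qPlus 4 F)) =
      2 * (q ^ 2 + 1) ^ 2 * (q ^ 4 + q ^ 2 + 1) * (q ^ 12 * d ^ 4) := by
    have : (Nat.card (ClassicalForms.orth (ClassicalForms.qPlus 4 F)) : ℤ) =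
        ((2 * (q ^ 2 + 1) ^ 2 * (q ^ 4 + q ^ 2 + 1) * (q ^ 12 * d ^ 4) : ℕ) : ℤ) := by
      rw [hZ]
      push_cast
      rw [hdZ, ← hq]
      simp [Finset.prod_range_succ]
      ring
    exact_mod_cast this
  have hq3 : ¬ 3 ∣ q := fun h => h3 (by
    have h1 : ((q : ℕ) : F) = 0 := by rw [hq, Nat.card_eq_fintype_card]; exact Nat.cast_card_eq_zero F
    obtain ⟨n, hpr, hcard⟩ := FiniteField.card F (ringChar F)
    rw [hq, Nat.card_eq_fintype_card, hcard] at h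
    have h4 := (Nat.prime_dvd_prime_iff_eq Nat.prime_three hpr).1 (Nat.prime_three.dvd_of_dvd_pow h)
    exact_mod_cast (ringChar.spec F 3).2 (by rw [h4]))
  have hmod : q ^ 2 % 3 = 1 := by
    have : q % 3 = 1 ∨ q % 3 = 2 := by omega
    rcases this with h | h <;> simp [Nat.pow_mod, h]
  obtain ⟨e, he⟩ : ∃ e, q ^ 2 = 3 * e + 1 := ⟨q ^ 2 / 3, by omega⟩
  have e4 : q ^ 4 = (q ^ 2) ^ 2 := by rw [← pow_mul]
  have hfa : (q ^ 2 + 1).factorization 3 = 0 :=
    Nat.factorization_eq_zero_of_not_dvd (by rw [he]; omega)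
  have hfb : (q ^ 4 + q ^ 2 + 1).factorization 3 = 1 := by
    rw [e4, he, show (3 * e + 1) ^ 2 + (3 * e + 1) + 1 = 3 * (3 * (e * e + e) + 1) by ring,
      Nat.factorization_mul (by norm_num) (by omega), Finsupp.add_apply, Nat.prime_three.factorization_self,
      Nat.factorization_eq_zero_of_not_dvd (show ¬ 3 ∣ 3 * (e * e + e) + 1 by omega)]
  have hfq : q.factorization 3 = 0 := Nat.factorization_eq_zero_of_not_dvd hq3
  have hS : (Nat.card (Matrix.SpecialLinearGroup (Fin 2) F)).factorization 3 = d.factorization 3 := by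
    rw [SL2.card_SL, Nat.factorization_mul (by omega) hd0, Finsupp.add_apply, hfq, zero_add]
  have hgal : Nat.card (F ≃+* F) ≠ 0 := Nat.card_pos.ne'
  rw [h1, hnat, hS, Nat.factorization_mul (by norm_num) (by positivity),
    Nat.factorization_mul hgal (by positivity), Nat.factorization_mul (by positivity) (by positivity),
    Nat.factorization_mul (by positivity) (by positivity), Nat.factorization_mul (by norm_num) (by positivity),
    Nat.factorization_mul (by positivity) (by positivity)]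
  simp only [Finsupp.add_apply, Nat.prime_three.factorization_self, Nat.factorization_pow,
    Finsupp.smul_apply, smul_eq_mul, hfa, hfb, hfq,
    Nat.factorization_eq_zero_of_not_dvd (show ¬ 3 ∣ 2 by norm_num)]
  omega

/-- Every element of order three is conjugate to a normal form. -/
theorem exists_normal_form (h3 : (3 : F) ≠ 0) {x : Aut4} (hx : orderOf x = 3) :
    ∃ (c : Aut4) (t : T4 F) (i : Fin 3) (ρ : F ≃+* F) (j : Fin 3),
      c * x * c⁻¹ = tt t * W Φ ^ (i : ℕ) * stdPlus F 4 ρ * psi F ^ (j : ℕ) := by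
  classical
  haveI : Fact (Nat.Prime 3) := ⟨Nat.prime_three⟩
  haveI : Finite Aut4 := Finite.of_injective _ DFunLike.coe_injective
  haveI : Finite (F ≃+* F) := Finite.of_injective _ DFunLike.coe_injective
  obtain ⟨G3⟩ : Nonempty (Sylow 3 (F ≃+* F)) := inferInstance
  set P := P3 Φ (G3 : Subgroup (F ≃+* F))
  let μ : T4 F × Fin 3 × ↥(G3 : Subgroup (F ≃+* F)) × Fin 3 → ↥P := fun z =>
    ⟨tt z.1 * W Φ ^ (z.2.1 : ℕ) * stdPlus F 4 z.2.2.1 * psi F ^ (z.2.2.2 : ℕ),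
      mul_mem (mul_mem (mul_mem
        (Subgroup.mem_sup_left (Subgroup.mem_sup_left (Subgroup.mem_sup_left ⟨_, rfl⟩)))
        (pow_mem (Subgroup.mem_sup_left (Subgroup.mem_sup_left (Subgroup.mem_sup_right
          (Subgroup.mem_zpowers _)))) _))
        (Subgroup.mem_sup_left (Subgroup.mem_sup_right ⟨_, z.2.2.1.2, rfl⟩)))
        (pow_mem (Subgroup.mem_sup_right (Subgroup.mem_zpowers _)) _)⟩
  have hμ : Function.Injective μ := by
    rintro ⟨t, i, ⟨ρ, hρ⟩, j⟩ ⟨t', i', ⟨ρ', hρ'⟩, j'⟩ h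
    obtain ⟨rfl, rfl, h5, rfl⟩ := normal_form_inj Φ h3 (congrArg Subtype.val h)
    cases h5
    rfl
  have hp := isPGroup_P3 Φ h3 G3.isPGroup'
  obtain ⟨n, hn⟩ := IsPGroup.iff_card.1 hp
  have hdom : Nat.card (T4 F × Fin 3 × ↥(G3 : Subgroup (F ≃+* F)) × Fin 3) =
      3 ^ (Nat.card Aut4).factorization 3 := by
    simp only [Nat.card_prod, Nat.card_fin, card_S3 h3, G3.card_eq_multiplicity, factorization_card_aut h3]
    ring
  have hle : Nat.card (T4 F × Fin 3 × ↥(G3 : Subgroup (F ≃+* F)) × Fin 3) ≤ Nat.card ↥P :=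
    Nat.card_le_card_of_injective μ hμ
  have hdvd : Nat.card ↥P ∣ 3 ^ (Nat.card Aut4).factorization 3 := by
    rw [hn, Nat.pow_dvd_pow_iff_le_right (by norm_num),
      ← Nat.Prime.pow_dvd_iff_le_factorization Nat.prime_three Nat.card_pos.ne', ← hn]
    exact Subgroup.card_subgroup_dvd_card P
  have hP : Nat.card ↥P = 3 ^ (Nat.card Aut4).factorization 3 :=
    le_antisymm (Nat.le_of_dvd (by positivity) hdvd) (hdom ▸ hle)
  have hsurj : Function.Surjective μ :=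
    (Finite.injective_iff_surjective_of_equiv (Finite.equivFinOfCardEq hdom |>.trans
      (Finite.equivFinOfCardEq hP).symm)).1 hμ
  let PS : Sylow 3 Aut4 := Sylow.ofCard P hP
  have hxp : IsPGroup 3 ↥(Subgroup.zpowers x) := fact_three_of_pow_one (hx ▸ pow_orderOf_eq_one x)
  obtain ⟨Q, hQ⟩ := hxp.exists_le_sylow
  obtain ⟨c, hc⟩ := MulAction.exists_smul_eq Aut4 Q PS
  have hmem : c * x * c⁻¹ ∈ (PS : Subgroup Aut4) := by
    rw [← hc]
    exact Subgroup.smul_mem_pointwise_smul x (MulAut.conj c) Q (hQ (Subgroup.mem_zpowers x))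
  obtain ⟨⟨t, i, ρ, j⟩, hz⟩ := hsurj ⟨_, hmem⟩
  exact ⟨c, t, i, ρ, j, (congrArg Subtype.val hz).symm⟩

end CfsgLib.LocalBalanceAut.Tri
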