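import Cfsg.Agent.Lib.LocalBalanceAut.TriModel
import Mathlib.FieldTheory.Finite.Basic

/-!
# Special unitary maps and tori of the split octonions
-/

set_option autoImplicit false
set_option linter.unusedSectionVars false
set_option linter.unusedSimpArgs false
set_option linter.unnecessarySeqFocus false
set_option linter.style.haveILetI false
set_option maxHeartbeats 1000000

open Matrix CfsgLib.OrthGen
open CfsgLib.ReflectionsSpinor CfsgLib.ReflectionsSpinor.POmegaAut CfsgLib.ReflectionsSpinor.POmegaQuot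
  CfsgLib.ReflectionsSpinor.POmegaForms CfsgLib.ReflectionsSpinor.POmegaField
open CfsgLib.Geometric (ap ap_mul ap_smul ap_one gl_ext ofEquiv ap_ofEquiv)
open CfsgLib.Triality (nrm Tri)
open CfsgLib.ReflectionsSpinor.POmegaTriality (L R cSim ap_L ap_R ap_c ap_scalar sim_ext)

namespace CfsgLib.LocalBalanceAut.Tri

universe u

/-- A frame exists whenever the characteristic is not three. -/
theorem exists_frame {F : Type u} [Field F] [Finite F] {r : ℕ} [Fact r.Prime] [CharP F r] (hr : r ≠ 3) :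
    Nonempty (Frame F) := by
  have hr' : r.Prime := Fact.out
  have h3 : (3 : F) ≠ 0 := fun h => hr ((Nat.prime_dvd_prime_iff_eq hr' Nat.prime_three).1
    ((CharP.cast_eq_zero_iff F r 3).1 (by exact_mod_cast h)))
  suffices h : ∃ a b : ℤ, ((a * a - a * b + b * b : ℤ) : F) = -1 by
    obtain ⟨a, b, hab⟩ := h
    refine ⟨⟨⟨a, b⟩, ?_, fun σ => ⟨map_intCast σ a, map_intCast σ b⟩, h3⟩⟩
    push_cast at hab
    ext <;> simp [QuadraticAlgebra.re_one, QuadraticAlgebra.im_one]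
    · linear_combination hab
    · ring
  rcases hr'.eq_two_or_odd' with rfl | hodd
  · refine ⟨1, 0, ?_⟩
    push_cast
    rw [CharTwo.neg_eq]
  · have hz3 : (3 : ZMod r) ≠ 0 := fun h => hr ((Nat.prime_dvd_prime_iff_eq hr' Nat.prime_three).1
      ((CharP.cast_eq_zero_iff (ZMod r) r 3).1 (by exact_mod_cast h)))
    have hz2 : (2 : ZMod r) ≠ 0 := fun h => by
      have h2 : r ∣ 2 := (CharP.cast_eq_zero_iff (ZMod r) r 2).1 (by exact_mod_cast h)
      rw [(Nat.prime_dvd_prime_iff_eq hr' Nat.prime_two).1 h2] at hodd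
      exact absurd hodd (by decide)
    obtain ⟨x, y, hxy⟩ := FiniteField.exists_root_sum_quadratic
      (f := (Polynomial.X ^ 2 : Polynomial (ZMod r)))
      (g := Polynomial.C (3 : ZMod r) * Polynomial.X ^ 2 + Polynomial.C 4)
      (by rw [Polynomial.degree_X_pow]; rfl)
      (by
        rw [Polynomial.degree_add_C (by rw [Polynomial.degree_C_mul_X_pow 2 hz3]; decide),
          Polynomial.degree_C_mul_X_pow 2 hz3]; rfl)
      (by rw [ZMod.card]; obtain ⟨k, hk⟩ := hodd; omega)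
    simp only [Polynomial.eval_pow, Polynomial.eval_X, Polynomial.eval_add, Polynomial.eval_mul,
      Polynomial.eval_C] at hxy
    refine ⟨(((x + y) / 2 : ZMod r).val : ℤ), (y.val : ℤ), ?_⟩
    have key : ((x + y) / 2) * ((x + y) / 2) - ((x + y) / 2) * y + y * y = (-1 : ZMod r) := by
      field_simp
      linear_combination hxy
    have := congrArg (ZMod.castHom (dvd_refl r) F) key
    simpa [ZMod.natCast_val] using this

variable {F : Type u} [Field F] [Finite F] (Φ : Frame F)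

local notation "V" => (Fin 4 ⊕ Fin 4 → F)
local notation "M2" => Matrix (Fin 2) (Fin 2) F
local notation "SL2" => Matrix.SpecialLinearGroup (Fin 2) F

set_option quotPrecheck false in
local notation "SimP" => Cfsg.Geo.quadSimilarityGroup (F := F) (⇑(qP F 4))

variable (F) in
/-- The norm-one elements of `F[u]`. -/
abbrev K1 : Type u := ↥(unitary (K2 F))

theorem norm_K1 (z : K1 F) : QuadraticAlgebra.norm (z : K2 F) = 1 := by
  have h := QuadraticAlgebra.algebraMap_norm_eq_mul_star (z : K2 F)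
  rw [Unitary.mul_star_self_of_mem z.2] at h
  simpa [QuadraticAlgebra.re_one] using congrArg QuadraticAlgebra.re h

/-- A norm-one element as a matrix. -/
def iota : K1 F →* SL2 where
  toFun z := ⟨emb (z : K2 F), by rw [det_emb, norm_K1]⟩
  map_one' := Subtype.ext (by simp)
  map_mul' z w := Subtype.ext (map_mul emb (z : K2 F) w)

theorem coe_iota (z : K1 F) : ((iota z : SL2) : M2) = emb (z : K2 F) := rfl

variable (F) in
/-- Quadruples of norm-one elements. -/
abbrev Q4 : Type u := K1 F × K1 F × K1 F × K1 F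

/-- The torus. -/
noncomputable def tor : Q4 F →* ↥SimP :=
  phi.comp (iota.prodMap (iota.prodMap (iota.prodMap iota)))

theorem tor_apply (A B C D : K1 F) : tor (A, B, C, D) = phi (iota A, iota B, iota C, iota D) := rfl

theorem ap_tor (A B C D : K1 F) (a : K2 F) (v : Fin 3 → K2 F) :
    ap (tor (A, B, C, D)).1 (co Φ a v) = co Φ ((A * B⁻¹ : K1 F) * a)
      ![(A * B : K1 F) * v 0, (D * C⁻¹ : K1 F) * v 1, ((D * C)⁻¹ : K1 F) * v 2] := by
  have e0 : ∀ z : K2 F, emb z = kp Φ z 0 := fun z => by simp [kp]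
  simp only [tor_apply, co, ap_phi, coe_iota]
  simp only [e0, bar_kp, neg_zero, kp_mul, star_zero, mul_zero, zero_mul,
    sub_zero, zero_add, add_zero, star_star, Submonoid.coe_mul, Matrix.cons_val_zero, Matrix.cons_val_one,
    Matrix.cons_val_two, Matrix.tail_cons, Matrix.head_cons, Unitary.coe_star, star_mul, ← Unitary.star_eq_inv]
  congr 2 <;> ring

theorem tri_tor (A B C D : K1 F) :
    Tri 1 (tor (A, B, C, D)).1 (tor (A, C, B, D)).1 (tor (C, B, A, D)).1 :=
  tri_phi _ _ _ _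

theorem conj_tor (A B C D : K1 F) : cSim * tor (A, B, C, D) * cSim = tor (B, A, C, D) :=
  sim_ext fun x => by
    rw [Subgroup.coe_mul, Subgroup.coe_mul, ap_mul, ap_mul, ap_c, ap_c]
    exact conj_phi _ _ _ _ x

theorem cSim_mul_self : (cSim : ↥SimP) * cSim = 1 := sim_ext fun x => by
  rw [Subgroup.coe_mul, ap_mul, ap_c, ap_c, Triality.conj_conj, Subgroup.coe_one, ap_one]

/-! ### Special unitary maps -/

theorem cross_mulVec (A : Matrix (Fin 3) (Fin 3) (K2 F)) (v w : Fin 3 → K2 F) :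
    crossProduct (A *ᵥ v) (A *ᵥ w) = A.adjugateᵀ *ᵥ crossProduct v w := by
  funext i
  fin_cases i <;>
    simp [cross_apply, Matrix.mulVec, dotProduct, Fin.sum_univ_three, Matrix.adjugate_fin_three] <;> ring

/-- The coordinates of a vector. -/
noncomputable def coEquiv : K2 F × (Fin 3 → K2 F) ≃ V :=
  Equiv.ofBijective (fun p => co Φ p.1 p.2)
    ⟨fun _ _ h => Prod.ext (co_inj Φ h).1 (co_inj Φ h).2, fun x =>
      let ⟨a, v, h⟩ := exists_co Φ x
      ⟨(a, v), h.symm⟩⟩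

/-- A matrix acting on the last three coordinates. -/
noncomputable def uuFun (U : Matrix (Fin 3) (Fin 3) (K2 F)) (x : V) : V :=
  co Φ ((coEquiv Φ).symm x).1 (U *ᵥ ((coEquiv Φ).symm x).2)

theorem uuFun_co (U : Matrix (Fin 3) (Fin 3) (K2 F)) (a : K2 F) (v : Fin 3 → K2 F) :
    uuFun Φ U (co Φ a v) = co Φ a (U *ᵥ v) := by
  have h : (coEquiv Φ).symm (co Φ a v) = (a, v) := (coEquiv Φ).symm_apply_eq.2 rfl
  rw [uuFun, h]

variable (F) in
/-- The special unitary group. -/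
abbrev SU : Submonoid (Matrix (Fin 3) (Fin 3) (K2 F)) := Matrix.specialUnitaryGroup (Fin 3) (K2 F)

theorem adjugate_su (U : ↥(SU F)) : U.1.adjugate = star U.1 := by
  obtain ⟨hu, hd⟩ := Matrix.mem_specialUnitaryGroup_iff.1 U.2
  calc U.1.adjugate = (star U.1 * U.1) * U.1.adjugate := by rw [Matrix.mem_unitaryGroup_iff'.1 hu, one_mul]
    _ = star U.1 := by rw [mul_assoc, Matrix.mul_adjugate, hd, one_smul, mul_one]

theorem uuFun_mul (U : ↥(SU F)) (x y : V) :
    uuFun Φ U.1 (Triality.mul x y) = Triality.mul (uuFun Φ U.1 x) (uuFun Φ U.1 y) := by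
  obtain ⟨a, v, rfl⟩ := exists_co Φ x
  obtain ⟨b, w, rfl⟩ := exists_co Φ y
  obtain ⟨hu, -⟩ := Matrix.mem_specialUnitaryGroup_iff.1 U.2
  rw [mul_co, uuFun_co, uuFun_co, uuFun_co, mul_co]
  congr 1
  · congr 1
    rw [Matrix.star_mulVec, dotProduct_comm (U.1 *ᵥ v), Matrix.dotProduct_mulVec, Matrix.vecMul_vecMul,
      ← Matrix.star_eq_conjTranspose, Matrix.mem_unitaryGroup_iff'.1 hu, Matrix.vecMul_one, dotProduct_comm]
  · rw [cross_mulVec, adjugate_su, Matrix.star_mulVec, Matrix.star_eq_conjTranspose]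
    rw [Matrix.mulVec_add, Matrix.mulVec_add, Matrix.mulVec_smul, Matrix.mulVec_smul]
    congr 1
    rw [← Matrix.mulVec_transpose]
    congr 1
    ext i j <;> simp [Matrix.conjTranspose_apply, Matrix.transpose_apply, Matrix.star_apply]

theorem uuFun_uuFun (U W : Matrix (Fin 3) (Fin 3) (K2 F)) (x : V) :
    uuFun Φ U (uuFun Φ W x) = uuFun Φ (U * W) x := by
  obtain ⟨a, v, rfl⟩ := exists_co Φ x
  rw [uuFun_co, uuFun_co, uuFun_co, Matrix.mulVec_mulVec]

theorem uuFun_one (x : V) : uuFun Φ 1 x = x := by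
  obtain ⟨a, v, rfl⟩ := exists_co Φ x
  rw [uuFun_co, Matrix.one_mulVec]

theorem uuFun_add (U : Matrix (Fin 3) (Fin 3) (K2 F)) (x y : V) :
    uuFun Φ U (x + y) = uuFun Φ U x + uuFun Φ U y := by
  obtain ⟨a, v, rfl⟩ := exists_co Φ x
  obtain ⟨b, w, rfl⟩ := exists_co Φ y
  simp only [co_add, uuFun_co, Matrix.mulVec_add]

theorem uuFun_smul (U : Matrix (Fin 3) (Fin 3) (K2 F)) (c : F) (x : V) :
    uuFun Φ U (c • x) = c • uuFun Φ U x := by
  obtain ⟨a, v, rfl⟩ := exists_co Φ x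
  simp only [co_smul, uuFun_co, Matrix.mulVec_smul]

theorem star_mul_su (U : ↥(SU F)) : star U.1 * U.1 = 1 :=
  Matrix.mem_unitaryGroup_iff'.1 (Matrix.mem_specialUnitaryGroup_iff.1 U.2).1

theorem mul_star_su (U : ↥(SU F)) : U.1 * star U.1 = 1 :=
  Matrix.mem_unitaryGroup_iff.1 (Matrix.mem_specialUnitaryGroup_iff.1 U.2).1

/-- A special unitary matrix as an invertible map. -/
noncomputable def uuGL : ↥(SU F) →* GL (Fin 4 ⊕ Fin 4) F where
  toFun U := ofEquiv
    { toFun := uuFun Φ U.1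
      map_add' := uuFun_add Φ U.1
      map_smul' := uuFun_smul Φ U.1
      invFun := uuFun Φ (star U.1)
      left_inv := fun x => by rw [uuFun_uuFun, star_mul_su, uuFun_one]
      right_inv := fun x => by rw [uuFun_uuFun, mul_star_su, uuFun_one] }
  map_one' := gl_ext fun x => by rw [ap_ofEquiv, ap_one]; exact uuFun_one Φ x
  map_mul' U W := gl_ext fun x => by
    rw [ap_mul, ap_ofEquiv, ap_ofEquiv, ap_ofEquiv]
    exact (uuFun_uuFun Φ _ _ x).symm

theorem ap_uuGL (U : ↥(SU F)) (a : K2 F) (v : Fin 3 → K2 F) :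
    ap (uuGL Φ U) (co Φ a v) = co Φ a (U.1 *ᵥ v) := (ap_ofEquiv _ _).trans (uuFun_co Φ _ _ _)

theorem uuGL_mul (U : ↥(SU F)) (x y : V) :
    ap (uuGL Φ U) (Triality.mul x y) = Triality.mul (ap (uuGL Φ U) x) (ap (uuGL Φ U) y) := by
  have e : ∀ z, ap (uuGL Φ U) z = uuFun Φ U.1 z := fun z => ap_ofEquiv _ _
  rw [e, e, e, uuFun_mul]

theorem conj_uuGL (U : ↥(SU F)) (x : V) :
    Triality.conj (ap (uuGL Φ U) x) = ap (uuGL Φ U) (Triality.conj x) := by
  obtain ⟨a, v, rfl⟩ := exists_co Φ x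
  rw [ap_uuGL, conj_co, conj_co, ap_uuGL, Matrix.mulVec_neg]

theorem uuGL_mem (U : ↥(SU F)) : uuGL Φ U ∈ Cfsg.isometryGroup F (⇑(qP F 4)) :=
  mem_iso_iff.2 fun x => by
    show qP F 4 (ap (uuGL Φ U) x) = qP F 4 x
    rw [POmegaTriality.qP_eq_nrm, POmegaTriality.qP_eq_nrm]
    have h := Triality.conj_mul_self x Triality.one
    have h1 : ap (uuGL Φ U) (Triality.one : V) = Triality.one := by
      rw [one_eq_co Φ, ap_uuGL, Matrix.mulVec_zero]
    have h' := congrArg (ap (uuGL Φ U)) h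
    rw [uuGL_mul, uuGL_mul, ← conj_uuGL, Triality.conj_mul_self, ap_smul, h1] at h'
    have := congrFun h' (.inl 0)
    simpa [Triality.one] using this

/-- A special unitary matrix as a similarity. -/
noncomputable def uu : ↥(SU F) →* ↥SimP := isoSim.comp ((uuGL Φ).codRestrict _ (uuGL_mem Φ))

theorem ap_uu (U : ↥(SU F)) (a : K2 F) (v : Fin 3 → K2 F) :
    ap (uu Φ U).1 (co Φ a v) = co Φ a (U.1 *ᵥ v) := ap_uuGL Φ U a v

theorem tri_uu (U : ↥(SU F)) : Tri 1 (uu Φ U).1 (uu Φ U).1 (uu Φ U).1 :=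
  ⟨one_ne_zero, fun x y => by rw [one_smul]; exact uuGL_mul Φ U x y⟩

theorem conj_uu (U : ↥(SU F)) : cSim * uu Φ U * cSim = uu Φ U := sim_ext fun x => by
  rw [Subgroup.coe_mul, Subgroup.coe_mul, ap_mul, ap_mul, ap_c, ap_c]
  exact (conj_uuGL Φ U _).trans (by rw [Triality.conj_conj]; rfl)

theorem sim_ext_co {g g' : ↥SimP} (h : ∀ a v, ap g.1 (co Φ a v) = ap g'.1 (co Φ a v)) : g = g' :=
  sim_ext fun x => by
    obtain ⟨a, v, rfl⟩ := exists_co Φ x
    exact h a v

/-- Diagonal unitary matrices of determinant one. -/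
def diagSU (a b c : K1 F) (h : a * b * c = 1) : ↥(SU F) :=
  ⟨Matrix.diagonal ![(a : K2 F), b, c], by
    refine Matrix.mem_specialUnitaryGroup_iff.2 ⟨Matrix.mem_unitaryGroup_iff.2 ?_, ?_⟩
    · rw [Matrix.star_eq_conjTranspose, Matrix.diagonal_conjTranspose, Matrix.diagonal_mul_diagonal,
        ← Matrix.diagonal_one]
      congr 1
      funext i
      fin_cases i <;> simp
    · rw [Matrix.det_diagonal, Fin.prod_univ_three]
      exact congrArg Subtype.val h⟩

theorem tor_eq_uu (d : K1 F) : tor (1, 1, 1, d) = uu Φ (diagSU 1 d d⁻¹ (by simp)) :=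
  sim_ext_co Φ fun a v => by
    rw [ap_tor Φ, ap_uu, diagSU]
    simp only [inv_one, mul_one, one_mul]
    congr 1
    · simp
    · funext i
      fin_cases i <;> simp [Matrix.mulVec_diagonal]

/-- The cyclic permutation. -/
def wSU : ↥(SU F) :=
  ⟨!![0, 1, 0; 0, 0, 1; 1, 0, 0], by
    refine Matrix.mem_specialUnitaryGroup_iff.2 ⟨Matrix.mem_unitaryGroup_iff.2 ?_, ?_⟩
    · refine Matrix.ext fun i j => ?_
      fin_cases i <;> fin_cases j <;> simp [Matrix.mul_apply, Fin.sum_univ_three, Matrix.star_apply]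
    · simp [Matrix.det_fin_three]⟩

/-- A negated transposition. -/
def swapSU : ↥(SU F) :=
  ⟨!![-1, 0, 0; 0, 0, -1; 0, -1, 0], by
    refine Matrix.mem_specialUnitaryGroup_iff.2 ⟨Matrix.mem_unitaryGroup_iff.2 ?_, ?_⟩
    · refine Matrix.ext fun i j => ?_
      fin_cases i <;> fin_cases j <;> simp [Matrix.mul_apply, Fin.sum_univ_three, Matrix.star_apply]
    · simp [Matrix.det_fin_three]⟩

theorem wSU_pow_three : (wSU : ↥(SU F)) ^ 3 = 1 := by
  refine Subtype.ext ?_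
  rw [SubmonoidClass.coe_pow]
  refine Matrix.ext fun i j => ?_
  fin_cases i <;> fin_cases j <;> simp [wSU, pow_succ, Matrix.mul_apply, Fin.sum_univ_three]

theorem swap_wSU : (swapSU : ↥(SU F)) * wSU = wSU ^ 2 * swapSU := by
  refine Subtype.ext ?_
  refine Matrix.ext fun i j => ?_
  fin_cases i <;> fin_cases j <;>
    simp [wSU, swapSU, pow_succ, Matrix.mul_apply, Fin.sum_univ_three]

theorem uu_w_tor (a b c d : K1 F) :
    uu Φ wSU * tor (a * a, b * b, c * c, d * d) =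
      tor (a * d * (b * c)⁻¹, b * d * (a * c)⁻¹, c * d * (a * b)⁻¹, (a * b * c * d)⁻¹) * uu Φ wSU :=
  sim_ext_co Φ fun x v => by
    rw [Subgroup.coe_mul, Subgroup.coe_mul, ap_mul, ap_mul, ap_tor Φ, ap_uu, ap_uu, ap_tor Φ]
    have e0 : a * d * (b * c)⁻¹ * (b * d * (a * c)⁻¹)⁻¹ = a * a * (b * b)⁻¹ := by
      apply Additive.ofMul.injective
      simp only [ofMul_mul, ofMul_inv]
      abel
    have e1 : a * d * (b * c)⁻¹ * (b * d * (a * c)⁻¹) = d * d * (c * c)⁻¹ := by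
      apply Additive.ofMul.injective
      simp only [ofMul_mul, ofMul_inv]
      abel
    have e2 : (a * b * c * d)⁻¹ * (c * d * (a * b)⁻¹)⁻¹ = (d * d * (c * c))⁻¹ := by
      apply Additive.ofMul.injective
      simp only [ofMul_mul, ofMul_inv]
      abel
    have e3 : ((a * b * c * d)⁻¹ * (c * d * (a * b)⁻¹))⁻¹ = a * a * (b * b) := by
      apply Additive.ofMul.injective
      simp only [ofMul_mul, ofMul_inv]
      abel
    rw [e0, e1, e2, e3]
    congr 1
    funext i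
    fin_cases i <;> simp [wSU, Matrix.mulVec, dotProduct, Fin.sum_univ_three]

theorem uu_swap_tor (A B C D : K1 F) :
    uu Φ swapSU * tor (A, B, C, D) = tor (A, B, C, D⁻¹) * uu Φ swapSU :=
  sim_ext_co Φ fun x v => by
    rw [Subgroup.coe_mul, Subgroup.coe_mul, ap_mul, ap_mul, ap_tor Φ, ap_uu, ap_uu, ap_tor Φ]
    have e2 : D⁻¹ * C⁻¹ = (D * C)⁻¹ := (mul_inv _ _).symm
    have e3 : (D⁻¹ * C)⁻¹ = D * C⁻¹ := by rw [mul_inv, inv_inv]
    rw [e2, e3]
    congr 1
    funext i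
    fin_cases i <;> simp [swapSU, Matrix.mulVec, dotProduct, Fin.sum_univ_three]

/-! ### Diagonalisation of monomial elements of order three -/

/-- The root of unity. -/
def uK : K1 F :=
  ⟨⟨0, 1⟩, Unitary.mem_iff.2 ⟨by ext <;> simp [QuadraticAlgebra.re_one, QuadraticAlgebra.im_one],
    by ext <;> simp [QuadraticAlgebra.re_one, QuadraticAlgebra.im_one]⟩⟩

theorem coe_uK : ((uK : K1 F) : K2 F) = ⟨0, 1⟩ := rfl

theorem uK_pow_three : (uK : K1 F) ^ 3 = 1 := by
  refine Subtype.ext ?_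
  rw [SubmonoidClass.coe_pow, OneMemClass.coe_one, coe_uK]
  ext <;> simp [pow_succ, QuadraticAlgebra.re_one, QuadraticAlgebra.im_one]

/-- The normalised discrete Fourier matrix. -/
def fourier (h3 : (3 : F) ≠ 0) : ↥(SU F) :=
  ⟨(⟨-1 / 3, -2 / 3⟩ : K2 F) • !![1, 1, 1; 1, ⟨0, 1⟩, ⟨-1, -1⟩; 1, ⟨-1, -1⟩, ⟨0, 1⟩], by
    refine Matrix.mem_specialUnitaryGroup_iff.2 ⟨Matrix.mem_unitaryGroup_iff.2 ?_, ?_⟩
    · refine Matrix.ext fun i j => ?_
      fin_cases i <;> fin_cases j <;> ext <;>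
        simp [Matrix.mul_apply, Fin.sum_univ_three, Matrix.star_apply, QuadraticAlgebra.re_one,
          QuadraticAlgebra.im_one] <;> field_simp <;> ring
    · ext <;> simp [Matrix.det_fin_three, QuadraticAlgebra.re_one, QuadraticAlgebra.im_one] <;>
        field_simp <;> ring⟩

theorem wSU_mul_fourier (h3 : (3 : F) ≠ 0) :
    wSU * fourier h3 = fourier h3 * diagSU 1 (uK : K1 F) uK⁻¹ (by simp) := by
  refine Subtype.ext (Matrix.ext fun i j => ?_)
  rw [Submonoid.coe_mul, Submonoid.coe_mul, diagSU, Matrix.mul_diagonal, Matrix.mul_apply, Fin.sum_univ_three]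
  fin_cases i <;> fin_cases j <;> ext <;>
    simp [fourier, wSU, coe_uK,
      ← Unitary.star_eq_inv, QuadraticAlgebra.re_one, QuadraticAlgebra.im_one] <;> field_simp <;> ring

theorem diag_mem_unitary (a b c : K1 F) :
    Matrix.diagonal ![(a : K2 F), b, c] ∈ Matrix.unitaryGroup (Fin 3) (K2 F) := by
  rw [Matrix.mem_unitaryGroup_iff, Matrix.star_eq_conjTranspose, Matrix.diagonal_conjTranspose,
    Matrix.diagonal_mul_diagonal, ← Matrix.diagonal_one]
  congr 1
  funext i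
  fin_cases i <;> simp

/-- The matrix diagonalising the monomial matrix of `d`. -/
def diagonaliser (h3 : (3 : F) ≠ 0) (d : K1 F) : ↥(SU F) :=
  ⟨Matrix.diagonal ![((1 : K1 F) : K2 F), (1 : K1 F), (d⁻¹ : K1 F)] * (fourier h3).1 *
      Matrix.diagonal ![(d : K2 F), (1 : K1 F), (1 : K1 F)], by
    refine Matrix.mem_specialUnitaryGroup_iff.2 ⟨Submonoid.mul_mem _ (Submonoid.mul_mem _
      (diag_mem_unitary _ _ _) (Matrix.mem_specialUnitaryGroup_iff.1 (fourier h3).2).1)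
      (diag_mem_unitary _ _ _), ?_⟩
    rw [Matrix.det_mul, Matrix.det_mul, (Matrix.mem_specialUnitaryGroup_iff.1 (fourier h3).2).2,
      Matrix.det_diagonal, Matrix.det_diagonal, Fin.prod_univ_three, Fin.prod_univ_three]
    simp [← Unitary.star_eq_inv]⟩

/-- A monomial element of order three is conjugate to a diagonal one. -/
theorem mul_diagonaliser (h3 : (3 : F) ≠ 0) (d : K1 F) :
    (diagSU 1 d d⁻¹ (by simp) * wSU) * diagonaliser h3 d =
      diagonaliser h3 d * diagSU 1 (uK : K1 F) uK⁻¹ (by simp) := by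
  refine Subtype.ext ?_
  have e1 : (diagSU 1 d d⁻¹ (by simp)).1 * (wSU : ↥(SU F)).1 *
      Matrix.diagonal ![((1 : K1 F) : K2 F), (1 : K1 F), (d⁻¹ : K1 F)] =
      Matrix.diagonal ![((1 : K1 F) : K2 F), (1 : K1 F), (d⁻¹ : K1 F)] * (wSU : ↥(SU F)).1 := by
    refine Matrix.ext fun i j => ?_
    fin_cases i <;> fin_cases j <;>
      simp [wSU, diagSU, Matrix.mul_apply, Fin.sum_univ_three, Matrix.diagonal, ← Unitary.star_eq_inv]
  have e2 := congrArg Subtype.val (wSU_mul_fourier (F := F) h3)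
  rw [Submonoid.coe_mul, Submonoid.coe_mul] at e2
  have e3 : (diagSU 1 (uK : K1 F) uK⁻¹ (by simp)).1 * Matrix.diagonal ![(d : K2 F), (1 : K1 F), (1 : K1 F)] =
      Matrix.diagonal ![(d : K2 F), (1 : K1 F), (1 : K1 F)] * (diagSU 1 (uK : K1 F) uK⁻¹ (by simp)).1 := by
    rw [diagSU, Matrix.diagonal_mul_diagonal, Matrix.diagonal_mul_diagonal]
    congr 1
    funext i
    ring
  simp only [Submonoid.coe_mul, diagonaliser, ← mul_assoc]
  rw [e1, mul_assoc (Matrix.diagonal _) (wSU : ↥(SU F)).1, e2]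
  simp only [mul_assoc]
  rw [e3]

/-! ### The monomial map of order four -/

/-- The point of the second block. -/
def e2 : Fin 4 ⊕ Fin 4 → F := oct 0 1

theorem nrm_e2 : nrm (e2 : V) ≠ 0 := by simp [e2, nrm_oct]

/-- The quaternion inverting `F[u]`. -/
def jSL : SL2 := ⟨kp Φ 0 1, by rw [det_kp]; simp⟩

theorem coe_jSL : ((jSL Φ : SL2) : M2) = kp Φ 0 1 := rfl

theorem coe_neg_jSL : (((-jSL Φ : SL2)) : M2) = kp Φ 0 (-1) := by
  rw [Matrix.SpecialLinearGroup.coe_neg, coe_jSL, kp_neg, neg_zero]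

/-- The monomial map. -/
noncomputable def nn : ↥SimP := phi (-jSL Φ, jSL Φ, 1, 1) * R e2 nrm_e2

/-- Its second companion. -/
noncomputable def nn2 : ↥SimP :=
  phi (-jSL Φ, 1, jSL Φ, 1) * R (Triality.conj e2) (by rw [Triality.nrm_conj]; exact nrm_e2)

/-- Its third companion. -/
noncomputable def nn3 : ↥SimP :=
  phi (1, jSL Φ, -jSL Φ, 1) * (R e2 nrm_e2 * L e2 nrm_e2)

theorem nrm_e2_eq : nrm (e2 : V) = 1 := by simp [e2, nrm_oct]

theorem tri_R (a : V) (ha : nrm a ≠ 0) (ha' : nrm (Triality.conj a) ≠ 0) :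
    Tri (nrm a)⁻¹ (R a ha).1 (R (Triality.conj a) ha').1 (R a ha * L a ha).1 :=
  ⟨inv_ne_zero ha, fun x y => by
    rw [Subgroup.coe_mul, ap_mul, ap_L, ap_R, ap_R, ap_R, ← Triality.moufang_right,
      Triality.conj_self_mul, Triality.mul_smul_left, Triality.mul_smul_left, inv_smul_smul₀ ha]⟩

theorem tri_nn : Tri 1 (nn Φ).1 (nn2 Φ).1 (nn3 Φ).1 := by
  have h := (tri_phi (-jSL Φ) (jSL Φ) 1 1).mul (tri_R (F := F) e2 nrm_e2 (by rw [Triality.nrm_conj]; exact nrm_e2))
  have h1 : (1 : F) * (nrm (e2 : V))⁻¹ = 1 := by rw [nrm_e2_eq, inv_one, mul_one]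
  rw [h1] at h
  exact h

theorem ap_nn (a : K2 F) (v : Fin 3 → K2 F) :
    ap (nn Φ).1 (co Φ a v) = co Φ (star (v 1)) ![v 2, a, star (v 0)] := by
  rw [nn, Subgroup.coe_mul, ap_mul, ap_R, e2, co, mul_oct, ap_phi, coe_jSL, coe_neg_jSL]
  have e0 : ∀ z : K2 F, kp Φ z 0 = emb z := fun z => by simp [kp]
  simp only [bar_one, one_mul, mul_one, zero_mul, mul_zero, sub_zero, zero_sub, add_zero, zero_add,
    bar_kp, kp_neg, kp_mul, Matrix.SpecialLinearGroup.coe_one, bar_eq (0 : M2), Matrix.adjugate_zero]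
  rw [co]
  congr 2 <;> simp

theorem conj_nn2 (a : K2 F) (v : Fin 3 → K2 F) :
    ap (cSim * nn2 Φ * cSim).1 (co Φ a v) = co Φ (-star (v 2)) ![-star (v 1), -(v 0), -a] := by
  rw [Subgroup.coe_mul, Subgroup.coe_mul, ap_mul, ap_mul, ap_c, ap_c, conj_co, nn2, Subgroup.coe_mul, ap_mul,
    ap_R, e2, conj_oct, co, mul_oct, ap_phi, coe_jSL, coe_neg_jSL]
  simp only [bar_one, one_mul, mul_one, zero_mul, mul_zero, sub_zero, zero_sub, add_zero, zero_add,
    bar_kp, kp_neg, kp_mul, Matrix.SpecialLinearGroup.coe_one, bar_eq (0 : M2), Matrix.adjugate_zero,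
    bar_neg, mul_neg, neg_mul]
  rw [conj_oct, bar_kp, kp_neg, co]
  congr 2 <;> simp

theorem nn_commutes :
    uu Φ wSU * (cSim * nn2 Φ * cSim) = scalarSim (-1) * (nn Φ * uu Φ wSU) :=
  sim_ext_co Φ fun a v => by
    rw [Subgroup.coe_mul, ap_mul, conj_nn2, ap_uu, Subgroup.coe_mul, ap_mul, Subgroup.coe_mul, ap_mul, ap_uu,
      ap_nn, ap_scalar, co_smul]
    congr 1
    · simp [wSU, Matrix.mulVec, dotProduct, Fin.sum_univ_three]
    · funext i
      fin_cases i <;> simp [wSU, Matrix.mulVec, dotProduct, Fin.sum_univ_three]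

theorem nn_tor (A B C D : K1 F) : nn Φ * tor (A, B, C, D) = tor (D⁻¹, C⁻¹, B, A) * nn Φ :=
  sim_ext_co Φ fun a v => by
    rw [Subgroup.coe_mul, Subgroup.coe_mul, ap_mul, ap_mul, ap_tor Φ, ap_nn, ap_nn, ap_tor Φ]
    congr 1
    · simp [← Unitary.star_eq_inv, star_mul]; ring
    · funext i
      fin_cases i <;> simp [← Unitary.star_eq_inv, star_mul] <;> ring

/-! ### Field automorphisms -/

/-- A field automorphism on `F[u]`. -/
def rK (ρ : F ≃+* F) : K2 F →+* K2 F where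
  toFun z := ⟨ρ z.re, ρ z.im⟩
  map_one' := by ext <;> simp [QuadraticAlgebra.re_one, QuadraticAlgebra.im_one]
  map_mul' z w := by ext <;> simp
  map_zero' := by ext <;> simp
  map_add' z w := by ext <;> simp

theorem rK_star (ρ : F ≃+* F) (z : K2 F) : rK ρ (star z) = star (rK ρ z) := by
  ext <;> simp [rK]

/-- A field automorphism on norm-one elements. -/
def rK1 (ρ : F ≃+* F) : K1 F →* K1 F where
  toFun z := ⟨rK ρ z, Unitary.mem_iff.2 ⟨by rw [← rK_star, ← map_mul, Unitary.star_mul_self_of_mem z.2, map_one],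
    by rw [← rK_star, ← map_mul, Unitary.mul_star_self_of_mem z.2, map_one]⟩⟩
  map_one' := Subtype.ext (map_one _)
  map_mul' z w := Subtype.ext (map_mul (rK ρ) (z : K2 F) w)

theorem rK1_uK (ρ : F ≃+* F) : rK1 ρ (uK : K1 F) = uK := by
  refine Subtype.ext ?_
  show rK ρ (⟨0, 1⟩ : K2 F) = ⟨0, 1⟩
  ext <;> simp [rK]

/-- Conjugation of similarities by a field automorphism. -/
noncomputable def tw (ρ : F ≃+* F) : ↥SimP →* ↥SimP :=
  (datumOfSemi (semi_of_comm (qP_comm 4 ρ))).bcSim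

theorem stdPlus_mul_simAut (ρ : F ≃+* F) (g : ↥SimP) :
    stdPlus F 4 ρ * simAut (⇑(qP F 4)) g = simAut (⇑(qP F 4)) (tw ρ g) * stdPlus F 4 ρ :=
  semiAut_mul_simAut _ g

theorem ap_tw (ρ : F ≃+* F) (g : ↥SimP) (x : V) : ap (tw ρ g).1 (ρ ∘ x) = ρ ∘ ap g.1 x := by
  rw [tw, Datum.coe_bcSim, bc_datumOfSemi, one_mul, inv_one, mul_one]
  show (Units.val (gmap ρ g.1) : Matrix _ _ F) *ᵥ _ = _
  rw [coe_gmap, gmap_mulVec]
  rfl

theorem comp_oct (ρ : F ≃+* F) (a b : M2) : ρ ∘ oct a b = oct (a.map ρ) (b.map ρ) := by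
  funext i; rcases i with i | i <;> fin_cases i <;> simp [oct]

theorem map_kp (ρ : F ≃+* F) (k l : K2 F) : (kp Φ k l).map ρ = kp Φ (rK ρ k) (rK ρ l) := by
  obtain ⟨h1, h2⟩ := Φ.hfix ρ
  ext i j
  fin_cases i <;> fin_cases j <;>
    simp [kp, emb_apply, J, rK, Matrix.mul_apply, Fin.sum_univ_two, h1, h2]

theorem comp_co (ρ : F ≃+* F) (a : K2 F) (v : Fin 3 → K2 F) :
    ρ ∘ co Φ a v = co Φ (rK ρ a) (fun i => rK ρ (v i)) := by
  rw [co, comp_oct, map_kp, map_kp, rK_star, co]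

theorem rK_symm (ρ : F ≃+* F) (z : K2 F) : rK ρ (rK ρ.symm z) = z := by ext <;> simp [rK]

include Φ in
theorem tw_tor (ρ : F ≃+* F) (A B C D : K1 F) :
    tw ρ (tor (A, B, C, D)) = tor (rK1 ρ A, rK1 ρ B, rK1 ρ C, rK1 ρ D) :=
  sim_ext fun x => by
    obtain ⟨a, v, rfl⟩ := exists_co Φ x
    obtain ⟨a', v', rfl, rfl⟩ : ∃ a' v', a = rK ρ a' ∧ v = fun i => rK ρ (v' i) :=
      ⟨rK ρ.symm a, fun i => rK ρ.symm (v i), (rK_symm ρ a).symm, funext fun i => (rK_symm ρ _).symm⟩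
    rw [← comp_co, ap_tw, ap_tor Φ, comp_co, comp_co, ap_tor Φ]
    congr 1
    · rw [← map_inv, ← map_mul, map_mul (rK ρ)]; rfl
    · funext i
      fin_cases i <;> simp only [← map_inv, ← map_mul] <;>
        exact (map_mul (rK ρ) _ _).trans rfl

/-- A field automorphism on special unitary matrices. -/
def rSU (ρ : F ≃+* F) (U : ↥(SU F)) : ↥(SU F) :=
  ⟨U.1.map (rK ρ), by
    obtain ⟨hu, hd⟩ := Matrix.mem_specialUnitaryGroup_iff.1 U.2
    refine Matrix.mem_specialUnitaryGroup_iff.2 ⟨Matrix.mem_unitaryGroup_iff.2 ?_, ?_⟩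
    · have e : star (U.1.map (rK ρ)) = (star U.1).map (rK ρ) :=
        Matrix.ext fun i j => (rK_star ρ _).symm
      rw [e, ← Matrix.map_mul, Matrix.mem_unitaryGroup_iff.1 hu, Matrix.map_one _ (map_zero _) (map_one _)]
    · rw [← RingHom.mapMatrix_apply, ← RingHom.map_det, hd, map_one]⟩

theorem tw_uu (ρ : F ≃+* F) (U : ↥(SU F)) : tw ρ (uu Φ U) = uu Φ (rSU ρ U) :=
  sim_ext fun x => by
    obtain ⟨a, v, rfl⟩ := exists_co Φ x
    obtain ⟨a', v', rfl, rfl⟩ : ∃ a' v', a = rK ρ a' ∧ v = fun i => rK ρ (v' i) :=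
      ⟨rK ρ.symm a, fun i => rK ρ.symm (v i), (rK_symm ρ a).symm, funext fun i => (rK_symm ρ _).symm⟩
    rw [← comp_co, ap_tw, ap_uu, comp_co, comp_co, ap_uu]
    congr 1
    funext i
    exact RingHom.map_mulVec (rK ρ) U.1 v' i

theorem rSU_wSU (ρ : F ≃+* F) : rSU ρ (wSU : ↥(SU F)) = wSU := by
  refine Subtype.ext (Matrix.ext fun i j => ?_)
  fin_cases i <;> fin_cases j <;> simp [rSU, wSU]

theorem rSU_swapSU (ρ : F ≃+* F) : rSU ρ (swapSU : ↥(SU F)) = swapSU := by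
  refine Subtype.ext (Matrix.ext fun i j => ?_)
  fin_cases i <;> fin_cases j <;> simp [rSU, swapSU]

theorem rSU_diagonaliser (ρ : F ≃+* F) (h3 : (3 : F) ≠ 0) (d : K1 F) :
    rSU ρ (diagonaliser h3 d) = diagonaliser h3 (rK1 ρ d) := by
  refine Subtype.ext ?_
  have hf : (fourier h3).1.map (rK ρ) = (fourier h3).1 := by
    refine Matrix.ext fun i j => ?_
    fin_cases i <;> fin_cases j <;> ext <;> simp [fourier, rK, map_div₀, map_ofNat, QuadraticAlgebra.re_one,
      QuadraticAlgebra.im_one]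
  simp only [rSU, diagonaliser, Matrix.map_mul, hf, Matrix.diagonal_map (map_zero (rK ρ))]
  congr 2
  all_goals (congr 1; funext i; fin_cases i <;> simp [rK1] <;> exact (map_inv (rK1 ρ) d ▸ rfl))

end CfsgLib.LocalBalanceAut.Tri
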