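import Cfsg.Agent.Lib.ReflectionsSpinor.POmegaTriality
import Mathlib.Algebra.QuadraticAlgebra.Basic
import Mathlib.LinearAlgebra.CrossProduct
import Mathlib.LinearAlgebra.UnitaryGroup

/-!
# A quaternionic model of the split octonions

The vector matrices are written as pairs of `2 × 2` matrices, and then as four coordinates over
`F[u]`, `u² + u + 1 = 0`.
-/

set_option autoImplicit false
set_option linter.unusedSectionVars false
set_option linter.unusedSimpArgs false
set_option linter.unnecessarySeqFocus false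
set_option linter.style.haveILetI false

open Matrix CfsgLib.OrthGen
open CfsgLib.ReflectionsSpinor CfsgLib.ReflectionsSpinor.POmegaAut CfsgLib.ReflectionsSpinor.POmegaQuot
  CfsgLib.ReflectionsSpinor.POmegaForms
open CfsgLib.Geometric (ap ap_mul ap_smul ap_one gl_ext ofEquiv ap_ofEquiv)
open CfsgLib.Triality (nrm Tri)

namespace CfsgLib.LocalBalanceAut.Tri

universe u

variable {F : Type u} [Field F] [Finite F]

local notation "V" => (Fin 4 ⊕ Fin 4 → F)
local notation "M2" => Matrix (Fin 2) (Fin 2) F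
local notation "SL2" => Matrix.SpecialLinearGroup (Fin 2) F

set_option quotPrecheck false in
local notation "SimP" => Cfsg.Geo.quadSimilarityGroup (F := F) (⇑(qP F 4))

/-! ### Pairs of matrices -/

/-- The first matrix of a vector. -/
def qa (x : V) : M2 := !![x (.inl 0), x (.inl 1); -x (.inr 1), x (.inr 0)]

/-- The second matrix of a vector. -/
def qb (x : V) : M2 := !![x (.inl 3), x (.inr 2); -x (.inl 2), x (.inr 3)]

/-- The vector of two matrices. -/
def oct (a b : M2) : V := Sum.elim ![a 0 0, a 0 1, -b 1 0, b 0 0] ![a 1 1, -a 1 0, b 0 1, b 1 1]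

theorem qa_oct (a b : M2) : qa (oct a b) = a := by
  ext i j; fin_cases i <;> fin_cases j <;> simp [qa, oct]

theorem qb_oct (a b : M2) : qb (oct a b) = b := by
  ext i j; fin_cases i <;> fin_cases j <;> simp [qb, oct]

theorem oct_eta (x : V) : oct (qa x) (qb x) = x := by
  funext i; rcases i with i | i <;> fin_cases i <;> simp [qa, qb, oct]

theorem exists_oct (x : V) : ∃ a b, x = oct a b := ⟨qa x, qb x, (oct_eta x).symm⟩

theorem oct_inj {a b a' b' : M2} (h : oct a b = oct a' b') : a = a' ∧ b = b' :=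
  ⟨by rw [← qa_oct a b, h, qa_oct], by rw [← qb_oct a b, h, qb_oct]⟩

theorem oct_add (a b a' b' : M2) : oct a b + oct a' b' = oct (a + a') (b + b') := by
  funext i; rcases i with i | i <;> fin_cases i <;> simp [oct] <;> ring

theorem oct_smul (c : F) (a b : M2) : c • oct a b = oct (c • a) (c • b) := by
  funext i; rcases i with i | i <;> fin_cases i <;> simp [oct]

/-- The adjugate of a `2 × 2` matrix. -/
def bar (a : M2) : M2 := !![a 1 1, -a 0 1; -a 1 0, a 0 0]

theorem bar_eq (a : M2) : bar a = a.adjugate := (Matrix.adjugate_fin_two a).symm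

theorem bar_mul (a b : M2) : bar (a * b) = bar b * bar a := by
  simp only [bar_eq, Matrix.adjugate_mul_distrib]

theorem bar_bar (a : M2) : bar (bar a) = a := by
  ext i j; fin_cases i <;> fin_cases j <;> simp [bar]

theorem bar_one : bar (1 : M2) = 1 := by simp [bar_eq]

theorem det_bar (a : M2) : (bar a).det = a.det := by
  simp [bar, Matrix.det_fin_two]; ring

theorem bar_neg (a : M2) : bar (-a) = -bar a := by
  ext i j; fin_cases i <;> fin_cases j <;> simp [bar]

theorem bar_add (a b : M2) : bar (a + b) = bar a + bar b := by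
  ext i j; fin_cases i <;> fin_cases j <;> simp [bar] <;> ring

theorem bar_smul (c : F) (a : M2) : bar (c • a) = c • bar a := by
  ext i j; fin_cases i <;> fin_cases j <;> simp [bar]

theorem mul_oct (a b c d : M2) :
    Triality.mul (oct a b) (oct c d) = oct (a * c - bar d * b) (d * a + b * bar c) := by
  funext i; rcases i with i | i <;> fin_cases i <;>
    simp [Triality.mul, oct, bar, Matrix.mul_apply, Matrix.vecMul, dotProduct, Fin.sum_univ_two] <;> ring

theorem conj_oct (a b : M2) : Triality.conj (oct a b) = oct (bar a) (-b) := by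
  funext i; rcases i with i | i <;> fin_cases i <;> simp [Triality.conj, oct, bar]

theorem nrm_oct (a b : M2) : nrm (oct a b) = a.det + b.det := by
  simp [Triality.nrm_eq, oct, Matrix.det_fin_two]; ring

theorem one_eq_oct : (Triality.one : V) = oct 1 0 := by
  funext i; rcases i with i | i <;> fin_cases i <;> simp [Triality.one, oct]

/-! ### Quadruples of determinant one -/

variable (F) in
/-- Quadruples of elements of `SL₂`. -/
abbrev Quad : Type u :=
  Matrix.SpecialLinearGroup (Fin 2) F × Matrix.SpecialLinearGroup (Fin 2) F ×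
    Matrix.SpecialLinearGroup (Fin 2) F × Matrix.SpecialLinearGroup (Fin 2) F

/-- The action of a quadruple. -/
def phiFun (q : Quad F) (x : V) : V :=
  oct (q.1.1 * qa x * bar q.2.1.1) (q.2.2.2.1 * qb x * bar q.2.2.1.1)

theorem phiFun_oct (q : Quad F) (a b : M2) :
    phiFun q (oct a b) = oct (q.1.1 * a * bar q.2.1.1) (q.2.2.2.1 * b * bar q.2.2.1.1) := by
  rw [phiFun, qa_oct, qb_oct]

theorem phiFun_mul (q q' : Quad F) (x : V) : phiFun (q * q') x = phiFun q (phiFun q' x) := by
  obtain ⟨a, b, rfl⟩ := exists_oct x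
  simp only [phiFun_oct, Prod.fst_mul, Prod.snd_mul, Matrix.SpecialLinearGroup.coe_mul, bar_mul, mul_assoc]

theorem phiFun_one (x : V) : phiFun 1 x = x := by
  obtain ⟨a, b, rfl⟩ := exists_oct x
  simp [phiFun_oct, bar_one]

/-- A quadruple as an invertible matrix. -/
def phiGL : Quad F →* GL (Fin 4 ⊕ Fin 4) F where
  toFun q := ofEquiv
    { toFun := phiFun q
      map_add' := fun x y => by
        obtain ⟨a, b, rfl⟩ := exists_oct x
        obtain ⟨a', b', rfl⟩ := exists_oct y
        simp only [oct_add, phiFun_oct, mul_add, add_mul]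
      map_smul' := fun c x => by
        obtain ⟨a, b, rfl⟩ := exists_oct x
        simp only [oct_smul, phiFun_oct, Matrix.mul_smul, Matrix.smul_mul, RingHom.id_apply]
      invFun := phiFun q⁻¹
      left_inv := fun x => by rw [← phiFun_mul, inv_mul_cancel, phiFun_one]
      right_inv := fun x => by rw [← phiFun_mul, mul_inv_cancel, phiFun_one] }
  map_one' := gl_ext fun x => by rw [ap_ofEquiv, ap_one]; exact phiFun_one x
  map_mul' q q' := gl_ext fun x => by
    rw [ap_mul, ap_ofEquiv, ap_ofEquiv, ap_ofEquiv]; exact phiFun_mul q q' x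

theorem ap_phiGL (q : Quad F) (x : V) : ap (phiGL q) x = phiFun q x := ap_ofEquiv _ _

theorem nrm_phiFun (q : Quad F) (x : V) : nrm (phiFun q x) = nrm x := by
  obtain ⟨a, b, rfl⟩ := exists_oct x
  simp [phiFun_oct, nrm_oct, det_bar, Matrix.det_mul, Matrix.SpecialLinearGroup.det_coe]

theorem phiGL_mem (q : Quad F) : phiGL q ∈ Cfsg.isometryGroup F (⇑(qP F 4)) :=
  mem_iso_iff.2 fun v => by
    show qP F 4 (ap (phiGL q) v) = qP F 4 v
    rw [POmegaTriality.qP_eq_nrm, POmegaTriality.qP_eq_nrm, ap_phiGL, nrm_phiFun]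

/-- A quadruple as an isometry. -/
def phiIso : Quad F →* ↥(Cfsg.isometryGroup F (⇑(qP F 4))) := phiGL.codRestrict _ phiGL_mem

/-- A quadruple as a similarity. -/
noncomputable def phi : Quad F →* ↥SimP := isoSim.comp phiIso

theorem ap_phi (q : Quad F) (a b : M2) :
    ap (phi q).1 (oct a b) = oct (q.1.1 * a * bar q.2.1.1) (q.2.2.2.1 * b * bar q.2.2.1.1) :=
  (ap_phiGL q _).trans (phiFun_oct q a b)

theorem bar_mul_self_sl (A : SL2) : bar A.1 * A.1 = 1 := by
  simp [bar_eq, Matrix.adjugate_mul, A.det_coe]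

theorem mul_bar_self_sl (A : SL2) : A.1 * bar A.1 = 1 := by
  simp [bar_eq, Matrix.mul_adjugate, A.det_coe]

theorem tri_phi (A B C D : SL2) :
    Tri 1 (phi (A, B, C, D)).1 (phi (A, C, B, D)).1 (phi (C, B, A, D)).1 := by
  refine ⟨one_ne_zero, fun x y => ?_⟩
  obtain ⟨a, b, rfl⟩ := exists_oct x
  obtain ⟨c, d, rfl⟩ := exists_oct y
  rw [mul_oct, ap_phi, ap_phi, ap_phi, mul_oct, one_smul]
  congr 1
  · simp only [bar_mul, bar_bar, mul_sub, sub_mul, mul_assoc]
    rw [← mul_assoc (bar C.1) C.1, bar_mul_self_sl, one_mul, ← mul_assoc (bar D.1) D.1, bar_mul_self_sl,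
      one_mul]
  · simp only [bar_mul, bar_bar, mul_add, add_mul, mul_assoc]
    rw [← mul_assoc (bar A.1) A.1, bar_mul_self_sl, one_mul, ← mul_assoc (bar B.1) B.1, bar_mul_self_sl,
      one_mul]

theorem conj_phi (A B C D : SL2) (x : V) :
    Triality.conj (ap (phi (A, B, C, D)).1 (Triality.conj x)) = ap (phi (B, A, C, D)).1 x := by
  obtain ⟨a, b, rfl⟩ := exists_oct x
  simp only [conj_oct, ap_phi, bar_mul, bar_bar, mul_neg, neg_mul, neg_neg, mul_assoc]

/-! ### The quadratic algebra -/

variable (F) in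
/-- `F[u]` with `u² + u + 1 = 0`. -/
abbrev K2 : Type u := QuadraticAlgebra F (-1 : F) (-1 : F)

/-- `F[u]` inside the matrices. -/
def emb : K2 F →+* Matrix (Fin 2) (Fin 2) F where
  toFun z := !![z.re, -z.im; z.im, z.re - z.im]
  map_one' := by ext i j; fin_cases i <;> fin_cases j <;> simp [QuadraticAlgebra.re_one, QuadraticAlgebra.im_one]
  map_mul' z w := by ext i j; fin_cases i <;> fin_cases j <;> simp [Matrix.mul_apply, Fin.sum_univ_two] <;> ring
  map_zero' := by ext i j; fin_cases i <;> fin_cases j <;> simp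
  map_add' z w := by ext i j; fin_cases i <;> fin_cases j <;> simp <;> ring

theorem emb_apply (z : K2 F) : emb z = !![z.re, -z.im; z.im, z.re - z.im] := rfl

theorem bar_emb (z : K2 F) : bar (emb z) = emb (star z) := by
  ext i j; fin_cases i <;> fin_cases j <;> simp [bar, emb_apply] <;> ring

theorem emb_smul (c : F) (z : K2 F) : emb (c • z) = c • emb z := by
  ext i j; fin_cases i <;> fin_cases j <;> simp [emb_apply] <;> ring

theorem det_emb (z : K2 F) : (emb z).det = QuadraticAlgebra.norm z := by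
  simp [emb_apply, Matrix.det_fin_two, QuadraticAlgebra.norm_def]; ring

theorem emb_injective : Function.Injective (emb (F := F)) := fun z w h => by
  have h0 := congrFun (congrFun h 0) 0
  have h1 := congrFun (congrFun h 1) 0
  simp [emb_apply] at h0 h1
  exact QuadraticAlgebra.ext h0 h1

/-- The matrix inverting `F[u]`. -/
def J : Matrix (Fin 2) (Fin 2) F := !![1, 0; 1, -1]

theorem J_mul_emb (z : K2 F) : J * emb z = emb (star z) * J := by
  ext i j; fin_cases i <;> fin_cases j <;> simp [J, emb_apply, Matrix.mul_apply, Fin.sum_univ_two] <;> ring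

theorem J_mul_J : (J : M2) * J = 1 := by
  ext i j; fin_cases i <;> fin_cases j <;> simp [J, Matrix.mul_apply, Fin.sum_univ_two]

theorem bar_J : bar (J : M2) = -J := by
  ext i j; fin_cases i <;> fin_cases j <;> simp [J, bar]

theorem det_J : (J : M2).det = -1 := by simp [J, Matrix.det_fin_two]

variable (F) in
/-- An element of norm `-1` with coefficients fixed by all field automorphisms. -/
structure Frame where
  c : K2 F
  hc : c * star c = -1
  hfix : ∀ σ : F ≃+* F, σ c.re = c.re ∧ σ c.im = c.im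
  h3 : (3 : F) ≠ 0

variable (Φ : Frame F)

theorem Frame.hc' : star Φ.c * Φ.c = -1 := by rw [mul_comm]; exact Φ.hc

/-- The quaternion `k + l j`. -/
def kp (k l : K2 F) : M2 := emb k + emb (l * Φ.c) * J

theorem kp_mul (k l k' l' : K2 F) :
    kp Φ k l * kp Φ k' l' = kp Φ (k * k' - l * star l') (k * l' + l * star k') := by
  have e1 : emb (l * Φ.c) * J * emb k' = emb (l * star k' * Φ.c) * J := by
    rw [mul_assoc, J_mul_emb, ← mul_assoc, ← map_mul, show l * Φ.c * star k' = l * star k' * Φ.c by ring]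
  have e2 : emb (l * Φ.c) * J * (emb (l' * Φ.c) * J) = emb (-(l * star l')) := by
    rw [mul_assoc (emb (l * Φ.c)), ← mul_assoc J, J_mul_emb, mul_assoc (emb (star _)), J_mul_J, mul_one,
      ← map_mul, star_mul, show l * Φ.c * (star Φ.c * star l') = (Φ.c * star Φ.c) * (l * star l') by ring,
      Φ.hc, neg_one_mul]
  simp only [kp, mul_add, add_mul, e1, e2]
  rw [← mul_assoc (emb k), ← map_mul, ← map_mul, map_sub, map_neg, mul_assoc k l' Φ.c, map_add, add_mul]
  abel

theorem bar_kp (k l : K2 F) : bar (kp Φ k l) = kp Φ (star k) (-l) := by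
  rw [kp, kp, bar_add, bar_mul, bar_J, bar_emb, bar_emb, neg_mul, J_mul_emb, star_star, neg_mul, map_neg,
    neg_mul]

theorem kp_add (k l k' l' : K2 F) : kp Φ k l + kp Φ k' l' = kp Φ (k + k') (l + l') := by
  simp only [kp, add_mul, map_add]; abel

theorem kp_neg (k l : K2 F) : -kp Φ k l = kp Φ (-k) (-l) := by
  simp only [kp, neg_mul, map_neg, neg_add_rev]; abel

theorem kp_sub (k l k' l' : K2 F) : kp Φ k l - kp Φ k' l' = kp Φ (k - k') (l - l') := by
  simp only [kp, sub_mul, map_sub]; abel

theorem kp_smul (c : F) (k l : K2 F) : c • kp Φ k l = kp Φ (c • k) (c • l) := by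
  simp only [kp, smul_mul_assoc, emb_smul, smul_add]

theorem kp_zero : kp Φ 0 0 = 0 := by simp [kp]

theorem kp_one : kp Φ 1 0 = 1 := by simp [kp]

theorem exists_kp (X : M2) : ∃ k l, X = kp Φ k l := by
  set y := (2 * (X 1 0 - X 0 1) - (X 0 0 - X 1 1)) / 3 with hy
  set d := X 1 0 - X 0 1 - 2 * y with hd
  refine ⟨⟨X 0 0 - d, y⟩, ⟨X 1 0 - y, X 0 1 + y⟩ * (-star Φ.c), ?_⟩
  rw [kp, mul_assoc, neg_mul, Φ.hc', neg_neg, mul_one]
  have h3y : 3 * y = 2 * (X 1 0 - X 0 1) - (X 0 0 - X 1 1) := by
    rw [hy]; field_simp [Φ.h3]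
  ext i j; fin_cases i <;> fin_cases j <;> simp [emb_apply, J, Matrix.mul_apply, Fin.sum_univ_two, hd]
  · ring
  · linear_combination -h3y

theorem kp_inj {k l k' l' : K2 F} (h : kp Φ k l = kp Φ k' l') : k = k' ∧ l = l' := by
  have h0 : emb ((k - k') : K2 F) = emb (-((l - l') * Φ.c)) * J := by
    rw [kp, kp] at h
    simp only [map_sub, map_neg, sub_mul, neg_mul, add_mul]
    linear_combination (norm := abel) h
  set m := -((l - l') * Φ.c)
  set n := k - k'
  have e00 := congrFun (congrFun h0 0) 0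
  have e01 := congrFun (congrFun h0 0) 1
  have e10 := congrFun (congrFun h0 1) 0
  have e11 := congrFun (congrFun h0 1) 1
  simp [emb_apply, J, Matrix.mul_apply, Fin.sum_univ_two] at e00 e01 e10 e11
  have hn1 : n.im = 0 := mul_left_cancel₀ Φ.h3 (by linear_combination 2 * e10 + 2 * (-e01) - e00 + e11)
  have hm1 : m.im = 0 := by linear_combination -e01 - hn1
  have hm0 : m.re = 0 := by linear_combination -e10 + hn1
  have hn0 : n.re = 0 := by linear_combination e00 + hm0 - hm1
  have hn : n = 0 := QuadraticAlgebra.ext hn0 hn1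
  have hm : m = 0 := QuadraticAlgebra.ext hm0 hm1
  refine ⟨sub_eq_zero.1 hn, sub_eq_zero.1 ?_⟩
  calc l - l' = -((l - l') * Φ.c * star Φ.c) := by rw [mul_assoc, Φ.hc, mul_neg_one, neg_neg]
    _ = m * star Φ.c := by simp [m]
    _ = 0 := by rw [hm, zero_mul]

theorem det_kp (k l : K2 F) : (kp Φ k l).det = QuadraticAlgebra.norm k + QuadraticAlgebra.norm l := by
  have h : kp Φ k l * bar (kp Φ k l) = kp Φ (k * star k + l * star l) 0 := by
    rw [bar_kp, kp_mul]
    congr 1
    · rw [star_neg]; ring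
    · rw [star_star]; ring
  have h00 := congrFun (congrFun h 0) 0
  rw [bar_eq, Matrix.mul_adjugate] at h00
  have e0 : ∀ z : K2 F, kp Φ z 0 = emb z := fun z => by simp [kp]
  rw [e0, Matrix.smul_apply, Matrix.one_apply_eq, smul_eq_mul, mul_one] at h00
  refine h00.trans ?_
  simp [emb_apply, QuadraticAlgebra.norm_def]
  ring

/-- The vector of four coordinates. -/
def co (a : K2 F) (v : Fin 3 → K2 F) : V := oct (kp Φ a (v 0)) (kp Φ (v 1) (star (v 2)))

theorem exists_co (x : V) : ∃ a v, x = co Φ a v := by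
  obtain ⟨A, B, rfl⟩ := exists_oct x
  obtain ⟨a, b, rfl⟩ := exists_kp Φ A
  obtain ⟨c, d, rfl⟩ := exists_kp Φ B
  exact ⟨a, ![b, c, star d], by simp [co]⟩

theorem co_inj {a a' : K2 F} {v v' : Fin 3 → K2 F} (h : co Φ a v = co Φ a' v') : a = a' ∧ v = v' := by
  obtain ⟨h1, h2⟩ := oct_inj h
  obtain ⟨ha, h0⟩ := kp_inj Φ h1
  obtain ⟨h1, h2⟩ := kp_inj Φ h2
  exact ⟨ha, funext fun i => by fin_cases i <;> first | exact h0 | exact h1 | exact star_injective h2⟩

theorem co_add (a a' : K2 F) (v v' : Fin 3 → K2 F) : co Φ a v + co Φ a' v' = co Φ (a + a') (v + v') := by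
  simp [co, oct_add, kp_add, star_add]

theorem star_smulK (c : F) (z : K2 F) : star (c • z) = c • star z := by
  ext <;> simp <;> ring

theorem co_smul (c : F) (a : K2 F) (v : Fin 3 → K2 F) : c • co Φ a v = co Φ (c • a) (c • v) := by
  simp [co, oct_smul, kp_smul, star_smulK]

theorem one_eq_co : (Triality.one : V) = co Φ 1 0 := by simp [one_eq_oct, co, kp_one, kp_zero]

theorem mul_co (a b : K2 F) (v w : Fin 3 → K2 F) :
    Triality.mul (co Φ a v) (co Φ b w) =
      co Φ (a * b - v ⬝ᵥ star w) (a • w + star b • v + star (crossProduct v w)) := by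
  rw [co, co, mul_oct, bar_kp, bar_kp, kp_mul, kp_mul, kp_mul, kp_mul, co]
  congr 1
  · rw [kp_sub]
    congr 1
    · simp [dotProduct, Fin.sum_univ_three, star_star, star_mul, star_neg]; ring
    · simp [cross_apply, star_star, star_mul, star_neg, star_sub]; ring
  · rw [kp_add]
    congr 1
    · simp [cross_apply, star_star, star_mul, star_neg, star_sub]; ring
    · simp [cross_apply, star_star, star_mul, star_neg, star_sub, star_add]; ring

theorem conj_co (a : K2 F) (v : Fin 3 → K2 F) : Triality.conj (co Φ a v) = co Φ (star a) (-v) := by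
  rw [co, co, conj_oct, bar_kp, kp_neg]
  simp [star_neg]

theorem nrm_co (a : K2 F) (v : Fin 3 → K2 F) :
    nrm (co Φ a v) = QuadraticAlgebra.norm a + ∑ i, QuadraticAlgebra.norm (v i) := by
  rw [co, nrm_oct, det_kp, det_kp, Fin.sum_univ_three]
  simp [QuadraticAlgebra.norm_def]; ring

end CfsgLib.LocalBalanceAut.Tri
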