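import Cfsg.Agent.Lib.LocalBalanceAut.TriCases
import Cfsg.Agent.Lib.LocalBalanceAut.DatumField
import Cfsg.Agent.Lib.Signalizer.LinearBlock
import Cfsg.Agent.Lib.Cores.Quasisimple

/-!
# Maps of the quaternionic summands
-/

set_option autoImplicit false
set_option linter.unusedSectionVars false
set_option linter.unusedSimpArgs false
set_option linter.style.haveILetI false
set_option maxHeartbeats 800000

open Matrix CfsgLib.OrthGen
open CfsgLib.ReflectionsSpinor CfsgLib.ReflectionsSpinor.POmegaAut CfsgLib.ReflectionsSpinor.POmegaQuot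
  CfsgLib.ReflectionsSpinor.POmegaForms CfsgLib.ReflectionsSpinor.POmegaField
open CfsgLib.Geometric (ap ap_mul ap_smul ap_one gl_ext ap_add ap_injective)
open CfsgLib.Triality (nrm Tri)
open CfsgLib.ReflectionsSpinor.POmegaTriality (cSim ap_c ap_scalar sim_ext)

namespace CfsgLib.LocalBalanceAut.Tri

universe u

variable {F : Type u} [Field F] [Finite F]

local notation "V" => (Fin 4 ⊕ Fin 4 → F)
local notation "M2" => Matrix (Fin 2) (Fin 2) F
local notation "SL2" => Matrix.SpecialLinearGroup (Fin 2) F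

set_option quotPrecheck false in
local notation "SimP" => Cfsg.Geo.quadSimilarityGroup (F := F) (⇑(qP F 4))

set_option quotPrecheck false in
local notation "E4" => ev_qP (F := F) (le_refl 4)

set_option quotPrecheck false in
local notation "InnP" => Cfsg.Inn (Cfsg.POmega F (⇑(qP F 4)))

/-! ### Inner elements of order three -/

theorem inn_iso (h : ↥(Cfsg.isometryGroup F (⇑(qP F 4)))) (h3 : h ^ 3 = 1) :
    sA (isoSim h) ∈ InnP := by
  have e : h = (h ^ 2) ^ 2 := by
    rw [← pow_mul, show 2 * 2 = 3 + 1 from rfl, pow_succ, h3, one_mul]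
  rw [e]
  exact simAut_iso_mem_inn (DatumField.sq_mem_omega (E4).toNd _)

theorem inn_phi (q : Quad F) (h3 : q ^ 3 = 1) : sA (phi q) ∈ InnP :=
  inn_iso (phiIso q) (by rw [← map_pow, h3, map_one])

theorem inn_tor (t : Q4 F) (h3 : t ^ 3 = 1) : sA (tor t) ∈ InnP :=
  inn_phi _ (by rw [← map_pow, h3, map_one])

theorem inn_uu (Φ : Frame F) (U : ↥(SU F)) (h3 : U ^ 3 = 1) : sA (uu Φ U) ∈ InnP :=
  inn_iso _ (by rw [← map_pow, h3, map_one])

/-! ### Field automorphisms of quadruples -/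

/-- A field automorphism on `SL₂`. -/
noncomputable abbrev sg (ρ : F ≃+* F) : SL2 →* SL2 := Matrix.SpecialLinearGroup.map ρ.toRingHom

theorem coe_sg (ρ : F ≃+* F) (v : SL2) : ((sg ρ v : SL2) : M2) = (v : M2).map ρ := rfl

theorem sg_sg (ρ τ : F ≃+* F) (v : SL2) : sg ρ (sg τ v) = sg (ρ * τ) v :=
  Subtype.ext (Matrix.ext fun _ _ => rfl)

theorem sg_one (v : SL2) : sg (1 : F ≃+* F) v = v := Subtype.ext (Matrix.ext fun _ _ => rfl)

theorem map_bar (ρ : F ≃+* F) (a : M2) : (bar a).map ρ = bar (a.map ρ) := by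
  ext i j; fin_cases i <;> fin_cases j <;> simp [bar]

theorem tw_phi (ρ : F ≃+* F) (A B C D : SL2) :
    tw ρ (phi (A, B, C, D)) = phi (sg ρ A, sg ρ B, sg ρ C, sg ρ D) :=
  sim_ext fun x => by
    obtain ⟨y, rfl⟩ : ∃ y, x = ρ ∘ y :=
      ⟨ρ.symm ∘ x, (CfsgLib.ReflectionsSpinor.POmegaAut.comp_symm_comp ρ x).symm⟩
    obtain ⟨a, b, rfl⟩ := exists_oct y
    rw [ap_tw, ap_phi, comp_oct, comp_oct, ap_phi]
    simp only [Matrix.map_mul, map_bar, coe_sg]

theorem conj_phi_sim (A B C D : SL2) : cSim * phi (A, B, C, D) * cSim = phi (B, A, C, D) :=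
  sim_ext fun x => by
    rw [Subgroup.coe_mul, Subgroup.coe_mul, ap_mul, ap_mul, ap_c, ap_c]
    exact conj_phi _ _ _ _ x

theorem psi_phi (A B C D : SL2) :
    psi F * sA (phi (A, B, C, D)) = sA (phi (C, A, B, D)) * psi F := by
  rw [psi_simAut (tri_phi A B C D), conj_phi_sim]

theorem sg_iota (ρ : F ≃+* F) (z : K1 F) : sg ρ (iota z) = iota (rK1 ρ z) := by
  refine Subtype.ext (Matrix.ext fun i j => ?_)
  fin_cases i <;> fin_cases j <;> simp [coe_sg, coe_iota, rK1, rK, emb_apply]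

theorem rK1_cube (h3 : (3 : F) ≠ 0) (ρ : F ≃+* F) {z : K1 F} (hz : z ^ 3 = 1) : rK1 ρ z = z := by
  rcases K1_cube h3 hz with rfl | rfl | rfl
  · exact map_one _
  · exact rK1_uK ρ
  · rw [map_mul, rK1_uK]

/-- Twisted conjugation on `SL₂`. -/
noncomputable def shift (a : K1 F) (ρ : F ≃+* F) : SL2 →* SL2 :=
  (MulAut.conj (iota a)).toMonoidHom.comp (sg ρ)

theorem shift_apply (a : K1 F) (ρ : F ≃+* F) (v : SL2) :
    shift a ρ v = iota a * sg ρ v * (iota a)⁻¹ := rfl

theorem shift_shift_shift (h3 : (3 : F) ≠ 0) {a : K1 F} {ρ : F ≃+* F} (ha : a ^ 3 = 1) (hρ : ρ ^ 3 = 1)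
    (v : SL2) : shift a ρ (shift a ρ (shift a ρ v)) = v := by
  have hr : rK1 ρ a = a := rK1_cube h3 ρ ha
  rw [shift_apply a ρ v, shift_apply a ρ (_ * _ * _), shift_apply a ρ (_ * _ * _)]
  simp only [map_mul, map_inv, sg_iota, hr, sg_sg]
  rw [← mul_assoc ρ, show sg (ρ * ρ * ρ) v = v by rw [← pow_two, ← pow_succ, hρ, sg_one]]
  have e : iota a * iota a * iota a = 1 := by
    rw [← map_mul, ← map_mul, ← pow_two, ← pow_succ, ha, map_one]
  calc _ = (iota a * iota a * iota a) * v * (iota a * iota a * iota a)⁻¹ := by group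
    _ = v := by rw [e, one_mul, inv_one, mul_one]

/-- A copy of `SL₂` centralising a triality element. -/
noncomputable def lift (a : K1 F) (ρ : F ≃+* F) : SL2 →* ↥SimP :=
  phi.comp ((MonoidHom.id _).prod ((shift a ρ).prod (((shift a ρ).comp (shift a ρ)).prod 1)))

theorem lift_apply (a : K1 F) (ρ : F ≃+* F) (v : SL2) :
    lift a ρ v = phi (v, shift a ρ v, shift a ρ (shift a ρ v), 1) := rfl

theorem lift_tau (a : K1 F) (ρ : F ≃+* F) (v : SL2) (D : K1 F) :
    Commute (sA (tor (1, 1, 1, D))) (sA (lift a ρ v)) := by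
  show _ = _
  rw [tor_apply, lift_apply, ← sA_mul, ← sA_mul, ← map_mul, ← map_mul]
  simp

theorem lift_inn (a : K1 F) (ρ : F ≃+* F) {v : SL2} (hv : v ^ 3 = 1) : sA (lift a ρ v) ∈ InnP := by
  rw [lift_apply]
  refine inn_phi _ ?_
  simp [← map_pow, hv]

theorem lift_Xel (h3 : (3 : F) ≠ 0) {a : K1 F} {ρ : F ≃+* F} (ha : a ^ 3 = 1) (hρ : ρ ^ 3 = 1)
    (d : K1 F) (v : SL2) : Commute (sA (lift a ρ v)) (Xel a d ρ) := by
  refine Commute.symm ?_
  set w1 := shift a ρ v with hw1
  set w2 := shift a ρ w1 with hw2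
  have e : tor (a, a, a, d) * tw ρ (phi (w2, v, w1, 1)) = phi (v, w1, w2, 1) * tor (a, a, a, d) := by
    have h : ∀ z : SL2, iota a * sg ρ z = shift a ρ z * iota a := fun z => by
      rw [shift_apply, inv_mul_cancel_right]
    rw [tw_phi, tor_apply, ← map_mul, ← map_mul]
    refine congrArg phi ?_
    simp only [Prod.mk_mul_mk, h, map_one, mul_one, one_mul]
    rw [show shift a ρ w2 = v by rw [hw2, hw1, shift_shift_shift h3 ha hρ]]
  show _ = _
  rw [lift_apply, Xel, mul_assoc _ (psi F), psi_phi, ← mul_assoc, mul_assoc (sA _) (stdPlus F 4 ρ),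
    stdPlus_mul_simAut, ← mul_assoc, ← sA_mul, e, sA_mul]
  simp only [mul_assoc]
  rfl

/-! ### Centralisers of the fourth torus -/

/-- The matrix of the root of unity. -/
noncomputable def uM : Matrix (Fin 2) (Fin 2) F := emb ((uK : K1 F) : K2 F)

theorem uM_eq : (uM : M2) = !![0, -1; 1, -1] := by
  rw [uM, coe_uK, emb_apply]; simp

/-- The torus element fixing the first summand. -/
noncomputable def t0 : ↥(Cfsg.Geo.quadSimilarityGroup (F := F) (⇑(qP F 4))) := tor (1, 1, 1, uK)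

theorem ap_t0 (a b : M2) : ap (t0 (F := F)).1 (oct a b) = oct a (uM * b) := by
  rw [t0, tor_apply, ap_phi]
  simp [bar_one, uM, coe_iota]

theorem scalar_commute {g t : ↥SimP} {ρ : F ≃+* F} (ht : tw ρ t = t)
    (h : Commute (sA g * stdPlus F 4 ρ) (sA t)) : ∃ l : Fˣ, t * g = scalarSim l * (g * t) := by
  have e := h.eq
  rw [mul_assoc, stdPlus_mul_simAut, ht, ← mul_assoc, ← mul_assoc, ← sA_mul, ← sA_mul] at e
  exact sA_eq_iff.1 (sA_stdPlus_eq_iff.1 e).1

/-- Preservation of the two summands. -/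
def Pres (g : ↥(Cfsg.Geo.quadSimilarityGroup (F := F) (⇑(qP F 4)))) : Prop :=
  (∀ a, ∃ a', ap g.1 (oct a 0) = oct a' 0) ∧ (∀ b, ∃ b', ap g.1 (oct 0 b) = oct 0 b')

theorem pres_of_commute (h3 : (3 : F) ≠ 0) {g : ↥SimP} {l : Fˣ}
    (h : t0 * g = scalarSim l * (g * t0)) : Pres g ∧ l = 1 := by
  have key : ∀ x, ap (t0 (F := F)).1 (ap g.1 x) = (l : F) • ap g.1 (ap (t0 (F := F)).1 x) := fun x => by
    have := congrArg (fun z : ↥SimP => ap z.1 x) h
    simpa [ap_mul, ap_scalar] using this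
  have kQ : ∀ a, ∀ a' b', ap g.1 (oct a 0) = oct a' b' → a' = (l : F) • a' ∧ uM * b' = (l : F) • b' := by
    intro a a' b' he
    have := key (oct a 0)
    rw [ap_t0, mul_zero, he, ap_t0, oct_smul] at this
    exact oct_inj this
  have hl : l = 1 := by
    by_contra hl
    have hl' : (l : F) ≠ 1 := fun e => hl (Units.ext e)
    let f : M2 → F × F := fun a => ((qb (ap g.1 (oct a 0))) 0 0, (qb (ap g.1 (oct a 0))) 0 1)
    have hf : Function.Injective f := by
      intro a c hac
      have hz : ∀ a : M2, ∃ b', ap g.1 (oct a 0) = oct 0 b' ∧ uM * b' = (l : F) • b' := fun a => by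
        obtain ⟨a', b', he⟩ := exists_oct (ap g.1 (oct a 0))
        obtain ⟨h1, h2⟩ := kQ a a' b' he
        have : a' = 0 := by
          have h4 : (1 - (l : F)) • a' = 0 := by rw [sub_smul, one_smul, ← h1, sub_self]
          exact (smul_eq_zero_iff_right (sub_ne_zero.2 (Ne.symm hl'))).1 h4
        exact ⟨b', by rw [he, this], h2⟩
      obtain ⟨b, hb, hb'⟩ := hz a
      obtain ⟨d, hd, hd'⟩ := hz c
      simp only [f, hb, hd, qb_oct, Prod.mk.injEq] at hac
      refine (oct_inj (ap_injective g.1 (hb.trans (Eq.trans ?_ hd.symm)))).1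
      congr 1
      have eb : ∀ j, -b 1 j = (l : F) * b 0 j := fun j => by
        have := congrFun (congrFun hb' 0) j
        simpa [uM_eq, Matrix.mul_apply, Fin.sum_univ_two] using this
      have ed : ∀ j, -d 1 j = (l : F) * d 0 j := fun j => by
        have := congrFun (congrFun hd' 0) j
        simpa [uM_eq, Matrix.mul_apply, Fin.sum_univ_two] using this
      ext i j
      fin_cases i <;> fin_cases j
      · exact hac.1
      · exact hac.2
      · show b 1 0 = d 1 0
        exact neg_injective (by rw [eb, ed, hac.1])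
      · show b 1 1 = d 1 1
        exact neg_injective (by rw [eb, ed, hac.2])
    have hc := Nat.card_le_card_of_injective f hf
    rw [Nat.card_prod, show Nat.card M2 = Nat.card (Fin 2 → Fin 2 → F) from rfl, Nat.card_fun, Nat.card_fun,
      Nat.card_fin] at hc
    have hq : 2 ≤ Nat.card F := Finite.one_lt_card
    nlinarith [Nat.mul_le_mul hq hq]
  subst hl
  refine ⟨⟨fun a => ?_, fun b => ?_⟩, rfl⟩
  · obtain ⟨a', b', he⟩ := exists_oct (ap g.1 (oct a 0))
    refine ⟨a', ?_⟩
    obtain ⟨-, h2⟩ := kQ a a' b' he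
    rw [Units.val_one, one_smul, uM_eq] at h2
    have e : ∀ j, b' 1 j = 0 ∧ b' 0 j = 0 := fun j => by
      have r0 := congrFun (congrFun h2 0) j
      have r1 := congrFun (congrFun h2 1) j
      simp [Matrix.mul_apply, Fin.sum_univ_two] at r0 r1
      have h1 : b' 1 j = 0 := mul_left_cancel₀ h3 (by linear_combination -r0 - r1)
      exact ⟨h1, by linear_combination -r0 - h1⟩
    rw [he]
    congr 1
    ext i j
    fin_cases i
    · exact (e j).2
    · exact (e j).1
  · set c : M2 := (-1 / 3 : F) • (uM * b + (2 : F) • b)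
    have hc : oct 0 b = ap (t0 (F := F)).1 (oct 0 c) - oct 0 c := by
      rw [ap_t0, eq_sub_iff_add_eq, oct_add, add_zero]
      congr 1
      ext i j
      fin_cases i <;> simp [c, uM_eq, Matrix.mul_apply, Matrix.vecMul, dotProduct, Fin.sum_univ_two] <;> field_simp <;> ring
    obtain ⟨a', b', he⟩ := exists_oct (ap g.1 (oct 0 c))
    refine ⟨uM * b' - b', ?_⟩
    have hk := key (oct 0 c)
    rw [Units.val_one, one_smul] at hk
    rw [hc, sub_eq_add_neg, ← neg_one_smul F (oct 0 c), ap_add, ap_smul, ← hk, he, ap_t0, oct_smul, oct_add]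
    simp [sub_eq_add_neg]

/-! ### Two-sided multiplications -/

theorem exists_sandwich {P P2 P3 : M2 → M2} {k : F} (hk : k ≠ 0)
    (hadd : ∀ X Y, P (X + Y) = P X + P Y) (hsmul : ∀ (c : F) X, P (c • X) = c • P X)
    (hP : Function.Injective P) (h : ∀ X Y, P (X * Y) = k • (P2 X * P3 Y)) :
    ∃ A A' B B' E : M2, A * A' = 1 ∧ B * B' = 1 ∧ (∀ X, P X = A * X * B) ∧ (∀ X, P2 X = A * X * E) := by
  have hsurj : Function.Surjective P := Finite.injective_iff_surjective.1 hP
  obtain ⟨Y0, hY0⟩ := hsurj 1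
  have hq2 : P2 1 * (k • P3 Y0) = 1 := by rw [Matrix.mul_smul, ← h, one_mul, hY0]
  have hq3 : (k • P2 Y0) * P3 1 = 1 := by rw [Matrix.smul_mul, ← h, mul_one, hY0]
  set q2 := k • P3 Y0
  set q3 := k • P2 Y0
  have hq3' : P3 1 * q3 = 1 := mul_eq_one_comm.1 hq3
  set P1' := k⁻¹ • (q3 * q2) with hP1'
  have hmul : ∀ X Y, P (X * Y) = P X * P1' * P Y := fun X Y => by
    have e1 : P X = k • (P2 X * P3 1) := by rw [← h, mul_one]
    have e2 : P Y = k • (P2 1 * P3 Y) := by rw [← h, one_mul]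
    rw [h, e1, e2, hP1']
    simp only [Matrix.smul_mul, Matrix.mul_smul, smul_smul]
    rw [show k * (k⁻¹ * k) = k by rw [inv_mul_cancel₀ hk, mul_one]]
    congr 1
    calc P2 X * P3 Y = P2 X * (P3 1 * q3) * (q2 * P2 1) * P3 Y := by
          rw [hq3', mul_eq_one_comm.1 hq2, mul_one, mul_one]
      _ = _ := by simp only [mul_assoc]
  have hP1 : P 1 * P1' = 1 := by
    have := hmul 1 Y0
    rwa [one_mul, hY0, mul_one, eq_comm] at this
  set th : M2 → M2 := fun X => P1' * P X with hth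
  have hP1c : P1' * P 1 = 1 := mul_eq_one_comm.1 hP1
  have th_mul : ∀ X Y, th (X * Y) = th X * th Y := fun X Y => by
    simp only [hth, hmul X Y, mul_assoc]
  have th_inj : Function.Injective th := fun X Y e => hP (by
    have := congrArg (fun Z => P 1 * Z) e
    simpa [hth, ← mul_assoc, hP1] using this)
  have th_add : ∀ X Y, th (X + Y) = th X + th Y := fun X Y => by simp [hth, hadd, mul_add]
  have th_smul : ∀ (c : F) X, th (c • X) = c • th X := fun c X => by simp [hth, hsmul]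
  obtain ⟨j0, l, hjl⟩ : ∃ j0 l, th (Matrix.single 0 0 1) j0 l ≠ 0 := by
    by_contra! hz
    have e : th (Matrix.single (0 : Fin 2) (0 : Fin 2) (1 : F)) = th 0 := by
      rw [← zero_smul F (1 : M2), th_smul, zero_smul]
      exact Matrix.ext hz
    have := congrFun (congrFun (th_inj e) 0) 0
    simp at this
  let U : M2 := Matrix.of fun j i => th (Matrix.single i 0 1) j l
  have hU : ∀ X, th X * U = U * X := fun X => by
    refine Matrix.ext fun j i => ?_
    have e : X * Matrix.single i 0 1 = X 0 i • Matrix.single 0 0 (1 : F) + X 1 i • Matrix.single 1 0 1 := by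
      refine Matrix.ext fun a b => ?_
      fin_cases a <;> fin_cases b <;> fin_cases i <;> simp [Matrix.mul_apply, Matrix.single, Fin.sum_univ_two]
    have h1 := congrFun (congrFun (th_mul X (Matrix.single i 0 1)) j) l
    rw [e, th_add, th_smul, th_smul] at h1
    simp only [Matrix.mul_apply, Fin.sum_univ_two, U, Matrix.of_apply, Matrix.add_apply, Matrix.smul_apply,
      smul_eq_mul] at h1 ⊢
    rw [← h1]; ring
  have hdet : IsUnit U.det := by
    refine isUnit_iff_ne_zero.2 fun hd => ?_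
    have h0 : ∀ X, U * X * bar U = 0 := fun X => by
      rw [← hU, mul_assoc, bar_eq, Matrix.mul_adjugate, hd, zero_smul, mul_zero]
    obtain ⟨a, i, hai⟩ : ∃ a i, U a i ≠ 0 := ⟨j0, 0, hjl⟩
    have hb : bar U = 0 := by
      refine Matrix.ext fun j b => ?_
      have := congrFun (congrFun (h0 (Matrix.single i j 1)) a) b
      simp [Matrix.mul_apply, Matrix.single, Fin.sum_univ_two] at this
      fin_cases i <;> fin_cases j <;> simp_all
    have : U = 0 := by rw [← bar_bar U, hb]; ext a b; fin_cases a <;> fin_cases b <;> simp [bar]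
    rw [this] at hai
    exact hai rfl
  have hUU : U * U⁻¹ = 1 := Matrix.mul_nonsing_inv _ hdet
  have hPX : ∀ X, P X = P 1 * U * X * U⁻¹ := fun X => by
    rw [mul_assoc (P 1) U X, ← hU, ← mul_assoc (P 1), mul_assoc _ U U⁻¹, hUU, mul_one, hth]
    simp only [← mul_assoc, hP1, one_mul]
  refine ⟨P 1 * U, U⁻¹ * P1', U⁻¹, U, k⁻¹ • (U⁻¹ * q3), ?_, Matrix.nonsing_inv_mul _ hdet, hPX, fun X => ?_⟩
  · rw [mul_assoc, ← mul_assoc U, hUU, one_mul, hP1]
  · calc P2 X = k⁻¹ • (k • (P2 X * P3 1) * q3) := by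
          rw [Matrix.smul_mul, smul_smul, inv_mul_cancel₀ hk, one_smul, mul_assoc, hq3', mul_one]
      _ = k⁻¹ • (P X * q3) := by rw [← h, mul_one]
      _ = _ := by rw [hPX]; simp only [Matrix.mul_smul, mul_assoc]

/-! ### Facts about `SL₂` -/

theorem sl2_two (hF : ∀ a : F, a = 0 ∨ a = 1) (v : SL2) :
    v = 1 ∨ (v ^ 3 = 1 ∧ v ≠ 1) ∨
      ((v * (iota uK * v * (iota uK)⁻¹)) ^ 3 = 1 ∧ v * (iota uK * v * (iota uK)⁻¹) ≠ 1) := by
  have h2 : (2 : F) = 0 := (hF 2).resolve_right fun h => by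
    have : (1 : F) = 0 := by linear_combination h
    exact one_ne_zero this
  haveI : CharP F 2 := CharTwo.of_one_ne_zero_of_two_eq_zero one_ne_zero h2
  have hd := v.det_coe
  rw [Matrix.det_fin_two] at hd
  have ve := Matrix.eta_fin_two v.1
  rcases hF (v.1 0 0) with h00 | h00 <;> rcases hF (v.1 0 1) with h01 | h01 <;>
    rcases hF (v.1 1 0) with h10 | h10 <;> rcases hF (v.1 1 1) with h11 | h11 <;>
    simp [h00, h01, h10, h11] at hd <;>
    rw [h00, h01, h10, h11] at ve <;>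
    simp [Matrix.SpecialLinearGroup.ext_iff, pow_succ, Matrix.mul_apply, Fin.sum_univ_two, Fin.forall_fin_two,
      Matrix.vecMul, dotProduct, ve, coe_iota, coe_uK, emb_apply, Matrix.adjugate_fin_two, CharTwo.add_self_eq_zero,
      CharTwo.neg_eq, CharTwo.sub_eq_add]

theorem eq_scalar_of_twisted {ρ : F ≃+* F} {A A' : M2} (hA : A * A' = 1)
    (h : ∀ v : SL2, A * v.1.map ρ = v.1 * A) :
    ρ = 1 ∧ ∃ c : F, c ≠ 0 ∧ A = c • 1 := by
  have hu : ∀ t : F, A 1 0 = 0 ∧ A 0 0 * ρ t = t * A 1 1 := fun t => by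
    have e := h ⟨!![1, t; 0, 1], by simp [Matrix.det_fin_two]⟩
    have e00 := congrFun (congrFun e 0) 0
    have e01 := congrFun (congrFun e 0) 1
    have e1 := h ⟨!![1, 1; 0, 1], by simp [Matrix.det_fin_two]⟩
    have e10 := congrFun (congrFun e1 0) 0
    simp [Matrix.mul_apply, Fin.sum_univ_two] at e00 e01 e10
    exact ⟨e10, by linear_combination e01⟩
  have hl : A 0 1 = 0 := by
    have e := congrFun (congrFun (h ⟨!![1, 0; 1, 1], by simp [Matrix.det_fin_two]⟩) 0) 0
    simp [Matrix.mul_apply, Fin.sum_univ_two] at e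
    exact e
  have h10 : A 1 0 = 0 := (hu 1).1
  have h11 : A 0 0 = A 1 1 := by simpa using (hu 1).2
  have hd : A 0 0 ≠ 0 := fun h0 => by
    have := congrArg Matrix.det hA
    simp [Matrix.det_mul, Matrix.det_fin_two A, h0, hl] at this
  refine ⟨RingEquiv.ext fun t => ?_, A 0 0, hd, ?_⟩
  · have := (hu t).2
    rw [← h11, mul_comm t] at this
    exact mul_left_cancel₀ hd this
  · ext i j
    fin_cases i <;> fin_cases j <;> simp [hl, h10, h11]

theorem closure_cube_eq_top (h : ∃ a : F, a ≠ 0 ∧ a ^ 2 ≠ 1) :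
    Subgroup.closure {v : SL2 | v ^ 3 = 1} = ⊤ := by
  set H := Subgroup.closure {v : SL2 | v ^ 3 = 1} with hH
  haveI : H.Normal := ⟨fun n hn g => by
    induction hn using Subgroup.closure_induction with
    | mem x hx =>
      refine Subgroup.subset_closure ?_
      show (g * x * g⁻¹) ^ 3 = 1
      rw [conj_pow, hx, mul_one, mul_inv_cancel]
    | one => rw [mul_one, mul_inv_cancel]; exact Subgroup.one_mem _
    | mul x y _ _ hx hy =>
      rw [show g * (x * y) * g⁻¹ = (g * x * g⁻¹) * (g * y * g⁻¹) by group]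
      exact Subgroup.mul_mem _ hx hy
    | inv x _ hx =>
      rw [show g * x⁻¹ * g⁻¹ = (g * x * g⁻¹)⁻¹ by group]
      exact Subgroup.inv_mem _ hx⟩
  refine (CfsgLib.Cores.normal_eq_top_or_le_center
    (CfsgLib.Signalizer.isQuasisimple_sl (F := F) (Or.inr h)) H).resolve_right fun hle => ?_
  have hu : iota (uK : K1 F) ∈ H := Subgroup.subset_closure (by
    show iota (uK : K1 F) ^ 3 = 1
    rw [← map_pow, uK_pow_three, map_one])
  have e := Subgroup.mem_center_iff.1 (hle hu) ⟨!![1, 1; 0, 1], by simp [Matrix.det_fin_two]⟩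
  have e00 := congrFun (congrFun (congrArg Subtype.val e) 0) 0
  change (!![(1 : F), 1; 0, 1] * emb ((uK : K1 F) : K2 F)) 0 0 = (emb ((uK : K1 F) : K2 F) * !![(1 : F), 1; 0, 1]) 0 0 at e00
  simp [coe_uK, emb_apply, Matrix.mul_apply, Fin.sum_univ_two] at e00

end CfsgLib.LocalBalanceAut.Tri
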