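import Cfsg.Agent.Lib.LocalBalanceAut.TriQuat

/-!
# Signalizers of triality automorphisms at the first torus element
-/

set_option autoImplicit false
set_option linter.unusedSectionVars false
set_option linter.unusedSimpArgs false
set_option linter.style.haveILetI false
set_option maxHeartbeats 800000

open Matrix CfsgLib.OrthGen
open CfsgLib.ReflectionsSpinor CfsgLib.ReflectionsSpinor.POmegaAut CfsgLib.ReflectionsSpinor.POmegaQuot
  CfsgLib.ReflectionsSpinor.POmegaForms CfsgLib.ReflectionsSpinor.POmegaField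
open CfsgLib.Geometric (ap ap_mul ap_smul ap_one gl_ext ap_add ap_injective)
open CfsgLib.Triality (nrm Tri)
open CfsgLib.ReflectionsSpinor.POmegaTriality (cSim ap_c ap_scalar sim_ext)

namespace CfsgLib.LocalBalanceAut.Tri

universe u

variable {F : Type u} [Field F] [Finite F]

local notation "V" => (Fin 4 ⊕ Fin 4 → F)
local notation "M2" => Matrix (Fin 2) (Fin 2) F
local notation "SL2" => Matrix.SpecialLinearGroup (Fin 2) F

set_option quotPrecheck false in
local notation "SimP" => Cfsg.Geo.quadSimilarityGroup (F := F) (⇑(qP F 4))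

set_option quotPrecheck false in
local notation "E4" => ev_qP (F := F) (le_refl 4)

set_option quotPrecheck false in
local notation "Aut4" => MulAut (Cfsg.POmega F (⇑(qP F 4)))

set_option quotPrecheck false in
local notation "Γ4" => Cfsg.gammaPOmega F (⇑(qP F 4))

set_option quotPrecheck false in
local notation "InnP" => Cfsg.Inn (Cfsg.POmega F (⇑(qP F 4)))

/-- A group of `3'`-order centralising `x` and normalised by the inner part of its centraliser. -/
structure Sig (x : MulAut (Cfsg.POmega F (⇑(qP F 4))))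
    (N : Subgroup (MulAut (Cfsg.POmega F (⇑(qP F 4))))) : Prop where
  comm : ∀ n ∈ N, Commute x n
  cop : (Nat.card N).Coprime 3
  norm : ∀ g ∈ Cfsg.Inn (Cfsg.POmega F (⇑(qP F 4))), Commute g x → ∀ n ∈ N, g * n * g⁻¹ ∈ N
  moves : ∀ c, c⁻¹ * x * c ∉ Cfsg.gammaPOmega F (⇑(qP F 4))

theorem Sig.map {x : Aut4} {N : Subgroup Aut4} (h : Sig x N) (c : Aut4) :
    Sig (c * x * c⁻¹) (N.map (MulAut.conj c).toMonoidHom) where
  comm := by
    rintro _ ⟨n, hn, rfl⟩
    exact (h.comm n hn).map (MulAut.conj c).toMonoidHom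
  cop := by rw [Subgroup.card_map_of_injective (MulAut.conj c).injective]; exact h.cop
  norm := by
    rintro g hg hgx _ ⟨n, hn, rfl⟩
    have hg' : c⁻¹ * g * c ∈ InnP := by
      simpa using (Cfsg.innNormal (Cfsg.POmega F (⇑(qP F 4)))).conj_mem g hg c⁻¹
    have hc : Commute (c⁻¹ * g * c) x := by
      have := hgx.map (MulAut.conj c⁻¹).toMonoidHom
      simpa [mul_assoc] using this
    refine ⟨_, h.norm _ hg' hc n hn, ?_⟩
    simp [MulAut.conj_apply, mul_assoc]
  moves := fun e he => h.moves (c⁻¹ * e) (by simpa [mul_assoc] using he)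

theorem Sig.orderOf_coprime {x : Aut4} {N : Subgroup Aut4} (h : Sig x N) {n : Aut4} (hn : n ∈ N) :
    (orderOf n).Coprime 3 := by
  haveI : Finite Aut4 := Finite.of_injective _ DFunLike.coe_injective
  exact h.cop.coprime_dvd_left (by rw [← Subgroup.orderOf_mk n hn]; exact orderOf_dvd_natCard _)

theorem Sig.exists_tri' {x : Aut4} {N : Subgroup Aut4} (h : Sig x N) {n : Aut4} (hn : n ∈ N) :
    ∃ (g g₂ g₃ : ↥SimP) (k : F) (ρ : F ≃+* F), n = sA g * stdPlus F 4 ρ ∧ Tri k g.1 g₂.1 g₃.1 := by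
  have h1 := mem_normalCore_of_coprime h.moves (h.comm n hn) (h.orderOf_coprime hn)
  exact exists_tri_of_mem (Subgroup.normalCore_le _ h1)
    (Subgroup.normalCore_le _ ((Subgroup.normalCore_normal _).conj_mem n h1 (psi F)))

theorem psi_t0 : psi F * sA t0 = sA (t0 (F := F)) * psi F := by
  rw [t0, psi_simAut (tri_tor _ _ _ _), conj_tor]

theorem psi_conj {g g₂ g₃ : ↥SimP} {k : F} {ρ : F ≃+* F} (h : Tri k g.1 g₂.1 g₃.1) :
    psi F * (sA g * stdPlus F 4 ρ) * (psi F)⁻¹ = sA (cSim * g₂ * cSim) * stdPlus F 4 ρ := by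
  rw [← mul_assoc, psi_simAut h, mul_assoc _ (psi F), psi_stdPlus, ← mul_assoc, mul_inv_cancel_right]

theorem tw_t0 (Φ : Frame F) (ρ : F ≃+* F) : tw ρ (t0 (F := F)) = t0 := by
  rw [t0, tw_tor Φ, map_one, rK1_uK]

theorem pres_companion {g₂ : ↥SimP} (h : Pres (cSim * g₂ * cSim)) :
    ∀ a, ∃ a', ap g₂.1 (oct a 0) = oct a' 0 := fun a => by
  obtain ⟨a', ha⟩ := h.1 (bar a)
  refine ⟨bar a', ?_⟩
  rw [Subgroup.coe_mul, Subgroup.coe_mul, ap_mul, ap_mul, ap_c, ap_c, conj_oct, bar_bar, neg_zero] at ha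
  have := congrArg Triality.conj ha
  rwa [Triality.conj_conj, conj_oct, neg_zero] at this

theorem bar_zero : bar (0 : M2) = 0 := by
  ext i j; fin_cases i <;> fin_cases j <;> simp [bar]

theorem scalar_of_comm {W : M2} (h : ∀ X, X * W = W * X) : W = W 0 0 • 1 := by
  have e1 := congrFun (congrFun (h (Matrix.single 0 1 1)) 0) 1
  have e2 := congrFun (congrFun (h (Matrix.single 0 1 1)) 0) 0
  have e3 := congrFun (congrFun (h (Matrix.single 1 0 1)) 0) 0
  simp [Matrix.mul_apply, Matrix.single, Fin.sum_univ_two] at e1 e2 e3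
  ext i j
  fin_cases i <;> fin_cases j <;> simp [e1, e2, e3.symm]

/-- The action on the first summand starts with a left multiplication by `v`. -/
def ActL (g : ↥(Cfsg.Geo.quadSimilarityGroup (F := F) (⇑(qP F 4))))
    (v : Matrix.SpecialLinearGroup (Fin 2) F) : Prop :=
  ∃ B, ∀ X, ap g.1 (oct X 0) = oct (v.1 * X * B) 0

theorem ActL.mul {g g' : ↥SimP} {v v' : SL2} (h : ActL g v) (h' : ActL g' v') : ActL (g * g') (v * v') := by
  obtain ⟨B, hB⟩ := h
  obtain ⟨B', hB'⟩ := h'
  exact ⟨B' * B, fun X => by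
    rw [Subgroup.coe_mul, ap_mul, hB', hB, Matrix.SpecialLinearGroup.coe_mul]; simp only [mul_assoc]⟩

theorem ActL.one : ActL (1 : ↥SimP) (1 : SL2) := ⟨1, fun X => by simp [ap_one]⟩

theorem ActL.pow {g : ↥SimP} {v : SL2} (h : ActL g v) : ∀ i : ℕ, ActL (g ^ i) (v ^ i)
  | 0 => by simpa using ActL.one
  | i + 1 => by rw [pow_succ, pow_succ]; exact (h.pow i).mul h

theorem ActL.lift (a : K1 F) (ρ : F ≃+* F) (v : SL2) : ActL (lift a ρ v) v :=
  ⟨_, fun X => by rw [lift_apply, ap_phi, mul_zero, zero_mul]⟩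

/-- The left factors of the centraliser of `t0` in `N`. -/
def leftFactors (N : Subgroup (MulAut (Cfsg.POmega F (⇑(qP F 4))))) :
    Subgroup (Matrix.SpecialLinearGroup (Fin 2) F) where
  carrier := {v | ∃ g, sA g ∈ N ∧ t0 * g = g * t0 ∧ ActL g v}
  one_mem' := ⟨1, by rw [sA_one]; exact one_mem N, by rw [mul_one, one_mul], ActL.one⟩
  mul_mem' := by
    rintro v v' ⟨g, hg, hc, h⟩ ⟨g', hg', hc', h'⟩
    exact ⟨g * g', by rw [sA_mul]; exact mul_mem hg hg',
      by rw [← mul_assoc, hc, mul_assoc, hc', mul_assoc], h.mul h'⟩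
  inv_mem' := by
    rintro v ⟨g, hg, hc, h⟩
    refine ⟨g ^ (orderOf v - 1), by rw [map_pow]; exact pow_mem hg _, Commute.pow_right hc _, ?_⟩
    have e : v⁻¹ = v ^ (orderOf v - 1) :=
      inv_eq_of_mul_eq_one_left (by rw [← pow_succ, Nat.sub_add_cancel (orderOf_pos v), pow_orderOf_eq_one])
    rw [e]
    exact h.pow _

variable {N : Subgroup (MulAut (Cfsg.POmega F (⇑(qP F 4))))}
  {a d : K1 F} {ρ : F ≃+* F}

theorem leftFactors_cube (hS : Sig (Xel a d ρ) N) {v : SL2} (hv : v ∈ leftFactors N) (h3v : v ^ 3 = 1) :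
    v = 1 := by
  haveI : Finite Aut4 := Finite.of_injective _ DFunLike.coe_injective
  obtain ⟨g, hg, -, hA⟩ := hv
  set M := orderOf (sA g) with hM
  obtain ⟨l, hl⟩ := sA_eq_iff.1 (show sA (g ^ M) = sA 1 by rw [map_pow, pow_orderOf_eq_one, sA_one])
  obtain ⟨B, hB⟩ := hA.pow M
  set w : M2 := ((v ^ M : SL2) : M2) with hw
  have e : ∀ X, X = (l : F) • (w * X * B) := fun X => by
    have := congrArg (fun z : ↥SimP => ap z.1 (oct X 0)) hl
    simp only [Subgroup.coe_one, ap_one, Subgroup.coe_mul, ap_mul, ap_scalar] at this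
    rw [hB, oct_smul] at this
    exact (oct_inj this).1
  have hBw : ((l : F) • B) * w = 1 := by
    refine mul_eq_one_comm.1 ?_
    rw [Matrix.mul_smul]
    conv_rhs => rw [e 1, mul_one]
  have hc : ∀ X, X * w = w * X := fun X => by
    calc X * w = ((l : F) • (w * X * B)) * w := by rw [← e]
      _ = w * X * (((l : F) • B) * w) := by simp only [Matrix.mul_smul, Matrix.smul_mul, mul_assoc]
      _ = w * X := by rw [hBw, mul_one]
  have hs : w 0 0 * w 0 0 = 1 := by
    have := (v ^ M).det_coe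
    rw [← hw, scalar_of_comm hc, Matrix.det_smul, Matrix.det_one] at this
    simpa [pow_two] using this
  have h2 : v ^ (M * 2) = 1 := by
    rw [pow_mul, pow_two]
    refine Subtype.ext ?_
    rw [Matrix.SpecialLinearGroup.coe_mul, ← hw, scalar_of_comm hc, Matrix.smul_mul, one_mul, smul_smul, hs,
      one_smul, Matrix.SpecialLinearGroup.coe_one]
  have hd : orderOf v ∣ Nat.gcd (M * 2) 3 :=
    Nat.dvd_gcd (orderOf_dvd_of_pow_eq_one h2) (orderOf_dvd_of_pow_eq_one h3v)
  rw [(Nat.Coprime.mul_left (hS.orderOf_coprime hg) (by decide))] at hd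
  exact orderOf_eq_one_iff.1 (Nat.dvd_one.1 hd)

theorem t0_lift (a : K1 F) (ρ : F ≃+* F) (v : SL2) : t0 * lift a ρ v = lift a ρ v * t0 := by
  rw [t0, tor_apply, lift_apply, ← map_mul, ← map_mul]
  simp

variable (Φ : Frame F)

include Φ in
theorem leftFactors_conj (hS : Sig (Xel a d ρ) N) (ha : a ^ 3 = 1) (hρ : ρ ^ 3 = 1) {v0 : SL2}
    (hv0 : v0 ^ 3 = 1) {v : SL2} (hv : v ∈ leftFactors N) : v0 * v * v0⁻¹ ∈ leftFactors N := by
  obtain ⟨g, hg, hc, hA⟩ := hv
  have hc0 : Commute t0 (lift a ρ v0) := t0_lift a ρ v0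
  refine ⟨lift a ρ v0 * g * (lift a ρ v0)⁻¹, ?_,
    ((hc0.mul_right hc).mul_right hc0.inv_right).eq, ?_⟩
  · rw [sA_mul, sA_mul, sA_inv]
    exact hS.norm _ (lift_inn a ρ hv0) (lift_Xel Φ.h3 ha hρ d v0) _ hg
  · refine ((ActL.lift a ρ v0).mul hA).mul ?_
    rw [← map_inv]
    exact ActL.lift a ρ _

/-- The left factor of a commutator with the copy of `SL₂`. -/
theorem commutator_mem (hS : Sig (Xel a d ρ) N) (ha : a ^ 3 = 1) (hρ : ρ ^ 3 = 1) (Φ : Frame F)
    {g : ↥SimP} {ρ' : F ≃+* F} (hn : sA g * stdPlus F 4 ρ' ∈ N) (hgc : t0 * g = g * t0)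
    {A A' B B' : M2} (hA : A * A' = 1) (hB : B * B' = 1)
    (hP : ∀ X, ap g.1 (oct X 0) = oct (A * X * B) 0) {v : SL2} (hv : v ^ 3 = 1) :
    ∃ m : SL2, m ∈ leftFactors N ∧ m.1 = v.1 * A * (v⁻¹ : SL2).1.map ρ' * A' := by
  have hdet : (v.1 * A * (v⁻¹ : SL2).1.map ρ' * A').det = 1 := by
    have h1 : ((v⁻¹ : SL2).1.map ρ').det = 1 := (sg ρ' v⁻¹).det_coe
    rw [Matrix.det_mul, Matrix.det_mul, Matrix.det_mul, v.det_coe, h1, mul_one, one_mul, ← Matrix.det_mul,
      hA, Matrix.det_one]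
  set L0 := lift a ρ v
  set L1 := tw ρ' (lift a ρ v⁻¹) with hL1
  refine ⟨⟨_, hdet⟩, ⟨L0 * g * L1 * g⁻¹, ?_, ?_, ?_⟩, rfl⟩
  · have h1 := hS.norm _ (lift_inn a ρ hv) (lift_Xel Φ.h3 ha hρ d v) _ hn
    have h2 := mul_mem h1 (inv_mem hn)
    have e : sA (L0 * g * L1 * g⁻¹) =
        sA L0 * (sA g * stdPlus F 4 ρ') * (sA L0)⁻¹ * (sA g * stdPlus F 4 ρ')⁻¹ := by
      have hi : sA (lift a ρ v⁻¹) = (sA L0)⁻¹ :=
        (congrArg sA (map_inv (lift a ρ) v)).trans (sA_inv _)
      have h := stdPlus_mul_simAut ρ' (lift a ρ v⁻¹)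
      rw [show simAut (⇑(qP F 4)) (lift a ρ v⁻¹) = sA (lift a ρ v⁻¹) from rfl, hi] at h
      calc sA (L0 * g * L1 * g⁻¹) = sA L0 * sA g * (sA L1 * stdPlus F 4 ρ') * (stdPlus F 4 ρ')⁻¹ * (sA g)⁻¹ := by
            rw [sA_mul, sA_mul, sA_mul, sA_inv]; group
        _ = sA L0 * sA g * (stdPlus F 4 ρ' * (sA L0)⁻¹) * (stdPlus F 4 ρ')⁻¹ * (sA g)⁻¹ := by rw [← h]
        _ = _ := by group
    rw [e]
    exact h2
  · have h1 : Commute t0 L1 := by
      have := (show Commute t0 (lift a ρ v⁻¹) from t0_lift a ρ v⁻¹).map (tw ρ')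
      rwa [tw_t0 Φ] at this
    exact ((((show Commute t0 L0 from t0_lift a ρ v).mul_right hgc).mul_right h1).mul_right
      (show Commute t0 g from hgc).inv_right).eq
  · have hg' : ∀ X, ap g⁻¹.1 (oct X 0) = oct (A' * X * B') 0 := fun X => by
      have := hP (A' * X * B')
      rw [show A * (A' * X * B') * B = (A * A') * X * (B' * B) by simp only [mul_assoc], hA,
        mul_eq_one_comm.1 hB, one_mul, mul_one] at this
      rw [← this, ← ap_mul, ← Subgroup.coe_mul, inv_mul_cancel, Subgroup.coe_one, ap_one]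
    refine ⟨B' * bar ((shift a ρ v⁻¹).1.map ρ') * B * bar (shift a ρ v).1, fun X => ?_⟩
    rw [Subgroup.coe_mul, Subgroup.coe_mul, Subgroup.coe_mul, ap_mul, ap_mul, ap_mul, hg', hL1, lift_apply,
      tw_phi, ap_phi, mul_zero, zero_mul, hP, show L0 = phi (v, _, _, 1) from lift_apply a ρ v, ap_phi,
      mul_zero, zero_mul, coe_sg, coe_sg]
    simp only [mul_assoc]

include Φ in
theorem left_trivial (hS : Sig (Xel a d ρ) N) (ha : a ^ 3 = 1) (hρ : ρ ^ 3 = 1) {g : ↥SimP} {ρ' : F ≃+* F}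
    (hn : sA g * stdPlus F 4 ρ' ∈ N) (hgc : t0 * g = g * t0)
    {A A' B B' : M2} (hA : A * A' = 1) (hB : B * B' = 1)
    (hP : ∀ X, ap g.1 (oct X 0) = oct (A * X * B) 0) :
    ρ' = 1 ∧ ∃ c : F, c ≠ 0 ∧ A = c • 1 := by
  by_cases hq : ∃ b : F, b ≠ 0 ∧ b ^ 2 ≠ 1
  · have htop := closure_cube_eq_top hq
    haveI : (leftFactors N).Normal := by
      rw [← Subgroup.normalizer_eq_top_iff, eq_top_iff, ← htop, Subgroup.closure_le]
      exact fun v0 hv0 => mem_normalizer_of_conj fun v hv => leftFactors_conj Φ hS ha hρ hv0 hv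
    have hu3 : iota (uK : K1 F) ^ 3 = 1 := by rw [← map_pow, uK_pow_three, map_one]
    have hcen : leftFactors N ≤ Subgroup.center SL2 := by
      refine (CfsgLib.Cores.normal_eq_top_or_le_center
        (CfsgLib.Signalizer.isQuasisimple_sl (F := F) (Or.inr hq)) _).resolve_left fun ht => ?_
      have h1 := leftFactors_cube hS (show iota (uK : K1 F) ∈ leftFactors N by rw [ht]; exact Subgroup.mem_top _) hu3
      exact uK_ne_one (iota_injective (h1.trans (map_one _).symm))
    let T : Subgroup SL2 :=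
      { carrier := {v | A * v.1.map ρ' = v.1 * A}
        one_mem' := by simp [Matrix.map_one]
        mul_mem' := fun {v w} hv hw => by
          show A * (v * w).1.map ρ' = (v * w).1 * A
          rw [Matrix.SpecialLinearGroup.coe_mul, Matrix.map_mul, ← mul_assoc, hv, mul_assoc, hw, mul_assoc]
        inv_mem' := fun {v} hv => by
          show A * (v⁻¹ : SL2).1.map ρ' = (v⁻¹ : SL2).1 * A
          have h1 : (sg ρ' v).1 * (sg ρ' v⁻¹).1 = 1 := by
            rw [← Matrix.SpecialLinearGroup.coe_mul, ← map_mul, mul_inv_cancel, map_one]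
            rfl
          have h2 : (v⁻¹ : SL2).1 * v.1 = 1 := by
            rw [← Matrix.SpecialLinearGroup.coe_mul, inv_mul_cancel]
            rfl
          calc A * (v⁻¹ : SL2).1.map ρ' = (v⁻¹ : SL2).1 * (v.1 * A) * (v⁻¹ : SL2).1.map ρ' := by
                rw [← mul_assoc (v⁻¹ : SL2).1, h2, one_mul]
            _ = (v⁻¹ : SL2).1 * A * ((sg ρ' v).1 * (sg ρ' v⁻¹).1) := by
                rw [← show A * v.1.map ρ' = v.1 * A from hv]; simp only [mul_assoc]; rfl
            _ = _ := by rw [h1, mul_one] }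
    refine eq_scalar_of_twisted hA fun v => ?_
    suffices h : Subgroup.closure {v : SL2 | v ^ 3 = 1} ≤ T from h (htop ▸ Subgroup.mem_top v)
    rw [Subgroup.closure_le]
    intro w hw
    obtain ⟨m, hm, hme⟩ := commutator_mem hS ha hρ Φ hn hgc hA hB hP hw
    have hmc : ∀ X : M2, X * m.1 = m.1 * X := by
      obtain ⟨c, -, hc⟩ := Matrix.SpecialLinearGroup.mem_center_iff.1 (hcen hm)
      intro X
      rw [← hc]
      simp [Matrix.scalar_apply, ← Matrix.smul_one_eq_diagonal]
    set c := m.1 0 0 with hc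
    have hm1 : m.1 = c • 1 := scalar_of_comm hmc
    have hc2 : c * c = 1 := by
      have := m.det_coe
      rw [hm1, Matrix.det_smul, Matrix.det_one] at this
      simpa [pow_two] using this
    set z := (w⁻¹ : SL2).1.map ρ'
    have hz : z * z * z = 1 := by
      have e : (sg ρ' w⁻¹) ^ 3 = 1 := by rw [← map_pow, inv_pow, show w ^ 3 = 1 from hw, inv_one, map_one]
      rw [pow_succ, pow_two] at e
      exact congrArg Subtype.val e
    set y := (w⁻¹ : SL2).1
    have hy : y * y * y = 1 := by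
      have e : (w⁻¹) ^ 3 = 1 := by rw [inv_pow, show w ^ 3 = 1 from hw, inv_one]
      rw [pow_succ, pow_two] at e
      exact congrArg Subtype.val e
    have hyw : y * w.1 = 1 := congrArg Subtype.val (inv_mul_cancel w)
    have e1 : A * z * A' = c • y := by
      calc A * z * A' = y * w.1 * (A * z * A') := by rw [hyw, one_mul]
        _ = y * m.1 := by rw [hme]; simp only [mul_assoc]
        _ = c • y := by rw [hm1, Matrix.mul_smul, mul_one]
    have hA' := mul_eq_one_comm.1 hA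
    have hc1 : c = 1 := by
      have h1 : (A * z * A') * (A * z * A') * (A * z * A') = 1 := by
        calc _ = A * z * (A' * A) * z * (A' * A) * z * A' := by simp only [mul_assoc]
          _ = A * (z * z * z) * A' := by rw [hA']; simp only [mul_assoc, one_mul, mul_one]
          _ = 1 := by rw [hz, mul_one, hA]
      rw [e1] at h1
      simp only [Matrix.smul_mul, Matrix.mul_smul, smul_smul, hy] at h1
      have := congrFun (congrFun h1 0) 0
      simp only [Matrix.smul_apply, Matrix.one_apply_eq, smul_eq_mul, mul_one] at this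
      calc c = c * c * c := by rw [hc2, one_mul]
        _ = 1 := by linear_combination this
    rw [hc1, one_smul] at e1
    have hmem : w⁻¹ ∈ T := by
      show A * z = y * A
      rw [← e1, mul_assoc _ A' A, hA', mul_one]
    simpa using T.inv_mem hmem
  · push Not at hq
    have h2 : (2 : F) = 0 := by
      by_contra h2
      exact Φ.h3 (by linear_combination hq 2 h2)
    have hF : ∀ b : F, b = 0 ∨ b = 1 := fun b => by
      rcases eq_or_ne b 0 with h | h
      · exact Or.inl h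
      refine Or.inr ?_
      have := hq b h
      have h4 : (b - 1) * (b - 1) = 0 := by linear_combination this + (1 - b) * h2
      exact sub_eq_zero.1 (mul_self_eq_zero.1 h4)
    have hρ' : ρ' = 1 := RingEquiv.ext fun b => by
      rcases hF b with rfl | rfl
      · exact map_zero ρ'
      · exact map_one ρ'
    subst hρ'
    refine ⟨rfl, 1, one_ne_zero, ?_⟩
    have hdet : A.det = 1 := (hF _).resolve_left fun h0 => by
      have := congrArg Matrix.det hA
      rw [Matrix.det_mul, h0, zero_mul, Matrix.det_one] at this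
      exact zero_ne_one this
    rw [stdPlus_one, mul_one] at hn
    set v : SL2 := ⟨A, hdet⟩ with hv
    have hmem : v ∈ leftFactors N := ⟨g, hn, hgc, B, hP⟩
    have hu3 : iota (uK : K1 F) ^ 3 = 1 := by rw [← map_pow, uK_pow_three, map_one]
    have h1 : v = 1 := by
      rcases sl2_two hF v with h | ⟨h, h'⟩ | ⟨h, h'⟩
      · exact h
      · exact absurd (leftFactors_cube hS hmem h) h'
      · exact absurd (leftFactors_cube hS (mul_mem hmem (leftFactors_conj Φ hS ha hρ hu3 hmem)) h) h'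
    rw [one_smul]
    exact (congrArg Subtype.val h1 :)

include Φ in
/-- The right factors are scalar. -/
theorem right_scalar (hS : Sig (Xel a d ρ) N) {g g₂ g₃ : ↥SimP} {k c : F} (ht : Tri k g.1 g₂.1 g₃.1)
    (hn : sA g ∈ N) (hc0 : c ≠ 0) {B B' E : M2} (hB : B * B' = 1)
    (hgQ : ∀ X, ap g.1 (oct X 0) = oct (c • 1 * X * B) 0)
    (hP2Q : ∀ X, ap g₂.1 (oct X 0) = oct (c • 1 * X * E) 0) :
    ∃ w e : F, w ≠ 0 ∧ e ≠ 0 ∧ B = w • 1 ∧ E = e • 1 := by
  set h := cSim * g₂ * cSim with hh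
  set τ := tor (a, a, a, d) with hτ
  have hrel : sA (g * τ) = sA (τ * tw ρ h) := by
    have e := (hS.comm _ hn).symm.eq
    refine mul_right_cancel (b := stdPlus F 4 ρ * psi F) ?_
    calc sA (g * τ) * (stdPlus F 4 ρ * psi F) = sA g * Xel a d ρ := by
          rw [sA_mul, Xel, ← hτ]; simp only [mul_assoc]
      _ = Xel a d ρ * sA g := e
      _ = sA τ * (stdPlus F 4 ρ * sA h) * psi F := by
          rw [Xel, mul_assoc _ (psi F), psi_simAut ht, ← hh, ← hτ]; simp only [mul_assoc]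
      _ = sA τ * sA (tw ρ h) * stdPlus F 4 ρ * psi F := by rw [stdPlus_mul_simAut]; simp only [mul_assoc]
      _ = sA (τ * tw ρ h) * (stdPlus F 4 ρ * psi F) := by rw [sA_mul]; simp only [mul_assoc]
  obtain ⟨t, hrel⟩ := sA_eq_iff.1 hrel
  set U : SL2 := iota a
  have hτQ : ∀ X, ap τ.1 (oct X 0) = oct (U.1 * X * bar U.1) 0 := fun X => by
    rw [hτ, tor_apply, ap_phi, mul_zero, zero_mul]
  set Z : M2 := ((t : F)⁻¹ * ρ c / c) • (bar E).map ρ with hZ
  have hkey : ∀ X, X * (bar U.1 * B * U.1) = Z * X := fun X => by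
    have hh' : ap h.1 (oct (X.map ρ.symm) 0) = oct (c • (bar E * X.map ρ.symm)) 0 := by
      rw [hh, Subgroup.coe_mul, Subgroup.coe_mul, ap_mul, ap_mul, ap_c, ap_c, conj_oct, neg_zero, hP2Q,
        conj_oct, neg_zero, Matrix.smul_mul, Matrix.smul_mul, one_mul, bar_smul, bar_mul, bar_bar]
    have hX : X = (X.map ρ.symm).map ρ := by
      refine Matrix.ext fun i j => ?_
      simp
    have h0 : (0 : M2).map ρ = 0 := Matrix.map_zero _ (map_zero ρ)
    have htw : ap (tw ρ h).1 (oct X 0) = oct (ρ c • ((bar E).map ρ * X)) 0 := by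
      conv_lhs => rw [hX, ← h0, ← comp_oct, ap_tw, hh', comp_oct, h0]
      congr 1
      rw [Matrix.map_smul' (f := ρ) (hf := map_mul ρ), Matrix.map_mul]
      congr 2
      exact hX.symm
    have := congrArg (fun z : ↥SimP => ap z.1 (oct X 0)) hrel
    simp only [Subgroup.coe_mul, ap_mul, ap_scalar, hτQ, hgQ, htw, oct_smul] at this
    have e := (oct_inj this).1
    simp only [Matrix.smul_mul, Matrix.mul_smul, one_mul, smul_smul] at e
    have hU : bar U.1 * U.1 = 1 := bar_mul_self_sl U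
    have e2 := congrArg (fun M => bar U.1 * M * U.1) e
    simp only [Matrix.smul_mul, Matrix.mul_smul] at e2
    have r1 : ∀ Y, bar U.1 * (U.1 * Y * bar U.1) * U.1 = Y := fun Y => by
      calc _ = (bar U.1 * U.1) * Y * (bar U.1 * U.1) := by simp only [mul_assoc]
        _ = Y := by rw [hU, one_mul, mul_one]
    rw [r1, show bar U.1 * (U.1 * X * bar U.1 * B) * U.1 = X * (bar U.1 * B * U.1) by
      calc _ = (bar U.1 * U.1) * (X * (bar U.1 * B * U.1)) := by simp only [mul_assoc]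
        _ = _ := by rw [hU, one_mul]] at e2
    rw [hZ, Matrix.smul_mul]
    refine ((smul_right_injective M2 (mul_ne_zero t.ne_zero hc0)) ?_).symm
    simp only
    rw [← e2, smul_smul]
    congr 1
    field_simp [t.ne_zero]
  have hZW : bar U.1 * B * U.1 = Z := by simpa using hkey 1
  have hsc := scalar_of_comm (W := bar U.1 * B * U.1) fun X => by rw [hkey, hZW]
  set w := (bar U.1 * B * U.1) 0 0 with hw
  have hUb : U.1 * bar U.1 = 1 := mul_bar_self_sl U
  have hBw : B = w • 1 := by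
    calc B = (U.1 * bar U.1) * B * (U.1 * bar U.1) := by rw [hUb, one_mul, mul_one]
      _ = U.1 * (bar U.1 * B * U.1) * bar U.1 := by simp only [mul_assoc]
      _ = w • 1 := by rw [hsc, Matrix.mul_smul, Matrix.smul_mul, mul_one, hUb]
  have hw0 : w ≠ 0 := fun h0 => by
    have : (1 : M2) = 0 := by rw [← hB, hBw, h0, zero_smul, zero_mul]
    exact one_ne_zero this
  have hs : (t : F)⁻¹ * ρ c / c ≠ 0 := by
    refine div_ne_zero (mul_ne_zero (inv_ne_zero t.ne_zero) ?_) hc0
    exact fun h0 => hc0 (ρ.injective (h0.trans (map_zero ρ).symm))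
  have hE : ∃ e : F, e ≠ 0 ∧ E = e • 1 := by
    have h1 : (bar E).map ρ = (((t : F)⁻¹ * ρ c / c)⁻¹ * w) • (1 : M2) := by
      rw [mul_smul, ← hsc, hZW, hZ, inv_smul_smul₀ hs]
    have he0 : ((t : F)⁻¹ * ρ c / c)⁻¹ * w ≠ 0 := mul_ne_zero (inv_ne_zero hs) hw0
    set e := ((t : F)⁻¹ * ρ c / c)⁻¹ * w
    refine ⟨ρ.symm e, fun h0 => he0 (ρ.symm.injective (h0.trans (map_zero _).symm)), ?_⟩
    have h2 : bar E = ρ.symm e • 1 := by
      refine Matrix.ext fun i j => ρ.injective ?_
      have := congrFun (congrFun h1 i) j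
      rw [Matrix.map_apply] at this
      rw [this]
      fin_cases i <;> fin_cases j <;> simp
    rw [← bar_bar E, h2, bar_smul, bar_one]
  obtain ⟨e, he0, hEe⟩ := hE
  exact ⟨w, e, hw0, he0, hBw, hEe⟩

include Φ in
/-- An element acting by scalars on the first summand is in the torus. -/
theorem torus_of_scalar {g g₂ g₃ : ↥SimP} {k b c3 : F} (ht : Tri k g.1 g₂.1 g₃.1) (hb0 : b ≠ 0)
    (hgc : t0 * g = g * t0) (hpg : Pres g) (hgb : ∀ X, ap g.1 (oct X 0) = oct (b • X) 0)
    (hP3 : ∀ Y, ap g₃.1 (oct Y 0) = oct (c3 • Y) 0) : ∃ D : K1 F, sA g = sA (tor (1, 1, 1, D)) := by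
  choose R hR using hpg.2
  have hRm : ∀ x y, R (x * bar y) = R x * bar y := fun x y => by
    obtain ⟨p, q, hpq⟩ := exists_oct (ap g₂.1 (oct 0 x))
    have hmul : ∀ y, R (x * bar y) = (k * c3) • (q * bar y) := fun y => by
      have := ht.2 (oct 0 x) (oct y 0)
      rw [mul_oct, hP3, hpq, mul_oct] at this
      simp only [mul_zero, zero_mul, sub_zero, zero_add, add_zero, bar_zero, hR, oct_smul] at this
      rw [(oct_inj this).2]
      simp only [bar_smul, Matrix.mul_smul, smul_smul]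
    have h1 := hmul 1
    rw [bar_one, mul_one, mul_one] at h1
    rw [h1, hmul y, Matrix.smul_mul]
  have hRD : ∀ x, R x = R 1 * x := fun x => by
    have := hRm 1 (bar x)
    rwa [bar_bar, one_mul] at this
  have hDu : R 1 * uM = uM * R 1 := by
    have := congrArg (fun z : ↥SimP => ap z.1 (oct 0 1)) hgc
    simp only [Subgroup.coe_mul, ap_mul, hR, ap_t0, mul_one] at this
    rw [hRD uM] at this
    exact (oct_inj this).2.symm
  set D := R 1 with hD
  obtain ⟨z, hz⟩ : ∃ z : K2 F, D = emb z := by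
    refine ⟨⟨D 0 0, D 1 0⟩, ?_⟩
    have e00 := congrFun (congrFun hDu 0) 0
    have e01 := congrFun (congrFun hDu 0) 1
    simp [uM_eq, Matrix.mul_apply, Fin.sum_univ_two] at e00 e01
    ext i j
    fin_cases i <;> fin_cases j <;> simp [emb_apply]
    · linear_combination e00
    · linear_combination e01 + e00
  have hnorm : QuadraticAlgebra.norm z = b * b := by
    obtain ⟨m, hm⟩ := g.2
    have hm' : ∀ x, nrm (ap g.1 x) = (m : F) * nrm x := fun x => by
      have := hm x
      rwa [POmegaTriality.qP_eq_nrm, POmegaTriality.qP_eq_nrm] at this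
    have h1 := hm' (oct 1 0)
    have h2 := hm' (oct 0 1)
    rw [hgb, nrm_oct, nrm_oct, Matrix.det_smul] at h1
    rw [hR, ← hD, hz, nrm_oct, nrm_oct] at h2
    simp [det_emb, Matrix.det_zero] at h1 h2
    rw [h2, ← h1, pow_two]
  let z' : K1 F := ⟨b⁻¹ • z, by
    have h : (b⁻¹ • z) * star (b⁻¹ • z) = 1 := by
      rw [star_smulK, smul_mul_smul_comm, ← QuadraticAlgebra.algebraMap_norm_eq_mul_star, hnorm,
        Algebra.algebraMap_eq_smul_one, smul_smul]
      rw [show b⁻¹ * b⁻¹ * (b * b) = 1 by field_simp, one_smul]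
    exact Unitary.mem_iff.2 ⟨by rw [mul_comm]; exact h, h⟩⟩
  refine ⟨z', (sA_eq_iff.2 ⟨Units.mk0 b hb0, ?_⟩).symm⟩
  refine sim_ext fun x => ?_
  obtain ⟨X, Y, rfl⟩ := exists_oct x
  rw [Subgroup.coe_mul, ap_mul, ap_scalar, tor_apply, ap_phi,
    show oct X Y = oct X 0 + oct 0 Y by rw [oct_add, add_zero, zero_add], ap_add, hgb, hR, oct_add, oct_smul,
    hRD, hz]
  simp [coe_iota, bar_one, z', emb_smul, smul_smul, hb0]


include Φ in
/-- The signalizer meets the centraliser of `t0` in a torus. -/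
theorem cent_t0 (hS : Sig (Xel a d ρ) N) (ha : a ^ 3 = 1) (hρ : ρ ^ 3 = 1) {n : Aut4} (hn : n ∈ N)
    (hc : Commute n (sA t0)) : ∃ D : K1 F, n = sA (tor (1, 1, 1, D)) := by
  obtain ⟨g, g₂, g₃, k, ρ', rfl, ht⟩ := hS.exists_tri' hn
  obtain ⟨l, hl⟩ := scalar_commute (tw_t0 Φ ρ') hc
  obtain ⟨hpg, hl1⟩ := pres_of_commute Φ.h3 hl
  subst hl1
  have hgc : t0 * g = g * t0 := hl.trans (sim_ext fun x => by
    rw [Subgroup.coe_mul, ap_mul, ap_scalar, Units.val_one, one_smul])
  have hc' : Commute (sA (cSim * g₂ * cSim) * stdPlus F 4 ρ') (sA t0) := by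
    have h1 := hc.map (MulAut.conj (psi F)).toMonoidHom
    simp only [MulEquiv.coe_toMonoidHom, MulAut.conj_apply] at h1
    rwa [psi_conj ht, psi_t0, mul_inv_cancel_right] at h1
  obtain ⟨l', hl'⟩ := scalar_commute (tw_t0 Φ ρ') hc'
  have hp2 := pres_companion (pres_of_commute Φ.h3 hl').1
  choose P hP using hpg.1
  choose P2 hP2 using hp2
  have hP2s : Function.Surjective P2 := Finite.injective_iff_surjective.1 fun X Y e =>
    (oct_inj (ap_injective g₂.1 (by rw [hP2, hP2, e]))).1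
  have hg3 : ∀ Y, ∃ c, ap g₃.1 (oct Y 0) = oct c 0 := fun Y => by
    obtain ⟨c, dd, he⟩ := exists_oct (ap g₃.1 (oct Y 0))
    refine ⟨c, ?_⟩
    obtain ⟨X, hX⟩ := hP2s 1
    have := ht.2 (oct X 0) (oct Y 0)
    rw [mul_oct, mul_zero, sub_zero, zero_mul, zero_mul, add_zero, hP, hP2, he, mul_oct, oct_smul, hX] at this
    obtain ⟨-, h2⟩ := oct_inj this
    rw [mul_one, zero_mul, add_zero] at h2
    rw [he, (smul_eq_zero_iff_right ht.1).1 h2.symm]
  choose P3 hP3 using hg3
  have hPh : ∀ X Y, P (X * Y) = k • (P2 X * P3 Y) := fun X Y => by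
    have := ht.2 (oct X 0) (oct Y 0)
    rw [mul_oct, hP2, hP3, mul_oct] at this
    simp only [mul_zero, zero_mul, sub_zero, add_zero, hP, oct_smul] at this
    exact (oct_inj this).1
  obtain ⟨A, A', B, B', E, hA, hB, hPX, hP2X⟩ := exists_sandwich ht.1
    (fun X Y => (oct_inj (b := 0) (b' := 0) (by
      rw [← hP, show oct (X + Y) (0 : M2) = oct X 0 + oct Y 0 by rw [oct_add, add_zero], ap_add, hP, hP,
        oct_add, add_zero])).1)
    (fun c X => (oct_inj (b := 0) (b' := 0) (by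
      rw [← hP, show oct (c • X) (0 : M2) = c • oct X 0 by rw [oct_smul, smul_zero], ap_smul, hP,
        oct_smul, smul_zero])).1)
    (fun X Y e => (oct_inj (ap_injective g.1 (by rw [hP, hP, e]))).1) hPh
  have hgQ : ∀ X, ap g.1 (oct X 0) = oct (A * X * B) 0 := fun X => by rw [hP, hPX]
  obtain ⟨rfl, c, hc0, rfl⟩ := left_trivial Φ hS ha hρ hn hgc hA hB hgQ
  rw [stdPlus_one, mul_one] at hn ⊢
  obtain ⟨w, e, hw0, he0, rfl, rfl⟩ := right_scalar Φ hS ht hn hc0 hB hgQ
    (fun X => by rw [hP2, hP2X])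
  have hgb : ∀ X, ap g.1 (oct X 0) = oct ((c * w) • X) 0 := fun X => by
    rw [hgQ, Matrix.mul_smul, Matrix.smul_mul, one_mul, mul_one, smul_smul, mul_comm w]
  have hk3 : ∀ Y, P3 Y = ((c * w) / (k * (c * e))) • Y := fun Y => by
    have := hPh 1 Y
    rw [one_mul, hP2X, mul_one, hPX] at this
    simp only [Matrix.smul_mul, Matrix.mul_smul, mul_one, one_mul, smul_smul] at this
    refine smul_right_injective M2 (mul_ne_zero ht.1 (mul_ne_zero hc0 he0)) ?_
    simp only
    rw [smul_smul, mul_div_cancel₀ _ (mul_ne_zero ht.1 (mul_ne_zero hc0 he0))]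
    convert this.symm using 2 <;> ring
  exact torus_of_scalar Φ ht (mul_ne_zero hc0 hw0) hgc hpg hgb fun Y => by rw [hP3, hk3]

end CfsgLib.LocalBalanceAut.Tri
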