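import Cfsg.Agent.Lib.LocalBalanceAut.TriAut
import Cfsg.Agent.Lib.LocalBalanceAut.TriAbelian
import Cfsg.Agent.Lib.ReflectionsSpinor.FixedField
import Cfsg.Agent.Lib.SL2.Card

/-!
# The three-part of the torus
-/

set_option autoImplicit false
set_option linter.unusedSectionVars false
set_option linter.style.haveILetI false
set_option maxHeartbeats 800000

open Matrix CfsgLib.OrthGen
open CfsgLib.ReflectionsSpinor CfsgLib.ReflectionsSpinor.POmegaAut CfsgLib.ReflectionsSpinor.POmegaQuot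
  CfsgLib.ReflectionsSpinor.POmegaForms CfsgLib.ReflectionsSpinor.POmegaField

namespace CfsgLib.LocalBalanceAut.Tri

universe u

variable {F : Type u} [Field F] [Finite F]

instance : Finite (K2 F) :=
  Finite.of_injective (fun z => (z.re, z.im)) fun z w h =>
    QuadraticAlgebra.ext (congrArg Prod.fst h) (congrArg Prod.snd h)

theorem iota_injective : Function.Injective (iota (F := F)) := fun _ _ h =>
  Subtype.ext (emb_injective (congrArg Subtype.val h))

theorem K1_cube {z : K1 F} (h3 : (3 : F) ≠ 0) (hz : z ^ 3 = 1) : z = 1 ∨ z = uK ∨ z = uK * uK := by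
  have hn := norm_K1 z
  rw [QuadraticAlgebra.norm_def] at hn
  have hz' : (z : K2 F) * z * z = 1 := by
    rw [← pow_two, ← pow_succ]
    exact congrArg Subtype.val hz
  have hre := congrArg QuadraticAlgebra.re hz'
  have him := congrArg QuadraticAlgebra.im hz'
  simp [QuadraticAlgebra.re_one, QuadraticAlgebra.im_one] at hre him
  set x := (z : K2 F).re
  set y := (z : K2 F).im
  have key : y * ((2 * x - y) ^ 2 - 1) = 0 := by linear_combination him + y * hn
  have mk : ∀ (w : K1 F), x = (w : K2 F).re → y = (w : K2 F).im → z = w := fun w h1 h2 =>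
    Subtype.ext (QuadraticAlgebra.ext h1 h2)
  have huu : ((uK * uK : K1 F) : K2 F) = ⟨-1, -1⟩ := by
    rw [Submonoid.coe_mul, coe_uK]
    ext <;> simp
  rcases mul_eq_zero.1 key with hy | ht
  · refine Or.inl (mk 1 ?_ (by simp [hy, QuadraticAlgebra.im_one]))
    rw [hy] at hre hn
    simp only [OneMemClass.coe_one, QuadraticAlgebra.re_one]
    linear_combination hre - x * hn
  · rcases sq_eq_one_iff.1 (sub_eq_zero.1 ht) with ht | ht
    · have hy : y = 2 * x - 1 := by linear_combination -ht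
      rw [hy] at hre hn
      have h2 : (3 : F) * (x * (x - 1)) = 0 := by linear_combination hn
      rcases mul_eq_zero.1 ((mul_eq_zero.1 h2).resolve_left h3) with h | h
      · rw [h] at hre
        have hc : (2 : F) = 0 := by linear_combination -hre
        refine Or.inr (Or.inl (mk uK ?_ ?_))
        · simp [coe_uK, h]
        · show y = (1 : F)
          rw [hy, h]; linear_combination -hc
      · have hx : x = 1 := sub_eq_zero.1 h
        rw [hx] at hre
        have hc : (2 : F) = 0 := by linear_combination -hre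
        refine Or.inr (Or.inr (mk _ ?_ ?_)) <;> rw [huu]
        · show x = (-1 : F)
          rw [hx]; linear_combination hc
        · show y = (-1 : F)
          rw [hy, hx]; linear_combination hc
    · have hy : y = 2 * x + 1 := by linear_combination -ht
      rw [hy] at hn
      have h2 : (3 : F) * (x * (x + 1)) = 0 := by linear_combination hn
      rcases mul_eq_zero.1 ((mul_eq_zero.1 h2).resolve_left h3) with h | h
      · refine Or.inr (Or.inl (mk uK ?_ ?_)) <;> simp [coe_uK, h, hy]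
      · have hx : x = -1 := eq_neg_of_add_eq_zero_left h
        refine Or.inr (Or.inr (mk _ ?_ ?_)) <;> simp [huu, hx, hy] <;> ring

theorem uK_ne_one : (uK : K1 F) ≠ 1 := fun h => by
  have := congrArg (fun z : K1 F => (z : K2 F).im) h
  simp [coe_uK, QuadraticAlgebra.im_one] at this

variable (F) in
/-- The norm-one elements of `3`-power order. -/
def S3 : Subgroup (K1 F) where
  carrier := {z | ∃ n : ℕ, z ^ (3 ^ n) = 1}
  one_mem' := ⟨0, by simp⟩
  mul_mem' := by
    rintro a b ⟨m, hm⟩ ⟨n, hn⟩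
    refine ⟨m + n, ?_⟩
    rw [mul_pow, pow_add, pow_mul, hm, one_pow, one_mul, mul_comm, pow_mul, hn, one_pow]
  inv_mem' := by
    rintro a ⟨m, hm⟩
    exact ⟨m, by rw [inv_pow, hm, inv_one]⟩

theorem isPGroup_S3 : IsPGroup 3 ↥(S3 F) := fun z => z.2.imp fun _ hn => Subtype.ext (by simpa using hn)

theorem uK_mem : (uK : K1 F) ∈ S3 F := ⟨1, by rw [pow_one]; exact uK_pow_three⟩

/-- The root of unity in the three-part. -/
def uS : ↥(S3 F) := ⟨uK, uK_mem⟩

/-- The order of the three-part. -/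
theorem card_S3 (h3 : (3 : F) ≠ 0) :
    Nat.card ↥(S3 F) = 3 ^ (Nat.card (Matrix.SpecialLinearGroup (Fin 2) F)).factorization 3 := by
  classical
  haveI : Fact (Nat.Prime 3) := ⟨Nat.prime_three⟩
  set I := (S3 F).map (iota (F := F)) with hI
  have hIp : IsPGroup 3 ↥I := isPGroup_S3.map _
  obtain ⟨P, hP⟩ := hIp.exists_le_sylow
  have hu : iota (uK : K1 F) ∈ (P : Subgroup _) := hP ⟨uK, uK_mem, rfl⟩
  have hcomm : ∀ X ∈ (P : Subgroup _), Commute X (iota (uK : K1 F)) → X ∈ I := by
    intro X hX hc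
    have hcm : X.1 * emb (⟨0, 1⟩ : K2 F) = emb (⟨0, 1⟩ : K2 F) * X.1 := congrArg Subtype.val hc.eq
    have e00 := congrFun (congrFun hcm 0) 0
    have e01 := congrFun (congrFun hcm 0) 1
    simp [emb_apply, Matrix.mul_apply, Fin.sum_univ_two] at e00 e01
    have hz : X.1 = emb (⟨X.1 0 0, X.1 1 0⟩ : K2 F) := by
      ext i j
      fin_cases i <;> fin_cases j <;> simp [emb_apply]
      · linear_combination e00
      · linear_combination e01 + e00
    set z : K2 F := ⟨X.1 0 0, X.1 1 0⟩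
    have hn : QuadraticAlgebra.norm z = 1 := by rw [← det_emb, ← hz, X.det_coe]
    have hstar : z * star z = 1 := by rw [← QuadraticAlgebra.algebraMap_norm_eq_mul_star, hn, map_one]
    let z' : K1 F := ⟨z, Unitary.mem_iff.2 ⟨by rw [mul_comm]; exact hstar, hstar⟩⟩
    have hX' : iota z' = X := Subtype.ext hz.symm
    obtain ⟨n, hn⟩ := P.isPGroup' ⟨X, hX⟩
    refine ⟨z', ⟨n, iota_injective ?_⟩, hX'⟩
    rw [map_pow, map_one, hX']
    exact congrArg Subtype.val hn
  have hPI : (P : Subgroup _) = I := by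
    refine le_antisymm (fun X hX => hcomm X hX ?_) hP
    haveI : Nontrivial ↥(P : Subgroup (Matrix.SpecialLinearGroup (Fin 2) F)) :=
      ⟨⟨⟨_, hu⟩, 1, fun h => uK_ne_one (iota_injective ((congrArg Subtype.val h).trans (map_one _).symm))⟩⟩
    haveI := P.isPGroup'.center_nontrivial
    have hdiv : 3 ∣ Nat.card ↥(Subgroup.center ↥(P : Subgroup (Matrix.SpecialLinearGroup (Fin 2) F))) := by
      obtain ⟨n, hn, h⟩ := (P.isPGroup'.to_subgroup (Subgroup.center _)).nontrivial_iff_card.1 inferInstance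
      rw [h]
      exact dvd_pow_self 3 hn.ne'
    obtain ⟨⟨z, hz⟩, hz3⟩ := exists_prime_orderOf_dvd_card' 3 hdiv
    have hzu : Commute z.1 (iota (uK : K1 F)) :=
      (congrArg Subtype.val (Subgroup.mem_center_iff.1 hz ⟨_, hu⟩)).symm
    obtain ⟨w, hw, hwz⟩ := hcomm z.1 z.2 hzu
    have hw3 : orderOf w = 3 := by
      rw [← orderOf_injective _ iota_injective w, hwz, Subgroup.orderOf_coe]
      have h5 : orderOf z = orderOf (⟨z, hz⟩ : ↥(Subgroup.center ↥(P : Subgroup (Matrix.SpecialLinearGroup (Fin 2) F)))) :=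
        orderOf_injective (Subgroup.center ↥(P : Subgroup (Matrix.SpecialLinearGroup (Fin 2) F))).subtype
          Subtype.coe_injective ⟨z, hz⟩
      exact h5.trans hz3
    have hXz : Commute X z.1 := congrArg Subtype.val (Subgroup.mem_center_iff.1 hz ⟨X, hX⟩)
    have hw1 : w ^ 3 = 1 := by rw [← hw3]; exact pow_orderOf_eq_one w
    rcases K1_cube h3 hw1 with rfl | rfl | rfl
    · simp at hw3
    · rwa [← hwz] at hXz
    · rw [← hwz, map_mul] at hXz
      have e : (iota (uK : K1 F)) = (iota uK * iota uK) ^ 2 := by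
        rw [← map_mul, ← map_pow]
        congr 1
        rw [← pow_two, ← pow_mul, show 2 * 2 = 3 + 1 from rfl, pow_succ, uK_pow_three, one_mul]
      rw [e]
      exact hXz.pow_right 2
  rw [← P.card_eq_multiplicity, hPI, hI, Subgroup.card_map_of_injective iota_injective]

theorem pow_card_S3 (z : ↥(S3 F)) : z ^ Nat.card ↥(S3 F) = 1 := pow_card_eq_one'

theorem S3_cube {z : ↥(S3 F)} (h3 : (3 : F) ≠ 0) (hz : z ^ 3 = 1) :
    z = 1 ∨ z = uS ∨ z = uS * uS := by
  have h : (z : K1 F) ^ 3 = 1 := congrArg Subtype.val hz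
  rcases K1_cube h3 h with h | h | h
  · exact Or.inl (Subtype.ext h)
  · exact Or.inr (Or.inl (Subtype.ext h))
  · exact Or.inr (Or.inr (Subtype.ext h))

theorem exists_generator (h3 : (3 : F) ≠ 0) : ∃ g : ↥(S3 F), ∀ z, z ∈ Subgroup.zpowers g := by
  classical
  haveI : Fact (Nat.Prime 3) := ⟨Nat.prime_three⟩
  obtain ⟨g, hg⟩ := Finite.exists_max (fun z : ↥(S3 F) => orderOf z)
  refine ⟨g, ?_⟩
  obtain ⟨a, ha⟩ := IsPGroup.iff_orderOf.1 (isPGroup_S3 (F := F)) g
  have ha0 : a ≠ 0 := by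
    intro h
    have h1 := hg (uS : ↥(S3 F))
    simp only [ha, h, pow_zero] at h1
    have h2 : orderOf (uS : ↥(S3 F)) = 1 := le_antisymm h1 (orderOf_pos _)
    exact uK_ne_one (congrArg Subtype.val (orderOf_eq_one_iff.1 h2))
  have hu : (uS : ↥(S3 F)) ∈ Subgroup.zpowers g := by
    set y := g ^ (3 ^ (a - 1)) with hy
    have hy3 : y ^ 3 = 1 := by
      rw [hy, ← pow_mul, ← pow_succ, Nat.sub_add_cancel (Nat.one_le_iff_ne_zero.2 ha0), ← ha, pow_orderOf_eq_one]
    have hy1 : y ≠ 1 := by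
      intro h
      have h1 := orderOf_dvd_of_pow_eq_one (hy.symm.trans h)
      rw [ha, Nat.pow_dvd_pow_iff_le_right (by norm_num)] at h1
      omega
    have hym : y ∈ Subgroup.zpowers g := Subgroup.pow_mem _ (Subgroup.mem_zpowers g) _
    rcases S3_cube h3 hy3 with h | h | h
    · exact absurd h hy1
    · exact h ▸ hym
    · have e : (uS : ↥(S3 F)) = (uS * uS) ^ 2 := by
        refine Subtype.ext ?_
        show (uK : K1 F) = (uK * uK) ^ 2
        rw [← pow_two, ← pow_mul, show 2 * 2 = 3 + 1 from rfl, pow_succ, uK_pow_three, one_mul]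
      rw [e, ← h]
      exact Subgroup.pow_mem _ hym 2
  intro z
  obtain ⟨n, hn⟩ := isPGroup_S3 z
  induction n generalizing z with
  | zero => simp only [pow_zero, pow_one] at hn; exact hn ▸ Subgroup.one_mem _
  | succ n ih =>
    have h1 := ih (z ^ 3) (by rw [← pow_mul, ← pow_succ']; exact hn)
    obtain ⟨k, hk⟩ := mem_powers_iff_mem_zpowers.2 h1
    by_cases hk3 : 3 ∣ k
    · obtain ⟨j, rfl⟩ := hk3
      have h2 : (z * (g ^ j)⁻¹) ^ 3 = 1 := by
        rw [mul_pow, inv_pow, ← pow_mul, mul_comm j 3, show g ^ (3 * j) = z ^ 3 from hk, mul_inv_cancel]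
      have h3' : z * (g ^ j)⁻¹ ∈ Subgroup.zpowers g := by
        rcases S3_cube h3 h2 with h | h | h <;> rw [h]
        · exact Subgroup.one_mem _
        · exact hu
        · exact Subgroup.mul_mem _ hu hu
      have := Subgroup.mul_mem _ h3' (Subgroup.pow_mem _ (Subgroup.mem_zpowers g) j)
      rwa [inv_mul_cancel_right] at this
    · exfalso
      have hk' : g ^ k = z ^ 3 := hk
      have h2 : orderOf (z ^ 3) = orderOf g := by
        rw [← hk', Nat.Coprime.orderOf_pow]
        rw [ha]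
        exact Nat.Coprime.pow_left _ ((Nat.Prime.coprime_iff_not_dvd Nat.prime_three).2 hk3)
      obtain ⟨b, hb⟩ := IsPGroup.iff_orderOf.1 (isPGroup_S3 (F := F)) z
      have hz := hg z
      simp only [hb, ha] at hz
      have hle : b ≤ a := (Nat.pow_le_pow_iff_right (by norm_num)).1 hz
      rw [orderOf_pow, hb, ha] at h2
      rcases Nat.eq_zero_or_pos b with rfl | hb0
      · simp only [pow_zero] at hb h2
        have : 1 < 3 ^ a := Nat.one_lt_pow ha0 (by norm_num)
        simp at h2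
        omega
      · rw [Nat.gcd_eq_right (dvd_pow_self 3 hb0.ne'), Nat.pow_div hb0 (by norm_num : 0 < 3),
          Nat.pow_right_inj (le_refl 2 |>.trans (by norm_num))] at h2
        omega

/-- A proper subgroup of the three-part consists of cubes. -/
theorem exists_cube_root (h3 : (3 : F) ≠ 0) (H : Subgroup ↥(S3 F)) (hH : H ≠ ⊤) {z : ↥(S3 F)} (hz : z ∈ H) :
    ∃ y, z = y ^ 3 := by
  classical
  haveI : Fact (Nat.Prime 3) := ⟨Nat.prime_three⟩
  obtain ⟨g, hg⟩ := exists_generator h3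
  obtain ⟨k, hk⟩ := mem_powers_iff_mem_zpowers.2 (hg z)
  by_cases hk3 : 3 ∣ k
  · obtain ⟨j, rfl⟩ := hk3
    exact ⟨g ^ j, by rw [← pow_mul, mul_comm]; exact hk.symm⟩
  · exfalso
    refine hH (eq_top_iff.2 fun w _ => ?_)
    obtain ⟨a, ha⟩ := IsPGroup.iff_orderOf.1 (isPGroup_S3 (F := F)) g
    have hcop : (orderOf g).Coprime k := by
      rw [ha]
      exact Nat.Coprime.pow_left _ ((Nat.Prime.coprime_iff_not_dvd Nat.prime_three).2 hk3)
    obtain ⟨m, hm⟩ := exists_pow_eq_self_of_coprime (x := g) hcop.symm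
    have hgH : g ∈ H := by
      rw [← hm, show g ^ k = z from hk]
      exact H.pow_mem hz m
    obtain ⟨l, rfl⟩ := hg w
    exact H.zpow_mem hgH l

/-! ### Field automorphisms -/

/-- A field automorphism on the three-part. -/
def rS (ρ : F ≃+* F) : ↥(S3 F) →* ↥(S3 F) :=
  ((rK1 ρ).comp (S3 F).subtype).codRestrict _ fun z => by
    obtain ⟨n, hn⟩ := z.2
    exact ⟨n, by rw [MonoidHom.comp_apply, ← map_pow]; exact (congrArg _ hn).trans (map_one _)⟩

theorem coe_rS (ρ : F ≃+* F) (z : ↥(S3 F)) : ((rS ρ z : ↥(S3 F)) : K1 F) = rK1 ρ z := rfl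

theorem rS_rS (ρ τ : F ≃+* F) (z : ↥(S3 F)) : rS ρ (rS τ z) = rS (ρ * τ) z :=
  Subtype.ext (Subtype.ext (QuadraticAlgebra.ext rfl rfl))

theorem rS_one (z : ↥(S3 F)) : rS (1 : F ≃+* F) z = z :=
  Subtype.ext (Subtype.ext (QuadraticAlgebra.ext rfl rfl))

theorem rS_uS (ρ : F ≃+* F) : rS ρ (uS : ↥(S3 F)) = uS := Subtype.ext (rK1_uK ρ)

/-- A field automorphism of order three moves the three-part. -/
theorem exists_rS_ne (h3 : (3 : F) ≠ 0) {ρ : F ≃+* F} (hρ : orderOf ρ = 3) : ∃ z, rS ρ z ≠ z := by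
  classical
  haveI : Fact (Nat.Prime 3) := ⟨Nat.prime_three⟩
  by_contra! hall
  haveI : Finite (fixedField ρ) := Subtype.finite
  let ψ : Matrix.SpecialLinearGroup (Fin 2) (fixedField ρ) →* Matrix.SpecialLinearGroup (Fin 2) F :=
    Matrix.SpecialLinearGroup.map (fixedField ρ).subtype
  have hinj : Function.Injective ψ := fun A B h => Subtype.ext (Matrix.ext fun i j =>
    Subtype.ext (congrFun (congrFun (congrArg Subtype.val h) i) j))
  have hle : (S3 F).map (iota (F := F)) ≤ ψ.range := by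
    rintro _ ⟨z, hz, rfl⟩
    have h1 : rK1 ρ z = z := congrArg Subtype.val (hall ⟨z, hz⟩)
    have hfix : ∀ i j, ρ ((emb (z : K2 F)) i j) = (emb (z : K2 F)) i j := by
      have hr : ρ (z : K2 F).re = (z : K2 F).re :=
        congrArg (fun w : K1 F => (w : K2 F).re) h1
      have hi : ρ (z : K2 F).im = (z : K2 F).im :=
        congrArg (fun w : K1 F => (w : K2 F).im) h1
      intro i j
      fin_cases i <;> fin_cases j <;> simp [emb_apply, hr, hi]
    let M : Matrix (Fin 2) (Fin 2) (fixedField ρ) := fun i j => ⟨emb (z : K2 F) i j, hfix i j⟩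
    have hM : M.det = 1 := by
      refine Subtype.ext ?_
      show ((fixedField ρ).subtype M.det) = 1
      rw [RingHom.map_det]
      exact (iota z).2
    exact ⟨⟨M, hM⟩, rfl⟩
  have hd := Subgroup.card_dvd_of_le hle
  rw [Subgroup.card_map_of_injective iota_injective, Nat.card_congr (MonoidHom.ofInjective hinj).toEquiv.symm,
    card_S3 h3, SL2.card_SL, SL2.card_SL, card_eq_fixedField_pow ρ hρ] at hd
  set q := Nat.card (fixedField ρ) with hq
  have hq2 : 2 ≤ q := Finite.one_lt_card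
  have hq3 : ¬ 3 ∣ q := fun h => by
    have h1 : ((Nat.card F : ℕ) : F) = 0 := by
      rw [@Nat.card_eq_fintype_card F (Fintype.ofFinite F)]
      exact @Nat.cast_card_eq_zero F _ (Fintype.ofFinite F)
    rw [card_eq_fixedField_pow ρ hρ, ← hq] at h1
    have hfq : ((q : ℕ) : F) = 0 := by
      rw [Nat.cast_pow] at h1
      exact eq_zero_of_pow_eq_zero h1
    haveI := Fintype.ofFinite F
    obtain ⟨n, hpr, hcard⟩ := FiniteField.card F (ringChar F)
    haveI : Fact (ringChar F).Prime := ⟨hpr⟩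
    have h2 : Nat.card F = ringChar F ^ (n : ℕ) := by rw [Nat.card_eq_fintype_card, hcard]
    rw [card_eq_fixedField_pow ρ hρ, ← hq] at h2
    have h4 : 3 ∣ ringChar F := Nat.prime_three.dvd_of_dvd_pow (h2 ▸ dvd_pow h (by norm_num : 3 ≠ 0))
    exact h3 (by
      have := (ringChar.spec F 3).2 (by rw [(Nat.prime_dvd_prime_iff_eq Nat.prime_three hpr).1 h4])
      exact_mod_cast this)
  set d := q ^ 2 - 1 with hdd
  have hd0 : d ≠ 0 := by
    have : 4 ≤ q ^ 2 := by nlinarith
    omega
  have hfac : (q ^ 3) ^ 2 - 1 = d * (q ^ 4 + q ^ 2 + 1) := by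
    have h1 : q ^ 2 = d + 1 := by omega
    rw [← pow_mul, show 3 * 2 = 2 * 3 from rfl, pow_mul, show q ^ 4 = (q ^ 2) ^ 2 by rw [← pow_mul], h1]
    have : (d + 1) ^ 3 = d * ((d + 1) ^ 2 + (d + 1) + 1) + 1 := by ring
    omega
  have hthree : 3 ∣ q ^ 4 + q ^ 2 + 1 := by
    have hmod : q % 3 = 1 ∨ q % 3 = 2 := by omega
    rcases hmod with h | h <;>
      simp [Nat.dvd_iff_mod_eq_zero, Nat.add_mod, Nat.pow_mod, h]
  rw [hfac] at hd
  set A := (q ^ 3 * (d * (q ^ 4 + q ^ 2 + 1))).factorization 3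
  have h0 : q ^ 3 * (d * (q ^ 4 + q ^ 2 + 1)) ≠ 0 :=
    mul_ne_zero (pow_ne_zero _ (by omega)) (mul_ne_zero hd0 (by omega))
  have h1 : 3 ^ A * 3 ∣ q ^ 3 * (d * (q ^ 4 + q ^ 2 + 1)) :=
    (mul_dvd_mul hd hthree).trans ⟨q ^ 2, by ring⟩
  rw [← pow_succ] at h1
  exact Nat.pow_succ_factorization_not_dvd h0 Nat.prime_three h1

end CfsgLib.LocalBalanceAut.Tri
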